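import Mathlib
import Cfsg.Prelude.Def_Transfer
import Cfsg.Prelude.Def_Local
import Cfsg.Prelude.Def_CaseTheorems
import Cfsg.Agent.Lib.helper16.PSolv
import Cfsg.Agent.Lib.helper9.PPrimeCore
import Cfsg.Agent.Lib.helper9.Generation
import Cfsg.Agent.Lib.helper15.PCore
import Cfsg.Agent.S0012
import Cfsg.Agent.Lib.helper3.FFOffender

set_option autoImplicit false
set_option linter.style.haveILetI false

/-!
# p-solvable groups: a p-subgroup `A` not in `O_p(M)` and a conjugate generating a small subgroup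

* `centralizer_pPrimeCore_le_of_pSolvable`: dual Hall–Higman 1.2.3: in a `p`-solvable group
  with `O_p = 1`, `O_{p'}` contains its centralizer.
* `psolv_two_conj`: the statement of S3754.
-/

namespace Cfsg.Agent.Lib.helper3

open Cfsg
open scoped commutatorElement

universe u

theorem eq_one_of_pow_coprime_h3 {G : Type u} [Group G] {g : G} {m n : ℕ} (h1 : g ^ m = 1)
    (h2 : g ^ n = 1) (h : m.Coprime n) : g = 1 := by
  have d1 := orderOf_dvd_of_pow_eq_one h1
  have d2 := orderOf_dvd_of_pow_eq_one h2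
  have d3 := Nat.dvd_gcd d1 d2
  rw [Nat.Coprime.gcd_eq_one h] at d3
  exact orderOf_eq_one_iff.mp (Nat.dvd_one.mp d3)

/-- A `p'`-element whose image lies in the image of a `p`-subgroup has trivial image. -/
theorem map_eq_one_of_pgroup_of_coprime {G : Type u} {H : Type*} [Group G] [Group H] {p : ℕ}
    (f : G →* H) (P : Subgroup G) (hP : IsPGroup p P) (g : G) (hg : f g ∈ P.map f)
    (hcop : (orderOf g).Coprime p) : f g = 1 := by
  obtain ⟨a, ha, hfa⟩ := hg
  obtain ⟨j, hj⟩ := hP ⟨a, ha⟩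
  have haj : a ^ (p ^ j) = 1 := by simpa using congrArg Subtype.val hj
  have h1 : f g ^ orderOf g = 1 := by rw [← map_pow, pow_orderOf_eq_one, map_one]
  have h2 : f g ^ (p ^ j) = 1 := by rw [← hfa, ← map_pow, haj, map_one]
  exact eq_one_of_pow_coprime_h3 h1 h2 (Nat.Coprime.pow_right j hcop)

theorem pResidual_conj_mem {G : Type u} [Group G] (p : ℕ) {n : G} (hn : n ∈ pResidual p G)
    (g : G) : g * n * g⁻¹ ∈ pResidual p G := by
  have h1 : (MulAut.conj g).toMonoidHom n ∈ (pResidual p G).map (MulAut.conj g).toMonoidHom :=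
    Subgroup.mem_map_of_mem _ hn
  have h2 : (pResidual p G).map (MulAut.conj g).toMonoidHom ≤ pResidual p G := by
    unfold pResidual
    rw [MonoidHom.map_closure]
    apply Subgroup.closure_mono
    rintro _ ⟨y, hy, rfl⟩
    have e : orderOf ((MulAut.conj g).toMonoidHom y) = orderOf y :=
      orderOf_injective (MulAut.conj g).toMonoidHom (MulAut.conj g).injective y
    show Nat.Coprime (orderOf ((MulAut.conj g).toMonoidHom y)) p
    rw [e]; exact hy
  exact h2 h1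

theorem pCore_quot_pCore_eq_bot {M : Type u} [Group M] [Finite M] (p : ℕ) [Fact p.Prime] :
    pCore p (M ⧸ pCore p M) = ⊥ := by
  have hRp : IsPGroup p ↥(pCore p M) := Cfsg.Agent.Lib.helper15.pCore_isPGroup p M
  have hQp : IsPGroup p ↥(pCore p (M ⧸ pCore p M)) :=
    Cfsg.Agent.Lib.helper15.pCore_isPGroup p _
  have hQn : (pCore p (M ⧸ pCore p M)).Normal := Cfsg.Agent.Lib.helper15.pCore_normal p _
  obtain ⟨T, hT⟩ : ∃ T : Subgroup M,
      T = (pCore p (M ⧸ pCore p M)).comap (QuotientGroup.mk' (pCore p M)) := ⟨_, rfl⟩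
  have hTn : T.Normal := by rw [hT]; exact Subgroup.Normal.comap hQn _
  have hTp : IsPGroup p ↥T := by
    rintro ⟨t, ht⟩
    have ht' : QuotientGroup.mk' (pCore p M) t ∈ pCore p (M ⧸ pCore p M) := by
      rw [hT] at ht; exact ht
    obtain ⟨j, hj⟩ := hQp ⟨_, ht'⟩
    have hj' : (QuotientGroup.mk' (pCore p M) t) ^ (p ^ j) = 1 := by
      simpa using congrArg Subtype.val hj
    have h1 : t ^ (p ^ j) ∈ pCore p M := by
      rw [← map_pow] at hj'
      exact (QuotientGroup.eq_one_iff _).mp hj'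
    obtain ⟨k, hk⟩ := hRp ⟨_, h1⟩
    have hk' : (t ^ (p ^ j)) ^ (p ^ k) = 1 := by simpa using congrArg Subtype.val hk
    refine ⟨j + k, Subtype.ext ?_⟩
    show t ^ (p ^ (j + k)) = 1
    rw [pow_add, pow_mul]; exact hk'
  have hTR : T ≤ pCore p M := Cfsg.Agent.Lib.helper15.le_pCore hTn hTp
  rw [eq_bot_iff]
  intro q hq
  obtain ⟨g, rfl⟩ := QuotientGroup.mk'_surjective (pCore p M) q
  have hgT : g ∈ T := by rw [hT]; exact hq
  exact Subgroup.mem_bot.mpr ((QuotientGroup.eq_one_iff g).mpr (hTR hgT))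

/-- Dual of Hall–Higman Lemma 1.2.3: in a finite `p`-solvable group with `O_p = 1`, the subgroup
`O_{p'}` contains its centralizer. -/
theorem centralizer_pPrimeCore_le_of_pSolvable {Q : Type u} [Group Q] [Finite Q] {p : ℕ}
    [hp : Fact p.Prime] (h : IsPSolvable p Q) (hW : pCore p Q = ⊥) :
    Subgroup.centralizer ((pPrimeCore p Q : Subgroup Q) : Set Q) ≤ pPrimeCore p Q := by
  classical
  obtain ⟨n, H, h0, hlast, hmono, hnorm, hstep⟩ := h
  have hKn : (pPrimeCore p Q).Normal := Cfsg.Agent.Lib.helper9.ppc_normal p Q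
  have hKc : (Nat.card (pPrimeCore p Q)).Coprime p :=
    Cfsg.Agent.Lib.helper9.pPrimeCore_coprime p Q
  obtain ⟨C, hC⟩ : ∃ C : Subgroup Q,
      C = Subgroup.centralizer ((pPrimeCore p Q : Subgroup Q) : Set Q) := ⟨_, rfl⟩
  have hCn : C.Normal := by rw [hC]; infer_instance
  have hcomm : ∀ y ∈ pPrimeCore p Q, ∀ c ∈ C, y * c = c * y := by
    intro y hy c hc
    rw [hC] at hc
    exact Subgroup.mem_centralizer_iff.mp hc y hy
  have hKpow : ∀ y ∈ pPrimeCore p Q, y ^ Nat.card (pPrimeCore p Q) = 1 := by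
    intro y hy
    have h1 : (⟨y, hy⟩ : ↥(pPrimeCore p Q)) ^ Nat.card (pPrimeCore p Q) = 1 := pow_card_eq_one'
    exact congrArg Subtype.val h1
  have hppc : ∀ Γ : Subgroup Q, Γ.Normal → (∀ g ∈ Γ, g ^ Nat.card (pPrimeCore p Q) = 1) →
      Γ ≤ pPrimeCore p Q := by
    intro Γ hΓ hg
    apply Cfsg.Agent.Lib.helper9.le_pPrimeCore hΓ
    rw [Nat.coprime_comm, Nat.Prime.coprime_iff_not_dvd hp.out]
    intro hdvd
    obtain ⟨⟨g, hgΓ⟩, hgo⟩ := exists_prime_orderOf_dvd_card' p hdvd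
    rw [Subgroup.orderOf_mk] at hgo
    have h1 : orderOf g ∣ Nat.card (pPrimeCore p Q) := orderOf_dvd_of_pow_eq_one (hg g hgΓ)
    rw [hgo] at h1
    exact (Nat.Prime.coprime_iff_not_dvd hp.out).mp hKc.symm h1
  have main : ∀ i : ℕ, ∀ hi : i < n + 1, H ⟨i, hi⟩ ⊓ C ≤ pPrimeCore p Q := by
    intro i
    induction i with
    | zero =>
      intro hi
      have e0 : (⟨0, hi⟩ : Fin (n + 1)) = 0 := by ext; simp
      rw [e0, h0]; simp
    | succ i ih =>
      intro hi
      have hi' : i < n := by omega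
      have IH := ih (by omega)
      obtain ⟨A, hA⟩ : ∃ A : Subgroup Q, A = H ⟨i, by omega⟩ := ⟨_, rfl⟩
      obtain ⟨B, hB⟩ : ∃ B : Subgroup Q, B = H ⟨i + 1, hi⟩ := ⟨_, rfl⟩
      have hAn : A.Normal := hA ▸ hnorm _
      have hBn : B.Normal := hB ▸ hnorm _
      have hAB : A ≤ B := by
        rw [hA, hB]; exact hmono (by simp [Fin.le_def])
      have hstep' := hstep ⟨i, hi'⟩
      have e1 : (⟨i, hi'⟩ : Fin n).castSucc = ⟨i, by omega⟩ := rfl
      have e2 : (⟨i, hi'⟩ : Fin n).succ = ⟨i + 1, hi⟩ := rfl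
      rw [e1, e2, ← hA, ← hB] at hstep'
      rw [← hA] at IH
      rw [← hB]
      have hΓn : (B ⊓ C).Normal := Subgroup.normal_inf_normal B C
      obtain ⟨Γ, hΓ⟩ : ∃ Γ : Subgroup Q, Γ = B ⊓ C := ⟨_, rfl⟩
      obtain ⟨Y, hY⟩ : ∃ Y : Subgroup Q, Y = A ⊓ C := ⟨_, rfl⟩
      have hΓn' : Γ.Normal := hΓ ▸ hΓn
      have hYΓ : Y ≤ Γ := by rw [hY, hΓ]; exact inf_le_inf_right C hAB
      have hYR : Y ≤ pPrimeCore p Q := hY ▸ IH
      have hrel : Y.relIndex Γ ∣ A.relIndex B := by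
        have h1 : Y.relIndex Γ = A.relIndex Γ := by
          rw [← Subgroup.inf_relIndex_right A Γ]
          congr 1
          rw [hY, hΓ, ← inf_assoc, inf_eq_left.mpr hAB]
        rw [h1]
        have h3 := Subgroup.relIndex_sup_right Γ A
        have h4 : Γ ⊔ A ≤ B := sup_le (hΓ ▸ inf_le_left) hAB
        have h5 := Subgroup.relIndex_mul_relIndex A (Γ ⊔ A) B le_sup_right h4
        rw [h3] at h5
        exact Dvd.intro _ h5
      have hYc : Y.subgroupOf Γ ≤ Subgroup.center ↥Γ := by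
        intro y hy
        rw [Subgroup.mem_center_iff]
        intro g
        apply Subtype.ext
        have hgC : (g : Q) ∈ C := by
          have h1 : (g : Q) ∈ B ⊓ C := hΓ.le g.2
          exact (Subgroup.mem_inf.mp h1).2
        exact (hcomm (y : Q) (hYR (Subgroup.mem_subgroupOf.mp hy)) (g : Q) hgC).symm
      have hYn' : (Y.subgroupOf Γ).Normal := by
        constructor
        intro y hy g'
        have h2 := Subgroup.mem_center_iff.mp (hYc hy) g'
        rw [h2, mul_inv_cancel_right]; exact hy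
      have hpowY : ∀ g ∈ Γ, g ^ (Y.relIndex Γ) ∈ Y := by
        intro g hg
        have h2 := Subgroup.pow_index_mem (Y.subgroupOf Γ) (⟨g, hg⟩ : Γ)
        exact Subgroup.mem_subgroupOf.mp h2
      rw [← hΓ]
      rcases hstep' with ⟨m, hm⟩ | hcop
      · apply hppc Γ hΓn'
        rw [hm] at hrel
        obtain ⟨j, -, hj⟩ := (Nat.dvd_prime_pow hp.out).mp hrel
        have hmul : ∀ a ∈ Γ, ∀ b ∈ Γ, (a * b) ^ (Y.relIndex Γ) =
            a ^ (Y.relIndex Γ) * b ^ (Y.relIndex Γ) := by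
          intro a ha b hb
          have h1 := Cfsg.Agent.Lib.helper16.pow_index_mul_of_le_center (Y.subgroupOf Γ) hYc
            ⟨a, ha⟩ ⟨b, hb⟩
          exact congrArg Subtype.val h1
        let K₀ : Subgroup Q :=
          { carrier := {g | g ∈ Γ ∧ g ^ (Y.relIndex Γ) = 1}
            mul_mem' := fun {a b} ha hb => ⟨mul_mem ha.1 hb.1, by
              rw [hmul a ha.1 b hb.1, ha.2, hb.2, mul_one]⟩
            one_mem' := ⟨one_mem _, one_pow _⟩
            inv_mem' := fun {a} ha => ⟨inv_mem ha.1, by rw [inv_pow, ha.2, inv_one]⟩ }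
        have hK₀n : K₀.Normal := by
          constructor
          intro g hg q
          exact ⟨hΓn'.conj_mem g hg.1 q, by rw [conj_pow, hg.2]; simp⟩
        have hK₀p : IsPGroup p ↥K₀ := by
          rintro ⟨g, hg⟩
          refine ⟨j, Subtype.ext ?_⟩
          have h2 : g ^ (Y.relIndex Γ) = 1 := hg.2
          rw [hj] at h2
          exact h2
        have hK₀ : K₀ = ⊥ := by
          rw [eq_bot_iff, ← hW]; exact Cfsg.Agent.Lib.helper15.le_pCore hK₀n hK₀p
        intro g hg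
        have h1 : g ^ Nat.card (pPrimeCore p Q) ∈ K₀ := by
          refine ⟨pow_mem hg _, ?_⟩
          rw [← pow_mul, mul_comm, pow_mul]
          exact hKpow _ (hYR (hpowY g hg))
        rw [hK₀] at h1
        exact Subgroup.mem_bot.mp h1
      · have he : (Y.relIndex Γ).Coprime p := Nat.Coprime.coprime_dvd_left hrel hcop
        have hΓc : (Nat.card Γ).Coprime p := by
          have h1 := Subgroup.relIndex_mul_relIndex ⊥ Y Γ bot_le hYΓ
          rw [Subgroup.relIndex_bot_left, Subgroup.relIndex_bot_left] at h1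
          rw [← h1]
          exact Nat.Coprime.mul_left
            (Nat.Coprime.coprime_dvd_left (Subgroup.card_dvd_of_le hYR) hKc) he
        exact Cfsg.Agent.Lib.helper9.le_pPrimeCore hΓn' hΓc
  rw [← hC]
  have h1 := main n (by omega)
  have hl : H ⟨n, by omega⟩ = ⊤ := hlast
  rw [hl, top_inf_eq] at h1
  exact h1

open scoped IsMulCommutative in
/-- In an abelian subgroup `A = B ⊔ ⟨a⟩` with `a ∉ B`, `a ^ p ∈ B`, the index of `B` is `p`. -/
theorem relIndex_eq_prime_of_sup_zpowers {G : Type u} [Group G] {p : ℕ} [hp : Fact p.Prime]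
    (A B : Subgroup G) [IsMulCommutative A] (hBA : B ≤ A) (a : G) (haA : a ∈ A) (haB : a ∉ B)
    (hap : a ^ p ∈ B) (hgen : B ⊔ Subgroup.zpowers a = A) : B.relIndex A = p := by
  have hq : ∀ q : ↥A ⧸ B.subgroupOf A,
      q ∈ Subgroup.zpowers (QuotientGroup.mk ⟨a, haA⟩ : ↥A ⧸ B.subgroupOf A) := by
    intro q
    obtain ⟨x, rfl⟩ := QuotientGroup.mk_surjective q
    have hle : B ⊔ Subgroup.zpowers a ≤
        ((Subgroup.zpowers (QuotientGroup.mk ⟨a, haA⟩ : ↥A ⧸ B.subgroupOf A)).comap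
          (QuotientGroup.mk' (B.subgroupOf A))).map A.subtype := by
      apply sup_le
      · intro d hd
        refine ⟨⟨d, hBA hd⟩, ?_, rfl⟩
        rw [SetLike.mem_coe, Subgroup.mem_comap]
        have h1 : (QuotientGroup.mk' (B.subgroupOf A)) ⟨d, hBA hd⟩ = 1 := by
          rw [QuotientGroup.mk'_apply, QuotientGroup.eq_one_iff]
          exact Subgroup.mem_subgroupOf.mpr hd
        rw [h1]
        exact Subgroup.one_mem _
      · apply Subgroup.zpowers_le.mpr
        exact ⟨⟨a, haA⟩, Subgroup.mem_zpowers _, rfl⟩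
    have hx : (x : G) ∈ B ⊔ Subgroup.zpowers a := by rw [hgen]; exact x.2
    obtain ⟨x', hx', hxx⟩ := hle hx
    have hxe : x' = x := Subtype.ext hxx
    rw [hxe] at hx'
    exact hx'
  have hord : orderOf (QuotientGroup.mk ⟨a, haA⟩ : ↥A ⧸ B.subgroupOf A) = p := by
    apply orderOf_eq_prime
    · rw [← QuotientGroup.mk_pow, QuotientGroup.eq_one_iff]
      exact Subgroup.mem_subgroupOf.mpr hap
    · intro h
      rw [QuotientGroup.eq_one_iff] at h
      exact haB (Subgroup.mem_subgroupOf.mp h)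
  have hcard := orderOf_eq_card_of_forall_mem_zpowers hq
  rw [hord] at hcard
  show (B.subgroupOf A).index = p
  rw [Subgroup.index_eq_card, ← hcard]

theorem isMulCommutative_map_of_comm {M Q : Type u} [Group M] [Group Q] (π : M →* Q)
    (A : Subgroup M) (hcomm : ∀ u ∈ A, ∀ v ∈ A, π u * π v = π v * π u) :
    IsMulCommutative ↥(A.map π) := by
  refine ⟨⟨fun u v => Subtype.ext ?_⟩⟩
  obtain ⟨u', hu', hu⟩ := u.2
  obtain ⟨v', hv', hv⟩ := v.2
  show (u : Q) * (v : Q) = (v : Q) * (u : Q)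
  rw [← hu, ← hv]
  exact hcomm u' hu' v' hv'

/-- In a `p`-solvable group with `O_p = 1`, a nontrivial abelian `p`-subgroup `A` has a subgroup
`B` with `A = B ⟨a⟩` and an element of `O_{p'} ∩ C(B)` not commuting with `a`. -/
theorem exists_noncentral_pair {X : Type u} [Group X] [Finite X] {p : ℕ} [Fact p.Prime]
    (hX : IsPSolvable p X) (hO : pCore p X = ⊥) (A : Subgroup X) [IsMulCommutative A]
    (hAp : IsPGroup p A) (hA : A ≠ ⊥) :
    ∃ B : Subgroup X, B ≤ A ∧ ∃ a ∈ A, B ⊔ Subgroup.zpowers a = A ∧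
      ∃ d ∈ pPrimeCore p X, d ∈ Subgroup.centralizer (B : Set X) ∧ d * a ≠ a * d := by
  by_contra hcon
  haveI hKn : (pPrimeCore p X).Normal := Cfsg.Agent.Lib.helper9.ppc_normal p X
  have hKc : (Nat.card (pPrimeCore p X)).Coprime p :=
    Cfsg.Agent.Lib.helper9.pPrimeCore_coprime p X
  obtain ⟨k, hk⟩ := hAp.exists_card_eq
  have hAK : A ≤ Subgroup.normalizer ((pPrimeCore p X : Subgroup X) : Set X) := by
    rw [Subgroup.normalizer_eq_top]; exact le_top
  have hcop : (Nat.card A).Coprime (Nat.card (pPrimeCore p X)) := by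
    rw [hk]; exact Nat.Coprime.pow_left k hKc.symm
  have hKT : pPrimeCore p X ≤ Subgroup.centralizer (A : Set X) := by
    apply Cfsg.Agent.Lib.helper9.gen_main A (pPrimeCore p X) hAK hcop
    intro B hB ⟨a, ha, hgen⟩ d hd
    have hdK := (Subgroup.mem_inf.mp hd).1
    have hdB := (Subgroup.mem_inf.mp hd).2
    have hda : d * a = a * d := by
      by_contra hne
      exact hcon ⟨B, hB, a, ha, hgen, d, hdK, hdB, hne⟩
    have hdZ : d ∈ Subgroup.centralizer ((Subgroup.zpowers a : Subgroup X) : Set X) := by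
      rw [Subgroup.mem_centralizer_iff]
      intro z hz
      obtain ⟨i, rfl⟩ := Subgroup.mem_zpowers_iff.mp hz
      exact ((Commute.zpow_right (show Commute d a from hda) i).eq).symm
    have h1 := mem_centralizer_sup hdB hdZ
    rw [hgen] at h1
    exact h1
  have hAC : A ≤ Subgroup.centralizer ((pPrimeCore p X : Subgroup X) : Set X) := by
    intro a ha
    rw [Subgroup.mem_centralizer_iff]
    intro k' hk'
    exact (Subgroup.mem_centralizer_iff.mp (hKT hk') a ha).symm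
  have hAle : A ≤ pPrimeCore p X := hAC.trans (centralizer_pPrimeCore_le_of_pSolvable hX hO)
  have hdvd : Nat.card A ∣ Nat.card (pPrimeCore p X) := Subgroup.card_dvd_of_le hAle
  apply hA
  rw [← Subgroup.card_eq_one]
  rw [hk] at hdvd ⊢
  rcases Nat.eq_zero_or_pos k with h0 | hpos
  · rw [h0, pow_zero]
  · exfalso
    have h1 : p ∣ Nat.card (pPrimeCore p X) := (dvd_pow_self p hpos.ne').trans hdvd
    have hp := (Fact.out : p.Prime)
    exact (Nat.Prime.coprime_iff_not_dvd hp).mp hKc.symm h1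

/-- Choice of a `p'`-element `x` lying in `⟨A, A^x⟩` with the properties of the witness `d`. -/
theorem exists_good_conj {M Q : Type u} [Group M] [Finite M] [Group Q] [Finite Q] {p : ℕ}
    [hp : Fact p.Prime] (π : M →* Q) (K : Subgroup Q) [hKn : K.Normal]
    (hK : (Nat.card K).Coprime p) (A : Subgroup M) (B : Subgroup Q)
    (a : M) (haA : a ∈ A) (hap : (π a) ^ p = 1)
    (haB : π a ∈ Subgroup.centralizer (B : Set Q))
    (d : M) (hdK : π d ∈ K) (hdB : π d ∈ Subgroup.centralizer (B : Set Q))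
    (hda : π d * π a ≠ π a * π d) :
    ∃ x : M, π x ∈ K ∧ π x ∈ Subgroup.centralizer (B : Set Q) ∧ π x * π a ≠ π a * π x ∧
      (orderOf x).Coprime p ∧ x ∈ A ⊔ A.map (MulAut.conj x).toMonoidHom := by
  classical
  obtain ⟨ā, hā⟩ : ∃ ā : Q, ā = π a := ⟨_, rfl⟩
  rw [← hā] at hap haB hda ⊢
  have hKpow : ∀ c ∈ K, c ^ Nat.card K = 1 := by
    intro c hc
    have h1 : (⟨c, hc⟩ : ↥K) ^ Nat.card K = 1 := pow_card_eq_one'
    exact congrArg Subtype.val h1
  haveI : Nonempty {y : M // π y ∈ K ∧ π y ∈ Subgroup.centralizer (B : Set Q) ∧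
      π y * ā ≠ ā * π y} := ⟨⟨d, hdK, hdB, hda⟩⟩
  obtain ⟨⟨y, hyS⟩, hmin⟩ := Finite.exists_min
    (fun y : {y : M // π y ∈ K ∧ π y ∈ Subgroup.centralizer (B : Set Q) ∧
      π y * ā ≠ ā * π y} => Nat.card ↥(A ⊔ A.map (MulAut.conj (y : M)).toMonoidHom))
  obtain ⟨hyK, hyB, hya⟩ := hyS
  obtain ⟨c, hc⟩ : ∃ c : M, c = y * a * y⁻¹ * a⁻¹ := ⟨_, rfl⟩
  have hcπ : π c = π y * ā * (π y)⁻¹ * ā⁻¹ := by
    rw [hc, hā]; simp only [map_mul, map_inv]
  have hcK : π c ∈ K := by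
    rw [hcπ]
    have h1 : ā * (π y)⁻¹ * ā⁻¹ ∈ K := hKn.conj_mem _ (inv_mem hyK) ā
    have h2 := mul_mem hyK h1
    have e : π y * ā * (π y)⁻¹ * ā⁻¹ = π y * (ā * (π y)⁻¹ * ā⁻¹) := by group
    rw [e]; exact h2
  have hcB : π c ∈ Subgroup.centralizer (B : Set Q) := by
    rw [hcπ]
    exact mul_mem (mul_mem (mul_mem hyB haB) (inv_mem hyB)) (inv_mem haB)
  have hca : π c * ā ≠ ā * π c := by
    intro hcomm
    have e1 : π c * ā = π y * ā * (π y)⁻¹ := by rw [hcπ]; group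
    have e2 : (π c * ā) ^ p = 1 := by
      rw [e1, conj_pow, hap]; group
    have e3 : (π c * ā) ^ p = π c ^ p * ā ^ p :=
      Commute.mul_pow (show Commute (π c) ā from hcomm) p
    rw [e3, hap, mul_one] at e2
    have e4 : π c = 1 := eq_one_of_pow_coprime_h3 (hKpow _ hcK) e2 hK
    apply hya
    rw [hcπ] at e4
    have e5 : π y * ā = (π y * ā * (π y)⁻¹ * ā⁻¹) * (ā * π y) := by group
    rw [e5, e4, one_mul]
  have hc0 : orderOf c ≠ 0 := (orderOf_pos c).ne'
  obtain ⟨k, m, hm, hkm⟩ := Nat.exists_eq_pow_mul_and_not_dvd hc0 p hp.out.ne_one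
  obtain ⟨x, hx⟩ : ∃ x : M, x = c ^ (p ^ k) := ⟨_, rfl⟩
  have hxo : (orderOf x).Coprime p := by
    have h1 : x ^ m = 1 := by
      rw [hx, ← pow_mul, ← hkm, pow_orderOf_eq_one]
    have h2 : orderOf x ∣ m := orderOf_dvd_of_pow_eq_one h1
    exact Nat.Coprime.coprime_dvd_left h2
      ((Nat.Prime.coprime_iff_not_dvd hp.out).mpr hm).symm
  have hxπ : π x = π c ^ (p ^ k) := by rw [hx, map_pow]
  have hxK : π x ∈ K := by rw [hxπ]; exact pow_mem hcK _
  have hxB : π x ∈ Subgroup.centralizer (B : Set Q) := by rw [hxπ]; exact pow_mem hcB _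
  have hxa : π x * ā ≠ ā * π x := by
    intro hcomm
    have hcop : (p ^ k).Coprime (orderOf (π c)) := by
      apply Nat.Coprime.pow_left
      exact Nat.Coprime.coprime_dvd_right (orderOf_dvd_of_pow_eq_one (hKpow _ hcK)) hK.symm
    obtain ⟨j, hj⟩ := exists_pow_eq_self_of_coprime hcop
    apply hca
    rw [← hj, ← hxπ]
    exact ((Commute.pow_left (show Commute (π x) ā from hcomm) j).eq)
  obtain ⟨Ly, hLy⟩ : ∃ Ly : Subgroup M, Ly = A ⊔ A.map (MulAut.conj y).toMonoidHom :=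
    ⟨_, rfl⟩
  have hALy : A ≤ Ly := by rw [hLy]; exact le_sup_left
  have hcLy : c ∈ Ly := by
    rw [hc]
    have h1 : y * a * y⁻¹ ∈ Ly := by
      rw [hLy]; exact Subgroup.mem_sup_right ⟨a, haA, rfl⟩
    exact mul_mem h1 (inv_mem (hALy haA))
  have hxLy : x ∈ Ly := by rw [hx]; exact pow_mem hcLy _
  have hle : A ⊔ A.map (MulAut.conj x).toMonoidHom ≤ Ly := by
    apply sup_le hALy
    rintro _ ⟨a', ha', rfl⟩
    exact mul_mem (mul_mem hxLy (hALy ha')) (inv_mem hxLy)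
  have hcard := hmin ⟨x, hxK, hxB, hxa⟩
  have heq : A ⊔ A.map (MulAut.conj x).toMonoidHom = Ly := by
    apply Subgroup.eq_of_le_of_card_ge hle
    rw [hLy]; exact hcard
  exact ⟨x, hxK, hxB, hxa, hxo, by rw [heq]; exact hxLy⟩

/-- The conclusions about `L = ⟨A, A^x⟩`. -/
theorem pair_conclusion {M Q : Type u} [Group M] [Finite M] [Group Q] [Finite Q] {p : ℕ}
    [hp : Fact p.Prime] (π : M →* Q) (hker : IsPGroup p π.ker)
    (K : Subgroup Q) [hKn : K.Normal] (hK : (Nat.card K).Coprime p)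
    (A : Subgroup M) (hA : IsPGroup p A)
    (hcomm : ∀ u ∈ A, ∀ v ∈ A, π u * π v = π v * π u)
    (hexp : ∀ u ∈ A, (π u) ^ p = 1)
    (B : Subgroup Q) (hB : B ≤ A.map π) (a : M) (haA : a ∈ A)
    (hgen : B ⊔ Subgroup.zpowers (π a) = A.map π)
    (x : M) (hxK : π x ∈ K) (hxB : π x ∈ Subgroup.centralizer (B : Set Q))
    (hxa : π x * π a ≠ π a * π x) (hxo : (orderOf x).Coprime p)
    (hxL : x ∈ A ⊔ A.map (MulAut.conj x).toMonoidHom) :
    x ∈ (pResidual p ↥(A ⊔ A.map (MulAut.conj x).toMonoidHom)).map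
        (A ⊔ A.map (MulAut.conj x).toMonoidHom).subtype ∧
    (pResidual p ↥(A ⊔ A.map (MulAut.conj x).toMonoidHom)).map
        (A ⊔ A.map (MulAut.conj x).toMonoidHom).subtype ≤ K.comap π ∧
    ⁅(pResidual p ↥(A ⊔ A.map (MulAut.conj x).toMonoidHom)).map
        (A ⊔ A.map (MulAut.conj x).toMonoidHom).subtype, A⁆ =
      (pResidual p ↥(A ⊔ A.map (MulAut.conj x).toMonoidHom)).map
        (A ⊔ A.map (MulAut.conj x).toMonoidHom).subtype ∧
    (A ⊓ (pCore p ↥(A ⊔ A.map (MulAut.conj x).toMonoidHom)).map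
        (A ⊔ A.map (MulAut.conj x).toMonoidHom).subtype).relIndex A = p ∧
    ⁅A ⊓ (pCore p ↥(A ⊔ A.map (MulAut.conj x).toMonoidHom)).map
        (A ⊔ A.map (MulAut.conj x).toMonoidHom).subtype,
      A ⊔ A.map (MulAut.conj x).toMonoidHom⁆ ≤ π.ker := by
  classical
  haveI hAc : IsMulCommutative ↥(A.map π) := isMulCommutative_map_of_comm π A hcomm
  obtain ⟨L, hL⟩ : ∃ L : Subgroup M, L = A ⊔ A.map (MulAut.conj x).toMonoidHom := ⟨_, rfl⟩
  rw [← hL] at hxL ⊢
  have hAL : A ≤ L := by rw [hL]; exact le_sup_left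
  have hconjL : ∀ a' ∈ A, x * a' * x⁻¹ ∈ L := fun a' ha' =>
    mul_mem (mul_mem hxL (hAL ha')) (inv_mem hxL)
  have hLle' : ∀ T : Subgroup M, A ≤ T → (∀ a' ∈ A, x * a' * x⁻¹ ∈ T) → L ≤ T := by
    intro T hAT hc
    rw [hL]
    apply sup_le hAT
    rintro _ ⟨a', ha', rfl⟩
    exact hc a' ha'
  have hLle : ∀ T : Subgroup M, A ≤ T → x ∈ T → L ≤ T := by
    intro T hAT hxT
    exact hLle' T hAT (fun a' ha' => mul_mem (mul_mem hxT (hAT ha')) (inv_mem hxT))
  have hKpow : ∀ c ∈ K, c ^ Nat.card K = 1 := by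
    intro c hc
    have h1 : (⟨c, hc⟩ : ↥K) ^ Nat.card K = 1 := pow_card_eq_one'
    exact congrArg Subtype.val h1
  obtain ⟨W, hW⟩ : ∃ W : Subgroup M, W = (pResidual p ↥L).map L.subtype := ⟨_, rfl⟩
  obtain ⟨P, hP⟩ : ∃ P : Subgroup M, P = (pCore p ↥L).map L.subtype := ⟨_, rfl⟩
  rw [← hW, ← hP]
  have hWL : W ≤ L := by rw [hW]; exact Subgroup.map_subtype_le _
  -- (a1)
  have hxW' : (⟨x, hxL⟩ : ↥L) ∈ pResidual p ↥L := by
    show (⟨x, hxL⟩ : ↥L) ∈ Subgroup.closure {g : ↥L | Nat.Coprime (orderOf g) p}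
    apply Subgroup.subset_closure
    show (orderOf (⟨x, hxL⟩ : ↥L)).Coprime p
    rw [Subgroup.orderOf_mk]; exact hxo
  have hxW : x ∈ W := by rw [hW]; exact ⟨⟨x, hxL⟩, hxW', rfl⟩
  -- p'-elements of L map into K
  have hpK : ∀ l ∈ L, (orderOf l).Coprime p → π l ∈ K := by
    intro l hl hlo
    obtain ⟨f, hf⟩ : ∃ f : M →* Q ⧸ K, f = (QuotientGroup.mk' K).comp π := ⟨_, rfl⟩
    have hfx : f x = 1 := by
      rw [hf, MonoidHom.comp_apply]; exact (QuotientGroup.eq_one_iff _).mpr hxK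
    have hLf : L ≤ (A.map f).comap f := by
      apply hLle
      · intro a' ha'; exact Subgroup.mem_comap.mpr (Subgroup.mem_map_of_mem f ha')
      · rw [Subgroup.mem_comap, hfx]; exact one_mem _
    have h1 : f l = 1 :=
      map_eq_one_of_pgroup_of_coprime f A hA l (Subgroup.mem_comap.mp (hLf hl)) hlo
    rw [hf, MonoidHom.comp_apply] at h1
    exact (QuotientGroup.eq_one_iff _).mp h1
  -- (a2)
  have hWK : W ≤ K.comap π := by
    rw [hW, Subgroup.map_le_iff_le_comap]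
    unfold pResidual
    rw [Subgroup.closure_le]
    intro g hg
    have hg' : (orderOf (g : M)).Coprime p := by rw [Subgroup.orderOf_coe]; exact hg
    exact hpK (g : M) g.2 hg'
  -- W is normal in L
  have hWn : ∀ w ∈ W, ∀ l ∈ L, l * w * l⁻¹ ∈ W := by
    rw [hW]
    rintro _ ⟨w', hw', rfl⟩ l hl
    exact ⟨⟨l, hl⟩ * w' * ⟨l, hl⟩⁻¹, pResidual_conj_mem p hw' ⟨l, hl⟩, rfl⟩
  -- (b) ≤
  have hWA_le : ⁅W, A⁆ ≤ W := by
    rw [Subgroup.commutator_le]
    intro w hw a' ha'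
    have h1 : a' * w⁻¹ * a'⁻¹ ∈ W := hWn _ (inv_mem hw) _ (hAL ha')
    have e : ⁅w, a'⁆ = w * (a' * w⁻¹ * a'⁻¹) := by rw [commutatorElement_def]; group
    rw [e]; exact mul_mem hw h1
  obtain ⟨N, hN⟩ : ∃ N : Subgroup M, N = ⁅W, A⁆ := ⟨_, rfl⟩
  have hNW : N ≤ W := by rw [hN]; exact hWA_le
  have hcomN : ∀ w ∈ W, ∀ a' ∈ A, w * a' * w⁻¹ * a'⁻¹ ∈ N := by
    intro w hw a' ha'
    rw [hN]
    exact Subgroup.commutator_mem_commutator hw ha'
  have hNA : ∀ a₁ ∈ A, ∀ n ∈ N, a₁ * n * a₁⁻¹ ∈ N := by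
    intro a₁ ha₁ n hn
    have h1 : N.map (MulAut.conj a₁).toMonoidHom ≤ N := by
      rw [hN, Subgroup.map_commutator]
      apply Subgroup.commutator_mono
      · rintro _ ⟨w, hw, rfl⟩; exact hWn w hw a₁ (hAL ha₁)
      · rintro _ ⟨a', ha', rfl⟩; exact mul_mem (mul_mem ha₁ ha') (inv_mem ha₁)
    exact h1 ⟨n, hn, rfl⟩
  have hNW' : ∀ w₁ ∈ W, ∀ n ∈ N, w₁ * n * w₁⁻¹ ∈ N := by
    intro w₁ hw₁ n hn
    have h1 : ⁅W, A⁆ ≤ N.comap (MulAut.conj w₁).toMonoidHom := by
      rw [Subgroup.commutator_le]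
      intro w hw a' ha'
      rw [Subgroup.mem_comap]
      have e : (MulAut.conj w₁).toMonoidHom ⁅w, a'⁆ =
          ((w₁ * w) * a' * (w₁ * w)⁻¹ * a'⁻¹) * (w₁ * a' * w₁⁻¹ * a'⁻¹)⁻¹ := by
        show w₁ * ⁅w, a'⁆ * w₁⁻¹ = _
        rw [commutatorElement_def]; group
      rw [e]
      exact mul_mem (hcomN _ (mul_mem hw₁ hw) _ ha') (inv_mem (hcomN _ hw₁ _ ha'))
    rw [← hN] at h1
    exact h1 hn
  have hLN : L ≤ Subgroup.normalizer (N : Set M) := by
    apply hLle
    · exact Subgroup.le_normalizer_iff.mpr hNA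
    · exact (Subgroup.le_normalizer_iff.mpr hNW') hxW
  haveI hN'n : (N.subgroupOf L).Normal := Subgroup.normal_subgroupOf_of_le_normalizer hLN
  have hpN : ∀ l : ↥L, (orderOf l).Coprime p → (l : M) ∈ N := by
    intro l hlo
    obtain ⟨q, hq⟩ : ∃ q : ↥L →* ↥L ⧸ N.subgroupOf L,
        q = QuotientGroup.mk' (N.subgroupOf L) := ⟨_, rfl⟩
    have hLq : L ≤ (((A.subgroupOf L).map q).comap q).map L.subtype := by
      apply hLle'
      · intro a' ha'
        exact ⟨⟨a', hAL ha'⟩, Subgroup.mem_comap.mpr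
          (Subgroup.mem_map_of_mem q (Subgroup.mem_subgroupOf.mpr ha')), rfl⟩
      · intro a' ha'
        refine ⟨⟨x * a' * x⁻¹, hconjL a' ha'⟩, ?_, rfl⟩
        rw [SetLike.mem_coe, Subgroup.mem_comap]
        have e : q ⟨x * a' * x⁻¹, hconjL a' ha'⟩ = q ⟨a', hAL ha'⟩ := by
          rw [hq, QuotientGroup.mk'_apply, QuotientGroup.mk'_apply]
          symm
          refine QuotientGroup.eq.mpr ?_
          rw [Subgroup.mem_subgroupOf]
          have h1 := inv_mem (hcomN x hxW a'⁻¹ (inv_mem ha'))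
          have e2 : (x * a'⁻¹ * x⁻¹ * a'⁻¹⁻¹)⁻¹ = a'⁻¹ * (x * a' * x⁻¹) := by group
          rw [e2] at h1
          exact h1
        rw [e]
        exact Subgroup.mem_map_of_mem q (Subgroup.mem_subgroupOf.mpr ha')
    obtain ⟨l', hl', hll⟩ := hLq l.2
    have hl'eq : l' = l := Subtype.ext hll
    rw [hl'eq] at hl'
    have hql : q l ∈ (A.subgroupOf L).map q := hl'
    have h1 : q l = 1 :=
      map_eq_one_of_pgroup_of_coprime q (A.subgroupOf L) hA.comap_subtype l hql hlo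
    rw [hq] at h1
    have h2 : l ∈ N.subgroupOf L := (QuotientGroup.eq_one_iff l).mp h1
    exact Subgroup.mem_subgroupOf.mp h2
  have hWN : W ≤ N := by
    rw [hW, Subgroup.map_le_iff_le_comap]
    unfold pResidual
    rw [Subgroup.closure_le]
    intro g hg
    exact hpN g hg
  have hb : ⁅W, A⁆ = W := le_antisymm hWA_le (by rw [← hN]; exact hWN)
  -- (c)
  have haB : π a ∉ B := by
    intro h
    apply hxa
    exact (Subgroup.mem_centralizer_iff.mp hxB (π a) h).symm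
  have hapB : (π a) ^ p ∈ B := by rw [hexp a haA]; exact one_mem _
  have hidx : B.relIndex (A.map π) = p :=
    relIndex_eq_prime_of_sup_zpowers (A.map π) B hB (π a) (Subgroup.mem_map_of_mem π haA)
      haB hapB hgen
  have hLB : L ≤ (Subgroup.centralizer (B : Set Q)).comap π := by
    apply hLle
    · intro a' ha'
      rw [Subgroup.mem_comap, Subgroup.mem_centralizer_iff]
      intro b hb
      obtain ⟨b', hb', rfl⟩ := hB hb
      exact hcomm b' hb' a' ha'
    · exact Subgroup.mem_comap.mpr hxB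
  have hPcn : (pCore p ↥L).Normal := Cfsg.Agent.Lib.helper15.pCore_normal p ↥L
  have hPcp : IsPGroup p ↥(pCore p ↥L) := Cfsg.Agent.Lib.helper15.pCore_isPGroup p ↥L
  have hPp : IsPGroup p ↥P := by rw [hP]; exact hPcp.map L.subtype
  have hPn : ∀ u ∈ P, ∀ l ∈ L, l * u * l⁻¹ ∈ P := by
    rw [hP]
    rintro _ ⟨u', hu', rfl⟩ l hl
    exact ⟨⟨l, hl⟩ * u' * ⟨l, hl⟩⁻¹, hPcn.conj_mem u' hu' ⟨l, hl⟩, rfl⟩
  have hAP_B : ∀ u ∈ A, u ∈ P → π u ∈ B := by
    intro u huA huP
    have h1 : u * x * u⁻¹ * x⁻¹ ∈ P := by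
      have h2 := hPn u⁻¹ (inv_mem huP) x hxL
      have e : u * x * u⁻¹ * x⁻¹ = u * (x * u⁻¹ * x⁻¹) := by group
      rw [e]; exact mul_mem huP h2
    obtain ⟨j, hj⟩ := hPp ⟨_, h1⟩
    have hj' : (u * x * u⁻¹ * x⁻¹) ^ (p ^ j) = 1 := congrArg Subtype.val hj
    have h3 : π (u * x * u⁻¹ * x⁻¹) ∈ K := by
      have h4 : π u * π x * (π u)⁻¹ ∈ K := hKn.conj_mem _ hxK _
      have e : π (u * x * u⁻¹ * x⁻¹) = (π u * π x * (π u)⁻¹) * (π x)⁻¹ := by
        simp only [map_mul, map_inv]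
      rw [e]; exact mul_mem h4 (inv_mem hxK)
    have h5 : π (u * x * u⁻¹ * x⁻¹) = 1 := by
      apply eq_one_of_pow_coprime_h3 (hKpow _ h3) _ (Nat.Coprime.pow_right j hK)
      rw [← map_pow, hj', map_one]
    have hcomm' : π u * π x = π x * π u := by
      have e : π u * π x = π (u * x * u⁻¹ * x⁻¹) * (π x * π u) := by
        simp only [map_mul, map_inv]; group
      rw [e, h5, one_mul]
    obtain ⟨C, hC⟩ : ∃ C : Subgroup Q,
        C = A.map π ⊓ Subgroup.centralizer ({π x} : Set Q) := ⟨_, rfl⟩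
    have hBC : B ≤ C := by
      rw [hC]
      apply le_inf hB
      intro b hb
      rw [Subgroup.mem_centralizer_iff]
      intro z hz
      rw [Set.mem_singleton_iff] at hz
      rw [hz]
      exact (Subgroup.mem_centralizer_iff.mp hxB b hb).symm
    have hCA : C ≤ A.map π := by rw [hC]; exact inf_le_left
    have haC : π a ∉ C := by
      intro h
      rw [hC] at h
      have h2 := Subgroup.mem_centralizer_iff.mp (Subgroup.mem_inf.mp h).2 (π x)
        (Set.mem_singleton _)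
      exact hxa h2
    have huC : π u ∈ C := by
      rw [hC]
      refine Subgroup.mem_inf.mpr ⟨Subgroup.mem_map_of_mem π huA, ?_⟩
      rw [Subgroup.mem_centralizer_iff]
      intro z hz
      rw [Set.mem_singleton_iff] at hz
      rw [hz]; exact hcomm'.symm
    have hmul := Subgroup.relIndex_mul_relIndex B C (A.map π) hBC hCA
    rw [hidx] at hmul
    have hC1 : C.relIndex (A.map π) ≠ 1 := by
      intro h
      rw [Subgroup.relIndex_eq_one] at h
      exact haC (h (Subgroup.mem_map_of_mem π haA))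
    have hB1 : B.relIndex C = 1 := by
      have hd : C.relIndex (A.map π) ∣ p := Dvd.intro_left _ hmul
      rcases (Nat.dvd_prime hp.out).mp hd with h | h
      · exact absurd h hC1
      · rw [h] at hmul
        have hp0 : 0 < p := hp.out.pos
        exact Nat.eq_of_mul_eq_mul_right hp0 (by rw [hmul, one_mul])
    rw [Subgroup.relIndex_eq_one] at hB1
    exact hB1 huC
  obtain ⟨E, hE⟩ : ∃ E : Subgroup M, E = L ⊓ B.comap π := ⟨_, rfl⟩
  have hEp : IsPGroup p ↥E := by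
    rintro ⟨e, he⟩
    have heB : π e ∈ B := by rw [hE] at he; exact (Subgroup.mem_inf.mp he).2
    obtain ⟨a', ha', hae⟩ := hB heB
    have h1 : e ^ p ∈ π.ker := by
      rw [MonoidHom.mem_ker, map_pow, ← hae]; exact hexp a' ha'
    obtain ⟨j, hj⟩ := hker ⟨_, h1⟩
    have hj' : (e ^ p) ^ (p ^ j) = 1 := congrArg Subtype.val hj
    refine ⟨1 + j, Subtype.ext ?_⟩
    show e ^ (p ^ (1 + j)) = 1
    rw [pow_add, pow_one, pow_mul]; exact hj'
  have hEn : ∀ e ∈ E, ∀ l ∈ L, l * e * l⁻¹ ∈ E := by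
    intro e he l hl
    rw [hE] at he ⊢
    obtain ⟨heL, heB⟩ := Subgroup.mem_inf.mp he
    refine Subgroup.mem_inf.mpr ⟨mul_mem (mul_mem hl heL) (inv_mem hl), ?_⟩
    rw [Subgroup.mem_comap] at heB ⊢
    have hlc := Subgroup.mem_centralizer_iff.mp (Subgroup.mem_comap.mp (hLB hl)) (π e) heB
    have e1 : π (l * e * l⁻¹) = π e := by
      rw [map_mul, map_mul, map_inv, ← hlc, mul_inv_cancel_right]
    rw [e1]; exact heB
  have hE' : E.subgroupOf L ≤ pCore p ↥L := by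
    apply Cfsg.Agent.Lib.helper15.le_pCore
    · constructor
      rintro ⟨e, heL⟩ he ⟨l, hl⟩
      exact Subgroup.mem_subgroupOf.mpr (hEn e (Subgroup.mem_subgroupOf.mp he) l hl)
    · exact hEp.comap_subtype
  have hAB_P : ∀ u ∈ A, π u ∈ B → u ∈ P := by
    intro u huA huB
    have huE : u ∈ E := by
      rw [hE]; exact Subgroup.mem_inf.mpr ⟨hAL huA, Subgroup.mem_comap.mpr huB⟩
    rw [hP]
    exact ⟨⟨u, hAL huA⟩, hE' (Subgroup.mem_subgroupOf.mpr huE), rfl⟩
  have hAPeq : A ⊓ P = A ⊓ B.comap π := by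
    ext u
    rw [Subgroup.mem_inf, Subgroup.mem_inf, Subgroup.mem_comap]
    constructor
    · rintro ⟨h1, h2⟩; exact ⟨h1, hAP_B u h1 h2⟩
    · rintro ⟨h1, h2⟩; exact ⟨h1, hAB_P u h1 h2⟩
  have hc : (A ⊓ P).relIndex A = p := by
    rw [hAPeq, Subgroup.inf_relIndex_left, Subgroup.relIndex_comap]
    exact hidx
  -- (d)
  have hd : ⁅A ⊓ P, L⁆ ≤ π.ker := by
    rw [Subgroup.commutator_le]
    intro u hu l hl
    obtain ⟨huA, huP⟩ := Subgroup.mem_inf.mp hu
    have huB := hAP_B u huA huP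
    have hlc := Subgroup.mem_centralizer_iff.mp (Subgroup.mem_comap.mp (hLB hl)) (π u) huB
    rw [MonoidHom.mem_ker, commutatorElement_def]
    rw [map_mul, map_mul, map_mul, map_inv, map_inv, hlc, mul_inv_cancel_right,
      mul_inv_cancel]
  exact ⟨hxW, hWK, hb, hc, hd⟩

/-- S3754: in a `p`-solvable group `M`, a `p`-subgroup `A` with `Φ(A) ≤ O_p(M)`, `A ≰ O_p(M)`
has a conjugate `A^x`, `x ∈ O_{p,p'}(M)`, such that `L = ⟨A, A^x⟩` has the listed properties. -/
theorem psolv_two_conj {M : Type u} [Group M] [Finite M] {p : ℕ} [Fact p.Prime]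
    (hM : Cfsg.IsPSolvable p M) (A : Subgroup M) (hA : IsPGroup p A)
    (hΦ : (frattini ↥A).map A.subtype ≤ Cfsg.pCore p M) (hnot : ¬ A ≤ Cfsg.pCore p M) :
    ∃ x ∈ (Cfsg.pPrimeCore p (M ⧸ Cfsg.pCore p M)).comap (QuotientGroup.mk' (Cfsg.pCore p M)),
      x ∈ (Cfsg.pResidual p ↥(A ⊔ A.map (MulAut.conj x).toMonoidHom)).map
          (A ⊔ A.map (MulAut.conj x).toMonoidHom).subtype ∧
      (Cfsg.pResidual p ↥(A ⊔ A.map (MulAut.conj x).toMonoidHom)).map
          (A ⊔ A.map (MulAut.conj x).toMonoidHom).subtype ≤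
        (Cfsg.pPrimeCore p (M ⧸ Cfsg.pCore p M)).comap (QuotientGroup.mk' (Cfsg.pCore p M)) ∧
      ⁅(Cfsg.pResidual p ↥(A ⊔ A.map (MulAut.conj x).toMonoidHom)).map
          (A ⊔ A.map (MulAut.conj x).toMonoidHom).subtype, A⁆ =
        (Cfsg.pResidual p ↥(A ⊔ A.map (MulAut.conj x).toMonoidHom)).map
          (A ⊔ A.map (MulAut.conj x).toMonoidHom).subtype ∧
      (A ⊓ (Cfsg.pCore p ↥(A ⊔ A.map (MulAut.conj x).toMonoidHom)).map
          (A ⊔ A.map (MulAut.conj x).toMonoidHom).subtype).relIndex A = p ∧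
      ⁅A ⊓ (Cfsg.pCore p ↥(A ⊔ A.map (MulAut.conj x).toMonoidHom)).map
          (A ⊔ A.map (MulAut.conj x).toMonoidHom).subtype,
        A ⊔ A.map (MulAut.conj x).toMonoidHom⁆ ≤ Cfsg.pCore p M := by
  classical
  obtain ⟨π, hπ⟩ : ∃ π : M →* M ⧸ Cfsg.pCore p M, π = QuotientGroup.mk' (Cfsg.pCore p M) :=
    ⟨_, rfl⟩
  have hker : π.ker = Cfsg.pCore p M := by rw [hπ]; exact QuotientGroup.ker_mk' _
  have hkerp : IsPGroup p ↥π.ker := by
    rw [hker]; exact Cfsg.Agent.Lib.helper15.pCore_isPGroup p M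
  have hcomm : ∀ u ∈ A, ∀ v ∈ A, π u * π v = π v * π u := by
    intro u hu v hv
    have h1 : ⁅(⟨u, hu⟩ : ↥A), ⟨v, hv⟩⁆ ∈ commutator ↥A :=
      Subgroup.commutator_mem_commutator (Subgroup.mem_top _) (Subgroup.mem_top _)
    have h2 := hΦ (Subgroup.mem_map_of_mem A.subtype ((Cfsg.Agent.S0012.result p hA).1 h1))
    have h3 : u * v * u⁻¹ * v⁻¹ ∈ π.ker := by rw [hker]; exact h2
    rw [MonoidHom.mem_ker] at h3
    have e : π u * π v = π (u * v * u⁻¹ * v⁻¹) * (π v * π u) := by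
      simp only [map_mul, map_inv]; group
    rw [e, h3, one_mul]
  have hexp : ∀ u ∈ A, (π u) ^ p = 1 := by
    intro u hu
    have h2 := hΦ (Subgroup.mem_map_of_mem A.subtype
      ((Cfsg.Agent.S0012.result p hA).2 ⟨u, hu⟩))
    have h3 : u ^ p ∈ π.ker := by rw [hker]; exact h2
    rw [MonoidHom.mem_ker, map_pow] at h3
    exact h3
  haveI hAc : IsMulCommutative ↥(A.map π) := isMulCommutative_map_of_comm π A hcomm
  have hQsol : Cfsg.IsPSolvable p (M ⧸ Cfsg.pCore p M) :=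
    Cfsg.Agent.Lib.helper16.isPSolvable_of_surjective (QuotientGroup.mk' _)
      (QuotientGroup.mk'_surjective _) hM
  have hQO : Cfsg.pCore p (M ⧸ Cfsg.pCore p M) = ⊥ := pCore_quot_pCore_eq_bot p
  have hAne : A.map π ≠ ⊥ := by
    intro h
    apply hnot
    intro u hu
    have h1 : π u ∈ A.map π := Subgroup.mem_map_of_mem π hu
    rw [h, Subgroup.mem_bot] at h1
    rw [← hker]; exact MonoidHom.mem_ker.mpr h1
  obtain ⟨B, hB, ā, hā, hgen, d', hdK, hdB, hda⟩ :=
    exists_noncentral_pair hQsol hQO (A.map π) (hA.map π) hAne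
  obtain ⟨a, haA, rfl⟩ := hā
  obtain ⟨d, rfl⟩ : ∃ d : M, π d = d' := by
    rw [hπ]; exact QuotientGroup.mk'_surjective _ d'
  have haB : π a ∈ Subgroup.centralizer (B : Set (M ⧸ Cfsg.pCore p M)) := by
    rw [Subgroup.mem_centralizer_iff]
    intro b hb
    obtain ⟨b', hb', rfl⟩ := hB hb
    exact hcomm b' hb' a haA
  haveI hKn : (Cfsg.pPrimeCore p (M ⧸ Cfsg.pCore p M)).Normal :=
    Cfsg.Agent.Lib.helper9.ppc_normal p _
  have hKc := Cfsg.Agent.Lib.helper9.pPrimeCore_coprime p (M ⧸ Cfsg.pCore p M)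
  obtain ⟨x, hxK, hxB, hxa, hxo, hxL⟩ :=
    exists_good_conj π (Cfsg.pPrimeCore p (M ⧸ Cfsg.pCore p M)) hKc A B a haA (hexp a haA) haB
      d hdK hdB hda
  have key := pair_conclusion π hkerp (Cfsg.pPrimeCore p (M ⧸ Cfsg.pCore p M)) hKc A hA hcomm
    hexp B hB a haA hgen x hxK hxB hxa hxo hxL
  rw [hker] at key
  refine ⟨x, ?_, ?_⟩
  · rw [Subgroup.mem_comap, ← hπ]; exact hxK
  · rw [← hπ]; exact key

end Cfsg.Agent.Lib.helper3
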