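import Mathlib
import Cfsg.Prelude.Def_SolvableStructure
import Cfsg.Agent.Lib.helper3.Supersolvable
import Cfsg.Agent.Lib.helper3.Basic

set_option autoImplicit false

namespace Cfsg.Agent.Lib.helper3

universe u

theorem card_comap_mk' {G : Type u} [Group G] [Finite G] (N : Subgroup G) [N.Normal]
    (K : Subgroup (G ⧸ N)) :
    Nat.card (K.comap (QuotientGroup.mk' N)) = Nat.card K * Nat.card N := by
  have h1 := Subgroup.card_mul_index (K.comap (QuotientGroup.mk' N))
  rw [Subgroup.index_comap_of_surjective K (QuotientGroup.mk'_surjective N)] at h1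
  have h2 := Subgroup.card_mul_index K
  have h3 := Subgroup.card_eq_card_quotient_mul_card_subgroup N
  have hpos : 0 < K.index := Nat.pos_of_ne_zero (Subgroup.index_ne_zero_of_finite)
  have : Nat.card (K.comap (QuotientGroup.mk' N)) * K.index = (Nat.card K * Nat.card N) * K.index := by
    rw [h1, h3, ← h2]; ring
  exact Nat.eq_of_mul_eq_mul_right hpos this

/-- A group of order `p * q` with primes `q < p` has a characteristic subgroup of order `p`. -/
theorem exists_char_card_prime_of_card_mul {K : Type u} [Group K] [Finite K] {p q : ℕ}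
    (hp : p.Prime) (hq : q.Prime) (hqp : q < p) (hK : Nat.card K = p * q) :
    ∃ P : Subgroup K, P.Characteristic ∧ Nat.card P = p := by
  have : Fact p.Prime := ⟨hp⟩
  obtain ⟨P⟩ : Nonempty (Sylow p K) := inferInstance
  have hPcard : Nat.card P = p := by
    rw [Sylow.card_eq_multiplicity, hK, Nat.factorization_mul hp.ne_zero hq.ne_zero]
    have h1 : q.factorization p = 0 := by
      apply Nat.factorization_eq_zero_of_not_dvd
      intro h
      have := Nat.le_of_dvd hq.pos h
      omega
    simp [hp.factorization_self, h1]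
  have hidx : (P : Subgroup K).index = q := by
    have h1 := Subgroup.card_mul_index (P : Subgroup K)
    rw [hPcard, hK] at h1
    exact Nat.eq_of_mul_eq_mul_left hp.pos h1
  have hdvd : Nat.card (Sylow p K) ∣ q := hidx ▸ Sylow.card_dvd_index P
  have hmod : Nat.card (Sylow p K) ≡ 1 [MOD p] := card_sylow_modEq_one p K
  have hone : Nat.card (Sylow p K) = 1 := by
    rcases (Nat.dvd_prime hq).mp hdvd with h | h
    · exact h
    · exfalso
      rw [h] at hmod
      have h2 : q % p = 1 % p := hmod
      rw [Nat.mod_eq_of_lt hqp, Nat.mod_eq_of_lt hp.one_lt] at h2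
      exact hq.ne_one h2
  have : Subsingleton (Sylow p K) := (Nat.card_eq_one_iff_unique.mp hone).1
  exact ⟨P, Sylow.characteristic_of_subsingleton P, hPcard⟩

theorem exists_normal_card_eq_of_maximal_prime : ∀ (n : ℕ) (G : Type u) [Group G] [Finite G],
    Nat.card G = n → Cfsg.IsSupersolvable G → ∀ p : ℕ, p.Prime → p ∣ Nat.card G →
    (∀ q : ℕ, q.Prime → q ∣ Nat.card G → q ≤ p) → ∃ N : Subgroup G, N.Normal ∧ Nat.card N = p := by
  intro n
  induction n using Nat.strong_induction_on with
  | _ n ih =>
    intro G _ _ hn hG p hp hpd hmax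
    have hnt : Nontrivial G := by
      rw [← Finite.one_lt_card_iff_nontrivial]
      exact lt_of_lt_of_le hp.one_lt (Nat.le_of_dvd Nat.card_pos hpd)
    obtain ⟨N0, hN0n, hN0p⟩ := exists_normal_prime_card hG
    by_cases hqp : Nat.card N0 = p
    · exact ⟨N0, hN0n, hqp⟩
    · have hqd : Nat.card N0 ∣ Nat.card G := Subgroup.card_subgroup_dvd_card N0
      have hlt : Nat.card N0 < p := lt_of_le_of_ne (hmax _ hN0p hqd) hqp
      have hN0bot : N0 ≠ ⊥ := by
        intro h
        rw [h, Subgroup.card_bot] at hN0p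
        exact Nat.not_prime_one hN0p
      have hcardlt := card_quotient_lt N0 hN0bot
      have hQ : Cfsg.IsSupersolvable (G ⧸ N0) :=
        isSupersolvable_of_surjective (QuotientGroup.mk' N0) (QuotientGroup.mk'_surjective N0) hG
      have hcard := Subgroup.card_eq_card_quotient_mul_card_subgroup N0
      have hpQ : p ∣ Nat.card (G ⧸ N0) := by
        rw [hcard] at hpd
        rcases (Nat.Prime.dvd_mul hp).mp hpd with h | h
        · exact h
        · exfalso
          have := Nat.le_of_dvd hN0p.pos h
          omega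
      have hmaxQ : ∀ q : ℕ, q.Prime → q ∣ Nat.card (G ⧸ N0) → q ≤ p := by
        intro q hq hqd'
        apply hmax q hq
        rw [hcard]
        exact Dvd.dvd.mul_right hqd' _
      obtain ⟨Kb, hKbn, hKbc⟩ := ih (Nat.card (G ⧸ N0)) (hn ▸ hcardlt) (G ⧸ N0) rfl hQ p hp hpQ hmaxQ
      set K := Kb.comap (QuotientGroup.mk' N0) with hK
      have hKn : K.Normal := hKbn.comap _
      have hKcard : Nat.card K = p * Nat.card N0 := by
        rw [hK, card_comap_mk', hKbc]
      obtain ⟨P, hPc, hPcard⟩ := exists_char_card_prime_of_card_mul hp hN0p hlt hKcard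
      refine ⟨P.map K.subtype, inferInstance, ?_⟩
      rw [Subgroup.card_map_of_injective K.subtype_injective, hPcard]

theorem exists_maximal_prime {n : ℕ} (hn : 1 < n) :
    ∃ p : ℕ, p.Prime ∧ p ∣ n ∧ ∀ q : ℕ, q.Prime → q ∣ n → q ≤ p := by
  have hne : n.primeFactors.Nonempty := by
    rw [Nat.nonempty_primeFactors]; exact hn
  obtain ⟨p, hp, hmax⟩ := Finset.exists_max_image n.primeFactors id hne
  rw [Nat.mem_primeFactors] at hp
  refine ⟨p, hp.1, hp.2.1, fun q hq hqd => ?_⟩
  exact hmax q (Nat.mem_primeFactors.mpr ⟨hq, hqd, hp.2.2⟩)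

end Cfsg.Agent.Lib.helper3
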