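import Mathlib
import Cfsg.Agent.S0991
import Cfsg.Agent.Lib.helper3.Simple168
import Cfsg.Agent.Lib.helper3.Simple504
import Cfsg.Agent.Lib.helper3.UniqP

/-!
# The simple group of order 360: Sylow 3-subgroups

Sylow 3-subgroups are elementary abelian, self-centralising, with trivial pairwise
intersections, and their normalisers have order 36.
-/

set_option autoImplicit false
set_option linter.style.haveILetI false

namespace Cfsg.Agent.Lib.helper3.S360

open Cfsg.Agent.Lib.helper3

universe u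

variable {G : Type u} [Group G] [Finite G]

section
variable [IsSimpleGroup G] (h : Nat.card G = 360)
include h

theorem noncomm : ¬ IsMulCommutative G := S504.noncomm_of_not_prime (by rw [h]; norm_num)

theorem index_ge6 (M : Subgroup G) (hM : M ≠ ⊤) : 6 ≤ M.index := by
  obtain ⟨f, hf⟩ := Cfsg.Agent.S0991.result (noncomm h) M hM
  have h1 : Nat.card G ∣ Nat.card ↥(alternatingGroup (Fin M.index)) :=
    Subgroup.card_dvd_of_injective f hf
  have h2 : Nat.card ↥(alternatingGroup (Fin M.index)) ∣ Nat.card (Equiv.Perm (Fin M.index)) :=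
    Subgroup.card_subgroup_dvd_card _
  rw [Nat.card_perm, Nat.card_fin] at h2
  have h3 : 360 ∣ (M.index).factorial := by rw [← h]; exact h1.trans h2
  by_contra hlt
  have hcases : ∀ n < 6, ¬ 360 ∣ n.factorial := by decide
  exact hcases _ (by omega) h3

theorem card_le60 (M : Subgroup G) (hM : M ≠ ⊤) : Nat.card M ≤ 60 := by
  have h1 := Subgroup.card_mul_index M
  rw [h] at h1
  have h2 := index_ge6 h M hM
  have : Nat.card M * 6 ≤ Nat.card M * M.index := Nat.mul_le_mul_left _ h2
  omega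

theorem eq_top_of_card_gt (M : Subgroup G) (hM : 60 < Nat.card M) : M = ⊤ := by
  by_contra hne
  have := card_le60 h M hne
  omega

theorem not_normal_of_card (M : Subgroup G) (h1 : 1 < Nat.card M) (h2 : Nat.card M < 360) :
    ¬ M.Normal := by
  intro hn
  rcases hn.eq_bot_or_eq_top with hb | hb
  · rw [hb, Subgroup.card_bot] at h1; omega
  · rw [hb, Subgroup.card_top, h] at h2; omega

theorem norm_ne_top (M : Subgroup G) (h1 : 1 < Nat.card M) (h2 : Nat.card M < 360) :
    Subgroup.normalizer (M : Set G) ≠ ⊤ := fun ht =>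
  not_normal_of_card h M h1 h2 (Subgroup.normalizer_eq_top_iff.mp ht)

theorem card_syl2 (T : Sylow 2 G) : Nat.card (T : Subgroup G) = 8 := by
  have := S168.sylow_card_of (p := 2) 3 45 (by rw [h]; norm_num) (by norm_num) T
  simpa using this

theorem card_syl3 (P : Sylow 3 G) : Nat.card (P : Subgroup G) = 9 := by
  have := S168.sylow_card_of (p := 3) 2 40 (by rw [h]; norm_num) (by norm_num) P
  simpa using this

theorem syl3_comm (P : Sylow 3 G) (a b : G) (ha : a ∈ (P : Subgroup G))
    (hb : b ∈ (P : Subgroup G)) : a * b = b * a := by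
  have hc : IsMulCommutative (P : Subgroup G) :=
    IsPGroup.isMulCommutative_of_card_eq_prime_sq (p := 3) (by rw [card_syl3 h P]; norm_num)
  exact congrArg Subtype.val (hc.is_comm.comm ⟨a, ha⟩ ⟨b, hb⟩)

set_option maxRecDepth 8000 in
theorem n3 : Nat.card (Sylow 3 G) = 10 := by
  obtain ⟨P⟩ : Nonempty (Sylow 3 G) := inferInstance
  have hP := card_syl3 h P
  have hge : 6 ≤ Nat.card (Sylow 3 G) := by
    rw [Sylow.card_eq_index_normalizer P]
    exact index_ge6 h _ (norm_ne_top h _ (by rw [hP]; norm_num) (by rw [hP]; norm_num))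
  have hmod : Nat.card (Sylow 3 G) % 3 = 1 := card_sylow_modEq_one 3 G
  have hmul := S168.card_normalizer_mul P
  rw [h] at hmul
  have hdvd9 : 9 ∣ Nat.card (Subgroup.normalizer ((P : Subgroup G) : Set G)) := by
    have := Subgroup.card_dvd_of_le (Subgroup.le_normalizer (H := (P : Subgroup G)))
    rwa [hP] at this
  obtain ⟨k, hk⟩ := hdvd9
  have hk40 : k * Nat.card (Sylow 3 G) = 40 := by
    rw [hk] at hmul
    have : 9 * (k * Nat.card (Sylow 3 G)) = 9 * 40 := by rw [← mul_assoc]; exact hmul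
    exact Nat.eq_of_mul_eq_mul_left (by norm_num) this
  have hd : Nat.card (Sylow 3 G) ∣ 40 := Dvd.intro_left k hk40
  have hcases : ∀ d ∈ Nat.divisors 40, d % 3 = 1 → 6 ≤ d → d = 10 ∨ d = 40 := by decide
  rcases hcases _ (Nat.mem_divisors.mpr ⟨hd, by norm_num⟩) hmod hge with h10 | h40
  · exact h10
  · exfalso
    have hN9 : Nat.card (Subgroup.normalizer ((P : Subgroup G) : Set G)) = 9 := by
      rw [h40] at hk40; rw [hk]; omega
    have hNP : (P : Subgroup G) = Subgroup.normalizer ((P : Subgroup G) : Set G) :=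
      Subgroup.eq_of_le_of_card_ge Subgroup.le_normalizer (by rw [hN9, hP])
    apply S168.not_normalizer_le_centralizer P (S168.sylow_ne_bot P (by rw [hP]; norm_num))
      (by intro hb; rw [hb, Subgroup.card_top, h] at hP; omega)
    rw [← hNP]
    intro x hx
    rw [Subgroup.mem_centralizer_iff]
    intro y hy
    exact syl3_comm h P y x hy hx

theorem card_norm3 (P : Sylow 3 G) :
    Nat.card (Subgroup.normalizer ((P : Subgroup G) : Set G)) = 36 := by
  have := S168.card_normalizer_mul P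
  rw [n3 h, h] at this
  omega

set_option maxRecDepth 8000 in
/-- Distinct Sylow 3-subgroups intersect trivially. -/
theorem syl3_unique (x : G) (hx1 : x ≠ 1) (P P' : Sylow 3 G) (hx : x ∈ (P : Subgroup G))
    (hx' : x ∈ (P' : Subgroup G)) : P = P' := by
  by_contra hne
  have hP := card_syl3 h P
  have hP' := card_syl3 h P'
  have hd : orderOf x ∣ 3 ^ 2 := by
    have := Subgroup.orderOf_dvd_natCard _ hx
    rw [hP] at this
    norm_num
    exact this
  have h3 : 3 ∣ orderOf x := by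
    obtain ⟨i, -, hi⟩ := (Nat.dvd_prime_pow Nat.prime_three).mp hd
    rcases Nat.eq_zero_or_pos i with h0 | h0
    · rw [h0, pow_zero] at hi
      exact absurd (orderOf_eq_one_iff.mp hi) hx1
    · rw [hi]; exact dvd_pow_self 3 h0.ne'
  obtain ⟨y, hydef⟩ : ∃ y : G, y = x ^ (orderOf x / 3) := ⟨_, rfl⟩
  have hy : orderOf y = 3 := by
    rw [hydef]; exact orderOf_pow_orderOf_div (orderOf_pos x).ne' h3
  have hyP : y ∈ (P : Subgroup G) := by rw [hydef]; exact Subgroup.pow_mem _ hx _
  have hyP' : y ∈ (P' : Subgroup G) := by rw [hydef]; exact Subgroup.pow_mem _ hx' _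
  obtain ⟨K, hKdef⟩ : ∃ K : Subgroup G, K = Subgroup.centralizer {y} := ⟨_, rfl⟩
  have hmemK : ∀ x : G, x ∈ K ↔ y * x = x * y := by
    intro x
    rw [hKdef, Subgroup.mem_centralizer_iff]
    constructor
    · intro hx; exact hx y (Set.mem_singleton y)
    · intro hx z hz
      rw [Set.mem_singleton_iff.mp hz]; exact hx
  have hPK : (P : Subgroup G) ≤ K := fun x hx => (hmemK x).mpr (syl3_comm h P y x hyP hx)
  have hP'K : (P' : Subgroup G) ≤ K :=
    fun x hx => (hmemK x).mpr (syl3_comm h P' y x hyP' hx)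
  have hyK : y ∈ K := (hmemK y).mpr rfl
  have d9 : 9 ∣ Nat.card K := by
    have := Subgroup.card_dvd_of_le hPK
    rwa [hP] at this
  have dK : Nat.card K ∣ 360 := by rw [← h]; exact Subgroup.card_subgroup_dvd_card K
  have hKne : K ≠ ⊤ := by
    intro ht'
    have hnorm : (Subgroup.zpowers y).Normal := by
      constructor
      intro n hn g
      have hg : g ∈ K := by rw [ht']; trivial
      obtain ⟨k, rfl⟩ := Subgroup.mem_zpowers_iff.mp hn
      have hc : y * g = g * y := (hmemK g).mp hg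
      have hcomm : Commute g y := hc.symm
      rw [(hcomm.zpow_right k).eq, mul_inv_cancel_right]
      exact Subgroup.zpow_mem_zpowers y k
    exact not_normal_of_card h _ (by rw [Nat.card_zpowers, hy]; norm_num)
      (by rw [Nat.card_zpowers, hy]; norm_num) hnorm
  have hle := card_le60 h K hKne
  -- Sylow 3-subgroups of `K`
  have hsubP : Nat.card ↥((P.subtype hPK : Sylow 3 K) : Subgroup K) = 9 := by
    show Nat.card ↥((P : Subgroup G).subgroupOf K) = 9
    rw [Nat.card_congr (Subgroup.subgroupOfEquivOfLe hPK).toEquiv, hP]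
  have hn1 : Nat.card (Sylow 3 K) % 3 = 1 := card_sylow_modEq_one 3 K
  have hndvd : Nat.card (Sylow 3 K) ∣ ((P.subtype hPK : Sylow 3 K) : Subgroup K).index :=
    Sylow.card_dvd_index _
  have hne1 : 1 < Nat.card (Sylow 3 K) := by
    rw [Finite.one_lt_card_iff_nontrivial]
    exact ⟨⟨P.subtype hPK, P'.subtype hP'K, fun he => hne (Sylow.subtype_injective he)⟩⟩
  have hidx := Subgroup.card_mul_index ((P.subtype hPK : Sylow 3 K) : Subgroup K)
  rw [hsubP] at hidx
  obtain ⟨e, he⟩ := d9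
  have he40 : e ∣ 40 := Nat.dvd_of_mul_dvd_mul_left (by norm_num : 0 < 9)
    (show 9 * e ∣ 9 * 40 by rw [← he]; exact dK)
  have hidx' : ((P.subtype hPK : Sylow 3 K) : Subgroup K).index = e := by
    rw [he] at hidx
    exact Nat.eq_of_mul_eq_mul_left (by norm_num) hidx
  rw [hidx'] at hndvd
  have hcases : ∀ e ∈ Nat.divisors 40, 9 * e ≤ 60 → ∀ n ∈ Nat.divisors e, n % 3 = 1 → 1 < n →
      e = 4 ∧ n = 4 := by decide
  have he0 : e ≠ 0 := by rintro rfl; simp at he; have := Nat.card_pos (α := K); omega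
  obtain ⟨he4, hn4⟩ := hcases e (Nat.mem_divisors.mpr ⟨he40, by norm_num⟩) (by omega)
    _ (Nat.mem_divisors.mpr ⟨hndvd, he0⟩) hn1 hne1
  have hK36 : Nat.card K = 36 := by omega
  have hyo : orderOf (⟨y, hyK⟩ : K) = 3 := by
    rw [← Subgroup.orderOf_coe]; exact hy
  have hcen : ∀ k : K, k * ⟨y, hyK⟩ = ⟨y, hyK⟩ * k := by
    intro k
    apply Subtype.ext
    exact ((hmemK k.1).mp k.2).symm
  have hno : ∀ M : Subgroup K, M.Normal → Nat.card M ≠ 9 := by
    intro M hMn hM9
    have hcardeq : Nat.card M = 3 ^ (Nat.card K).factorization 3 := by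
      rw [hM9, ← hsubP]
      exact Sylow.card_eq_multiplicity (P.subtype hPK)
    have hun := Sylow.unique_of_normal (Sylow.ofCard M hcardeq) hMn
    have h1 : Nat.card (Sylow 3 K) = 1 := by
      haveI := hun
      exact Nat.card_unique
    omega
  obtain ⟨Q, hQn, hQ4⟩ := S504.lemmaA36 hK36 ⟨y, hyK⟩ hyo hcen hno
  have hQ' : Nat.card (Q.map K.subtype) = 4 :=
    (Nat.card_congr (Subgroup.equivMapOfInjective _ _
      (Subgroup.subtype_injective _)).symm.toEquiv).trans hQ4
  have hKN : K ≤ Subgroup.normalizer ((Q.map K.subtype : Subgroup G) : Set G) := by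
    have h1 := Subgroup.le_normalizer_map (H := Q) K.subtype
    rw [Subgroup.normalizer_eq_top_iff.mpr hQn, ← MonoidHom.range_eq_map,
      Subgroup.range_subtype] at h1
    exact h1
  obtain ⟨T, hQT⟩ :=
    (IsPGroup.of_card (p := 2) (n := 2) (by rw [hQ']; norm_num)).exists_le_sylow
  have hT := card_syl2 h T
  have hsub : Nat.card ((Q.map K.subtype).subgroupOf T) = 4 := by
    rw [Nat.card_congr (Subgroup.subgroupOfEquivOfLe hQT).toEquiv, hQ']
  have hidx2 : ((Q.map K.subtype).subgroupOf T).index = 2 := by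
    have := Subgroup.card_mul_index ((Q.map K.subtype).subgroupOf T)
    rw [hsub, hT] at this
    omega
  have hTN : (T : Subgroup G) ≤
      Subgroup.normalizer ((Q.map K.subtype : Subgroup G) : Set G) :=
    (Subgroup.normal_subgroupOf_iff_le_normalizer hQT).mp
      (Subgroup.normal_of_index_eq_two hidx2)
  have d36 := Subgroup.card_dvd_of_le hKN
  have d8 := Subgroup.card_dvd_of_le hTN
  rw [hK36] at d36
  rw [hT] at d8
  have d72 : 72 ∣ Nat.card (Subgroup.normalizer ((Q.map K.subtype : Subgroup G) : Set G)) := by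
    have d9'' : 9 ∣ Nat.card (Subgroup.normalizer ((Q.map K.subtype : Subgroup G) : Set G)) :=
      Dvd.dvd.trans (by norm_num) d36
    exact Nat.Coprime.mul_dvd_of_dvd_of_dvd (by norm_num : Nat.Coprime 9 8) d9'' d8
  have hposN : 0 < Nat.card (Subgroup.normalizer ((Q.map K.subtype : Subgroup G) : Set G)) :=
    Nat.card_pos
  have htop := eq_top_of_card_gt h
    (Subgroup.normalizer ((Q.map K.subtype : Subgroup G) : Set G)) (by
      have := Nat.le_of_dvd hposN d72
      omega)
  exact not_normal_of_card h _ (by rw [hQ']; norm_num) (by rw [hQ']; norm_num)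
    (Subgroup.normalizer_eq_top_iff.mp htop)

/-- A conjugate of a nontrivial element of `P` lying in the normaliser of `P` forces the
conjugating element into the normaliser. -/
theorem conj_mem_norm (P : Sylow 3 G) (g z : G) (hzP : z ∈ (P : Subgroup G)) (hz1 : z ≠ 1)
    (hn : g⁻¹ * z * g ∈ Subgroup.normalizer ((P : Subgroup G) : Set G)) :
    g ∈ Subgroup.normalizer ((P : Subgroup G) : Set G) := by
  have hd : orderOf z ∣ 3 ^ 2 := by
    have := Subgroup.orderOf_dvd_natCard _ hzP
    rw [card_syl3 h P] at this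
    norm_num
    exact this
  obtain ⟨i, -, hi⟩ := (Nat.dvd_prime_pow Nat.prime_three).mp hd
  have hpg : IsPGroup 3 ↥(Subgroup.zpowers (g⁻¹ * z * g)) :=
    IsPGroup.of_card (n := i) (by rw [Nat.card_zpowers, S168.orderOf_conj_eq', hi])
  have hinf := hpg.inf_normalizer_sylow P
  have hnP : g⁻¹ * z * g ∈ (P : Subgroup G) := by
    have h2 : g⁻¹ * z * g ∈ Subgroup.zpowers (g⁻¹ * z * g) ⊓ (P : Subgroup G) := by
      rw [← hinf]
      exact Subgroup.mem_inf.mpr ⟨Subgroup.mem_zpowers _, hn⟩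
    exact (Subgroup.mem_inf.mp h2).2
  have hzP' : z ∈ ((g • P : Sylow 3 G) : Subgroup G) := (S168.mem_smul_syl g P z).mpr hnP
  have hPP := syl3_unique h z hz1 P (g • P) hzP hzP'
  exact Sylow.smul_eq_iff_mem_normalizer.mp hPP.symm

theorem exists_not_mem (P : Sylow 3 G) :
    ∃ g₀ : G, g₀ ∉ Subgroup.normalizer ((P : Subgroup G) : Set G) := by
  by_contra hall
  have htop : Subgroup.normalizer ((P : Subgroup G) : Set G) = ⊤ :=
    (Subgroup.eq_top_iff' _).mpr (fun g => by_contra (fun hg => hall ⟨g, hg⟩))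
  have := card_norm3 h P
  rw [htop, Subgroup.card_top, h] at this
  omega

/-- `P` acts regularly on the cosets of its normaliser other than the normaliser itself. -/
theorem coset_inj (P : Sylow 3 G) (g₀ : G)
    (hg₀ : g₀ ∉ Subgroup.normalizer ((P : Subgroup G) : Set G))
    (x x' : G) (hx : x ∈ (P : Subgroup G)) (hx' : x' ∈ (P : Subgroup G))
    (he : ((x * g₀ : G) : G ⧸ Subgroup.normalizer ((P : Subgroup G) : Set G)) =
      ((x' * g₀ : G) : G ⧸ Subgroup.normalizer ((P : Subgroup G) : Set G))) : x = x' := by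
  rw [QuotientGroup.eq] at he
  by_contra hne
  apply hg₀
  apply conj_mem_norm h P g₀ (x⁻¹ * x')
  · exact Subgroup.mul_mem _ (Subgroup.inv_mem _ hx) hx'
  · intro h1
    apply hne
    calc x = x * (x⁻¹ * x') := by rw [h1, mul_one]
      _ = x' := by group
  · have e : g₀⁻¹ * (x⁻¹ * x') * g₀ = (x * g₀)⁻¹ * (x' * g₀) := by group
    rw [e]; exact he

theorem coset_surj (P : Sylow 3 G) (g₀ : G)
    (hg₀ : g₀ ∉ Subgroup.normalizer ((P : Subgroup G) : Set G))
    (g : G) (hg : g ∉ Subgroup.normalizer ((P : Subgroup G) : Set G)) :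
    ∃ x ∈ (P : Subgroup G), ((g : G) : G ⧸ Subgroup.normalizer ((P : Subgroup G) : Set G)) =
      ((x * g₀ : G) : G ⧸ Subgroup.normalizer ((P : Subgroup G) : Set G)) := by
  obtain ⟨N, hN⟩ : ∃ N : Subgroup G, N = Subgroup.normalizer ((P : Subgroup G) : Set G) :=
    ⟨_, rfl⟩
  rw [← hN] at hg₀ hg ⊢
  have hPN : (P : Subgroup G) ≤ N := by rw [hN]; exact Subgroup.le_normalizer
  obtain ⟨f, hf⟩ : ∃ f : Option ↥(P : Subgroup G) → G ⧸ N,
      f none = ((1 : G) : G ⧸ N) ∧ ∀ x : ↥(P : Subgroup G), f (some x) = ((x.1 * g₀ : G) : G ⧸ N) :=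
    ⟨fun q => match q with
      | none => ((1 : G) : G ⧸ N)
      | some x => ((x.1 * g₀ : G) : G ⧸ N), rfl, fun _ => rfl⟩
  have hinj : Function.Injective f := by
    intro a b hab
    rcases a with _ | x <;> rcases b with _ | y
    · rfl
    · exfalso
      rw [hf.1, hf.2, QuotientGroup.eq] at hab
      apply hg₀
      have e : g₀ = (y.1)⁻¹ * (1⁻¹ * (y.1 * g₀)) := by group
      rw [e]; exact Subgroup.mul_mem _ (Subgroup.inv_mem _ (hPN y.2)) hab
    · exfalso
      rw [hf.1, hf.2, QuotientGroup.eq] at hab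
      apply hg₀
      have e : g₀ = (x.1)⁻¹ * ((x.1 * g₀)⁻¹ * 1)⁻¹ := by group
      rw [e]; exact Subgroup.mul_mem _ (Subgroup.inv_mem _ (hPN x.2)) (Subgroup.inv_mem _ hab)
    · rw [hf.2, hf.2, hN] at hab
      have := coset_inj h P g₀ (by rw [← hN]; exact hg₀) x.1 y.1 x.2 y.2 hab
      exact congrArg some (Subtype.ext this)
  have hcardΩ : Nat.card (G ⧸ N) = 10 := by
    have h1 := Subgroup.card_mul_index N
    rw [hN, card_norm3 h P, h] at h1
    have h2 : (Subgroup.normalizer ((P : Subgroup G) : Set G)).index = 10 := by omega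
    rw [hN]; exact h2
  have hcardO : Nat.card (Option ↥(P : Subgroup G)) = 10 := by
    rw [Finite.card_option, card_syl3 h P]
  have hbij : Function.Bijective f :=
    hinj.bijective_of_nat_card_le (by rw [hcardΩ, hcardO])
  obtain ⟨q, hq⟩ := hbij.2 ((g : G) : G ⧸ N)
  rcases q with _ | x
  · exfalso
    rw [hf.1, QuotientGroup.eq] at hq
    apply hg
    have e : g = 1⁻¹ * g := by group
    rw [e]; exact hq
  · exact ⟨x.1, x.2, by rw [← hq, hf.2]⟩

theorem faithful (P : Sylow 3 G) (g : G)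
    (hg : ∀ ω : G ⧸ Subgroup.normalizer ((P : Subgroup G) : Set G), g • ω = ω) : g = 1 := by
  obtain ⟨N, hN⟩ : ∃ N : Subgroup G, N = Subgroup.normalizer ((P : Subgroup G) : Set G) :=
    ⟨_, rfl⟩
  rw [← hN] at hg
  have hker : (MulAction.toPermHom G (G ⧸ N)).ker = ⊥ := by
    rcases (inferInstance :
      ((MulAction.toPermHom G (G ⧸ N)).ker).Normal).eq_bot_or_eq_top with hk | hk
    · exact hk
    · exfalso
      obtain ⟨g₀, hg₀⟩ := exists_not_mem h P
      rw [← hN] at hg₀
      have hmem : g₀ ∈ (MulAction.toPermHom G (G ⧸ N)).ker := by rw [hk]; trivial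
      have h1 : MulAction.toPermHom G (G ⧸ N) g₀ = 1 := MonoidHom.mem_ker.mp hmem
      have h2 : g₀ • ((1 : G) : G ⧸ N) = ((1 : G) : G ⧸ N) :=
        congrArg (fun σ : Equiv.Perm (G ⧸ N) => σ ((1 : G) : G ⧸ N)) h1
      have h3 : ((g₀ * 1 : G) : G ⧸ N) = ((1 : G) : G ⧸ N) := h2
      rw [QuotientGroup.eq] at h3
      apply hg₀
      have e : g₀ = ((g₀ * 1)⁻¹ * 1)⁻¹ := by group
      rw [e]; exact Subgroup.inv_mem _ h3
  have h1 : g ∈ (MulAction.toPermHom G (G ⧸ N)).ker := by
    rw [MonoidHom.mem_ker]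
    ext ω
    exact hg ω
  rw [hker, Subgroup.mem_bot] at h1
  exact h1

/-- `P` is self-centralising. -/
theorem cent_le (P : Sylow 3 G) (z : G)
    (hz : z ∈ Subgroup.centralizer ((P : Subgroup G) : Set G)) : z ∈ (P : Subgroup G) := by
  obtain ⟨g₀, hg₀⟩ := exists_not_mem h P
  have hzN : z ∈ Subgroup.normalizer ((P : Subgroup G) : Set G) :=
    Subgroup.centralizer_le_normalizer _ hz
  have hPN : (P : Subgroup G) ≤ Subgroup.normalizer ((P : Subgroup G) : Set G) :=
    Subgroup.le_normalizer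
  have hzg : z * g₀ ∉ Subgroup.normalizer ((P : Subgroup G) : Set G) := by
    intro hmem
    apply hg₀
    have e : g₀ = z⁻¹ * (z * g₀) := by group
    rw [e]; exact Subgroup.mul_mem _ (Subgroup.inv_mem _ hzN) hmem
  obtain ⟨w, hwP, hw⟩ := coset_surj h P g₀ hg₀ (z * g₀) hzg
  have hone : w⁻¹ * z = 1 := by
    apply faithful h P
    intro ω
    induction ω using QuotientGroup.induction_on with
    | H g' =>
      by_cases hg' : g' ∈ Subgroup.normalizer ((P : Subgroup G) : Set G)
      · show ((w⁻¹ * z * g' : G) : G ⧸ Subgroup.normalizer ((P : Subgroup G) : Set G)) = _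
        rw [QuotientGroup.eq]
        have e : (w⁻¹ * z * g')⁻¹ * g' = g'⁻¹ * (z⁻¹ * w) * g' := by group
        rw [e]
        exact Subgroup.mul_mem _ (Subgroup.mul_mem _ (Subgroup.inv_mem _ hg')
          (Subgroup.mul_mem _ (Subgroup.inv_mem _ hzN) (hPN hwP))) hg'
      · obtain ⟨x, hxP, hx⟩ := coset_surj h P g₀ hg₀ g' hg'
        rw [hx]
        show ((w⁻¹ * z * (x * g₀) : G) : G ⧸ Subgroup.normalizer ((P : Subgroup G) : Set G)) = _
        have hxz : x * z = z * x := (Subgroup.mem_centralizer_iff.mp hz) x hxP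
        have hxw : x * w⁻¹ = w⁻¹ * x := syl3_comm h P x w⁻¹ hxP (Subgroup.inv_mem _ hwP)
        have e : w⁻¹ * z * (x * g₀) = (x * w⁻¹) * (z * g₀) := by
          calc w⁻¹ * z * (x * g₀) = w⁻¹ * (z * x) * g₀ := by group
            _ = w⁻¹ * (x * z) * g₀ := by rw [hxz]
            _ = (w⁻¹ * x) * (z * g₀) := by group
            _ = (x * w⁻¹) * (z * g₀) := by rw [hxw]
        rw [e]
        have e2 : (((x * w⁻¹) * (z * g₀) : G) : G ⧸ Subgroup.normalizer ((P : Subgroup G) : Set G))
            = (x * w⁻¹) • (((z * g₀ : G)) : G ⧸ Subgroup.normalizer ((P : Subgroup G) : Set G)) :=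
          rfl
        rw [e2, hw]
        show (((x * w⁻¹) * (w * g₀) : G) : G ⧸ Subgroup.normalizer ((P : Subgroup G) : Set G)) = _
        have e3 : (x * w⁻¹) * (w * g₀) = x * g₀ := by group
        rw [e3]
  have : z = w := by
    calc z = w * (w⁻¹ * z) := by group
      _ = w := by rw [hone, mul_one]
  rw [this]; exact hwP

set_option maxRecDepth 8000 in
/-- `P` has exponent 3. -/
theorem exp3 (P : Sylow 3 G) (x : G) (hx : x ∈ (P : Subgroup G)) : x ^ 3 = 1 := by
  by_contra hx3
  have hP := card_syl3 h P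
  have hcN := card_norm3 h P
  have hd : orderOf x ∣ 9 := by
    have := Subgroup.orderOf_dvd_natCard _ hx
    rwa [hP] at this
  have ho : orderOf x = 9 := by
    have hcases : ∀ d ∈ Nat.divisors 9, d = 1 ∨ d = 3 ∨ d = 9 := by decide
    rcases hcases _ (Nat.mem_divisors.mpr ⟨hd, by norm_num⟩) with h1 | h1 | h1
    · exfalso; apply hx3
      rw [orderOf_eq_one_iff.mp h1, one_pow]
    · exfalso; apply hx3
      rw [← h1]; exact pow_orderOf_eq_one x
    · exact h1
  have hx9 : x ^ 9 = 1 := by rw [← ho]; exact pow_orderOf_eq_one x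
  have hPz : (P : Subgroup G) = Subgroup.zpowers x := by
    symm
    apply Subgroup.eq_of_le_of_card_ge
    · rw [Subgroup.zpowers_le]; exact hx
    · rw [Nat.card_zpowers, ho, hP]
  have hexp : ∀ n ∈ Subgroup.normalizer ((P : Subgroup G) : Set G),
      ∃ k : ℕ, n * x * n⁻¹ = x ^ k := by
    intro n hn
    have hmem : n * x * n⁻¹ ∈ Subgroup.zpowers x := by
      rw [← hPz]
      exact (Subgroup.mem_normalizer_iff.mp hn x).mp hx
    obtain ⟨k, hk⟩ := (Submonoid.mem_powers_iff _ _).mp (mem_powers_iff_mem_zpowers.mpr hmem)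
    exact ⟨k, hk.symm⟩
  -- a 2-element of the normaliser centralising `x` is trivial
  have hA : ∀ n ∈ Subgroup.normalizer ((P : Subgroup G) : Set G), n ^ 4 = 1 →
      n * x * n⁻¹ = x → n = 1 := by
    intro n _ hn4 hnx
    have hcomm : Commute n x := by
      show n * x = x * n
      calc n * x = n * x * n⁻¹ * n := by group
        _ = x * n := by rw [hnx]
    have hnC : n ∈ Subgroup.centralizer ((P : Subgroup G) : Set G) := by
      rw [Subgroup.mem_centralizer_iff]
      intro y hy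
      have hy' : y ∈ Subgroup.zpowers x := by rw [← hPz]; exact hy
      obtain ⟨j, rfl⟩ := Subgroup.mem_zpowers_iff.mp hy'
      exact ((hcomm.zpow_right j).eq).symm
    have hnP := cent_le h P n hnC
    have hn9 : n ^ 9 = 1 := by
      have h0 := congrArg Subtype.val
        (pow_card_eq_one' (G := ↥(P : Subgroup G)) (x := ⟨n, hnP⟩))
      rw [hP] at h0
      exact h0
    have hn8 : n ^ 8 = 1 := by
      have e : n ^ 8 = (n ^ 4) ^ 2 := by rw [← pow_mul]
      rw [e, hn4, one_pow]
    have e9 : n ^ 9 = n ^ 8 * n := pow_succ n 8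
    rw [hn9, hn8, one_mul] at e9
    exact e9.symm
  have hB : ∀ n ∈ Subgroup.normalizer ((P : Subgroup G) : Set G), n ^ 4 = 1 → n ≠ 1 →
      n * x * n⁻¹ = x⁻¹ := by
    intro n hn hn4 hn1
    obtain ⟨k, hk⟩ := hexp n hn
    have h1 := UP.conj_pow_iter x n k hk 4
    rw [hn4, one_mul, inv_one, mul_one] at h1
    have h2 : x ^ (k ^ 4) = x ^ 1 := by rw [← h1, pow_one]
    rw [pow_eq_pow_iff_modEq, ho] at h2
    have h3 := (ZMod.natCast_eq_natCast_iff _ _ _).mpr h2
    push_cast at h3
    have hcases : ∀ j : ZMod 9, j ^ 4 = 1 → j = ((1 : ℕ) : ZMod 9) ∨ j = ((8 : ℕ) : ZMod 9) := by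
      decide
    rcases hcases _ h3 with h4 | h4
    · exfalso
      apply hn1
      apply hA n hn hn4
      have h5 := (ZMod.natCast_eq_natCast_iff _ _ _).mp h4
      have h6 : x ^ k = x ^ 1 := by rw [pow_eq_pow_iff_modEq, ho]; exact h5
      rw [hk, h6, pow_one]
    · have h5 := (ZMod.natCast_eq_natCast_iff _ _ _).mp h4
      have h6 : x ^ k = x ^ 8 := by rw [pow_eq_pow_iff_modEq, ho]; exact h5
      rw [hk, h6]
      have e9 : x ^ 9 = x ^ 8 * x := pow_succ x 8
      rw [hx9] at e9
      exact eq_inv_of_mul_eq_one_left e9.symm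
  -- a Sylow 2-subgroup of the normaliser
  obtain ⟨T⟩ : Nonempty (Sylow 2 ↥(Subgroup.normalizer ((P : Subgroup G) : Set G))) :=
    inferInstance
  have hT : Nat.card (T : Subgroup ↥(Subgroup.normalizer ((P : Subgroup G) : Set G))) = 4 := by
    have := S168.sylow_card_of (p := 2) 2 9 (by rw [hcN]; norm_num) (by norm_num) T
    simpa using this
  have hT4 : ∀ t : ↥(T : Subgroup ↥(Subgroup.normalizer ((P : Subgroup G) : Set G))),
      ((t : ↥(Subgroup.normalizer ((P : Subgroup G) : Set G))) : G) ^ 4 = 1 := by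
    intro t
    have h0 := pow_card_eq_one' (G := ↥(T : Subgroup ↥(Subgroup.normalizer
      ((P : Subgroup G) : Set G)))) (x := t)
    rw [hT] at h0
    have h1 := congrArg (fun s : ↥(T : Subgroup ↥(Subgroup.normalizer
      ((P : Subgroup G) : Set G))) => ((s : ↥(Subgroup.normalizer
      ((P : Subgroup G) : Set G))) : G)) h0
    simpa using h1
  have hval : ∀ t : ↥(T : Subgroup ↥(Subgroup.normalizer ((P : Subgroup G) : Set G))),
      ((t : ↥(Subgroup.normalizer ((P : Subgroup G) : Set G))) : G) = 1 → t = 1 := by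
    intro t ht
    apply Subtype.ext
    apply Subtype.ext
    simpa using ht
  haveI : Fintype ↥(T : Subgroup ↥(Subgroup.normalizer ((P : Subgroup G) : Set G))) :=
    Fintype.ofFinite _
  obtain ⟨a, b, c, hab, hac, hbc⟩ := Fintype.two_lt_card_iff.mp
    (show 2 < Fintype.card ↥(T : Subgroup ↥(Subgroup.normalizer ((P : Subgroup G) : Set G))) by
      rw [← Nat.card_eq_fintype_card, hT]; norm_num)
  obtain ⟨t1, t2, h12, h11, h21⟩ : ∃ t1 t2 :
      ↥(T : Subgroup ↥(Subgroup.normalizer ((P : Subgroup G) : Set G))),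
      t1 ≠ t2 ∧ t1 ≠ 1 ∧ t2 ≠ 1 := by
    by_cases ha : a = 1
    · exact ⟨b, c, hbc, fun hb => hab (ha.trans hb.symm), fun hc => hac (ha.trans hc.symm)⟩
    · by_cases hb : b = 1
      · exact ⟨a, c, hac, ha, fun hc => hbc (hb.trans hc.symm)⟩
      · exact ⟨a, b, hab, ha, hb⟩
  have e1 := hB _ (t1 : ↥(Subgroup.normalizer ((P : Subgroup G) : Set G))).2 (hT4 t1)
    (fun hh => h11 (hval t1 hh))
  have e2 := hB _ (t2 : ↥(Subgroup.normalizer ((P : Subgroup G) : Set G))).2 (hT4 t2)
    (fun hh => h21 (hval t2 hh))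
  have hxinv : ∀ s : G, s * x * s⁻¹ = x⁻¹ → s * x⁻¹ * s⁻¹ = x := by
    intro s hs
    have : s * x⁻¹ * s⁻¹ = (s * x * s⁻¹)⁻¹ := by group
    rw [this, hs, inv_inv]
  have e12 := hA _ ((t1 * t2 : ↥(T : Subgroup ↥(Subgroup.normalizer
    ((P : Subgroup G) : Set G)))) : ↥(Subgroup.normalizer ((P : Subgroup G) : Set G))).2
    (hT4 (t1 * t2)) (by
      have e : (((t1 * t2 : ↥(T : Subgroup ↥(Subgroup.normalizer
          ((P : Subgroup G) : Set G)))) : ↥(Subgroup.normalizer ((P : Subgroup G) : Set G))) : G) =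
          ((t1 : ↥(Subgroup.normalizer ((P : Subgroup G) : Set G))) : G) *
          ((t2 : ↥(Subgroup.normalizer ((P : Subgroup G) : Set G))) : G) := rfl
      rw [e]
      have e' : ∀ s1 s2 : G, s1 * s2 * x * (s1 * s2)⁻¹ = s1 * (s2 * x * s2⁻¹) * s1⁻¹ := by
        intro s1 s2; group
      rw [e', e2, hxinv _ e1])
  have e11 := hA _ ((t1 * t1 : ↥(T : Subgroup ↥(Subgroup.normalizer
    ((P : Subgroup G) : Set G)))) : ↥(Subgroup.normalizer ((P : Subgroup G) : Set G))).2
    (hT4 (t1 * t1)) (by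
      have e : (((t1 * t1 : ↥(T : Subgroup ↥(Subgroup.normalizer
          ((P : Subgroup G) : Set G)))) : ↥(Subgroup.normalizer ((P : Subgroup G) : Set G))) : G) =
          ((t1 : ↥(Subgroup.normalizer ((P : Subgroup G) : Set G))) : G) *
          ((t1 : ↥(Subgroup.normalizer ((P : Subgroup G) : Set G))) : G) := rfl
      rw [e]
      have e' : ∀ s1 s2 : G, s1 * s2 * x * (s1 * s2)⁻¹ = s1 * (s2 * x * s2⁻¹) * s1⁻¹ := by
        intro s1 s2; group
      rw [e', e1, hxinv _ e1])
  apply h12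
  have f12 := hval (t1 * t2) e12
  have f11 := hval (t1 * t1) e11
  calc t1 = t1 * (t1 * t2) := by rw [f12, mul_one]
    _ = (t1 * t1) * t2 := by group
    _ = t2 := by rw [f11, one_mul]

/-- two distinct nontrivial 2-elements of the normaliser of `P` lying in a common subgroup of
order 4 -/
theorem two_elts (P : Sylow 3 G) : ∃ t1 t2 : G,
    t1 ∈ Subgroup.normalizer ((P : Subgroup G) : Set G) ∧
    t2 ∈ Subgroup.normalizer ((P : Subgroup G) : Set G) ∧ t1 ≠ t2 ∧ t1 ≠ 1 ∧ t2 ≠ 1 ∧
    t1 ^ 4 = 1 ∧ t2 ^ 4 = 1 ∧ (t1 * t2) ^ 4 = 1 ∧ (t1 * t1) ^ 4 = 1 := by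
  have hcN := card_norm3 h P
  obtain ⟨T⟩ : Nonempty (Sylow 2 ↥(Subgroup.normalizer ((P : Subgroup G) : Set G))) :=
    inferInstance
  have hT : Nat.card (T : Subgroup ↥(Subgroup.normalizer ((P : Subgroup G) : Set G))) = 4 := by
    have := S168.sylow_card_of (p := 2) 2 9 (by rw [hcN]; norm_num) (by norm_num) T
    simpa using this
  have hT4 : ∀ t : ↥(T : Subgroup ↥(Subgroup.normalizer ((P : Subgroup G) : Set G))),
      ((t : ↥(Subgroup.normalizer ((P : Subgroup G) : Set G))) : G) ^ 4 = 1 := by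
    intro t
    have h0 := pow_card_eq_one' (G := ↥(T : Subgroup ↥(Subgroup.normalizer
      ((P : Subgroup G) : Set G)))) (x := t)
    rw [hT] at h0
    have h1 := congrArg (fun s : ↥(T : Subgroup ↥(Subgroup.normalizer
      ((P : Subgroup G) : Set G))) => ((s : ↥(Subgroup.normalizer
      ((P : Subgroup G) : Set G))) : G)) h0
    simpa using h1
  have hval : ∀ t : ↥(T : Subgroup ↥(Subgroup.normalizer ((P : Subgroup G) : Set G))),
      ((t : ↥(Subgroup.normalizer ((P : Subgroup G) : Set G))) : G) = 1 → t = 1 := by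
    intro t ht
    apply Subtype.ext
    apply Subtype.ext
    simpa using ht
  haveI : Fintype ↥(T : Subgroup ↥(Subgroup.normalizer ((P : Subgroup G) : Set G))) :=
    Fintype.ofFinite _
  obtain ⟨a, b, c, hab, hac, hbc⟩ := Fintype.two_lt_card_iff.mp
    (show 2 < Fintype.card ↥(T : Subgroup ↥(Subgroup.normalizer ((P : Subgroup G) : Set G))) by
      rw [← Nat.card_eq_fintype_card, hT]; norm_num)
  obtain ⟨t1, t2, h12, h11, h21⟩ : ∃ t1 t2 :
      ↥(T : Subgroup ↥(Subgroup.normalizer ((P : Subgroup G) : Set G))),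
      t1 ≠ t2 ∧ t1 ≠ 1 ∧ t2 ≠ 1 := by
    by_cases ha : a = 1
    · exact ⟨b, c, hbc, fun hb => hab (ha.trans hb.symm), fun hc => hac (ha.trans hc.symm)⟩
    · by_cases hb : b = 1
      · exact ⟨a, c, hac, ha, fun hc => hbc (hb.trans hc.symm)⟩
      · exact ⟨a, b, hab, ha, hb⟩
  exact ⟨t1.1.1, t2.1.1, t1.1.2, t2.1.2, fun hh => h12 (Subtype.ext (Subtype.ext hh)),
    fun hh => h11 (hval t1 hh), fun hh => h21 (hval t2 hh), hT4 t1, hT4 t2, hT4 (t1 * t2),
    hT4 (t1 * t1)⟩

end

end Cfsg.Agent.Lib.helper3.S360
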