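import Mathlib
import Cfsg.Agent.Lib.helper3.A6a
import Cfsg.Agent.Lib.helper3.A6b

/-!
# The simple group of order 360 as a permutation group on the projective line over `F_9`
-/

set_option autoImplicit false
set_option linter.style.haveILetI false
set_option linter.unusedSectionVars false

namespace Cfsg.Agent.Lib.helper3.A6

open Cfsg.Agent.Lib.helper3

universe u

variable {G : Type u} [Group G] [Finite G]

theorem pow3 (x : G) (hx : x ^ 3 = 1) (m n : ℕ) (hmn : (m : ZMod 3) = (n : ZMod 3)) :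
    x ^ m = x ^ n := by
  have key : ∀ m : ℕ, x ^ m = x ^ (m % 3) := fun m => pow_eq_pow_mod m hx
  rw [key m, key n, (ZMod.natCast_eq_natCast_iff' m n 3).mp hmn]

/-- elements of the group generated by two commuting elements of order 3 -/
def E (u v : G) (a b : ZMod 3) : G := u ^ a.val * v ^ b.val

theorem E_upow (u v : G) (hu3 : u ^ 3 = 1) (k : ℕ) : u ^ k = E u v (k : ZMod 3) 0 := by
  unfold E
  rw [ZMod.val_zero, pow_zero, mul_one]
  exact pow3 u hu3 _ _ (by rw [ZMod.natCast_zmod_val])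

theorem E_one_zero (u v : G) : E u v 1 0 = u := by
  unfold E
  have e1 : (1 : ZMod 3).val = 1 := rfl
  rw [e1, ZMod.val_zero, pow_one, pow_zero, mul_one]

theorem E_zero_one (u v : G) : E u v 0 1 = v := by
  unfold E
  have e1 : (1 : ZMod 3).val = 1 := rfl
  rw [e1, ZMod.val_zero, pow_one, pow_zero, one_mul]

theorem E_zero (u v : G) : E u v 0 0 = 1 := by
  unfold E; rw [ZMod.val_zero, pow_zero, pow_zero, mul_one]

section basis

variable (u v : G) (hu3 : u ^ 3 = 1) (hv3 : v ^ 3 = 1) (huv : u * v = v * u)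
include hu3 hv3 huv

theorem E_mul (a b a' b' : ZMod 3) : E u v a b * E u v a' b' = E u v (a + a') (b + b') := by
  unfold E
  have hc : Commute u v := huv
  have e1 : u ^ (a + a').val = u ^ (a.val + a'.val) :=
    pow3 u hu3 _ _ (by
      rw [ZMod.natCast_zmod_val, Nat.cast_add, ZMod.natCast_zmod_val, ZMod.natCast_zmod_val])
  have e2 : v ^ (b + b').val = v ^ (b.val + b'.val) :=
    pow3 v hv3 _ _ (by
      rw [ZMod.natCast_zmod_val, Nat.cast_add, ZMod.natCast_zmod_val, ZMod.natCast_zmod_val])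
  rw [e1, e2, pow_add, pow_add]
  have hc' : v ^ b.val * u ^ a'.val = u ^ a'.val * v ^ b.val := ((hc.pow_pow a'.val b.val).eq).symm
  calc u ^ a.val * v ^ b.val * (u ^ a'.val * v ^ b'.val)
      = u ^ a.val * (v ^ b.val * u ^ a'.val) * v ^ b'.val := by simp only [mul_assoc]
    _ = u ^ a.val * (u ^ a'.val * v ^ b.val) * v ^ b'.val := by rw [hc']
    _ = u ^ a.val * u ^ a'.val * (v ^ b.val * v ^ b'.val) := by simp only [mul_assoc]

theorem E_pow (a b : ZMod 3) (k : ℕ) : E u v a b ^ k = E u v (k * a) (k * b) := by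
  induction k with
  | zero => rw [pow_zero, Nat.cast_zero, zero_mul, zero_mul, E_zero]
  | succ k ih =>
    rw [pow_succ, ih, E_mul u v hu3 hv3 huv]
    have e1 : (k : ZMod 3) * a + a = ((k + 1 : ℕ) : ZMod 3) * a := by push_cast; ring
    have e2 : (k : ZMod 3) * b + b = ((k + 1 : ℕ) : ZMod 3) * b := by push_cast; ring
    rw [e1, e2]

theorem E_inj (hu1 : u ≠ 1) (hvu : ∀ k : ℕ, v ≠ u ^ k) (a b a' b' : ZMod 3)
    (he : E u v a b = E u v a' b') : a = a' ∧ b = b' := by
  have key : ∀ c d : ZMod 3, E u v c d = 1 → c = 0 ∧ d = 0 := by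
    intro c d hcd
    unfold E at hcd
    have hcs : ∀ x : ZMod 3, x = 0 ∨ x = 1 ∨ x = 2 := by decide
    have v1 : (1 : ZMod 3).val = 1 := rfl
    have v2 : (2 : ZMod 3).val = 2 := rfl
    have hinvu : ∀ m : ℕ, (u ^ m)⁻¹ = u ^ (2 * m) := by
      intro m
      apply inv_eq_of_mul_eq_one_right
      rw [← pow_add]
      have e : m + 2 * m = 3 * m := by ring
      rw [e, pow_mul, hu3, one_pow]
    rcases hcs d with rfl | rfl | rfl
    · rw [ZMod.val_zero, pow_zero, mul_one] at hcd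
      refine ⟨?_, rfl⟩
      rcases hcs c with rfl | rfl | rfl
      · rfl
      · exfalso; rw [v1, pow_one] at hcd; exact hu1 hcd
      · exfalso
        rw [v2] at hcd
        have e3 : u ^ 3 = u ^ 2 * u := pow_succ u 2
        rw [hu3, hcd, one_mul] at e3
        exact hu1 e3.symm
    · exfalso
      rw [v1, pow_one] at hcd
      have h1 : v = (u ^ c.val)⁻¹ := eq_inv_of_mul_eq_one_right hcd
      rw [hinvu] at h1
      exact hvu _ h1
    · exfalso
      rw [v2] at hcd
      have h1 : v ^ 2 = (u ^ c.val)⁻¹ := eq_inv_of_mul_eq_one_right hcd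
      rw [hinvu] at h1
      have e4 : v ^ 4 = v ^ 3 * v := pow_succ v 3
      rw [hv3, one_mul] at e4
      have e5 : v ^ 4 = (v ^ 2) ^ 2 := by rw [← pow_mul]
      rw [e4, h1, ← pow_mul] at e5
      exact hvu _ e5
  have h2 := E_mul u v hu3 hv3 huv a b (-a') (-b')
  have h3 := E_mul u v hu3 hv3 huv a' b' (-a') (-b')
  rw [he, h3, add_neg_cancel, add_neg_cancel, E_zero] at h2
  obtain ⟨k1, k2⟩ := key _ _ h2.symm
  exact ⟨add_neg_eq_zero.mp k1, add_neg_eq_zero.mp k2⟩

end basis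

/-- the permutation representation transported along a labelling -/
noncomputable def rho {Ω : Type*} [MulAction G Ω] (e : X ≃ Ω) : G →* Equiv.Perm X :=
  (e.symm.permCongrHom : Equiv.Perm Ω ≃* Equiv.Perm X).toMonoidHom.comp
    (MulAction.toPermHom G Ω)

theorem rho_apply {Ω : Type*} [MulAction G Ω] (e : X ≃ Ω) (g : G) (q : X) :
    rho e g q = e.symm (g • e q) := rfl

theorem rho_eq' {Ω : Type*} [MulAction G Ω] (e : X ≃ Ω) (g : G) (q q' : X)
    (h : g • e q = e q') : rho e g q = q' := by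
  rw [rho_apply, h, Equiv.symm_apply_apply]

theorem bridge (σ : Equiv.Perm X) (h2 : σ * σ = 1) (h1 : σ ≠ 1)
    (hs : Equiv.Perm.sign σ = 1) : fixc σ % 4 = 2 := by
  have ho : orderOf σ = 2 := orderOf_eq_prime (by rw [pow_two]; exact h2) h1
  obtain ⟨n, hn⟩ := Equiv.Perm.cycleType_prime_order (σ := σ) (by rw [ho]; exact Nat.prime_two)
  rw [ho] at hn
  have hsupp : σ.support.card = (n + 1) * 2 := by
    rw [← Equiv.Perm.sum_cycleType, hn, Multiset.sum_replicate, smul_eq_mul]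
  have hsign := Equiv.Perm.sign_of_cycleType σ
  rw [hs, hn, Multiset.sum_replicate, Multiset.card_replicate, smul_eq_mul] at hsign
  have hev : Even ((n + 1) * 2 + (n + 1)) :=
    (neg_one_pow_eq_one_iff_even (by decide : (-1 : ℤˣ) ≠ 1)).mp hsign.symm
  have hfix : fixc σ + σ.support.card = 10 := by
    unfold fixc
    have h3 := Finset.card_filter_add_card_filter_not (s := (Finset.univ : Finset X))
      (fun q => σ q = q)
    have e : (Finset.univ.filter (fun q => ¬ σ q = q)) = σ.support := by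
      ext q; simp [Equiv.Perm.mem_support]
    rw [e] at h3
    rw [h3]; rfl
  obtain ⟨m, hm⟩ := hev
  omega

/-- The labelled permutation representation on the cosets of the normaliser of a Sylow
3-subgroup. -/
theorem lab [IsSimpleGroup G] (hG : Nat.card G = 360) (P : Sylow 3 G)
    (u v : G) (huP : u ∈ (P : Subgroup G)) (hvP : v ∈ (P : Subgroup G))
    (hu3 : u ^ 3 = 1) (hv3 : v ^ 3 = 1) (huv : u * v = v * u)
    (hinj : ∀ a b a' b' : ZMod 3, E u v a b = E u v a' b' → a = a' ∧ b = b')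
    (g₀ : G) (hg₀ : g₀ ∉ Subgroup.normalizer ((P : Subgroup G) : Set G)) :
    ∃ ρ : G →* Equiv.Perm X, Function.Injective ρ ∧ (∀ g, Equiv.Perm.sign (ρ g) = 1) ∧
      (∀ g, ρ g none = none → g ∈ Subgroup.normalizer ((P : Subgroup G) : Set G)) ∧
      (∀ a b q, ρ (E u v a b) q = tr a b q) ∧
      ρ g₀ none = some (0, 0) ∧
      (∀ n ∈ Subgroup.normalizer ((P : Subgroup G) : Set G), ∃ α β γ δ w1 w2 : ZMod 3,
        ∀ q, ρ n q = aff α β γ δ w1 w2 q) := by
  have hcP := S360.card_syl3 hG P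
  have hcN := S360.card_norm3 hG P
  have hg₀' := hg₀
  obtain ⟨N, hN⟩ : ∃ N : Subgroup G, N = Subgroup.normalizer ((P : Subgroup G) : Set G) :=
    ⟨_, rfl⟩
  rw [← hN] at hg₀ hcN ⊢
  have hPN : (P : Subgroup G) ≤ N := by rw [hN]; exact Subgroup.le_normalizer
  have hEP : ∀ a b, E u v a b ∈ (P : Subgroup G) := fun a b =>
    Subgroup.mul_mem _ (Subgroup.pow_mem _ huP _) (Subgroup.pow_mem _ hvP _)
  have hEN : ∀ a b, E u v a b ∈ N := fun a b => hPN (hEP a b)
  have hEmul := E_mul u v hu3 hv3 huv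
  have hE0 : E u v 0 0 = 1 := E_zero u v
  have hL : Nat.card L = 9 := by rw [Nat.card_eq_fintype_card]; decide
  -- every element of P is some E a b
  have hbasis : ∀ x ∈ (P : Subgroup G), ∃ a b, x = E u v a b := by
    have hinj' : Function.Injective
        (fun w : L => (⟨E u v w.1 w.2, hEP w.1 w.2⟩ : ↥(P : Subgroup G))) := by
      intro w w' hww
      have := hinj w.1 w.2 w'.1 w'.2 (congrArg Subtype.val hww)
      exact Prod.ext this.1 this.2
    have hbij := hinj'.bijective_of_nat_card_le (le_of_eq (by rw [hcP, hL]))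
    intro x hx
    obtain ⟨w, hw⟩ := hbij.2 ⟨x, hx⟩
    exact ⟨w.1, w.2, (congrArg Subtype.val hw).symm⟩
  obtain ⟨lam, hlamN, hlamS⟩ : ∃ lam : X → G ⧸ N, lam none = ((1 : G) : G ⧸ N) ∧
      ∀ a b, lam (some (a, b)) = ((E u v a b * g₀ : G) : G ⧸ N) :=
    ⟨fun q => match q with
      | none => ((1 : G) : G ⧸ N)
      | some (a, b) => ((E u v a b * g₀ : G) : G ⧸ N), rfl, fun _ _ => rfl⟩
  have hlam0 : lam (some (0, 0)) = ((g₀ : G) : G ⧸ N) := by rw [hlamS, hE0, one_mul]
  have hlam_inj : Function.Injective lam := by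
    intro a b hab
    rcases a with _ | ⟨a1, a2⟩ <;> rcases b with _ | ⟨b1, b2⟩
    · rfl
    · exfalso
      rw [hlamN, hlamS, QuotientGroup.eq] at hab
      apply hg₀
      have e : g₀ = (E u v b1 b2)⁻¹ * (1⁻¹ * (E u v b1 b2 * g₀)) := by group
      rw [e]; exact Subgroup.mul_mem _ (Subgroup.inv_mem _ (hEN _ _)) hab
    · exfalso
      rw [hlamN, hlamS, QuotientGroup.eq] at hab
      apply hg₀
      have e : g₀ = (E u v a1 a2)⁻¹ * ((E u v a1 a2 * g₀)⁻¹ * 1)⁻¹ := by group
      rw [e]; exact Subgroup.mul_mem _ (Subgroup.inv_mem _ (hEN _ _)) (Subgroup.inv_mem _ hab)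
    · have hab' : ((E u v a1 a2 * g₀ : G) : G ⧸ Subgroup.normalizer ((P : Subgroup G) : Set G)) =
          ((E u v b1 b2 * g₀ : G) : G ⧸ Subgroup.normalizer ((P : Subgroup G) : Set G)) := by
        rw [← hN, ← hlamS, ← hlamS]; exact hab
      have h1 := S360.coset_inj hG P g₀ hg₀' _ _ (hEP a1 a2) (hEP b1 b2) hab'
      obtain ⟨h2, h3⟩ := hinj _ _ _ _ h1
      rw [h2, h3]
  have hcardΩ : Nat.card (G ⧸ N) = 10 := by
    have h1 := Subgroup.card_mul_index N
    rw [hcN, hG] at h1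
    have h2 : N.index = 10 := by omega
    rw [← h2]; rfl
  have hcardX : Nat.card X = 10 := by rw [Nat.card_eq_fintype_card]; decide
  have hbij : Function.Bijective lam :=
    hlam_inj.bijective_of_nat_card_le (le_of_eq (by rw [hcardΩ, hcardX]))
  have hsurj := hbij.2
  have hNfix : ∀ n ∈ N, n • lam none = lam none := by
    intro n hn
    rw [hlamN]
    show ((n * 1 : G) : G ⧸ N) = ((1 : G) : G ⧸ N)
    rw [QuotientGroup.eq]
    have e : (n * 1)⁻¹ * 1 = n⁻¹ := by group
    rw [e]; exact Subgroup.inv_mem _ hn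
  have hfixN : ∀ g : G, g • lam none = lam none → g ∈ N := by
    intro g hg
    rw [hlamN] at hg
    have hg' : ((g * 1 : G) : G ⧸ N) = ((1 : G) : G ⧸ N) := hg
    rw [QuotientGroup.eq] at hg'
    have e : g = ((g * 1)⁻¹ * 1)⁻¹ := by group
    rw [e]; exact Subgroup.inv_mem _ hg'
  -- translations
  have hEact : ∀ a b q, E u v a b • lam q = lam (tr a b q) := by
    intro a b q
    rcases q with _ | ⟨a', b'⟩
    · exact hNfix _ (hEN a b)
    · rw [hlamS]
      show ((E u v a b * (E u v a' b' * g₀) : G) : G ⧸ N) =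
        lam (some (1 * a' + 0 * b' + a, 0 * a' + 1 * b' + b))
      rw [hlamS, ← mul_assoc, hEmul]
      have e1 : a + a' = 1 * a' + 0 * b' + a := by ring
      have e2 : b + b' = 0 * a' + 1 * b' + b := by ring
      rw [e1, e2]
  -- elements of N act as affine maps
  have hact : ∀ n ∈ N, ∃ α β γ δ w1 w2 : ZMod 3,
      ∀ q, n • lam q = lam (aff α β γ δ w1 w2 q) := by
    intro n hn
    have hn' : n ∈ Subgroup.normalizer ((P : Subgroup G) : Set G) := by rw [← hN]; exact hn
    have hnu : n * u * n⁻¹ ∈ (P : Subgroup G) := (Subgroup.mem_normalizer_iff.mp hn' u).mp huP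
    have hnv : n * v * n⁻¹ ∈ (P : Subgroup G) := (Subgroup.mem_normalizer_iff.mp hn' v).mp hvP
    obtain ⟨α, β, hαβ⟩ := hbasis _ hnu
    obtain ⟨γ, δ, hγδ⟩ := hbasis _ hnv
    obtain ⟨q0, hq0⟩ := hsurj (n • lam (some (0, 0)))
    rcases q0 with _ | ⟨w1, w2⟩
    · exfalso
      have h1 : n • lam none = n • lam (some (0, 0)) := by rw [hNfix n hn, hq0]
      have h2 := hlam_inj (smul_left_cancel n h1)
      exact absurd h2.symm (Option.some_ne_none _)
    refine ⟨α, β, γ, δ, w1, w2, ?_⟩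
    intro q
    rcases q with _ | ⟨a, b⟩
    · exact hNfix n hn
    · have hconj : n * E u v a b * n⁻¹ = E u v (α * a + γ * b) (β * a + δ * b) := by
        have e0 : n * E u v a b * n⁻¹ = (n * u * n⁻¹) ^ a.val * (n * v * n⁻¹) ^ b.val := by
          unfold E
          rw [conj_pow, conj_pow]; group
        rw [e0, hαβ, hγδ, E_pow u v hu3 hv3 huv, E_pow u v hu3 hv3 huv, hEmul,
          ZMod.natCast_zmod_val, ZMod.natCast_zmod_val]
        have e1 : a * α + b * γ = α * a + γ * b := by ring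
        have e2 : a * β + b * δ = β * a + δ * b := by ring
        rw [e1, e2]
      have e1 : lam (some (a, b)) = E u v a b • lam (some (0, 0)) := by
        rw [hEact]
        show lam (some (a, b)) = lam (some (1 * 0 + 0 * 0 + a, 0 * 0 + 1 * 0 + b))
        have e1 : (1 : ZMod 3) * 0 + 0 * 0 + a = a := by ring
        have e2 : (0 : ZMod 3) * 0 + 1 * 0 + b = b := by ring
        rw [e1, e2]
      have e2 : n * E u v a b = E u v (α * a + γ * b) (β * a + δ * b) * n := by
        rw [← hconj]; group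
      rw [e1, smul_smul, e2, ← smul_smul, ← hq0, hEact]
      show lam (some (1 * w1 + 0 * w2 + (α * a + γ * b), 0 * w1 + 1 * w2 + (β * a + δ * b))) =
        lam (some (α * a + γ * b + w1, β * a + δ * b + w2))
      have e3 : 1 * w1 + 0 * w2 + (α * a + γ * b) = α * a + γ * b + w1 := by ring
      have e4 : 0 * w1 + 1 * w2 + (β * a + δ * b) = β * a + δ * b + w2 := by ring
      rw [e3, e4]
  -- faithfulness
  have hfaith : ∀ g g' : G, (∀ q, g • lam q = g' • lam q) → g = g' := by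
    intro g g' hgg
    have h1 : g'⁻¹ * g = 1 := by
      apply S360.faithful hG P
      rw [← hN]
      intro ω
      obtain ⟨q, rfl⟩ := hsurj ω
      rw [mul_smul, hgg q, inv_smul_smul]
    calc g = g' * (g'⁻¹ * g) := by group
      _ = g' := by rw [h1, mul_one]
  obtain ⟨e, he⟩ : ∃ e : X ≃ G ⧸ N, ∀ q, e q = lam q :=
    ⟨Equiv.ofBijective _ hbij, fun _ => rfl⟩
  refine ⟨rho e, ?_, ?_, ?_, ?_, ?_, ?_⟩
  · intro g g' hgg
    apply hfaith
    intro q
    have h1 : rho e g q = rho e g' q := by rw [hgg]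
    rw [rho_apply, rho_apply] at h1
    have h2 := e.symm.injective h1
    rw [he] at h2
    exact h2
  · intro g
    have hker : ((Equiv.Perm.sign : Equiv.Perm X →* ℤˣ).comp (rho (G := G) e)).ker = ⊤ := by
      rcases (inferInstance : (((Equiv.Perm.sign : Equiv.Perm X →* ℤˣ).comp
        (rho (G := G) e)).ker).Normal).eq_bot_or_eq_top with hk | hk
      · exfalso
        have hinj2 : Function.Injective
            ((Equiv.Perm.sign : Equiv.Perm X →* ℤˣ).comp (rho (G := G) e)) :=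
          (MonoidHom.ker_eq_bot_iff _).mp hk
        have hle := Nat.card_le_card_of_injective _ hinj2
        rw [hG, Nat.card_eq_fintype_card, Fintype.card_units_int] at hle
        omega
      · exact hk
    have hmem : g ∈ ((Equiv.Perm.sign : Equiv.Perm X →* ℤˣ).comp (rho (G := G) e)).ker := by
      rw [hker]; trivial
    exact MonoidHom.mem_ker.mp hmem
  · intro g hg
    rw [rho_apply] at hg
    have h1 := (Equiv.symm_apply_eq e).mp hg
    rw [he] at h1
    exact hfixN g h1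
  · intro a b q
    apply rho_eq'
    rw [he, he]
    exact hEact a b q
  · apply rho_eq'
    rw [he, he, hlamN, hlam0]
    show ((g₀ * 1 : G) : G ⧸ N) = _
    rw [mul_one]
  · intro n hn
    obtain ⟨α, β, γ, δ, w1, w2, hh⟩ := hact n hn
    exact ⟨α, β, γ, δ, w1, w2, fun q => rho_eq' e n q _ (by rw [he, he]; exact hh q)⟩

theorem cp_fix0 (k : ℕ) : cp k (some (0, 0)) = some (0, 0) := by
  induction k with
  | zero => rfl
  | succ k ih =>
    unfold cp at ih ⊢
    rw [Function.iterate_succ_apply]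
    have e : cf (some (0, 0)) = some (0, 0) := by decide
    rw [e]; exact ih

theorem tr_zero (y1 y2 : ZMod 3) : tr y1 y2 (some (0, 0)) = some (y1, y2) := by
  show some ((1 : ZMod 3) * 0 + 0 * 0 + y1, (0 : ZMod 3) * 0 + 1 * 0 + y2) = some (y1, y2)
  have e1 : (1 : ZMod 3) * 0 + 0 * 0 + y1 = y1 := by ring
  have e2 : (0 : ZMod 3) * 0 + 1 * 0 + y2 = y2 := by ring
  rw [e1, e2]

theorem tr00 : ∀ q : X, tr 0 0 q = q := by decide

set_option maxHeartbeats 1600000 in
/-- A simple group of order 360 is isomorphic to a fixed permutation group of degree 10. -/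
theorem main360 [IsSimpleGroup G] (hG : Nat.card G = 360) : Nonempty (G ≃* ↥(K 1 0)) := by
  obtain ⟨P⟩ : Nonempty (Sylow 3 G) := inferInstance
  have hcP := S360.card_syl3 hG P
  have hcN := S360.card_norm3 hG P
  have hexp3 := S360.exp3 hG P
  have hcomm := S360.syl3_comm hG P
  have hPN : (P : Subgroup G) ≤ Subgroup.normalizer ((P : Subgroup G) : Set G) :=
    Subgroup.le_normalizer
  -- a basis of P
  obtain ⟨u, huP, hu1⟩ : ∃ u ∈ (P : Subgroup G), u ≠ 1 := by
    by_contra hall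
    have hall' : ∀ u ∈ (P : Subgroup G), u = 1 :=
      fun u hu => by_contra (fun hne => hall ⟨u, hu, hne⟩)
    have : (P : Subgroup G) = ⊥ := (Subgroup.eq_bot_iff_forall _).mpr hall'
    rw [this, Subgroup.card_bot] at hcP
    omega
  have hu3 := hexp3 u huP
  obtain ⟨v, hvP, hvu⟩ : ∃ v ∈ (P : Subgroup G), ∀ k : ℕ, v ≠ u ^ k := by
    have hlt : Subgroup.zpowers u < (P : Subgroup G) := by
      apply lt_of_le_of_ne
      · rw [Subgroup.zpowers_le]; exact huP
      · intro heq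
        have hc : Nat.card (Subgroup.zpowers u) = 9 := by rw [heq, hcP]
        rw [Nat.card_zpowers] at hc
        have h3 : orderOf u ∣ 3 := orderOf_dvd_of_pow_eq_one hu3
        have := Nat.le_of_dvd (by norm_num) h3
        omega
    obtain ⟨v, hvP, hvn⟩ := SetLike.exists_of_lt hlt
    exact ⟨v, hvP, fun k hk =>
      hvn (by rw [hk]; exact Subgroup.pow_mem _ (Subgroup.mem_zpowers u) k)⟩
  have hv3 := hexp3 v hvP
  have huv := hcomm u v huP hvP
  have hinj1 := E_inj u v hu3 hv3 huv hu1 hvu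
  obtain ⟨g₀, hg₀⟩ := S360.exists_not_mem hG P
  obtain ⟨ρ₁, hρ₁inj, hρ₁sign, hρ₁N, hρ₁E, hρ₁g, hρ₁aff⟩ :=
    lab hG P u v huP hvP hu3 hv3 huv hinj1 g₀ hg₀
  -- an element of the normaliser of order 4
  have hpow4 : ∀ n : G, n ^ 4 = 1 → ∀ f : X → X, (∀ q, ρ₁ n q = f q) →
      ∀ q, f (f (f (f q))) = q := by
    intro n hn4 f hf q
    have h1 : ρ₁ (n ^ 4) q = q := by rw [hn4, map_one]; rfl
    have e : n ^ 4 = n * n * n * n := by rw [pow_succ, pow_succ, pow_succ, pow_one]
    rw [e] at h1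
    simp only [map_mul, Equiv.Perm.mul_apply, hf] at h1
    exact h1
  have hfour : ∀ n ∈ Subgroup.normalizer ((P : Subgroup G) : Set G), n ^ 4 = 1 → n ≠ 1 →
      (∃ α β γ δ w1 w2 : ZMod 3, (∀ q, ρ₁ n q = aff α β γ δ w1 w2 q) ∧
        (∀ q, aff α β γ δ w1 w2 (aff α β γ δ w1 w2 (aff α β γ δ w1 w2
          (aff α β γ δ w1 w2 q))) = q) ∧
        (∃ q, aff α β γ δ w1 w2 (aff α β γ δ w1 w2 q) ≠ q)) ∨
      (∃ w1 w2 : ZMod 3, ∀ q, ρ₁ n q = aff (-1) 0 0 (-1) w1 w2 q) := by
    intro n hn hn4 hn1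
    obtain ⟨α, β, γ, δ, w1, w2, hf⟩ := hρ₁aff n hn
    have h4 := hpow4 n hn4 _ hf
    by_cases hinv : ∀ q, aff α β γ δ w1 w2 (aff α β γ δ w1 w2 q) = q
    · right
      have hσ1 : ρ₁ n ≠ 1 := fun h1 => hn1 (hρ₁inj (by rw [h1, map_one]))
      have hne : ∃ q, aff α β γ δ w1 w2 q ≠ q := by
        by_contra hall
        apply hσ1
        ext q : 1
        rw [hf, Equiv.Perm.one_apply]
        by_contra hq
        exact hall ⟨q, hq⟩
      have hσ2 : ρ₁ n * ρ₁ n = 1 := by
        ext q : 1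
        rw [Equiv.Perm.mul_apply, hf, hf, hinv, Equiv.Perm.one_apply]
      have hb := bridge (ρ₁ n) hσ2 hσ1 (hρ₁sign n)
      have hfc : fixc (ρ₁ n) = fixc (aff α β γ δ w1 w2) := congrArg fixc (funext hf)
      rw [hfc] at hb
      obtain ⟨rfl, rfl, rfl, rfl⟩ := D_inv α β γ δ w1 w2 hinv hne hb
      exact ⟨w1, w2, hf⟩
    · left
      refine ⟨α, β, γ, δ, w1, w2, hf, h4, ?_⟩
      by_contra hall
      exact hinv (fun q => by_contra (fun hq => hall ⟨q, hq⟩))
  obtain ⟨c, hcN', α, β, γ, δ, w1, w2, hcf, hc4, hc2⟩ :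
      ∃ c ∈ Subgroup.normalizer ((P : Subgroup G) : Set G),
      ∃ α β γ δ w1 w2 : ZMod 3, (∀ q, ρ₁ c q = aff α β γ δ w1 w2 q) ∧
        (∀ q, aff α β γ δ w1 w2 (aff α β γ δ w1 w2 (aff α β γ δ w1 w2
          (aff α β γ δ w1 w2 q))) = q) ∧
        (∃ q, aff α β γ δ w1 w2 (aff α β γ δ w1 w2 q) ≠ q) := by
    obtain ⟨t1, t2, ht1N, ht2N, h12, h11, h21, h14, h24, h124, -⟩ := S360.two_elts hG P
    rcases hfour t1 ht1N h14 h11 with h1 | ⟨w1, w2, h1⟩
    · exact ⟨t1, ht1N, h1⟩
    · rcases hfour t2 ht2N h24 h21 with h2 | ⟨w1', w2', h2⟩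
      · exact ⟨t2, ht2N, h2⟩
      · exfalso
        apply h12
        have h4 := hpow4 _ h124
          (fun q => aff (-1) 0 0 (-1) w1 w2 (aff (-1) 0 0 (-1) w1' w2' q)) (by
            intro q
            rw [map_mul, Equiv.Perm.mul_apply, h2, h1])
        obtain ⟨e1, e2⟩ := D_neg w1 w2 w1' w2' h4
        apply hρ₁inj
        ext q : 1
        rw [h1, h2, e1, e2]
  obtain ⟨hO1, hO2, x1, x2, hO3⟩ := D_ord4 α β γ δ w1 w2 hc4 hc2
  have hρ₁u : ∀ q, ρ₁ u q = tr 1 0 q := by
    intro q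
    have := hρ₁E 1 0 q
    rwa [E_one_zero] at this
  have e2m : ((2 : ℕ) : ZMod 3) = -1 := by decide
  -- the square of c inverts u
  have hR1 : c * c * u * (c * c)⁻¹ = u ^ 2 := by
    have e : c * c * u = u ^ 2 * (c * c) := by
      apply hρ₁inj
      ext q : 1
      simp only [map_mul, Equiv.Perm.mul_apply]
      rw [hρ₁u, E_upow u v hu3 2, hρ₁E, e2m]
      simp only [hcf]
      exact hO1 q
    rw [e]; group
  have hR2 : ∀ k : ℕ, c * u * c⁻¹ ≠ u ^ k := by
    intro k hk
    have e : c * u = u ^ k * c := by rw [← hk]; group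
    obtain ⟨q, hq⟩ := hO2 (k : ZMod 3)
    apply hq
    have h1 := congrArg (fun g => ρ₁ g q) e
    simp only [map_mul, Equiv.Perm.mul_apply] at h1
    rw [hρ₁u, E_upow u v hu3 k, hρ₁E] at h1
    simp only [hcf] at h1
    exact h1
  -- a new base point, fixed by c
  obtain ⟨g₁, hg₁def⟩ : ∃ g₁ : G, g₁ = E u v x1 x2 * g₀ := ⟨_, rfl⟩
  have hEN₁ : E u v x1 x2 ∈ Subgroup.normalizer ((P : Subgroup G) : Set G) :=
    hPN (Subgroup.mul_mem _ (Subgroup.pow_mem _ huP _) (Subgroup.pow_mem _ hvP _))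
  have hg₁ : g₁ ∉ Subgroup.normalizer ((P : Subgroup G) : Set G) := by
    intro hmem
    apply hg₀
    have e : g₀ = (E u v x1 x2)⁻¹ * g₁ := by rw [hg₁def]; group
    rw [e]; exact Subgroup.mul_mem _ (Subgroup.inv_mem _ hEN₁) hmem
  have hρ₁g₁ : ρ₁ g₁ none = some (x1, x2) := by
    rw [hg₁def, map_mul, Equiv.Perm.mul_apply, hρ₁g, hρ₁E, tr_zero]
  obtain ⟨n₁, hn₁def⟩ : ∃ n₁ : G, n₁ = g₁⁻¹ * c * g₁ := ⟨_, rfl⟩
  have hn₁N : n₁ ∈ Subgroup.normalizer ((P : Subgroup G) : Set G) := by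
    apply hρ₁N
    rw [hn₁def]
    simp only [map_mul, Equiv.Perm.mul_apply]
    rw [hρ₁g₁, hcf, hO3, map_inv, Equiv.Perm.inv_eq_iff_eq, hρ₁g₁]
  -- the adapted basis
  obtain ⟨v', hv'def⟩ : ∃ v' : G, v' = c * u * c⁻¹ := ⟨_, rfl⟩
  have hv'P : v' ∈ (P : Subgroup G) := by
    rw [hv'def]; exact (Subgroup.mem_normalizer_iff.mp hcN' u).mp huP
  have hv'3 := hexp3 v' hv'P
  have huv' := hcomm u v' huP hv'P
  have hinj2 := E_inj u v' hu3 hv'3 huv' hu1 (by intro k; rw [hv'def]; exact hR2 k)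
  obtain ⟨ρ, hρinj, -, hρN, hρE, hρg, hρaff⟩ :=
    lab hG P u v' huP hv'P hu3 hv'3 huv' hinj2 g₁ hg₁
  have hρu : ∀ q, ρ u q = tr 1 0 q := by
    intro q
    have := hρE 1 0 q
    rwa [E_one_zero] at this
  have hρv : ∀ q, ρ v' q = tr 0 1 q := by
    intro q
    have := hρE 0 1 q
    rwa [E_zero_one] at this
  have hρNfix : ∀ n ∈ Subgroup.normalizer ((P : Subgroup G) : Set G), ρ n none = none := by
    intro n hn
    obtain ⟨α, β, γ, δ, w1, w2, hf⟩ := hρaff n hn
    rw [hf]; rfl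
  have hρc : ∀ q, ρ c q = cf q := by
    obtain ⟨α', β', γ', δ', w1', w2', hf⟩ := hρaff c hcN'
    have h1 : ∀ q, aff α' β' γ' δ' w1' w2' (tr 1 0 q) = tr 0 1 (aff α' β' γ' δ' w1' w2' q) := by
      intro q
      have e : c * u = v' * c := by rw [hv'def]; group
      have h := congrArg (fun g => ρ g q) e
      simp only [map_mul, Equiv.Perm.mul_apply] at h
      rw [hρu, hρv] at h
      simp only [hf] at h
      exact h
    have h2 : ∀ q, aff α' β' γ' δ' w1' w2' (tr 0 1 q) =
        tr (-1) 0 (aff α' β' γ' δ' w1' w2' q) := by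
      intro q
      have e : c * v' = u ^ 2 * c := by rw [hv'def, ← hR1]; group
      have h := congrArg (fun g => ρ g q) e
      simp only [map_mul, Equiv.Perm.mul_apply] at h
      rw [hρv, E_upow u v' hu3 2, hρE, e2m] at h
      simp only [hf] at h
      exact h
    have h3 : aff α' β' γ' δ' w1' w2' (some (0, 0)) = some (0, 0) := by
      have e : c * g₁ = g₁ * n₁ := by rw [hn₁def]; group
      have h := congrArg (fun g => ρ g none) e
      simp only [map_mul, Equiv.Perm.mul_apply] at h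
      rw [hρNfix n₁ hn₁N, hρg, hf] at h
      exact h
    intro q
    rw [hf]
    exact D_c _ _ _ _ _ _ h1 h2 h3 q
  have hρc' : ρ c = sc := by ext q : 1; rw [hρc]; rfl
  have hρcpow : ∀ (k : ℕ) q, ρ (c ^ k) q = cp k q := by
    intro k q
    rw [map_pow, hρc', sc_pow]
  -- the normaliser
  have hNform : ∀ n ∈ Subgroup.normalizer ((P : Subgroup G) : Set G),
      ∃ (z1 z2 : ZMod 3) (k : ℕ), k < 4 ∧ n = E u v' z1 z2 * c ^ k := by
    have hmem : ∀ w : L × Fin 4, E u v' w.1.1 w.1.2 * c ^ w.2.val ∈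
        Subgroup.normalizer ((P : Subgroup G) : Set G) := fun w =>
      Subgroup.mul_mem _ (hPN (Subgroup.mul_mem _ (Subgroup.pow_mem _ huP _)
        (Subgroup.pow_mem _ hv'P _))) (Subgroup.pow_mem _ hcN' _)
    have hinjΦ : Function.Injective (fun w : L × Fin 4 =>
        (⟨_, hmem w⟩ : ↥(Subgroup.normalizer ((P : Subgroup G) : Set G)))) := by
      intro w w' hww
      have h1 : E u v' w.1.1 w.1.2 * c ^ w.2.val = E u v' w'.1.1 w'.1.2 * c ^ w'.2.val :=
        congrArg Subtype.val hww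
      have h2 : ∀ q, tr w.1.1 w.1.2 (cp w.2.val q) = tr w'.1.1 w'.1.2 (cp w'.2.val q) := by
        intro q
        have h := congrArg (fun g => ρ g q) h1
        simp only [map_mul, Equiv.Perm.mul_apply] at h
        rw [hρcpow, hρcpow, hρE, hρE] at h
        exact h
      obtain ⟨e1, e2, e3⟩ := D_count _ _ _ _ _ w.2.isLt _ w'.2.isLt h2
      exact Prod.ext (Prod.ext e1 e2) (Fin.ext e3)
    have hbijΦ := hinjΦ.bijective_of_nat_card_le (le_of_eq (by
      rw [hcN, Nat.card_eq_fintype_card]; decide))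
    intro n hn
    obtain ⟨w, hw⟩ := hbijΦ.2 ⟨n, hn⟩
    exact ⟨w.1.1, w.1.2, w.2.val, w.2.isLt, (congrArg Subtype.val hw).symm⟩
  -- the element swapping the two base points
  have hg₁inv : g₁⁻¹ ∉ Subgroup.normalizer ((P : Subgroup G) : Set G) :=
    fun hh => hg₁ (by simpa using Subgroup.inv_mem _ hh)
  obtain ⟨y1, y2, hy⟩ : ∃ y1 y2 : ZMod 3, ρ g₁⁻¹ none = some (y1, y2) := by
    rcases hq : ρ g₁⁻¹ none with _ | ⟨y1, y2⟩
    · exact absurd (hρN _ hq) hg₁inv
    · exact ⟨y1, y2, rfl⟩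
  obtain ⟨t, htdef⟩ : ∃ t : G, t = g₁ * E u v' y1 y2 := ⟨_, rfl⟩
  have ht1 : ρ t none = some (0, 0) := by
    rw [htdef, map_mul, Equiv.Perm.mul_apply, hρE]
    exact hρg
  have ht2 : ρ t (some (0, 0)) = none := by
    rw [htdef, map_mul, Equiv.Perm.mul_apply, hρE, tr_zero, ← hy, ← Equiv.Perm.mul_apply,
      ← map_mul, mul_inv_cancel, map_one]
    rfl
  have ht1' : ρ t⁻¹ (some (0, 0)) = none := by
    rw [map_inv, Equiv.Perm.inv_eq_iff_eq, ht1]
  have ht2' : ρ t⁻¹ none = some (0, 0) := by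
    rw [map_inv, Equiv.Perm.inv_eq_iff_eq, ht2]
  have hc0 : cf (some (0, 0)) = some (0, 0) := by decide
  have hcnone : cf none = none := rfl
  have hτinj : Function.Injective (ρ t) := (ρ t).injective
  have hT2 : ∃ i < 4, ∀ q, ρ t (cf q) = cp i (ρ t q) := by
    obtain ⟨d, hd⟩ : ∃ d : G, d = t * c * t⁻¹ := ⟨_, rfl⟩
    have hdN : d ∈ Subgroup.normalizer ((P : Subgroup G) : Set G) := by
      apply hρN
      rw [hd]
      simp only [map_mul, Equiv.Perm.mul_apply]
      rw [ht2', hρc, hc0, ht2]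
    have hd0 : ρ d (some (0, 0)) = some (0, 0) := by
      rw [hd]
      simp only [map_mul, Equiv.Perm.mul_apply]
      rw [ht1', hρc, hcnone, ht1]
    obtain ⟨z1, z2, k, hk4, hdk⟩ := hNform d hdN
    have hz : z1 = 0 ∧ z2 = 0 := by
      rw [hdk, map_mul, Equiv.Perm.mul_apply, hρcpow, hρE, cp_fix0, tr_zero] at hd0
      have := Option.some.inj hd0
      exact ⟨congrArg Prod.fst this, congrArg Prod.snd this⟩
    obtain ⟨rfl, rfl⟩ := hz
    refine ⟨k, hk4, ?_⟩
    intro q
    have e : t * c = E u v' 0 0 * c ^ k * t := by rw [← hdk, hd]; group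
    have h := congrArg (fun g => ρ g q) e
    simp only [map_mul, Equiv.Perm.mul_apply] at h
    rw [hρc, hρcpow, hρE, tr00] at h
    exact h
  have hT4 : ∃ y1 y2, ∃ k < 4, ∃ z1 z2,
      ∀ q, ρ t (tr 1 0 (ρ t q)) = tr y1 y2 (ρ t (tr z1 z2 (cp k q))) := by
    obtain ⟨y1', y2', hy'⟩ : ∃ y1' y2' : ZMod 3, ρ t (some (1, 0)) = some (y1', y2') := by
      rcases hq : ρ t (some (1, 0)) with _ | ⟨a, b⟩
      · exfalso
        have h1 := hτinj (hq.trans ht2.symm)
        exact absurd (Option.some.inj h1) (by decide)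
      · exact ⟨a, b, rfl⟩
    obtain ⟨n', hn'⟩ : ∃ n' : G, n' = (E u v' y1' y2' * t)⁻¹ * (t * u * t) := ⟨_, rfl⟩
    have hn'N : n' ∈ Subgroup.normalizer ((P : Subgroup G) : Set G) := by
      apply hρN
      rw [hn', map_mul, Equiv.Perm.mul_apply, map_inv, Equiv.Perm.inv_eq_iff_eq]
      simp only [map_mul, Equiv.Perm.mul_apply]
      rw [ht1, hρu, hρE, tr_zero, tr_zero, hy']
    obtain ⟨z1, z2, k, hk4, hn'k⟩ := hNform n' hn'N
    refine ⟨y1', y2', k, hk4, z1, z2, ?_⟩
    intro q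
    have e : t * u * t = E u v' y1' y2' * t * (E u v' z1 z2 * c ^ k) := by
      rw [← hn'k, hn', mul_inv_cancel_left]
    have h := congrArg (fun g => ρ g q) e
    simp only [map_mul, Equiv.Perm.mul_apply] at h
    rw [hρu, hρcpow, hρE, hρE] at h
    exact h
  obtain ⟨s1, s2, hs, hτ⟩ := det (ρ t) hτinj ht1 ht2 hT2 hT4
  -- generation
  have hNgen : ∀ n ∈ Subgroup.normalizer ((P : Subgroup G) : Set G),
      n ∈ Subgroup.closure ({u, v', c, t} : Set G) := by
    intro n hn
    obtain ⟨z1, z2, k, -, hnk⟩ := hNform n hn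
    rw [hnk]
    unfold E
    exact Subgroup.mul_mem _ (Subgroup.mul_mem _
      (Subgroup.pow_mem _ (Subgroup.subset_closure (by simp)) _)
      (Subgroup.pow_mem _ (Subgroup.subset_closure (by simp)) _))
      (Subgroup.pow_mem _ (Subgroup.subset_closure (by simp)) _)
  have hEN' : ∀ a b, E u v' a b ∈ Subgroup.normalizer ((P : Subgroup G) : Set G) := fun a b =>
    hPN (Subgroup.mul_mem _ (Subgroup.pow_mem _ huP _) (Subgroup.pow_mem _ hv'P _))
  have hgen : Subgroup.closure ({u, v', c, t} : Set G) = ⊤ := by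
    rw [Subgroup.eq_top_iff']
    intro g
    by_cases hgN : g ∈ Subgroup.normalizer ((P : Subgroup G) : Set G)
    · exact hNgen g hgN
    · obtain ⟨y1', y2', hy'⟩ : ∃ y1' y2' : ZMod 3, ρ g none = some (y1', y2') := by
        rcases hq : ρ g none with _ | ⟨a, b⟩
        · exact absurd (hρN _ hq) hgN
        · exact ⟨a, b, rfl⟩
      have hn'N : (E u v' y1' y2' * t)⁻¹ * g ∈
          Subgroup.normalizer ((P : Subgroup G) : Set G) := by
        apply hρN
        rw [map_mul, Equiv.Perm.mul_apply, map_inv, Equiv.Perm.inv_eq_iff_eq, hy', map_mul,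
          Equiv.Perm.mul_apply, ht1, hρE, tr_zero]
      have e1 : g = E u v' y1' y2' * t * ((E u v' y1' y2' * t)⁻¹ * g) := by
        rw [mul_inv_cancel_left]
      rw [e1]
      exact Subgroup.mul_mem _ (Subgroup.mul_mem _ (hNgen _ (hEN' _ _))
        (Subgroup.subset_closure (by simp))) (hNgen _ hn'N)
  -- the permutation representation
  have hρu' : ρ u = su := by ext q : 1; rw [hρu]; rfl
  have hρv' : ρ v' = sv := by ext q : 1; rw [hρv]; rfl
  have hρt' : ρ t = st s1 s2 := by ext q : 1; rw [hτ, hst s1 s2 hs]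
  have hrange : ρ.range = K s1 s2 := by
    unfold K
    rw [MonoidHom.range_eq_map, ← hgen, MonoidHom.map_closure]
    congr 1
    rw [Set.image_insert_eq, Set.image_insert_eq, Set.image_insert_eq, Set.image_singleton,
      hρu', hρv', hρc', hρt']
  rw [← K_eq s1 s2 hs]
  exact ⟨(MonoidHom.ofInjective hρinj).trans (MulEquiv.subgroupCongr hrange)⟩

end Cfsg.Agent.Lib.helper3.A6
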