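import Mathlib
import Cfsg.Agent.S2119

/-!
# Groups between `Inn (A_n)` and `Aut (A_n)` without elements of order `p * q` (S4231)

`surj3` and `conj_inj` are adapted from helper20's `Cfsg.Agent.S2119` (`surj`, first half of
`result`), with the hypothesis `n ≠ 6` replaced by the assumption that the automorphism
preserves three-cycles.
-/

set_option autoImplicit false

namespace Cfsg.Agent.Lib.helper3.AutAltPQ

open Equiv Equiv.Perm Cfsg.Agent.S2119

section Main

variable {n : ℕ}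

theorem surj3 (hn : 4 ≤ n) (φ : MulAut (alternatingGroup (Fin n)))
    (hthree : ∀ c : alternatingGroup (Fin n), (c : Perm (Fin n)).IsThreeCycle →
      ((φ c : alternatingGroup (Fin n)) : Perm (Fin n)).IsThreeCycle) :
    ∃ σ : Perm (Fin n), ∀ z : alternatingGroup (Fin n),
      ((φ z : alternatingGroup (Fin n)) : Perm (Fin n)) = σ * z * σ⁻¹ := by
  classical
  obtain ⟨p, hp⟩ : ∃ p : Fin n, p = ⟨0, by omega⟩ := ⟨_, rfl⟩
  obtain ⟨q, hq⟩ : ∃ q : Fin n, q = ⟨1, by omega⟩ := ⟨_, rfl⟩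
  have hpq : p ≠ q := by simp [hp, hq, Fin.ext_iff]
  have hxmem : ∀ k : Fin n, k ≠ p → k ≠ q → cyc p q k ∈ alternatingGroup (Fin n) :=
    fun k h1 h2 => (isThreeCycle_cyc hpq h1.symm h2.symm).mem_alternatingGroup
  obtain ⟨Y, hY⟩ : ∃ Y : Fin n → Perm (Fin n), ∀ k (h1 : k ≠ p) (h2 : k ≠ q),
      Y k = ((φ ⟨cyc p q k, hxmem k h1 h2⟩ : alternatingGroup (Fin n)) : Perm (Fin n)) := by
    refine ⟨fun k => if h : k ≠ p ∧ k ≠ q then
      ((φ ⟨cyc p q k, hxmem k h.1 h.2⟩ : alternatingGroup (Fin n)) : Perm (Fin n)) else 1, ?_⟩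
    intro k h1 h2
    simp only [dif_pos (And.intro h1 h2)]
  have hY3 : ∀ k, k ≠ p → k ≠ q → (Y k).IsThreeCycle := by
    intro k h1 h2
    rw [hY k h1 h2]
    exact hthree _ (isThreeCycle_cyc hpq h1.symm h2.symm)
  have hYprod : ∀ k l, k ≠ p → k ≠ q → l ≠ p → l ≠ q → k ≠ l →
      (Y k * Y l) ^ 2 = 1 ∧ Y k * Y l ≠ 1 := by
    intro k l hkp hkq hlp hlq hkl
    obtain ⟨e1, e2⟩ := id6 hpq hkp.symm hlp.symm hkq.symm hlq.symm hkl
    rw [hY k hkp hkq, hY l hlp hlq]
    have hprod : ((φ ⟨cyc p q k, hxmem k hkp hkq⟩ : alternatingGroup (Fin n)) : Perm (Fin n)) *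
        ((φ ⟨cyc p q l, hxmem l hlp hlq⟩ : alternatingGroup (Fin n)) : Perm (Fin n)) =
        ((φ (⟨cyc p q k, hxmem k hkp hkq⟩ * ⟨cyc p q l, hxmem l hlp hlq⟩) :
          alternatingGroup (Fin n)) : Perm (Fin n)) := by
      rw [map_mul]; rfl
    rw [hprod]
    constructor
    · rw [← Subgroup.coe_pow, ← map_pow]
      have e3 : (⟨cyc p q k, hxmem k hkp hkq⟩ * ⟨cyc p q l, hxmem l hlp hlq⟩ :
          alternatingGroup (Fin n)) ^ 2 = 1 := Subtype.ext e1
      rw [e3, map_one]; rfl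
    · intro h
      have h' : φ (⟨cyc p q k, hxmem k hkp hkq⟩ * ⟨cyc p q l, hxmem l hlp hlq⟩) = 1 :=
        Subtype.ext h
      rw [map_eq_one_iff φ φ.injective] at h'
      exact e2 (congrArg Subtype.val h')
  obtain ⟨k0, k1, hk01, hk0p, hk0q, hk1p, hk1q⟩ := exists_two_ne hn p q
  have h30 := hY3 k0 hk0p hk0q
  have h31 := hY3 k1 hk1p hk1q
  obtain ⟨a, ha, hda, hne⟩ := shared_edge h30 h31
    (hYprod k0 k1 hk0p hk0q hk1p hk1q hk01).1 (hYprod k0 k1 hk0p hk0q hk1p hk1q hk01).2
  obtain ⟨b, hb⟩ : ∃ b, b = Y k0 a := ⟨_, rfl⟩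
  rw [← hb] at ha hda hne
  have F1 : Y k0 a = b := hb.symm
  obtain ⟨F4, F5, S0⟩ := three_supp h30 (i := a) (by rw [F1]; exact ha)
  have F6 := three_pow h30 a
  rw [F1] at F4 F5 S0 F6
  obtain ⟨G4, G5, S1⟩ := three_supp h31 (i := a) (by rw [hda]; exact ha)
  have G6 := three_pow h31 a
  rw [hda] at G4 G5 S1 G6
  have key : ∀ k, k ≠ p → k ≠ q → Y k a = b := by
    intro k hkp hkq
    by_cases hk0 : k = k0
    · rw [hk0]; exact F1
    by_cases hk1 : k = k1
    · rw [hk1]; exact hda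
    have hk3 := hY3 k hkp hkq
    obtain ⟨s, hs, hds, -⟩ := shared_edge h30 hk3
      (hYprod k0 k hk0p hk0q hkp hkq (Ne.symm hk0)).1
      (hYprod k0 k hk0p hk0q hkp hkq (Ne.symm hk0)).2
    obtain ⟨s', hs', hds', -⟩ := shared_edge h31 hk3
      (hYprod k1 k hk1p hk1q hkp hkq (Ne.symm hk1)).1
      (hYprod k1 k hk1p hk1q hkp hkq (Ne.symm hk1)).2
    rcases S0 s hs with rfl | rfl | rfl
    · rw [hds, F1]
    · rcases S1 s' hs' with rfl | rfl | rfl
      · rw [hds', hda]
      · exfalso; apply hne; rw [← hds', hds]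
      · exfalso
        have e1 : Y k (Y k1 s) = a := by rw [hds', G6]
        have hsb : Y k s ≠ s := by rw [hds]; exact F4
        have hw : Y k (Y k1 s) ≠ Y k1 s := by rw [e1]; exact fun h => G5 h.symm
        rcases two_edges hk3 hsb hw (fun h => G4 h.symm) with h | h
        · rw [hds] at h; exact hne h.symm
        · rw [e1] at h; exact ha h.symm
    · have e0 : Y k (Y k0 b) = a := by rw [hds, F6]
      rcases S1 s' hs' with rfl | rfl | rfl
      · rw [hds', hda]
      · exfalso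
        have hu : Y k (Y k0 s') ≠ Y k0 s' := by rw [e0]; exact fun h => F5 h.symm
        have hb' : Y k s' ≠ s' := by rw [hds']; exact G4
        rcases two_edges hk3 hu hb' F4 with h | h
        · rw [e0] at h; exact ha h.symm
        · rw [hds'] at h; exact hne h
      · exfalso
        have e1 : Y k (Y k1 b) = a := by rw [hds', G6]
        have e2 : Y k1 b = Y k0 b := (Y k).injective (e1.trans e0.symm)
        exact hne e2
  -- the permutation
  have hrep : ∀ k, k ≠ p → k ≠ q → Y k = cyc a b (Y k b) ∧ Y k b ≠ b ∧ Y k b ≠ a := by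
    intro k hkp hkq
    have hk3 := hY3 k hkp hkq
    have hka : Y k a ≠ a := by rw [key k hkp hkq]; exact ha
    have h1 := three_rep hk3 hka
    obtain ⟨h2, h3, -⟩ := three_supp hk3 hka
    rw [key k hkp hkq] at h1 h2 h3
    exact ⟨h1, h2, h3⟩
  obtain ⟨s, hsp, hsq, hsk⟩ : ∃ s : Fin n → Fin n, s p = a ∧ s q = b ∧
      ∀ k, k ≠ p → k ≠ q → s k = Y k b := by
    refine ⟨fun i => if i = p then a else if i = q then b else Y i b, ?_, ?_, ?_⟩
    · simp
    · simp [hpq.symm]
    · intro k h1 h2; simp [h1, h2]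
  have hinj : Function.Injective s := by
    have hcases : ∀ i : Fin n, i = p ∨ i = q ∨ (i ≠ p ∧ i ≠ q) := by
      intro i
      by_cases h1 : i = p
      · exact Or.inl h1
      · by_cases h2 : i = q
        · exact Or.inr (Or.inl h2)
        · exact Or.inr (Or.inr ⟨h1, h2⟩)
    intro i j hij
    rcases hcases i with rfl | rfl | ⟨hi1, hi2⟩ <;> rcases hcases j with rfl | rfl | ⟨hj1, hj2⟩
    · rfl
    · rw [hsp, hsq] at hij; exact absurd hij.symm ha
    · rw [hsp, hsk j hj1 hj2] at hij; exact absurd hij.symm (hrep j hj1 hj2).2.2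
    · rw [hsp, hsq] at hij; exact absurd hij ha
    · rfl
    · rw [hsq, hsk j hj1 hj2] at hij; exact absurd hij.symm (hrep j hj1 hj2).2.1
    · rw [hsp, hsk i hi1 hi2] at hij; exact absurd hij (hrep i hi1 hi2).2.2
    · rw [hsq, hsk i hi1 hi2] at hij; exact absurd hij (hrep i hi1 hi2).2.1
    · rw [hsk i hi1 hi2, hsk j hj1 hj2] at hij
      have e1 : Y i = Y j := by
        rw [(hrep i hi1 hi2).1, (hrep j hj1 hj2).1, hij]
      rw [hY i hi1 hi2, hY j hj1 hj2] at e1
      have e2 := φ.injective (Subtype.ext e1)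
      have e3 : cyc p q i = cyc p q j := congrArg Subtype.val e2
      have e4 : cyc p q i q = cyc p q j q := by rw [e3]
      rw [cyc_mid hi1.symm hi2.symm, cyc_mid hj1.symm hj2.symm] at e4
      exact e4
  obtain ⟨σ, hσ⟩ : ∃ σ : Perm (Fin n), ∀ i, σ i = s i :=
    ⟨Equiv.ofBijective s (Finite.injective_iff_bijective.1 hinj), fun i => rfl⟩
  have hconj : ∀ k, k ≠ p → k ≠ q → Y k = σ * cyc p q k * σ⁻¹ := by
    intro k hkp hkq
    have e1 := swap_apply_apply σ p q
    have e2 := swap_apply_apply σ q k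
    rw [hσ p, hσ q, hsp, hsq] at e1
    rw [hσ q, hσ k, hsq, hsk k hkp hkq] at e2
    rw [(hrep k hkp hkq).1, cyc, e1, e2, cyc]
    group
  have hgen : Subgroup.closure {z : alternatingGroup (Fin n) |
      ∃ k, k ≠ p ∧ k ≠ q ∧ (z : Perm (Fin n)) = cyc p q k} = ⊤ := by
    rw [eq_top_iff]
    intro z _
    have hz : (z : Perm (Fin n)) ∈
        Subgroup.closure {g : Perm (Fin n) | ∃ k, k ≠ p ∧ k ≠ q ∧ g = cyc p q k} := by
      have h1 : alternatingGroup (Fin n) ≤
          Subgroup.closure {g : Perm (Fin n) | ∃ k, k ≠ p ∧ k ≠ q ∧ g = cyc p q k} := by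
        rw [← Equiv.Perm.closure_three_cycles_eq_alternating, Subgroup.closure_le]
        intro c hc
        exact gen_three hpq c hc
      exact h1 z.2
    have hmap : (Subgroup.closure {z : alternatingGroup (Fin n) |
        ∃ k, k ≠ p ∧ k ≠ q ∧ (z : Perm (Fin n)) = cyc p q k}).map
          (alternatingGroup (Fin n)).subtype =
        Subgroup.closure {g : Perm (Fin n) | ∃ k, k ≠ p ∧ k ≠ q ∧ g = cyc p q k} := by
      rw [MonoidHom.map_closure]
      congr 1
      ext g
      constructor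
      · rintro ⟨z, ⟨k, h1, h2, hz⟩, rfl⟩
        exact ⟨k, h1, h2, hz⟩
      · rintro ⟨k, h1, h2, rfl⟩
        exact ⟨⟨cyc p q k, hxmem k h1 h2⟩, ⟨k, h1, h2, rfl⟩, rfl⟩
    rw [← hmap] at hz
    obtain ⟨z', hz', hzz⟩ := hz
    have e : z' = z := Subtype.ext hzz
    rw [← e]; exact hz'
  have heq : (alternatingGroup (Fin n)).subtype.comp φ.toMonoidHom =
      (MulAut.conj σ).toMonoidHom.comp (alternatingGroup (Fin n)).subtype := by
    apply MonoidHom.eq_of_eqOn_dense hgen
    rintro z ⟨k, h1, h2, hz⟩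
    have e : z = ⟨cyc p q k, hxmem k h1 h2⟩ := Subtype.ext hz
    show ((φ z : alternatingGroup (Fin n)) : Perm (Fin n)) = σ * (z : Perm (Fin n)) * σ⁻¹
    rw [e, ← hY k h1 h2, hconj k h1 h2]
  refine ⟨σ, fun z => ?_⟩
  exact congrArg (fun f : alternatingGroup (Fin n) →* Perm (Fin n) => f z) heq

theorem conj_inj (hn : 4 ≤ n) :
    Function.Injective
      (MulAut.conjNormal : Perm (Fin n) →* MulAut (alternatingGroup (Fin n))) := by
  rw [injective_iff_map_eq_one]
  intro σ hσ
  by_contra hne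
  obtain ⟨i, hi⟩ : ∃ i, σ i ≠ i := by
    by_contra hcon
    push Not at hcon
    exact hne (Equiv.ext hcon)
  obtain ⟨k, l, hkl, hki, hkj, hli, hlj⟩ := exists_two_ne hn i (σ i)
  have hc3 : (cyc (σ i) k l).IsThreeCycle := isThreeCycle_cyc hkj.symm hlj.symm hkl
  have h1 := congrArg (fun ψ : MulAut (alternatingGroup (Fin n)) =>
    ((ψ ⟨cyc (σ i) k l, hc3.mem_alternatingGroup⟩ : alternatingGroup (Fin n)) :
      Perm (Fin n))) hσ
  simp only [MulAut.conjNormal_apply, MulAut.one_apply] at h1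
  have h2 : σ * cyc (σ i) k l = cyc (σ i) k l * σ := mul_inv_eq_iff_eq_mul.1 h1
  have h3 := congrArg (fun f : Perm (Fin n) => f i) h2
  simp only [Perm.mul_apply] at h3
  rw [cyc_other hi.symm hki.symm hli.symm, cyc_left hkj.symm hlj.symm] at h3
  exact hkj h3.symm

/-! ### `q`-subgroups of `S_n` for `n < q ^ 2` are abelian -/

theorem prime_card_comm {H : Type*} [Group H] {q : ℕ} [Fact q.Prime] (hc : Nat.card H = q)
    (a b : H) : a * b = b * a := by
  haveI : IsCyclic H := isCyclic_of_prime_card hc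
  obtain ⟨g, hg⟩ := IsCyclic.exists_generator (α := H)
  obtain ⟨i, rfl⟩ := Subgroup.mem_zpowers_iff.mp (hg a)
  obtain ⟨j, rfl⟩ := Subgroup.mem_zpowers_iff.mp (hg b)
  rw [← zpow_add, ← zpow_add, add_comm]

theorem pgroup_perm_comm {q : ℕ} [Fact q.Prime] (hnq : n < q ^ 2)
    (S : Subgroup (Perm (Fin n))) (hS : IsPGroup q S) (s t : Perm (Fin n))
    (hs : s ∈ S) (ht : t ∈ S) : s * t = t * s := by
  have hq : q.Prime := Fact.out
  have key : ∀ j : Fin n, (s * t * s⁻¹ * t⁻¹) j = j := by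
    intro j
    obtain ⟨H, hH⟩ : ∃ H : Subgroup S, H = MulAction.stabilizer S j := ⟨_, rfl⟩
    have hmem : (⟨s, hs⟩ * ⟨t, ht⟩ * ⟨s, hs⟩⁻¹ * ⟨t, ht⟩⁻¹ : S) ∈ H := by
      obtain ⟨k, hk⟩ := hS.index H
      have hle : H.index ≤ n := by
        rw [hH, MulAction.index_stabilizer]
        calc (MulAction.orbit S j).ncard ≤ (Set.univ : Set (Fin n)).ncard :=
              Set.ncard_le_ncard (Set.subset_univ _)
          _ = n := by rw [Set.ncard_univ, Nat.card_fin]
      have hk1 : k ≤ 1 := by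
        by_contra hk2
        push Not at hk2
        have h2 : q ^ 2 ≤ q ^ k := Nat.pow_le_pow_right hq.pos hk2
        rw [hk] at hle
        exact absurd (lt_of_le_of_lt (h2.trans hle) hnq) (lt_irrefl _)
      interval_cases k
      · rw [pow_zero] at hk
        rw [Subgroup.index_eq_one.mp hk]
        exact Subgroup.mem_top _
      · rw [pow_one] at hk
        obtain ⟨m, hm⟩ := IsPGroup.iff_card.mp hS
        have hm0 : m ≠ 0 := by
          rintro rfl
          rw [pow_zero] at hm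
          have hdvd : H.index ∣ Nat.card S := Subgroup.index_dvd_card H
          rw [hm, hk] at hdvd
          exact hq.one_lt.ne' (Nat.dvd_one.mp hdvd)
        haveI : H.Normal := Subgroup.normal_of_index_eq_minFac_card (by
          rw [hk, hm, Nat.pow_minFac hm0, hq.minFac_eq])
        have hc : Nat.card (S ⧸ H) = q := hk
        have e := prime_card_comm hc (QuotientGroup.mk (⟨s, hs⟩ : S) : S ⧸ H)
          (QuotientGroup.mk (⟨t, ht⟩ : S) : S ⧸ H)
        rw [← QuotientGroup.eq_one_iff]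
        simp only [QuotientGroup.mk_mul, QuotientGroup.mk_inv]
        rw [mul_inv_eq_one, mul_inv_eq_iff_eq_mul]
        exact e
    rw [hH] at hmem
    exact MulAction.mem_stabilizer_iff.mp hmem
  have h1 : s * t * s⁻¹ * t⁻¹ = 1 := Equiv.ext key
  calc s * t = (s * t * s⁻¹ * t⁻¹) * (t * s) := by group
    _ = t * s := by rw [h1, one_mul]

/-! ### Elements of order `p * q` -/

theorem exists_order_pq {p q : ℕ} [Fact p.Prime] [Fact q.Prime] (hlt : p < q)
    (hnq : q ^ 2 ≤ n) :
    ∃ σ : Perm (Fin n), σ ∈ alternatingGroup (Fin n) ∧ orderOf σ = p * q := by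
  have hp : p.Prime := Fact.out
  have hq : q.Prime := Fact.out
  have hq3 : 3 ≤ q := by have := hp.two_le; omega
  have hqq : 3 * q ≤ q ^ 2 := by nlinarith
  have hqodd : Odd q := hq.odd_of_ne_two (by omega)
  rcases hp.eq_two_or_odd' with rfl | hpodd
  · obtain ⟨σ, hσ⟩ := (Equiv.Perm.exists_with_cycleType_iff (α := Fin n)
      (m := (2 ::ₘ 2 ::ₘ ({q} : Multiset ℕ)))).mpr (by
        constructor
        · rw [Multiset.sum_cons, Multiset.sum_cons, Multiset.sum_singleton, Fintype.card_fin]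
          omega
        · intro a ha
          rw [Multiset.mem_cons, Multiset.mem_cons, Multiset.mem_singleton] at ha
          rcases ha with rfl | rfl | rfl
          · exact le_refl _
          · exact le_refl _
          · omega)
    refine ⟨σ, ?_, ?_⟩
    · rw [Equiv.Perm.mem_alternatingGroup, Equiv.Perm.sign_of_cycleType, hσ]
      apply Even.neg_one_pow
      rw [Multiset.sum_cons, Multiset.sum_cons, Multiset.sum_singleton, Multiset.card_cons,
        Multiset.card_cons, Multiset.card_singleton]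
      obtain ⟨k, hk⟩ := hqodd
      exact ⟨k + 4, by omega⟩
    · rw [← Equiv.Perm.lcm_cycleType, hσ, Multiset.lcm_cons, Multiset.lcm_cons,
        Multiset.lcm_singleton, normalize_eq]
      show Nat.lcm 2 (Nat.lcm 2 q) = 2 * q
      have hcop : Nat.Coprime 2 q := (Nat.coprime_primes Nat.prime_two hq).mpr (by omega)
      rw [← Nat.lcm_assoc, Nat.lcm_self, hcop.lcm_eq_mul]
  · obtain ⟨σ, hσ⟩ := (Equiv.Perm.exists_with_cycleType_iff (α := Fin n)
      (m := (p ::ₘ ({q} : Multiset ℕ)))).mpr (by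
        constructor
        · rw [Multiset.sum_cons, Multiset.sum_singleton, Fintype.card_fin]
          omega
        · intro a ha
          rw [Multiset.mem_cons, Multiset.mem_singleton] at ha
          rcases ha with rfl | rfl
          · exact hp.two_le
          · omega)
    refine ⟨σ, ?_, ?_⟩
    · rw [Equiv.Perm.mem_alternatingGroup, Equiv.Perm.sign_of_cycleType, hσ]
      apply Even.neg_one_pow
      rw [Multiset.sum_cons, Multiset.sum_singleton, Multiset.card_cons,
        Multiset.card_singleton]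
      obtain ⟨k, hk⟩ := hqodd
      obtain ⟨l, hl⟩ := hpodd
      exact ⟨k + l + 2, by omega⟩
    · rw [← Equiv.Perm.lcm_cycleType, hσ, Multiset.lcm_cons, Multiset.lcm_singleton,
        normalize_eq]
      show Nat.lcm p q = p * q
      have hcop : Nat.Coprime p q := (Nat.coprime_primes hp hq).mpr hlt.ne
      exact hcop.lcm_eq_mul

end Main

/-! ### Degree six -/

section Six

def x0 : Perm (Fin 6) := cyc 0 1 2 * cyc 3 4 5

def t0 : Perm (Fin 6) := swap 0 3 * swap 1 4 * swap 2 5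

theorem three_cyc012 : (cyc (0 : Fin 6) 1 2).IsThreeCycle :=
  isThreeCycle_cyc (by decide) (by decide) (by decide)

theorem three_cyc345 : (cyc (3 : Fin 6) 4 5).IsThreeCycle :=
  isThreeCycle_cyc (by decide) (by decide) (by decide)

theorem x0_type : x0.cycleType = Multiset.replicate 2 3 := by
  have hd : Perm.Disjoint (cyc (0 : Fin 6) 1 2) (cyc (3 : Fin 6) 4 5) := by
    show ∀ x : Fin 6, (cyc (0 : Fin 6) 1 2) x = x ∨ (cyc (3 : Fin 6) 4 5) x = x
    decide
  rw [x0, hd.cycleType_mul, three_cyc012.cycleType, three_cyc345.cycleType]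
  rfl

theorem x0_mem : x0 ∈ alternatingGroup (Fin 6) :=
  Subgroup.mul_mem _ three_cyc012.mem_alternatingGroup three_cyc345.mem_alternatingGroup

theorem x0_order : orderOf x0 = 3 := by
  rw [← Perm.lcm_cycleType, x0_type]
  rfl

theorem t0_sign : Perm.sign t0 = -1 := by
  rw [t0, map_mul, map_mul, Perm.sign_swap (by decide), Perm.sign_swap (by decide),
    Perm.sign_swap (by decide)]
  decide

theorem t0_comm : t0 * x0 = x0 * t0 := by
  apply Equiv.ext
  show ∀ x : Fin 6, (t0 * x0) x = (x0 * t0) x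
  decide

theorem conj_x0 (y : Perm (Fin 6)) (hy : y.cycleType = Multiset.replicate 2 3) :
    ∃ g : Perm (Fin 6), g ∈ alternatingGroup (Fin 6) ∧ g * x0 * g⁻¹ = y := by
  obtain ⟨π, hπ⟩ := isConj_iff.1 (Perm.isConj_iff_cycleType_eq.2 (x0_type.trans hy.symm))
  rcases Int.units_eq_one_or (Perm.sign π) with h | h
  · exact ⟨π, Perm.mem_alternatingGroup.mpr h, hπ⟩
  · refine ⟨π * t0, ?_, ?_⟩
    · rw [Perm.mem_alternatingGroup, map_mul, h, t0_sign]
      decide
    · rw [← hπ, mul_inv_rev, mul_assoc π t0 x0, t0_comm]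
      group

theorem ord3_type (z : Perm (Fin 6)) (ho : orderOf z = 3) :
    z.IsThreeCycle ∨ z.cycleType = Multiset.replicate 2 3 := by
  obtain ⟨m, hm⟩ := Perm.cycleType_prime_order (σ := z) (by rw [ho]; exact Nat.prime_three)
  rw [ho] at hm
  have hsum := Perm.sum_cycleType_le z
  rw [hm, Multiset.sum_replicate, smul_eq_mul, Fintype.card_fin] at hsum
  have hm1 : m ≤ 1 := by omega
  interval_cases m
  · left
    show z.cycleType = {3}
    rw [hm]; rfl
  · right
    exact hm

theorem ord_pres {n : ℕ} (β : MulAut (alternatingGroup (Fin n)))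
    (z : alternatingGroup (Fin n)) :
    orderOf ((β z : alternatingGroup (Fin n)) : Perm (Fin n)) = orderOf (z : Perm (Fin n)) := by
  rw [Subgroup.orderOf_coe, MulEquiv.orderOf_eq, ← Subgroup.orderOf_coe]

theorem type_conj {n : ℕ} (β : MulAut (alternatingGroup (Fin n)))
    (z g : alternatingGroup (Fin n)) :
    ((β (g * z * g⁻¹) : alternatingGroup (Fin n)) : Perm (Fin n)).cycleType =
      ((β z : alternatingGroup (Fin n)) : Perm (Fin n)).cycleType := by
  rw [map_mul, map_mul, map_inv, Subgroup.coe_mul, Subgroup.coe_mul, Subgroup.coe_inv]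
  exact Perm.cycleType_conj

theorem sq_pres6 (α : MulAut (alternatingGroup (Fin 6))) (c : alternatingGroup (Fin 6))
    (hc : (c : Perm (Fin 6)).IsThreeCycle) :
    ((α (α c) : alternatingGroup (Fin 6)) : Perm (Fin 6)).IsThreeCycle := by
  have hC : ∀ (β : MulAut (alternatingGroup (Fin 6))) (c1 c2 : alternatingGroup (Fin 6)),
      (c1 : Perm (Fin 6)).IsThreeCycle → (c2 : Perm (Fin 6)).IsThreeCycle →
      ((β c2 : alternatingGroup (Fin 6)) : Perm (Fin 6)).cycleType =
        ((β c1 : alternatingGroup (Fin 6)) : Perm (Fin 6)).cycleType := by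
    intro β c1 c2 h1 h2
    obtain ⟨g, hg⟩ := isConj_iff.1 (alternatingGroup.isThreeCycle_isConj
      (by rw [Nat.card_fin]; norm_num) h1 h2)
    rw [← hg]
    exact type_conj β c1 g
  obtain ⟨y0, hy0⟩ : ∃ y0 : alternatingGroup (Fin 6), (y0 : Perm (Fin 6)) = x0 :=
    ⟨⟨x0, x0_mem⟩, rfl⟩
  have hC' : ∀ (β : MulAut (alternatingGroup (Fin 6))) (y : alternatingGroup (Fin 6)),
      (y : Perm (Fin 6)).cycleType = Multiset.replicate 2 3 →
      ((β y : alternatingGroup (Fin 6)) : Perm (Fin 6)).cycleType =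
        ((β y0 : alternatingGroup (Fin 6)) : Perm (Fin 6)).cycleType := by
    intro β y hy
    obtain ⟨g, hg, hgy⟩ := conj_x0 (y : Perm (Fin 6)) hy
    have e : y = ⟨g, hg⟩ * y0 * ⟨g, hg⟩⁻¹ := by
      apply Subtype.ext
      rw [Subgroup.coe_mul, Subgroup.coe_mul, Subgroup.coe_inv, hy0]
      exact hgy.symm
    rw [e]
    exact type_conj β y0 ⟨g, hg⟩
  have ho : orderOf ((α c : alternatingGroup (Fin 6)) : Perm (Fin 6)) = 3 := by
    rw [ord_pres, hc.orderOf]
  rcases ord3_type _ ho with h1 | h1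
  · exact (hC α c (α c) hc h1).trans h1
  · have ho2 : orderOf ((α y0 : alternatingGroup (Fin 6)) : Perm (Fin 6)) = 3 := by
      rw [ord_pres, hy0, x0_order]
    rcases ord3_type _ ho2 with h2 | h2
    · exact (hC' α (α c) h1).trans h2
    · exfalso
      obtain ⟨g1, hg1, e1⟩ := conj_x0 _ h1
      obtain ⟨g2, hg2, e2⟩ := conj_x0 _ h2
      have e3 : ((α y0 : alternatingGroup (Fin 6)) : Perm (Fin 6)) =
          g2 * g1⁻¹ * ((α c : alternatingGroup (Fin 6)) : Perm (Fin 6)) * (g2 * g1⁻¹)⁻¹ := by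
        rw [← e1, ← e2]
        group
      obtain ⟨u, hu⟩ : ∃ u : alternatingGroup (Fin 6), (u : Perm (Fin 6)) = g2 * g1⁻¹ :=
        ⟨⟨g2 * g1⁻¹, Subgroup.mul_mem _ hg2 (Subgroup.inv_mem _ hg1)⟩, rfl⟩
      have e4 : α y0 = u * α c * u⁻¹ := by
        apply Subtype.ext
        rw [Subgroup.coe_mul, Subgroup.coe_mul, Subgroup.coe_inv, hu]
        exact e3
      have e5 : y0 = α.symm u * c * (α.symm u)⁻¹ := by
        apply α.injective
        rw [map_mul, map_mul, map_inv, MulEquiv.apply_symm_apply]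
        exact e4
      have e6 : (y0 : Perm (Fin 6)).cycleType = (c : Perm (Fin 6)).cycleType := by
        rw [e5, Subgroup.coe_mul, Subgroup.coe_mul, Subgroup.coe_inv]
        exact Perm.cycleType_conj
      rw [hy0, x0_type, hc.cycleType] at e6
      exact absurd e6 (by decide)

end Six

section Final

variable {n : ℕ}

theorem sq_pres (hn : 5 ≤ n) (α : MulAut (alternatingGroup (Fin n)))
    (c : alternatingGroup (Fin n)) (hc : (c : Perm (Fin n)).IsThreeCycle) :
    ((α (α c) : alternatingGroup (Fin n)) : Perm (Fin n)).IsThreeCycle := by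
  by_cases h6 : n = 6
  · subst h6
    exact sq_pres6 α c hc
  · exact three_cycle_map (by omega) h6 α _ (three_cycle_map (by omega) h6 α c hc)

theorem sq_mem (hn : 5 ≤ n) (α : MulAut (alternatingGroup (Fin n))) :
    ∃ σ : Perm (Fin n), α * α = MulAut.conjNormal σ := by
  obtain ⟨σ, hσ⟩ := surj3 (by omega) (α * α) (fun c hc => sq_pres hn α c hc)
  refine ⟨σ, ?_⟩
  apply MulEquiv.ext
  intro z
  apply Subtype.ext
  rw [MulAut.conjNormal_apply, hσ]

theorem mem_range_of_odd (hn : 5 ≤ n) (α : MulAut (alternatingGroup (Fin n))) (k : ℕ)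
    (hk : α ^ (2 * k + 1) = 1) : ∃ σ : Perm (Fin n), α = MulAut.conjNormal σ := by
  obtain ⟨σ, hσ⟩ := sq_mem hn α
  refine ⟨σ ^ (k + 1), ?_⟩
  have e2 : 2 * (k + 1) = (2 * k + 1) + 1 := by ring
  have e3 : α ^ (2 * (k + 1)) = α := by rw [e2, pow_succ, hk, one_mul]
  rw [map_pow, ← hσ, ← pow_two, ← pow_mul, e3]

theorem sylow_comm (hn : 5 ≤ n) (G : Subgroup (MulAut (alternatingGroup (Fin n))))
    (q : ℕ) [Fact q.Prime] (hq2 : q ≠ 2) (hnq : n < q ^ 2) (Q : Sylow q G) :
    IsMulCommutative (Q : Subgroup G) := by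
  have hq : q.Prime := Fact.out
  have hinj : Function.Injective
      (MulAut.conjNormal : Perm (Fin n) →* MulAut (alternatingGroup (Fin n))) :=
    conj_inj (by omega)
  obtain ⟨S, hSdef⟩ : ∃ S : Subgroup (Perm (Fin n)), ∀ s : Perm (Fin n),
      s ∈ S ↔ ∃ x : G, x ∈ (Q : Subgroup G) ∧ G.subtype x = MulAut.conjNormal s :=
    ⟨((Q : Subgroup G).map G.subtype).comap MulAut.conjNormal, fun s => by
      rw [Subgroup.mem_comap, Subgroup.mem_map]⟩
  have hS : IsPGroup q S := by
    intro s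
    obtain ⟨x, hx, hxs⟩ := (hSdef s).mp s.2
    obtain ⟨k, hk⟩ := Q.isPGroup' ⟨x, hx⟩
    have hk' : x ^ q ^ k = 1 := congrArg Subtype.val hk
    refine ⟨k, Subtype.ext (hinj ?_)⟩
    rw [Subgroup.coe_pow, map_pow, ← hxs, Subgroup.coe_one, map_one, ← map_pow, hk', map_one]
  have hmem : ∀ a : (Q : Subgroup G), ∃ s ∈ S,
      MulAut.conjNormal s = ((a : G) : MulAut (alternatingGroup (Fin n))) := by
    intro a
    obtain ⟨k, hk⟩ := (IsPGroup.iff_orderOf.mp Q.isPGroup') a
    obtain ⟨m, hm⟩ : Odd (q ^ k) := (hq.odd_of_ne_two hq2).pow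
    have h1 : a ^ (2 * m + 1) = 1 := by
      rw [← hm, ← hk]; exact pow_orderOf_eq_one a
    have h2 : ((a : G) : MulAut (alternatingGroup (Fin n))) ^ (2 * m + 1) = 1 :=
      congrArg (fun y : (Q : Subgroup G) => ((y : G) : MulAut (alternatingGroup (Fin n)))) h1
    obtain ⟨σ, hσ⟩ := mem_range_of_odd hn _ m h2
    exact ⟨σ, (hSdef σ).mpr ⟨(a : G), a.2, hσ⟩, hσ.symm⟩
  refine ⟨⟨fun a b => Subtype.ext (Subtype.ext ?_)⟩⟩
  obtain ⟨s, hs, hsa⟩ := hmem a
  obtain ⟨t, ht, htb⟩ := hmem b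
  have hst := pgroup_perm_comm hnq S hS s t hs ht
  show ((a : G) : MulAut (alternatingGroup (Fin n))) * ((b : G) : MulAut _) =
    ((b : G) : MulAut (alternatingGroup (Fin n))) * ((a : G) : MulAut _)
  rw [← hsa, ← htb, ← map_mul, ← map_mul, hst]

theorem main_lt (n : ℕ) (hn : 5 ≤ n) (G : Subgroup (MulAut (alternatingGroup (Fin n))))
    (hG : (MulAut.conj : alternatingGroup (Fin n) →*
      MulAut (alternatingGroup (Fin n))).range ≤ G)
    (p q : ℕ) [Fact p.Prime] [Fact q.Prime] (hlt : p < q) (h : ∀ g : G, orderOf g ≠ p * q) :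
    ∀ Q : Sylow q G, IsMulCommutative (Q : Subgroup G) := by
  have hp : p.Prime := Fact.out
  have hq2 : q ≠ 2 := by have := hp.two_le; omega
  by_cases hnq : n < q ^ 2
  · exact fun Q => sylow_comm hn G q hq2 hnq Q
  · exfalso
    push Not at hnq
    obtain ⟨σ, hσ, hord⟩ := exists_order_pq (n := n) hlt hnq
    have hmem : MulAut.conj (⟨σ, hσ⟩ : alternatingGroup (Fin n)) ∈ G := hG ⟨_, rfl⟩
    apply h ⟨_, hmem⟩
    rw [Subgroup.orderOf_mk]
    have e : MulAut.conj (⟨σ, hσ⟩ : alternatingGroup (Fin n)) = MulAut.conjNormal σ := by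
      apply MulEquiv.ext
      intro z
      apply Subtype.ext
      exact (MulAut.conjNormal_apply σ z).symm
    rw [e, orderOf_injective _ (conj_inj (by omega)) σ, hord]

end Final

end Cfsg.Agent.Lib.helper3.AutAltPQ
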