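import Mathlib
import Cfsg.Agent.Lib.helper3.Simple168
import Cfsg.Agent.Lib.helper3.Simple504
import Cfsg.Agent.Lib.helper3.UniqP

/-!
# No simple group of order 2016

Let `P` be a Sylow 7-subgroup, `N` its normaliser, and let `G` act on the cosets of `N`.
The number of Sylow 7-subgroups is 8, 36 or 288.  The case 288 is excluded by Burnside's
transfer theorem, the case 8 by a 2-element of `N` centralising `P` that fixes every coset,
and the case 36 by counting the stabiliser of the fixed point set of a central involution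
of the centraliser of `P`, which would have order 448.
-/

set_option autoImplicit false
set_option linter.style.haveILetI false
set_option linter.unusedSectionVars false
set_option linter.unusedVariables false

namespace Cfsg.Agent.Lib.helper3.N2016

open Cfsg.Agent.Lib.helper3

universe u

variable {G : Type u} [Group G] [Finite G]

theorem pow_card_of_mem (K : Subgroup G) (x : G) (hx : x ∈ K) : x ^ Nat.card K = 1 := by
  have h0 := congrArg Subtype.val (pow_card_eq_one' (G := ↥K) (x := ⟨x, hx⟩))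
  exact h0

theorem pm_of (u : G) (hou : orderOf u = 7) (u7 : u ^ 7 = 1) (n : G)
    (hmem : n * u * n⁻¹ ∈ Subgroup.zpowers u) (hn8 : n ^ 8 = 1) :
    n * u * n⁻¹ = u ∨ n * u * n⁻¹ = u⁻¹ := by
  obtain ⟨k, hk⟩ := (Submonoid.mem_powers_iff _ _).mp (mem_powers_iff_mem_zpowers.mpr hmem)
  have h1 := UP.conj_pow_iter u n k hk.symm 8
  rw [hn8, one_mul, inv_one, mul_one] at h1
  have h2 : u ^ (k ^ 8) = u ^ 1 := by rw [← h1, pow_one]
  rw [pow_eq_pow_iff_modEq, hou] at h2
  have h3 := (ZMod.natCast_eq_natCast_iff _ _ _).mpr h2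
  push_cast at h3
  have hcases : ∀ j : ZMod 7, j ^ 8 = 1 → j = ((1 : ℕ) : ZMod 7) ∨ j = ((6 : ℕ) : ZMod 7) := by
    decide
  rcases hcases _ h3 with h4 | h4
  · left
    have h5 := (ZMod.natCast_eq_natCast_iff _ _ _).mp h4
    have h6 : u ^ k = u ^ 1 := by rw [pow_eq_pow_iff_modEq, hou]; exact h5
    rw [← hk, h6, pow_one]
  · right
    have h5 := (ZMod.natCast_eq_natCast_iff _ _ _).mp h4
    have h6 : u ^ k = u ^ 6 := by rw [pow_eq_pow_iff_modEq, hou]; exact h5
    rw [← hk, h6]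
    have e7 : u ^ 7 = u ^ 6 * u := pow_succ u 6
    rw [u7] at e7
    exact eq_inv_of_mul_eq_one_left e7.symm

theorem mem_cent (u s : G) : s ∈ Subgroup.centralizer ({u} : Set G) ↔ s * u = u * s := by
  rw [Subgroup.mem_centralizer_iff]
  constructor
  · intro h; exact (h u (Set.mem_singleton u)).symm
  · intro h z hz; rw [Set.mem_singleton_iff.mp hz]; exact h.symm

theorem le_normalizer_of_conj (H V : Subgroup G) (h : ∀ s ∈ H, ∀ v ∈ V, s * v * s⁻¹ ∈ V) :
    H ≤ Subgroup.normalizer (V : Set G) := by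
  intro s hs
  rw [Subgroup.mem_normalizer_iff]
  intro v
  constructor
  · exact h s hs v
  · intro hv
    have h1 := h s⁻¹ (H.inv_mem hs) _ hv
    have e : s⁻¹ * (s * v * s⁻¹) * s⁻¹⁻¹ = v := by group
    rw [e] at h1
    exact h1

theorem invol_of (V : Subgroup G) (v : G) (hv : v ∈ V) (hv4 : v ^ 4 = 1) (hv1 : v ≠ 1) :
    ∃ w ∈ V, w * w = 1 ∧ w ≠ 1 ∧ ∀ (N : Subgroup G) (x : G ⧸ N), v • x = x → w • x = x := by
  by_cases h : v * v = 1
  · exact ⟨v, hv, h, hv1, fun N x hx => hx⟩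
  · refine ⟨v * v, V.mul_mem hv hv, ?_, h, fun N x hx => ?_⟩
    · have e : v ^ 4 = v * v * (v * v) := by
        rw [show (4 : ℕ) = 2 + 2 from rfl, pow_add, pow_two]
      rw [← e, hv4]
    · rw [mul_smul, hx, hx]

theorem fix_card {Ω : Type*} [Fintype Ω] [DecidableEq Ω] (σ : Equiv.Perm Ω) (h2 : σ * σ = 1)
    (h1 : σ ≠ 1) (hs : Equiv.Perm.sign σ = 1) :
    ∃ j : ℕ, 1 ≤ j ∧ {q : Ω | σ q = q}.ncard + 4 * j = Nat.card Ω := by
  have ho : orderOf σ = 2 := orderOf_eq_prime (by rw [pow_two]; exact h2) h1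
  obtain ⟨n, hn⟩ := Equiv.Perm.cycleType_prime_order (σ := σ) (by rw [ho]; exact Nat.prime_two)
  rw [ho] at hn
  have hsupp : σ.support.card = (n + 1) * 2 := by
    rw [← Equiv.Perm.sum_cycleType, hn, Multiset.sum_replicate, smul_eq_mul]
  have hsign := Equiv.Perm.sign_of_cycleType σ
  rw [hs, hn, Multiset.sum_replicate, Multiset.card_replicate, smul_eq_mul] at hsign
  have hev : Even ((n + 1) * 2 + (n + 1)) :=
    (neg_one_pow_eq_one_iff_even (by decide : (-1 : ℤˣ) ≠ 1)).mp hsign.symm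
  have hfix : (Finset.univ.filter (fun q => σ q = q)).card + σ.support.card =
      Fintype.card Ω := by
    have h3 := Finset.card_filter_add_card_filter_not (s := (Finset.univ : Finset Ω))
      (fun q => σ q = q)
    have e : (Finset.univ.filter (fun q => ¬ σ q = q)) = σ.support := by
      ext q; simp [Equiv.Perm.mem_support]
    rw [e] at h3
    rw [h3]; rfl
  have hset : {q : Ω | σ q = q} = ↑(Finset.univ.filter (fun q => σ q = q)) := by
    ext q; simp
  obtain ⟨m, hm⟩ := hev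
  refine ⟨(n + 1) / 2, by omega, ?_⟩
  rw [hset, Set.ncard_coe_finset, Nat.card_eq_fintype_card]
  omega

theorem sign_one [IsSimpleGroup G] (hG : 2 < Nat.card G) {Ω : Type*} [Fintype Ω]
    [DecidableEq Ω] [MulAction G Ω] (g : G) :
    Equiv.Perm.sign (MulAction.toPermHom G Ω g) = 1 := by
  have hker : ((Equiv.Perm.sign : Equiv.Perm Ω →* ℤˣ).comp (MulAction.toPermHom G Ω)).ker
      = ⊤ := by
    rcases (inferInstance : (((Equiv.Perm.sign : Equiv.Perm Ω →* ℤˣ).comp
      (MulAction.toPermHom G Ω)).ker).Normal).eq_bot_or_eq_top with hk | hk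
    · exfalso
      have hinj2 : Function.Injective
          ((Equiv.Perm.sign : Equiv.Perm Ω →* ℤˣ).comp (MulAction.toPermHom G Ω)) :=
        (MonoidHom.ker_eq_bot_iff _).mp hk
      have hle := Nat.card_le_card_of_injective _ hinj2
      rw [Nat.card_eq_fintype_card (α := ℤˣ), Fintype.card_units_int] at hle
      omega
    · exact hk
  have hmem : g ∈ ((Equiv.Perm.sign : Equiv.Perm Ω →* ℤˣ).comp
      (MulAction.toPermHom G Ω)).ker := by
    rw [hker]; trivial
  exact MonoidHom.mem_ker.mp hmem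

theorem smul_base (N : Subgroup G) (n : G) (hn : n ∈ N) :
    n • ((1 : G) : G ⧸ N) = ((1 : G) : G ⧸ N) := by
  show ((n * 1 : G) : G ⧸ N) = ((1 : G) : G ⧸ N)
  rw [QuotientGroup.eq]
  simpa using hn

theorem mk_eq_smul (N : Subgroup G) (g : G) :
    ((g : G) : G ⧸ N) = g • ((1 : G) : G ⧸ N) := by
  show ((g : G) : G ⧸ N) = ((g * 1 : G) : G ⧸ N)
  rw [mul_one]

theorem faithful [IsSimpleGroup G] (N : Subgroup G) (hN : N ≠ ⊤) (g : G)
    (hg : ∀ ω : G ⧸ N, g • ω = ω) : g = 1 := by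
  have hker : (MulAction.toPermHom G (G ⧸ N)).ker = ⊥ := by
    rcases (inferInstance :
      ((MulAction.toPermHom G (G ⧸ N)).ker).Normal).eq_bot_or_eq_top with hk | hk
    · exact hk
    · exfalso
      apply hN
      rw [eq_top_iff]
      intro g₀ _
      have hmem : g₀ ∈ (MulAction.toPermHom G (G ⧸ N)).ker := by rw [hk]; trivial
      have h1 : MulAction.toPermHom G (G ⧸ N) g₀ = 1 := MonoidHom.mem_ker.mp hmem
      have h2 : g₀ • ((1 : G) : G ⧸ N) = ((1 : G) : G ⧸ N) :=
        congrArg (fun σ : Equiv.Perm (G ⧸ N) => σ ((1 : G) : G ⧸ N)) h1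
      have h3 : ((g₀ * 1 : G) : G ⧸ N) = ((1 : G) : G ⧸ N) := h2
      rw [QuotientGroup.eq] at h3
      have e : g₀ = ((g₀ * 1)⁻¹ * 1)⁻¹ := by group
      rw [e]; exact Subgroup.inv_mem _ h3
  have h1 : g ∈ (MulAction.toPermHom G (G ⧸ N)).ker := by
    rw [MonoidHom.mem_ker]
    ext ω
    exact hg ω
  rw [hker, Subgroup.mem_bot] at h1
  exact h1

/-- fixed points of `g` on the cosets of `N` -/
def Fx (N : Subgroup G) (g : G) : Set (G ⧸ N) := {x | g • x = x}

/-- the setwise stabiliser of a set of cosets -/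
def stabSet (N : Subgroup G) (F : Set (G ⧸ N)) : Subgroup G where
  carrier := {g | ∀ x : G ⧸ N, x ∈ F ↔ g • x ∈ F}
  one_mem' := by intro x; rw [one_smul]
  mul_mem' := by
    intro a b ha hb x
    rw [mul_smul]
    exact (hb x).trans (ha (b • x))
  inv_mem' := by
    intro a ha x
    have h1 := ha (a⁻¹ • x)
    rw [smul_inv_smul] at h1
    exact h1.symm

theorem lemZ (N : Subgroup G) (u : G) (u7 : u ^ 7 = 1)
    (semi : ∀ (k : ℕ) (x : G ⧸ N), u ^ k • x = x → x ≠ ((1 : G) : G ⧸ N) → 7 ∣ k)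
    (c : G) (hc : c * u = u * c) (c8 : c ^ 8 = 1) (x : G ⧸ N) (hx : x ≠ ((1 : G) : G ⧸ N))
    (k : ℕ) (hk : c • x = u ^ k • x) : c • x = x := by
  have hcomm : Commute c u := hc
  have hiter : ∀ j : ℕ, c ^ j • x = u ^ (k * j) • x := by
    intro j
    induction j with
    | zero => simp
    | succ j ih =>
      have hcu : c * u ^ (k * j) = u ^ (k * j) * c := (hcomm.pow_right (k * j)).eq
      rw [pow_succ', mul_smul, ih, ← mul_smul, hcu, mul_smul, hk, ← mul_smul, ← pow_add,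
        mul_add_one]
  have h8 := hiter 8
  rw [c8, one_smul] at h8
  have h7 : 7 ∣ k * 8 := semi (k * 8) x h8.symm hx
  have h7k : 7 ∣ k := by omega
  obtain ⟨m, hm⟩ := h7k
  rw [hk, hm, pow_mul, u7, one_pow, one_smul]

theorem lemTR (N : Subgroup G) (u : G) (u7 : u ^ 7 = 1)
    (semi : ∀ (k : ℕ) (x : G ⧸ N), u ^ k • x = x → x ≠ ((1 : G) : G ⧸ N) → 7 ∣ k)
    (S : Set (G ⧸ N)) (hS : S.ncard = 7) (hoS : ((1 : G) : G ⧸ N) ∉ S)
    (huS : ∀ x ∈ S, u • x ∈ S) (x y : G ⧸ N) (hx : x ∈ S) (hy : y ∈ S) :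
    ∃ k : ℕ, y = u ^ k • x := by
  have hpow : ∀ i : ℕ, u ^ i • x ∈ S := by
    intro i
    induction i with
    | zero => simpa using hx
    | succ i ih => rw [pow_succ', mul_smul]; exact huS _ ih
  have key : ∀ i j : ℕ, i < j → j < 7 → u ^ i • x = u ^ j • x → False := by
    intro i j hij hj he
    have h1 : u ^ (j - i) • (u ^ i • x) = u ^ i • x := by
      rw [← mul_smul, ← pow_add, Nat.sub_add_cancel hij.le]; exact he.symm
    have h2 := semi (j - i) (u ^ i • x) h1 (fun h => hoS (by rw [← h]; exact hpow i))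
    omega
  have hinj : Function.Injective (fun i : Fin 7 => u ^ (i : ℕ) • x) := by
    intro i j he
    have he' : u ^ (i : ℕ) • x = u ^ (j : ℕ) • x := he
    rcases Nat.lt_trichotomy (i : ℕ) (j : ℕ) with h | h | h
    · exact (key _ _ h j.2 he').elim
    · exact Fin.ext h
    · exact (key _ _ h i.2 he'.symm).elim
  have hsub : Set.range (fun i : Fin 7 => u ^ (i : ℕ) • x) ⊆ S := by
    rintro _ ⟨i, rfl⟩
    exact hpow i
  have hcard : (Set.range (fun i : Fin 7 => u ^ (i : ℕ) • x)).ncard = 7 := by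
    rw [← Set.image_univ, Set.ncard_image_of_injective _ hinj, Set.ncard_univ, Nat.card_fin]
  have heq := Set.eq_of_subset_of_ncard_le hsub (le_of_eq (by rw [hS, hcard]))
  rw [← heq] at hy
  obtain ⟨i, hi⟩ := hy
  exact ⟨i, hi.symm⟩

theorem lemTZ (N : Subgroup G) (u : G) (u7 : u ^ 7 = 1)
    (semi : ∀ (k : ℕ) (x : G ⧸ N), u ^ k • x = x → x ≠ ((1 : G) : G ⧸ N) → 7 ∣ k)
    (S : Set (G ⧸ N)) (hS : S.ncard = 7) (hoS : ((1 : G) : G ⧸ N) ∉ S)
    (huS : ∀ x ∈ S, u • x ∈ S) (c : G) (hc : c * u = u * c) (c8 : c ^ 8 = 1)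
    (hcS : ∀ x ∈ S, c • x ∈ S) (x : G ⧸ N) (hx : x ∈ S) : c • x = x := by
  obtain ⟨k, hk⟩ := lemTR N u u7 semi S hS hoS huS x (c • x) hx (hcS x hx)
  exact lemZ N u u7 semi c hc c8 x (fun h => hoS (by rw [← h]; exact hx)) k hk

theorem card_cent (N : Subgroup G) (u : G)
    (pm : ∀ n ∈ N, n ^ 8 = 1 → n * u * n⁻¹ = u ∨ n * u * n⁻¹ = u⁻¹)
    (S : Subgroup G) (hSN : S ≤ N) (hS8 : ∀ s ∈ S, s ^ 8 = 1) :
    Nat.card S = Nat.card ↥(S ⊓ Subgroup.centralizer ({u} : Set G)) ∨
    Nat.card S = 2 * Nat.card ↥(S ⊓ Subgroup.centralizer ({u} : Set G)) := by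
  by_cases hall : ∀ s ∈ S, s * u = u * s
  · left
    have h1 : S ⊓ Subgroup.centralizer ({u} : Set G) = S := by
      apply le_antisymm inf_le_left
      intro s hs
      exact Subgroup.mem_inf.mpr ⟨hs, (mem_cent u s).mpr (hall s hs)⟩
    rw [h1]
  · right
    push_neg at hall
    obtain ⟨a, haS, hau⟩ := hall
    have hconj : ∀ s ∈ S, ¬ s * u = u * s → s * u * s⁻¹ = u⁻¹ := by
      intro s hs hsu
      rcases pm s (hSN hs) (hS8 s hs) with h | h
      · exfalso; apply hsu
        calc s * u = s * u * s⁻¹ * s := by group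
          _ = u * s := by rw [h]
      · exact h
    have hmemV : ∀ s : G, s ∈ S ⊓ Subgroup.centralizer ({u} : Set G) ↔
        s ∈ S ∧ s * u = u * s := by
      intro s; rw [Subgroup.mem_inf, mem_cent]
    have hidx : ((S ⊓ Subgroup.centralizer ({u} : Set G)).subgroupOf S).index = 2 := by
      rw [Subgroup.index_eq_two_iff]
      refine ⟨⟨a, haS⟩, fun b => ?_⟩
      rw [Subgroup.mem_subgroupOf, Subgroup.mem_subgroupOf]
      show Xor ((b : G) * a ∈ S ⊓ Subgroup.centralizer ({u} : Set G))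
        ((b : G) ∈ S ⊓ Subgroup.centralizer ({u} : Set G))
      rw [hmemV, hmemV]
      by_cases hb : (b : G) * u = u * (b : G)
      · right
        refine ⟨⟨b.2, hb⟩, ?_⟩
        rintro ⟨-, hba⟩
        apply hau
        have hb' : (b : G)⁻¹ * u = u * (b : G)⁻¹ := by
          calc (b : G)⁻¹ * u = (b : G)⁻¹ * (u * (b : G)) * (b : G)⁻¹ := by group
            _ = (b : G)⁻¹ * ((b : G) * u) * (b : G)⁻¹ := by rw [hb]
            _ = u * (b : G)⁻¹ := by group
        calc a * u = (b : G)⁻¹ * ((b : G) * a * u) := by group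
          _ = (b : G)⁻¹ * (u * ((b : G) * a)) := by rw [hba]
          _ = ((b : G)⁻¹ * u) * ((b : G) * a) := by group
          _ = (u * (b : G)⁻¹) * ((b : G) * a) := by rw [hb']
          _ = u * a := by group
      · left
        refine ⟨⟨S.mul_mem b.2 haS, ?_⟩, fun h => hb h.2⟩
        have h1 := hconj a haS hau
        have h2 := hconj (b : G) b.2 hb
        have h3 : (b : G) * a * u * ((b : G) * a)⁻¹ = u := by
          calc (b : G) * a * u * ((b : G) * a)⁻¹
              = (b : G) * (a * u * a⁻¹) * (b : G)⁻¹ := by group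
            _ = (b : G) * u⁻¹ * (b : G)⁻¹ := by rw [h1]
            _ = ((b : G) * u * (b : G)⁻¹)⁻¹ := by group
            _ = u := by rw [h2, inv_inv]
        calc (b : G) * a * u = (b : G) * a * u * ((b : G) * a)⁻¹ * ((b : G) * a) := by group
          _ = u * ((b : G) * a) := by rw [h3]
    have hmul := Subgroup.card_mul_index
      ((S ⊓ Subgroup.centralizer ({u} : Set G)).subgroupOf S)
    rw [hidx, Nat.card_congr (Subgroup.subgroupOfEquivOfLe
      (inf_le_left : S ⊓ Subgroup.centralizer ({u} : Set G) ≤ S)).toEquiv] at hmul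
    omega

set_option maxHeartbeats 800000 in
/-- an involution centralising `u` has exactly 8 fixed points -/
theorem inv8 [IsSimpleGroup G] (hG : Nat.card G = 2016) (N : Subgroup G)
    (hcN : Nat.card N = 56) (u : G) (u7 : u ^ 7 = 1) (uN : u ∈ N)
    (semi : ∀ (k : ℕ) (x : G ⧸ N), u ^ k • x = x → x ≠ ((1 : G) : G ⧸ N) → 7 ∣ k)
    (faith : ∀ g : G, (∀ x : G ⧸ N, g • x = x) → g = 1)
    (cent : ∀ c : G, c * u = u * c → c ∈ N)
    (z : G) (hz2 : z * z = 1) (hz1 : z ≠ 1) (hzu : z * u = u * z) : (Fx N z).ncard = 8 := by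
  haveI := S168.fact7
  have hfix1 : ∀ x : G ⧸ N, u • x = x → x = ((1 : G) : G ⧸ N) := by
    intro x hx
    by_contra hxo
    have h7 := semi 1 x (by rw [pow_one]; exact hx) hxo
    omega
  have hpg : IsPGroup 7 ↥(Subgroup.zpowers u) := by
    intro g
    refine ⟨1, Subtype.ext ?_⟩
    obtain ⟨i, hi⟩ := Subgroup.mem_zpowers_iff.mp g.2
    show (g : G) ^ 7 ^ 1 = 1
    rw [← hi, pow_one, ← zpow_natCast, ← zpow_mul, mul_comm, zpow_mul, zpow_natCast, u7,
      one_zpow]
  let A : SubMulAction ↥(Subgroup.zpowers u) (G ⧸ N) :=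
    { carrier := Fx N z
      smul_mem' := by
        intro p x hx
        obtain ⟨i, hi⟩ := Subgroup.mem_zpowers_iff.mp p.2
        have hcomm : Commute z u := hzu
        have hzp : z * (p : G) = (p : G) * z := by rw [← hi]; exact (hcomm.zpow_right i).eq
        have hx' : z • x = x := hx
        show z • ((p : G) • x) = (p : G) • x
        rw [← mul_smul, hzp, mul_smul, hx'] }
  have hmod := hpg.card_modEq_card_fixedPoints (↥A)
  have hbase : z • ((1 : G) : G ⧸ N) = ((1 : G) : G ⧸ N) := smul_base N z (cent z hzu)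
  have hfp : Nat.card ↥(MulAction.fixedPoints ↥(Subgroup.zpowers u) ↥A) = 1 := by
    rw [Nat.card_eq_one_iff_unique]
    refine ⟨⟨fun a b => ?_⟩, ⟨⟨⟨((1 : G) : G ⧸ N), hbase⟩, ?_⟩⟩⟩
    · have ha0 := a.2 ⟨u, Subgroup.mem_zpowers u⟩
      have ha1 := congrArg Subtype.val ha0
      have ha : u • a.1.1 = a.1.1 := ha1
      have hb0 := b.2 ⟨u, Subgroup.mem_zpowers u⟩
      have hb1 := congrArg Subtype.val hb0
      have hb : u • b.1.1 = b.1.1 := hb1
      exact Subtype.ext (Subtype.ext ((hfix1 _ ha).trans (hfix1 _ hb).symm))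
    · intro p
      exact Subtype.ext (smul_base N (p : G) ((Subgroup.zpowers_le.mpr uN) p.2))
  have hA : Nat.card ↥A = (Fx N z).ncard := Nat.card_coe_set_eq (Fx N z)
  have hmod' : (Fx N z).ncard % 7 = 1 := by
    have h1 := hmod
    rw [hfp, hA] at h1
    exact h1
  classical
  haveI : Fintype (G ⧸ N) := Fintype.ofFinite _
  obtain ⟨σ, hσ⟩ : ∃ σ : Equiv.Perm (G ⧸ N), σ = MulAction.toPermHom G (G ⧸ N) z := ⟨_, rfl⟩
  have hσa : ∀ x, σ x = z • x := by intro x; rw [hσ]; rfl
  have hσ2 : σ * σ = 1 := by rw [hσ, ← map_mul, hz2, map_one]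
  have hσ1 : σ ≠ 1 := by
    intro h1
    apply hz1
    apply faith
    intro x
    have h2 := hσa x
    rw [h1] at h2
    exact h2.symm
  have hσs : Equiv.Perm.sign σ = 1 := by
    rw [hσ]; exact sign_one (by rw [hG]; norm_num) z
  obtain ⟨j, hj1, hj⟩ := fix_card σ hσ2 hσ1 hσs
  have hset : Fx N z = {q : G ⧸ N | σ q = q} := by
    ext x; rw [hσ]; exact Iff.rfl
  have hcΩ : Nat.card (G ⧸ N) = 36 := by
    have h1 := Subgroup.card_mul_index N
    rw [hcN, hG] at h1
    have h2 : N.index = 36 := by omega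
    exact h2
  rw [← hset, hcΩ] at hj
  omega

theorem case252 [IsSimpleGroup G] (N : Subgroup G) (hcN : Nat.card N = 252)
    (hidx : Nat.card (G ⧸ N) = 8) (u : G) (u7 : u ^ 7 = 1) (uN : u ∈ N)
    (semi : ∀ (k : ℕ) (x : G ⧸ N), u ^ k • x = x → x ≠ ((1 : G) : G ⧸ N) → 7 ∣ k)
    (faith : ∀ g : G, (∀ x : G ⧸ N, g • x = x) → g = 1)
    (pm : ∀ n ∈ N, n ^ 8 = 1 → n * u * n⁻¹ = u ∨ n * u * n⁻¹ = u⁻¹) : False := by
  obtain ⟨T⟩ : Nonempty (Sylow 2 ↥N) := inferInstance
  have hT : Nat.card (T : Subgroup ↥N) = 4 := by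
    have h1 := S168.sylow_card_of (p := 2) 2 63 (by rw [hcN]; norm_num) (by norm_num) T
    simpa using h1
  obtain ⟨S, hSdef⟩ : ∃ S : Subgroup G, S = (T : Subgroup ↥N).map N.subtype := ⟨_, rfl⟩
  have hSc : Nat.card S = 4 := by rw [hSdef, Subgroup.card_subtype, hT]
  have hSN : S ≤ N := by rw [hSdef]; exact Subgroup.map_subtype_le _
  have hS8 : ∀ s ∈ S, s ^ 8 = 1 := by
    intro s hs
    have h4 := pow_card_of_mem S s hs
    rw [hSc] at h4
    have e : s ^ 8 = (s ^ 4) ^ 2 := by rw [← pow_mul]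
    rw [e, h4, one_pow]
  have hV2 : 2 ≤ Nat.card ↥(S ⊓ Subgroup.centralizer ({u} : Set G)) := by
    rcases card_cent N u pm S hSN hS8 with h | h <;> omega
  obtain ⟨c, hcV, hc1⟩ : ∃ c ∈ S ⊓ Subgroup.centralizer ({u} : Set G), c ≠ 1 := by
    by_contra hno
    push_neg at hno
    have h1 : S ⊓ Subgroup.centralizer ({u} : Set G) = ⊥ :=
      (Subgroup.eq_bot_iff_forall _).mpr hno
    rw [h1, Subgroup.card_bot] at hV2
    omega
  have hcS := (Subgroup.mem_inf.mp hcV).1
  have hcu : c * u = u * c := (mem_cent u c).mp (Subgroup.mem_inf.mp hcV).2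
  apply hc1
  apply faith
  intro x
  by_cases hx : x = ((1 : G) : G ⧸ N)
  · rw [hx]; exact smul_base N c (hSN hcS)
  · refine lemTZ N u u7 semi {y | y ≠ ((1 : G) : G ⧸ N)} ?_ ?_ ?_ c hcu (hS8 c hcS) ?_ x hx
    · have h1 : ({y | y ≠ ((1 : G) : G ⧸ N)} : Set (G ⧸ N)) =
          Set.univ \ {((1 : G) : G ⧸ N)} := by
        ext y; simp
      have h2 := Set.ncard_sdiff_singleton_of_mem (Set.mem_univ (((1 : G) : G ⧸ N)))
      rw [Set.ncard_univ, hidx] at h2
      rw [h1]
      omega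
    · intro h; exact h rfl
    · intro y hy h
      have h2 : u • y = u • ((1 : G) : G ⧸ N) := by rw [smul_base N u uN]; exact h
      exact hy (smul_left_cancel u h2)
    · intro y hy h
      have h2 : c • y = c • ((1 : G) : G ⧸ N) := by rw [smul_base N c (hSN hcS)]; exact h
      exact hy (smul_left_cancel c h2)

set_option maxHeartbeats 1600000 in
theorem case56 [IsSimpleGroup G] (hG : Nat.card G = 2016) (N : Subgroup G)
    (hcN : Nat.card N = 56) (u : G) (u7 : u ^ 7 = 1) (u1 : u ≠ 1) (uN : u ∈ N)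
    (semi : ∀ (k : ℕ) (x : G ⧸ N), u ^ k • x = x → x ≠ ((1 : G) : G ⧸ N) → 7 ∣ k)
    (faith : ∀ g : G, (∀ x : G ⧸ N, g • x = x) → g = 1)
    (pm : ∀ n ∈ N, n ^ 8 = 1 → n * u * n⁻¹ = u ∨ n * u * n⁻¹ = u⁻¹)
    (cent : ∀ c : G, c * u = u * c → c ∈ N)
    (burn : ¬ (∀ n ∈ N, n * u = u * n)) : False := by
  haveI := S168.fact7
  obtain ⟨T⟩ : Nonempty (Sylow 2 ↥N) := inferInstance
  have hT : Nat.card (T : Subgroup ↥N) = 8 := by
    have h1 := S168.sylow_card_of (p := 2) 3 7 (by rw [hcN]; norm_num) (by norm_num) T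
    simpa using h1
  obtain ⟨S, hSdef⟩ : ∃ S : Subgroup G, S = (T : Subgroup ↥N).map N.subtype := ⟨_, rfl⟩
  have hSc : Nat.card S = 8 := by rw [hSdef, Subgroup.card_subtype, hT]
  have hSN : S ≤ N := by rw [hSdef]; exact Subgroup.map_subtype_le _
  have hS8 : ∀ s ∈ S, s ^ 8 = 1 := by
    intro s hs
    have h8 := pow_card_of_mem S s hs
    rw [hSc] at h8
    exact h8
  have hou : orderOf u = 7 := orderOf_eq_prime u7 u1
  have hZc : Nat.card (Subgroup.zpowers u) = 7 := by rw [Nat.card_zpowers, hou]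
  have hZN : Subgroup.zpowers u ≤ N := Subgroup.zpowers_le.mpr uN
  have hsup : N = Subgroup.zpowers u ⊔ S := by
    symm
    apply Subgroup.eq_of_le_of_card_ge (sup_le hZN hSN)
    have h7 : 7 ∣ Nat.card ↥(Subgroup.zpowers u ⊔ S) := by
      have h1 := Subgroup.card_dvd_of_le
        (le_sup_left : Subgroup.zpowers u ≤ Subgroup.zpowers u ⊔ S)
      rwa [hZc] at h1
    have h8 : 8 ∣ Nat.card ↥(Subgroup.zpowers u ⊔ S) := by
      have h1 := Subgroup.card_dvd_of_le (le_sup_right : S ≤ Subgroup.zpowers u ⊔ S)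
      rwa [hSc] at h1
    have hpos : 0 < Nat.card ↥(Subgroup.zpowers u ⊔ S) := Nat.card_pos
    rw [hcN]
    omega
  obtain ⟨V, hVdef⟩ : ∃ V : Subgroup G, V = S ⊓ Subgroup.centralizer ({u} : Set G) :=
    ⟨_, rfl⟩
  have hVS : V ≤ S := by rw [hVdef]; exact inf_le_left
  have hVu : ∀ v ∈ V, v * u = u * v := by
    intro v hv; rw [hVdef] at hv; exact (mem_cent u v).mp (Subgroup.mem_inf.mp hv).2
  have hVmem : ∀ v, v ∈ S → v * u = u * v → v ∈ V := by
    intro v hv hvu; rw [hVdef]; exact Subgroup.mem_inf.mpr ⟨hv, (mem_cent u v).mpr hvu⟩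
  have hVN : V ≤ N := hVS.trans hSN
  have hVc : Nat.card V = 4 := by
    rcases card_cent N u pm S hSN hS8 with h | h
    · exfalso
      apply burn
      have hVeq : V = S := Subgroup.eq_of_le_of_card_ge hVS (le_of_eq (by rw [hVdef, ← h]))
      have hle : Subgroup.zpowers u ⊔ S ≤ Subgroup.centralizer ({u} : Set G) := by
        apply sup_le
        · rw [Subgroup.zpowers_le, mem_cent]
        · intro s hs
          rw [← hVeq] at hs
          exact (mem_cent u s).mpr (hVu s hs)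
      intro n hn
      rw [hsup] at hn
      exact (mem_cent u n).mp (hle hn)
    · rw [hVdef]; omega
  have hV4 : ∀ v ∈ V, v ^ 4 = 1 := by
    intro v hv
    have h4 := pow_card_of_mem V v hv
    rw [hVc] at h4
    exact h4
  have hVcomm : ∀ a ∈ V, ∀ b ∈ V, a * b = b * a := by
    intro a ha b hb
    have hc : IsMulCommutative V :=
      IsPGroup.isMulCommutative_of_card_eq_prime_sq (p := 2) (by rw [hVc]; norm_num)
    exact congrArg Subtype.val (hc.is_comm.comm ⟨a, ha⟩ ⟨b, hb⟩)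
  have hconjS : ∀ s ∈ S, ∀ v ∈ V, s * v * s⁻¹ ∈ V := by
    intro s hs v hv
    apply hVmem _ (S.mul_mem (S.mul_mem hs (hVS hv)) (S.inv_mem hs))
    have hvu := hVu v hv
    have hw : v * (s⁻¹ * u * s) = (s⁻¹ * u * s) * v := by
      rcases pm s⁻¹ (hSN (S.inv_mem hs)) (by rw [inv_pow, hS8 s hs, inv_one]) with h | h
      · rw [inv_inv] at h; rw [h]; exact hvu
      · rw [inv_inv] at h; rw [h]
        calc v * u⁻¹ = u⁻¹ * (u * v) * u⁻¹ := by group
          _ = u⁻¹ * (v * u) * u⁻¹ := by rw [hvu]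
          _ = u⁻¹ * v := by group
    calc s * v * s⁻¹ * u = s * (v * (s⁻¹ * u * s)) * s⁻¹ := by group
      _ = s * ((s⁻¹ * u * s) * v) * s⁻¹ := by rw [hw]
      _ = u * (s * v * s⁻¹) := by group
  have hconjZ : ∀ p ∈ Subgroup.zpowers u, ∀ v ∈ V, p * v * p⁻¹ ∈ V := by
    intro p hp v hv
    obtain ⟨i, rfl⟩ := Subgroup.mem_zpowers_iff.mp hp
    have hc : Commute v u := hVu v hv
    have h2 : v * u ^ i = u ^ i * v := (hc.zpow_right i).eq
    rw [← h2, mul_inv_cancel_right]
    exact hv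
  have hNV : N ≤ Subgroup.normalizer (V : Set G) := by
    rw [hsup]
    exact sup_le (le_normalizer_of_conj _ V hconjZ) (le_normalizer_of_conj _ V hconjS)
  obtain ⟨v₀, hv₀V, hv₀1⟩ : ∃ c ∈ V, c ≠ 1 := by
    by_contra hno
    push_neg at hno
    have h1 : V = ⊥ := (Subgroup.eq_bot_iff_forall _).mpr hno
    rw [h1, Subgroup.card_bot] at hVc
    omega
  obtain ⟨z₀, hz₀V, hz₀2, hz₀1, -⟩ := invol_of V v₀ hv₀V (hV4 v₀ hv₀V) hv₀1
  have hinv8 : ∀ z, z * z = 1 → z ≠ 1 → z * u = u * z → (Fx N z).ncard = 8 :=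
    inv8 hG N hcN u u7 uN semi faith cent
  obtain ⟨F, hFdef⟩ : ∃ F : Set (G ⧸ N), F = Fx N z₀ := ⟨_, rfl⟩
  have hFc : F.ncard = 8 := by rw [hFdef]; exact hinv8 z₀ hz₀2 hz₀1 (hVu z₀ hz₀V)
  have hoF : ((1 : G) : G ⧸ N) ∈ F := by rw [hFdef]; exact smul_base N z₀ (hVN hz₀V)
  have hstab : ∀ c : G, z₀ * c = c * z₀ → c ∈ N → ∀ y ∈ F \ {((1 : G) : G ⧸ N)},
      c • y ∈ F \ {((1 : G) : G ⧸ N)} := by
    intro c hc hcN' y hy
    refine ⟨?_, ?_⟩
    · have hyF : z₀ • y = y := by
        have h1 := hy.1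
        rw [hFdef] at h1
        exact h1
      rw [hFdef]
      show z₀ • c • y = c • y
      rw [← mul_smul, hc, mul_smul, hyF]
    · intro h
      have h' : c • y = ((1 : G) : G ⧸ N) := h
      have h2 : c • y = c • ((1 : G) : G ⧸ N) := by rw [smul_base N c hcN']; exact h'
      exact hy.2 (smul_left_cancel c h2)
  have hA : ∀ v ∈ V, ∀ x ∈ F, v • x = x := by
    intro v hv x hx
    by_cases hxo : x = ((1 : G) : G ⧸ N)
    · rw [hxo]; exact smul_base N v (hVN hv)
    · refine lemTZ N u u7 semi (F \ {((1 : G) : G ⧸ N)}) ?_ ?_ ?_ v (hVu v hv) ?_ ?_ x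
        ⟨hx, hxo⟩
      · have h2 := Set.ncard_sdiff_singleton_of_mem hoF
        omega
      · intro h; exact h.2 rfl
      · exact hstab u (hVu z₀ hz₀V) uN
      · have e : v ^ 8 = (v ^ 4) ^ 2 := by rw [← pow_mul]
        rw [e, hV4 v hv, one_pow]
      · exact hstab v (hVcomm z₀ hz₀V v hv) (hVN hv)
  have hB : ∀ v ∈ V, v ≠ 1 → Fx N v = F := by
    intro v hv hv1
    obtain ⟨w, hwV, hw2, hw1, hwfix⟩ := invol_of V v hv (hV4 v hv) hv1
    have hFw : F ⊆ Fx N w := fun x hx => hA w hwV x hx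
    have hwc : (Fx N w).ncard = 8 := hinv8 w hw2 hw1 (hVu w hwV)
    have hFeq : F = Fx N w := Set.eq_of_subset_of_ncard_le hFw (le_of_eq (by rw [hwc, hFc]))
    apply Set.Subset.antisymm
    · intro x hx
      rw [hFeq]
      exact hwfix N x hx
    · exact fun x hx => hA v hv x hx
  have hS4 : ∀ g : G, ((g : G) : G ⧸ N) ∈ F → ∀ x : G ⧸ N, x ∈ F ↔ g • x ∈ F := by
    intro g hg
    obtain ⟨V', hV'def⟩ : ∃ V' : Subgroup G, V' = V.map (MulAut.conj g⁻¹).toMonoidHom :=
      ⟨_, rfl⟩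
    have hV'mem : ∀ w, w ∈ V' ↔ ∃ v ∈ V, g⁻¹ * v * g = w := by
      intro w
      rw [hV'def, Subgroup.mem_map]
      constructor
      · rintro ⟨v, hv, rfl⟩
        exact ⟨v, hv, by simp [MulAut.conj_apply]⟩
      · rintro ⟨v, hv, rfl⟩
        exact ⟨v, hv, by simp [MulAut.conj_apply]⟩
    have hV'c : Nat.card V' = 4 := by
      rw [hV'def, Subgroup.card_map_of_injective (f := (MulAut.conj g⁻¹).toMonoidHom)
        (MulAut.conj g⁻¹).injective, hVc]
    have hV'N : V' ≤ N := by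
      intro w hw
      obtain ⟨v, hv, rfl⟩ := (hV'mem w).mp hw
      have h1 : v • ((g : G) : G ⧸ N) = ((g : G) : G ⧸ N) := hA v hv _ hg
      have h2 : ((v * g : G) : G ⧸ N) = ((g : G) : G ⧸ N) := h1
      rw [QuotientGroup.eq] at h2
      have e : g⁻¹ * v * g = ((v * g)⁻¹ * g)⁻¹ := by group
      rw [e]; exact N.inv_mem h2
    have hpV : IsPGroup 2 V := IsPGroup.of_card (n := 2) (by rw [hVc]; norm_num)
    have hpV' : IsPGroup 2 V' := IsPGroup.of_card (n := 2) (by rw [hV'c]; norm_num)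
    have hpW : IsPGroup 2 ↥(V' ⊔ V) := hpV'.to_sup_of_normal_right' hpV (hV'N.trans hNV)
    have hWN : V' ⊔ V ≤ N := sup_le hV'N hVN
    have hWc : Nat.card ↥(V' ⊔ V) ≤ 8 := by
      obtain ⟨n, hn⟩ := (IsPGroup.iff_card).mp hpW
      have hd := Subgroup.card_dvd_of_le hWN
      rw [hn, hcN] at hd
      rw [hn]
      have hn3 : n ≤ 3 := by
        by_contra hlt
        push_neg at hlt
        have h16 : 2 ^ 4 ∣ 2 ^ n := pow_dvd_pow 2 hlt
        have h56 := h16.trans hd
        norm_num at h56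
      calc 2 ^ n ≤ 2 ^ 3 := Nat.pow_le_pow_right (by norm_num) hn3
        _ = 8 := by norm_num
    obtain ⟨w, hwV, hwV', hw1⟩ : ∃ w, w ∈ V ∧ w ∈ V' ∧ w ≠ 1 := by
      by_contra hno
      push_neg at hno
      have hinj : Function.Injective (fun p : ↥V × ↥V' =>
          (⟨(p.1 : G) * (p.2 : G), Subgroup.mul_mem _
            ((le_sup_right : V ≤ V' ⊔ V) p.1.2) ((le_sup_left : V' ≤ V' ⊔ V) p.2.2)⟩ :
            ↥(V' ⊔ V))) := by
        rintro ⟨a, b⟩ ⟨a', b'⟩ hab
        have h1 : (a : G) * (b : G) = (a' : G) * (b' : G) := congrArg Subtype.val hab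
        have h2 : (a' : G)⁻¹ * (a : G) = (b' : G) * (b : G)⁻¹ := by
          calc (a' : G)⁻¹ * (a : G) = (a' : G)⁻¹ * ((a : G) * (b : G)) * (b : G)⁻¹ := by group
            _ = (a' : G)⁻¹ * ((a' : G) * (b' : G)) * (b : G)⁻¹ := by rw [h1]
            _ = (b' : G) * (b : G)⁻¹ := by group
        have h3 : (a' : G)⁻¹ * (a : G) = 1 :=
          hno _ (V.mul_mem (V.inv_mem a'.2) a.2)
            (by rw [h2]; exact V'.mul_mem b'.2 (V'.inv_mem b.2))
        have h4 : (b' : G) * (b : G)⁻¹ = 1 := by rw [← h2]; exact h3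
        have ha : (a : G) = (a' : G) := by
          calc (a : G) = (a' : G) * ((a' : G)⁻¹ * (a : G)) := by group
            _ = (a' : G) := by rw [h3, mul_one]
        have hb : (b : G) = (b' : G) := by
          calc (b : G) = ((b' : G) * (b : G)⁻¹)⁻¹ * (b' : G) := by group
            _ = (b' : G) := by rw [h4, inv_one, one_mul]
        exact Prod.ext (Subtype.ext ha) (Subtype.ext hb)
      have hle := Nat.card_le_card_of_injective _ hinj
      rw [Nat.card_prod, hVc, hV'c] at hle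
      omega
    obtain ⟨v, hvV, hvw⟩ := (hV'mem w).mp hwV'
    have hv1 : v ≠ 1 := by
      intro hv
      apply hw1
      rw [← hvw, hv]; group
    have hFw : Fx N w = F := hB w hwV hw1
    have hFv : Fx N v = F := hB v hvV hv1
    intro x
    have key : w • x = x ↔ v • (g • x) = g • x := by
      rw [← hvw]
      constructor
      · intro h
        calc v • (g • x) = g • ((g⁻¹ * v * g) • x) := by
              rw [mul_smul, mul_smul, smul_inv_smul]
          _ = g • x := by rw [h]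
      · intro h
        calc (g⁻¹ * v * g) • x = g⁻¹ • (v • (g • x)) := by rw [mul_smul, mul_smul]
          _ = g⁻¹ • (g • x) := by rw [h]
          _ = x := inv_smul_smul g x
    have e1 : x ∈ F ↔ w • x = x := by rw [← hFw]; exact Iff.rfl
    have e2 : g • x ∈ F ↔ v • (g • x) = g • x := by rw [← hFv]; exact Iff.rfl
    rw [e1, e2]; exact key
  obtain ⟨T', hT'⟩ : ∃ T' : Subgroup G, ∀ g, g ∈ T' ↔ ∀ x : G ⧸ N, x ∈ F ↔ g • x ∈ F :=
    ⟨stabSet N F, fun g => Iff.rfl⟩
  have hTset : (T' : Set G) = QuotientGroup.mk ⁻¹' F := by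
    ext g
    rw [SetLike.mem_coe, hT', Set.mem_preimage]
    constructor
    · intro h
      have h1 := (h _).mp hoF
      rw [← mk_eq_smul] at h1
      exact h1
    · exact hS4 g
  have hTc : Nat.card T' = 56 * 8 := by
    have h1 := QuotientGroup.card_preimage_mk N F
    rw [hcN, Nat.card_coe_set_eq F, hFc] at h1
    rw [← h1]
    exact Nat.card_congr (Equiv.setCongr hTset)
  have hdvd := Subgroup.card_subgroup_dvd_card T'
  rw [hTc, hG] at hdvd
  norm_num at hdvd

set_option maxRecDepth 8000 in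
theorem main [IsSimpleGroup G] (hG : Nat.card G = 2016) : False := by
  haveI := S168.fact7
  obtain ⟨P⟩ : Nonempty (Sylow 7 G) := inferInstance
  have hcP : Nat.card (P : Subgroup G) = 7 := by
    have h1 := S168.sylow_card_of (p := 7) 1 288 (by rw [hG]; norm_num) (by norm_num) P
    simpa using h1
  obtain ⟨N, hN⟩ : ∃ N : Subgroup G, N = Subgroup.normalizer ((P : Subgroup G) : Set G) :=
    ⟨_, rfl⟩
  have hPN : (P : Subgroup G) ≤ N := by rw [hN]; exact Subgroup.le_normalizer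
  obtain ⟨u, huP, hu1⟩ : ∃ u ∈ (P : Subgroup G), u ≠ 1 := by
    by_contra hno
    push_neg at hno
    have h1 : (P : Subgroup G) = ⊥ := (Subgroup.eq_bot_iff_forall _).mpr hno
    rw [h1, Subgroup.card_bot] at hcP
    omega
  have u7 : u ^ 7 = 1 := by
    have h1 := pow_card_of_mem (P : Subgroup G) u huP
    rwa [hcP] at h1
  have hou : orderOf u = 7 := orderOf_eq_prime u7 hu1
  have hPz : (P : Subgroup G) = Subgroup.zpowers u := by
    symm
    apply Subgroup.eq_of_le_of_card_ge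
    · rw [Subgroup.zpowers_le]; exact huP
    · rw [Nat.card_zpowers, hou, hcP]
  have uN : u ∈ N := hPN huP
  have hPnn : ¬ (P : Subgroup G).Normal := by
    intro hn
    rcases hn.eq_bot_or_eq_top with hb | hb
    · rw [hb, Subgroup.card_bot] at hcP; omega
    · rw [hb, Subgroup.card_top, hG] at hcP; omega
  have hNtop : N ≠ ⊤ := by
    intro ht
    rw [hN] at ht
    exact hPnn (Subgroup.normalizer_eq_top_iff.mp ht)
  have cent : ∀ c : G, c * u = u * c → c ∈ N := by
    intro c hc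
    have hcC : c ∈ Subgroup.centralizer ((P : Subgroup G) : Set G) := by
      rw [Subgroup.mem_centralizer_iff]
      intro y hy
      have hy' : y ∈ Subgroup.zpowers u := by rw [← hPz]; exact hy
      obtain ⟨i, rfl⟩ := Subgroup.mem_zpowers_iff.mp hy'
      have hcomm : Commute c u := hc
      exact ((hcomm.zpow_right i).eq).symm
    rw [hN]; exact Subgroup.centralizer_le_normalizer _ hcC
  have semi : ∀ (k : ℕ) (x : G ⧸ N), u ^ k • x = x → x ≠ ((1 : G) : G ⧸ N) → 7 ∣ k := by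
    intro k x hx hxo
    by_contra h7
    apply hxo
    have hk1 : u ^ k ≠ 1 := by
      intro h1
      apply h7
      rw [← hou]
      exact orderOf_dvd_of_pow_eq_one h1
    obtain ⟨g, rfl⟩ := QuotientGroup.mk_surjective x
    have h3 : ((u ^ k * g : G) : G ⧸ N) = ((g : G) : G ⧸ N) := hx
    rw [QuotientGroup.eq] at h3
    have hgN : g ∈ N := by
      rw [hN]
      apply UP.conj_not_mem 7 P hcP g (u ^ k)⁻¹
        (Subgroup.inv_mem _ (Subgroup.pow_mem _ huP k)) (by simpa using hk1)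
      have e : g⁻¹ * (u ^ k)⁻¹ * g = (u ^ k * g)⁻¹ * g := by group
      rw [e, ← hN]; exact h3
    show ((g : G) : G ⧸ N) = ((1 : G) : G ⧸ N)
    rw [QuotientGroup.eq]
    simpa using hgN
  have faith : ∀ g : G, (∀ x : G ⧸ N, g • x = x) → g = 1 := faithful N hNtop
  have pm : ∀ n ∈ N, n ^ 8 = 1 → n * u * n⁻¹ = u ∨ n * u * n⁻¹ = u⁻¹ := by
    intro n hn hn8
    have hmem : n * u * n⁻¹ ∈ Subgroup.zpowers u := by
      rw [← hPz]
      rw [hN] at hn
      exact (Subgroup.mem_normalizer_iff.mp hn u).mp huP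
    exact pm_of u hou u7 n hmem hn8
  have burn : ¬ (∀ n ∈ N, n * u = u * n) := by
    intro hall
    apply S168.not_normalizer_le_centralizer P (S168.sylow_ne_bot P (by rw [hcP]; norm_num))
      (by intro hb; rw [hb, Subgroup.card_top, hG] at hcP; omega)
    intro n hn
    rw [Subgroup.mem_centralizer_iff]
    intro y hy
    have hy' : y ∈ Subgroup.zpowers u := by rw [← hPz]; exact hy
    obtain ⟨i, rfl⟩ := Subgroup.mem_zpowers_iff.mp hy'
    have hcomm : Commute n u := hall n (by rw [hN]; exact hn)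
    exact ((hcomm.zpow_right i).eq).symm
  have hmul := S168.card_normalizer_mul P
  rw [← hN, hG] at hmul
  have hd7 : 7 ∣ Nat.card N := by
    have h1 := Subgroup.card_dvd_of_le hPN
    rwa [hcP] at h1
  have hmod : Nat.card (Sylow 7 G) % 7 = 1 := card_sylow_modEq_one 7 G
  have hn1 : Nat.card (Sylow 7 G) ≠ 1 := by
    intro h1
    rw [h1, mul_one] at hmul
    exact hNtop (Subgroup.eq_top_of_card_eq N (by rw [hmul, hG]))
  obtain ⟨k, hk⟩ := hd7
  have hk288 : k * Nat.card (Sylow 7 G) = 288 := by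
    rw [hk] at hmul
    have h1 : 7 * (k * Nat.card (Sylow 7 G)) = 7 * 288 := by rw [← mul_assoc]; exact hmul
    exact Nat.eq_of_mul_eq_mul_left (by norm_num) h1
  have hd : Nat.card (Sylow 7 G) ∣ 288 := Dvd.intro_left k hk288
  have hcases : ∀ d ∈ Nat.divisors 288, d % 7 = 1 → d ≠ 1 → d = 8 ∨ d = 36 ∨ d = 288 := by
    decide +kernel
  rcases hcases _ (Nat.mem_divisors.mpr ⟨hd, by norm_num⟩) hmod hn1 with h8 | h36 | h288
  · have hcN : Nat.card N = 252 := by rw [h8] at hk288; rw [hk]; omega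
    have hidx : Nat.card (G ⧸ N) = 8 := by
      have h1 := Subgroup.card_mul_index N
      rw [hcN, hG] at h1
      have h2 : N.index = 8 := by omega
      exact h2
    exact case252 N hcN hidx u u7 uN semi faith pm
  · have hcN : Nat.card N = 56 := by rw [h36] at hk288; rw [hk]; omega
    exact case56 hG N hcN u u7 hu1 uN semi faith pm cent burn
  · have hcN : Nat.card N = 7 := by rw [h288] at hk288; rw [hk]; omega
    apply burn
    intro n hn
    have hPN' : (P : Subgroup G) = N :=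
      Subgroup.eq_of_le_of_card_ge hPN (le_of_eq (by rw [hcN, hcP]))
    have hn' : n ∈ Subgroup.zpowers u := by rw [← hPz, hPN']; exact hn
    obtain ⟨i, rfl⟩ := Subgroup.mem_zpowers_iff.mp hn'
    exact ((Commute.refl u).zpow_left i).eq

end Cfsg.Agent.Lib.helper3.N2016
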