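import Mathlib
import Cfsg.Agent.S0991
import Cfsg.Agent.S1019
import Cfsg.Agent.Lib.helper3.N2016a

/-!
# No simple group of order 1440

Let `P = ⟨u⟩` be a Sylow 5-subgroup and `N` its normaliser; the number of Sylow 5-subgroups is
6, 16, 36 or 96.  Six is excluded by the order of the alternating group of degree six, 96 by
Burnside's transfer theorem, 16 by a 3-element of `N` fixing a regular orbit of `u` on the
cosets of `N`, and 36 by counting the conjugates in `N` of the central involutions of `N`.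
-/

set_option autoImplicit false
set_option linter.style.haveILetI false
set_option linter.unusedSectionVars false
set_option linter.unusedVariables false

namespace Cfsg.Agent.Lib.helper3.N1440

open Cfsg.Agent.Lib.helper3

universe u

variable {G : Type u} [Group G] [Finite G]

theorem fact5 : Fact (Nat.Prime 5) := ⟨by norm_num⟩

theorem zpow_pow_eq_one (q : G) (m : ℕ) (hm : q ^ m = 1) (i : ℤ) : (q ^ i) ^ m = 1 := by
  rw [← zpow_natCast, ← zpow_mul, mul_comm, zpow_mul, zpow_natCast, hm, one_zpow]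

theorem conj_exp (u : G) (hou : orderOf u = 5) (n : G)
    (hmem : n * u * n⁻¹ ∈ Subgroup.zpowers u) (m : ℕ) (hnm : n ^ m = 1) :
    ∃ k : ℕ, n * u * n⁻¹ = u ^ k ∧ ((k : ZMod 5)) ^ m = 1 := by
  obtain ⟨k, hk⟩ := (Submonoid.mem_powers_iff _ _).mp (mem_powers_iff_mem_zpowers.mpr hmem)
  refine ⟨k, hk.symm, ?_⟩
  have h1 := UP.conj_pow_iter u n k hk.symm m
  rw [hnm, one_mul, inv_one, mul_one] at h1
  have h2 : u ^ (k ^ m) = u ^ 1 := by rw [← h1, pow_one]
  rw [pow_eq_pow_iff_modEq, hou] at h2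
  have h3 := (ZMod.natCast_eq_natCast_iff _ _ _).mpr h2
  push_cast at h3
  exact h3

theorem comm_of_odd (u : G) (hou : orderOf u = 5) (n : G)
    (hmem : n * u * n⁻¹ ∈ Subgroup.zpowers u) (hn : n ^ 45 = 1) : n * u = u * n := by
  obtain ⟨k, hk, hk45⟩ := conj_exp u hou n hmem 45 hn
  have hcases : ∀ j : ZMod 5, j ^ 45 = 1 → j = ((1 : ℕ) : ZMod 5) := by decide
  have h4 := hcases _ hk45
  have h5 := (ZMod.natCast_eq_natCast_iff _ _ _).mp h4
  have h6 : u ^ k = u ^ 1 := by rw [pow_eq_pow_iff_modEq, hou]; exact h5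
  rw [h6, pow_one] at hk
  calc n * u = n * u * n⁻¹ * n := by group
    _ = u * n := by rw [hk]

theorem pm2 (u : G) (hou : orderOf u = 5) (u5 : u ^ 5 = 1) (n : G)
    (hmem : n * u * n⁻¹ ∈ Subgroup.zpowers u) (hn : n ^ 2 = 1) :
    n * u * n⁻¹ = u ∨ n * u * n⁻¹ = u⁻¹ := by
  obtain ⟨k, hk, hk2⟩ := conj_exp u hou n hmem 2 hn
  have hcases : ∀ j : ZMod 5, j ^ 2 = 1 → j = ((1 : ℕ) : ZMod 5) ∨ j = ((4 : ℕ) : ZMod 5) := by
    decide
  rcases hcases _ hk2 with h4 | h4
  · left
    have h5 := (ZMod.natCast_eq_natCast_iff _ _ _).mp h4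
    have h6 : u ^ k = u ^ 1 := by rw [pow_eq_pow_iff_modEq, hou]; exact h5
    rw [hk, h6, pow_one]
  · right
    have h5 := (ZMod.natCast_eq_natCast_iff _ _ _).mp h4
    have h6 : u ^ k = u ^ 4 := by rw [pow_eq_pow_iff_modEq, hou]; exact h5
    rw [hk, h6]
    have e5 : u ^ 5 = u ^ 4 * u := pow_succ u 4
    rw [u5] at e5
    exact eq_inv_of_mul_eq_one_left e5.symm

/-- a `u`-invariant set of cosets containing the base point has size `1` modulo `p` -/
theorem card_mod (p : ℕ) [Fact p.Prime] (N : Subgroup G) (u : G) (up : u ^ p = 1) (uN : u ∈ N)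
    (semi : ∀ (k : ℕ) (x : G ⧸ N), u ^ k • x = x → x ≠ ((1 : G) : G ⧸ N) → p ∣ k)
    (S : Set (G ⧸ N)) (hS : ∀ x ∈ S, u • x ∈ S) (ho : ((1 : G) : G ⧸ N) ∈ S) :
    S.ncard % p = 1 := by
  have hp : p.Prime := Fact.out
  have hfix1 : ∀ x : G ⧸ N, u • x = x → x = ((1 : G) : G ⧸ N) := by
    intro x hx
    by_contra hxo
    have h7 := semi 1 x (by rw [pow_one]; exact hx) hxo
    exact hp.one_lt.ne' (Nat.dvd_one.mp h7)
  have hpg : IsPGroup p ↥(Subgroup.zpowers u) := by
    intro g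
    refine ⟨1, Subtype.ext ?_⟩
    obtain ⟨i, hi⟩ := Subgroup.mem_zpowers_iff.mp g.2
    show (g : G) ^ p ^ 1 = 1
    rw [← hi, pow_one]
    exact zpow_pow_eq_one u p up i
  have hpowS : ∀ (k : ℕ) (x : G ⧸ N), x ∈ S → u ^ k • x ∈ S := by
    intro k x hx
    induction k with
    | zero => simpa using hx
    | succ k ih => rw [pow_succ', mul_smul]; exact hS _ ih
  let A : SubMulAction ↥(Subgroup.zpowers u) (G ⧸ N) :=
    { carrier := S
      smul_mem' := by
        intro q x hx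
        obtain ⟨k, hk⟩ := (Submonoid.mem_powers_iff _ _).mp
          (mem_powers_iff_mem_zpowers.mpr q.2)
        show (q : G) • x ∈ S
        rw [← hk]
        exact hpowS k x hx }
  have hmod := hpg.card_modEq_card_fixedPoints (↥A)
  have hfp : Nat.card ↥(MulAction.fixedPoints ↥(Subgroup.zpowers u) ↥A) = 1 := by
    rw [Nat.card_eq_one_iff_unique]
    refine ⟨⟨fun a b => ?_⟩, ⟨⟨⟨((1 : G) : G ⧸ N), ho⟩, ?_⟩⟩⟩
    · have ha0 := a.2 ⟨u, Subgroup.mem_zpowers u⟩
      have ha1 := congrArg Subtype.val ha0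
      have ha : u • a.1.1 = a.1.1 := ha1
      have hb0 := b.2 ⟨u, Subgroup.mem_zpowers u⟩
      have hb1 := congrArg Subtype.val hb0
      have hb : u • b.1.1 = b.1.1 := hb1
      exact Subtype.ext (Subtype.ext ((hfix1 _ ha).trans (hfix1 _ hb).symm))
    · intro q
      exact Subtype.ext (N2016.smul_base N (q : G) ((Subgroup.zpowers_le.mpr uN) q.2))
  have hA : Nat.card ↥A = S.ncard := Nat.card_coe_set_eq S
  have h1 := hmod
  rw [hfp, hA] at h1
  have h2 : S.ncard % p = 1 % p := h1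
  rw [Nat.mod_eq_of_lt hp.one_lt] at h2
  exact h2

/-- the number of fixed points of an element of `p`-power order is the number of points
modulo `p` -/
theorem fix_mod (p : ℕ) [Fact p.Prime] (N : Subgroup G) (q : G) (e : ℕ) (hq : q ^ p ^ e = 1) :
    Nat.card (G ⧸ N) % p = (N2016.Fx N q).ncard % p := by
  have hpg : IsPGroup p ↥(Subgroup.zpowers q) := by
    intro g
    refine ⟨e, Subtype.ext ?_⟩
    obtain ⟨i, hi⟩ := Subgroup.mem_zpowers_iff.mp g.2
    show (g : G) ^ p ^ e = 1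
    rw [← hi]
    exact zpow_pow_eq_one q (p ^ e) hq i
  have hmod := hpg.card_modEq_card_fixedPoints (G ⧸ N)
  have hset : MulAction.fixedPoints ↥(Subgroup.zpowers q) (G ⧸ N) = N2016.Fx N q := by
    ext x
    constructor
    · intro hx
      exact hx ⟨q, Subgroup.mem_zpowers q⟩
    · intro hx g
      obtain ⟨k, hk⟩ := (Submonoid.mem_powers_iff _ _).mp
        (mem_powers_iff_mem_zpowers.mpr g.2)
      show (g : G) • x = x
      rw [← hk]
      have hx' : q • x = x := hx
      clear hk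
      induction k with
      | zero => simp
      | succ k ih => rw [pow_succ', mul_smul, ih, hx']
  rw [hset] at hmod
  exact hmod

theorem decomp (N P S : Subgroup G) (hPN : P ≤ N) (hSN : S ≤ N)
    (hc : Nat.card N = Nat.card P * Nat.card S)
    (hcop : (Nat.card P).Coprime (Nat.card S)) (n : G) (hn : n ∈ N) :
    ∃ p ∈ P, ∃ s ∈ S, n = p * s := by
  have hinj : Function.Injective (fun q : ↥P × ↥S =>
      (⟨(q.1 : G) * (q.2 : G), N.mul_mem (hPN q.1.2) (hSN q.2.2)⟩ : ↥N)) := by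
    rintro ⟨a, b⟩ ⟨a', b'⟩ hab
    have h1 : (a : G) * (b : G) = (a' : G) * (b' : G) := congrArg Subtype.val hab
    have h2 : (a' : G)⁻¹ * (a : G) = (b' : G) * (b : G)⁻¹ := by
      calc (a' : G)⁻¹ * (a : G) = (a' : G)⁻¹ * ((a : G) * (b : G)) * (b : G)⁻¹ := by group
        _ = (a' : G)⁻¹ * ((a' : G) * (b' : G)) * (b : G)⁻¹ := by rw [h1]
        _ = (b' : G) * (b : G)⁻¹ := by group
    have hmemP : (a' : G)⁻¹ * (a : G) ∈ P := P.mul_mem (P.inv_mem a'.2) a.2
    have hmemS : (a' : G)⁻¹ * (a : G) ∈ S := by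
      rw [h2]; exact S.mul_mem b'.2 (S.inv_mem b.2)
    have h3 : (a' : G)⁻¹ * (a : G) = 1 := by
      have ho1 := Subgroup.orderOf_dvd_natCard P hmemP
      have ho2 := Subgroup.orderOf_dvd_natCard S hmemS
      have ho3 := Nat.dvd_gcd ho1 ho2
      rw [Nat.Coprime.gcd_eq_one hcop] at ho3
      exact orderOf_eq_one_iff.mp (Nat.dvd_one.mp ho3)
    have h4 : (b' : G) * (b : G)⁻¹ = 1 := by rw [← h2]; exact h3
    have ha : (a : G) = (a' : G) := by
      calc (a : G) = (a' : G) * ((a' : G)⁻¹ * (a : G)) := by group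
        _ = (a' : G) := by rw [h3, mul_one]
    have hb : (b : G) = (b' : G) := by
      calc (b : G) = ((b' : G) * (b : G)⁻¹)⁻¹ * (b' : G) := by group
        _ = (b' : G) := by rw [h4, inv_one, one_mul]
    exact Prod.ext (Subtype.ext ha) (Subtype.ext hb)
  have hbij := hinj.bijective_of_nat_card_le (le_of_eq (by rw [Nat.card_prod, hc]))
  obtain ⟨q, hq⟩ := hbij.2 ⟨n, hn⟩
  exact ⟨(q.1 : G), q.1.2, (q.2 : G), q.2.2, (congrArg Subtype.val hq).symm⟩

theorem ncard_ne (N : Subgroup G) (z : G) (hzN : z ∈ N)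
    (h : {y : G | IsConj z y ∧ y ∈ N}.ncard = 16) :
    {y : G | IsConj z y ∧ y ∈ N ∧ y ≠ z}.ncard = 15 := by
  have h1 : {y : G | IsConj z y ∧ y ∈ N ∧ y ≠ z} = {y : G | IsConj z y ∧ y ∈ N} \ {z} := by
    ext y
    constructor
    · rintro ⟨h1, h2, h3⟩; exact ⟨⟨h1, h2⟩, h3⟩
    · rintro ⟨⟨h1, h2⟩, h3⟩; exact ⟨h1, h2, h3⟩
  have h2 : z ∈ {y : G | IsConj z y ∧ y ∈ N} := ⟨IsConj.refl z, hzN⟩
  have h3 := Set.ncard_sdiff_singleton_of_mem h2
  rw [h1]
  omega

theorem conj_comm_mem (N : Subgroup G) (u : G)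
    (semi : ∀ (k : ℕ) (x : G ⧸ N), u ^ k • x = x → x ≠ ((1 : G) : G ⧸ N) → 5 ∣ k)
    (z : G) (hcz : ∀ g : G, g * z = z * g → g ∈ N) (g : G)
    (hcomm : (g * z * g⁻¹) * u = u * (g * z * g⁻¹)) : g ∈ N := by
  have h1 : (g⁻¹ * u * g) * z = z * (g⁻¹ * u * g) := by
    calc (g⁻¹ * u * g) * z = g⁻¹ * (u * (g * z * g⁻¹)) * g := by group
      _ = g⁻¹ * ((g * z * g⁻¹) * u) * g := by rw [hcomm]
      _ = z * (g⁻¹ * u * g) := by group
  have h2 : g⁻¹ * u * g ∈ N := hcz _ h1
  have h3 : u • ((g : G) : G ⧸ N) = ((g : G) : G ⧸ N) := by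
    show ((u * g : G) : G ⧸ N) = ((g : G) : G ⧸ N)
    rw [QuotientGroup.eq]
    have e : (u * g)⁻¹ * g = (g⁻¹ * u * g)⁻¹ := by group
    rw [e]; exact N.inv_mem h2
  by_contra hg
  have hne : ((g : G) : G ⧸ N) ≠ ((1 : G) : G ⧸ N) := by
    intro h
    rw [QuotientGroup.eq] at h
    apply hg
    have e : g = (g⁻¹ * 1)⁻¹ := by group
    rw [e]; exact N.inv_mem h
  have h5 := semi 1 _ (by rw [pow_one]; exact h3) hne
  omega

set_option maxHeartbeats 800000 in
theorem case16 [IsSimpleGroup G] (N : Subgroup G) (hcN : Nat.card N = 90)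
    (hidx : Nat.card (G ⧸ N) = 16) (hNtop : N ≠ ⊤) (u : G) (u5 : u ^ 5 = 1)
    (hou : orderOf u = 5) (uN : u ∈ N)
    (semi : ∀ (k : ℕ) (x : G ⧸ N), u ^ k • x = x → x ≠ ((1 : G) : G ⧸ N) → 5 ∣ k)
    (faith : ∀ g : G, (∀ x : G ⧸ N, g • x = x) → g = 1)
    (hnorm : ∀ n ∈ N, n * u * n⁻¹ ∈ Subgroup.zpowers u) : False := by
  haveI := fact5
  haveI : Fact (Nat.Prime 3) := ⟨by norm_num⟩
  obtain ⟨T⟩ : Nonempty (Sylow 3 ↥N) := inferInstance
  have hT : Nat.card (T : Subgroup ↥N) = 9 := by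
    have h1 := S168.sylow_card_of (p := 3) 2 10 (by rw [hcN]; norm_num) (by norm_num) T
    simpa using h1
  obtain ⟨Q, hQdef⟩ : ∃ Q : Subgroup G, Q = (T : Subgroup ↥N).map N.subtype := ⟨_, rfl⟩
  have hQc : Nat.card Q = 9 := by rw [hQdef, Subgroup.card_subtype, hT]
  have hQN : Q ≤ N := by rw [hQdef]; exact Subgroup.map_subtype_le _
  have hQ9 : ∀ q ∈ Q, q ^ 9 = 1 := by
    intro q hq
    have h9 := N2016.pow_card_of_mem Q q hq
    rw [hQc] at h9
    exact h9
  have hQu : ∀ q ∈ Q, q * u = u * q := by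
    intro q hq
    apply comm_of_odd u hou q (hnorm q (hQN hq))
    have e : q ^ 45 = (q ^ 9) ^ 5 := by rw [← pow_mul]
    rw [e, hQ9 q hq, one_pow]
  obtain ⟨g₀, hg₀⟩ : ∃ g₀ : G, g₀ ∉ N := by
    by_contra hno
    push_neg at hno
    exact hNtop (eq_top_iff.mpr (fun g _ => hno g))
  obtain ⟨y, hydef⟩ : ∃ y : G ⧸ N, y = ((g₀ : G) : G ⧸ N) := ⟨_, rfl⟩
  have hyo : y ≠ ((1 : G) : G ⧸ N) := by
    rw [hydef]
    intro h
    rw [QuotientGroup.eq] at h
    apply hg₀
    have e : g₀ = (g₀⁻¹ * 1)⁻¹ := by group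
    rw [e]; exact N.inv_mem h
  have hqy : ∀ q ∈ Q, q • y ≠ ((1 : G) : G ⧸ N) := by
    intro q hq h
    apply hyo
    have h2 : q • y = q • ((1 : G) : G ⧸ N) := by rw [N2016.smul_base N q (hQN hq)]; exact h
    exact smul_left_cancel q h2
  obtain ⟨q, hqQ, hq1, k, hk⟩ : ∃ q ∈ Q, q ≠ 1 ∧ ∃ k : ℕ, q • y = u ^ k • y := by
    by_contra hno
    push_neg at hno
    have hinj : Function.Injective
        (fun w : ↥Q × Fin 5 => u ^ (w.2 : ℕ) • ((w.1 : G) • y)) := by
      rintro ⟨a, i⟩ ⟨b, j⟩ hab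
      have h1 : u ^ (i : ℕ) • ((a : G) • y) = u ^ (j : ℕ) • ((b : G) • y) := hab
      have h2 : (a : G) • y = u ^ ((j : ℕ) + (5 - (i : ℕ))) • ((b : G) • y) := by
        have e1 : u ^ (5 - (i : ℕ)) • (u ^ (i : ℕ) • ((a : G) • y)) = (a : G) • y := by
          rw [← mul_smul, ← pow_add, Nat.sub_add_cancel (le_of_lt i.2), u5, one_smul]
        rw [← e1, h1, ← mul_smul, ← pow_add, add_comm]
      have hbu : Commute (b : G)⁻¹ u := hQu (b : G)⁻¹ (Q.inv_mem b.2)
      have h3 : ((b : G)⁻¹ * (a : G)) • y = u ^ ((j : ℕ) + (5 - (i : ℕ))) • y := by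
        rw [mul_smul, h2, ← mul_smul, (hbu.pow_right _).eq, mul_smul, inv_smul_smul]
      have h4 : (b : G)⁻¹ * (a : G) = 1 := by
        by_contra hne
        exact hno _ (Q.mul_mem (Q.inv_mem b.2) a.2) hne _ h3
      have hab' : (a : G) = (b : G) := by
        calc (a : G) = (b : G) * ((b : G)⁻¹ * (a : G)) := by group
          _ = (b : G) := by rw [h4, mul_one]
      rw [hab'] at h2
      have hij : (i : ℕ) = (j : ℕ) := by
        by_contra hne
        have h5 := semi ((j : ℕ) + (5 - (i : ℕ))) ((b : G) • y) h2.symm (hqy _ b.2)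
        have hi := i.2
        have hj := j.2
        omega
      exact Prod.ext (Subtype.ext hab') (Fin.ext hij)
    have hle := Nat.card_le_card_of_injective _ hinj
    rw [Nat.card_prod, hQc, Nat.card_fin, hidx] at hle
    omega
  have hqu := hQu q hqQ
  have hq9 := hQ9 q hqQ
  have hfixy : q • y = y := by
    have hcomm : Commute q u := hqu
    have hiter : ∀ j : ℕ, q ^ j • y = u ^ (k * j) • y := by
      intro j
      induction j with
      | zero => simp
      | succ j ih =>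
        have hcu : q * u ^ (k * j) = u ^ (k * j) * q := (hcomm.pow_right (k * j)).eq
        rw [pow_succ', mul_smul, ih, ← mul_smul, hcu, mul_smul, hk, ← mul_smul, ← pow_add,
          mul_add_one]
    have h9 := hiter 9
    rw [hq9, one_smul] at h9
    have h5 : 5 ∣ k * 9 := semi (k * 9) y h9.symm hyo
    have h5k : 5 ∣ k := by omega
    obtain ⟨m, hm⟩ := h5k
    rw [hk, hm, pow_mul, u5, one_pow, one_smul]
  have hmod5 : (N2016.Fx N q).ncard % 5 = 1 := by
    apply card_mod 5 N u u5 uN semi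
    · intro x hx
      show q • (u • x) = u • x
      have hx' : q • x = x := hx
      rw [← mul_smul, hqu, mul_smul, hx']
    · exact N2016.smul_base N q (hQN hqQ)
  have hmod3 := fix_mod 3 N q 2 (by rw [show (3 : ℕ) ^ 2 = 9 from rfl]; exact hq9)
  rw [hidx] at hmod3
  have hle : (N2016.Fx N q).ncard ≤ 16 := by
    have h1 := Set.ncard_le_ncard (Set.subset_univ (N2016.Fx N q))
    rw [Set.ncard_univ, hidx] at h1
    exact h1
  have h2 : 2 ≤ (N2016.Fx N q).ncard := by
    have hsub : ({((1 : G) : G ⧸ N), y} : Set (G ⧸ N)) ⊆ N2016.Fx N q := by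
      intro x hx
      simp only [Set.mem_insert_iff, Set.mem_singleton_iff] at hx
      rcases hx with hx | hx
      · rw [hx]; exact N2016.smul_base N q (hQN hqQ)
      · rw [hx]; exact hfixy
    have h1 := Set.ncard_le_ncard hsub
    rw [Set.ncard_pair (Ne.symm hyo)] at h1
    exact h1
  have h16 : (N2016.Fx N q).ncard = 16 := by omega
  apply hq1
  apply faith
  intro x
  have huniv : N2016.Fx N q = Set.univ := by
    apply Set.eq_of_subset_of_ncard_le (Set.subset_univ _)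
    rw [Set.ncard_univ, hidx, h16]
  have hx : x ∈ N2016.Fx N q := by rw [huniv]; trivial
  exact hx

set_option maxHeartbeats 800000 in
/-- an involution of `N` centralising `u` has exactly 16 fixed points -/
theorem inv16 [IsSimpleGroup G] (hG : Nat.card G = 1440) (N : Subgroup G)
    (hcN : Nat.card N = 40) (u : G) (u5 : u ^ 5 = 1) (uN : u ∈ N)
    (semi : ∀ (k : ℕ) (x : G ⧸ N), u ^ k • x = x → x ≠ ((1 : G) : G ⧸ N) → 5 ∣ k)
    (faith : ∀ g : G, (∀ x : G ⧸ N, g • x = x) → g = 1)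
    (z : G) (hz2 : z * z = 1) (hz1 : z ≠ 1) (hzu : z * u = u * z) (hzN : z ∈ N) :
    (N2016.Fx N z).ncard = 16 := by
  haveI := fact5
  have hmod' : (N2016.Fx N z).ncard % 5 = 1 := by
    apply card_mod 5 N u u5 uN semi
    · intro x hx
      show z • (u • x) = u • x
      have hx' : z • x = x := hx
      rw [← mul_smul, hzu, mul_smul, hx']
    · exact N2016.smul_base N z hzN
  classical
  haveI : Fintype (G ⧸ N) := Fintype.ofFinite _
  obtain ⟨σ, hσ⟩ : ∃ σ : Equiv.Perm (G ⧸ N), σ = MulAction.toPermHom G (G ⧸ N) z := ⟨_, rfl⟩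
  have hσa : ∀ x, σ x = z • x := by intro x; rw [hσ]; rfl
  have hσ2 : σ * σ = 1 := by rw [hσ, ← map_mul, hz2, map_one]
  have hσ1 : σ ≠ 1 := by
    intro h1
    apply hz1
    apply faith
    intro x
    have h2 := hσa x
    rw [h1] at h2
    exact h2.symm
  have hσs : Equiv.Perm.sign σ = 1 := by
    rw [hσ]; exact N2016.sign_one (by rw [hG]; norm_num) z
  obtain ⟨j, hj1, hj⟩ := N2016.fix_card σ hσ2 hσ1 hσs
  have hset : N2016.Fx N z = {q : G ⧸ N | σ q = q} := by
    ext x; rw [hσ]; exact Iff.rfl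
  have hcΩ : Nat.card (G ⧸ N) = 36 := by
    have h1 := Subgroup.card_mul_index N
    rw [hcN, hG] at h1
    have h2 : N.index = 36 := by omega
    exact h2
  rw [← hset, hcΩ] at hj
  omega

set_option maxHeartbeats 800000 in
/-- a central involution of `N` has centraliser `N` and exactly 16 conjugates in `N` -/
theorem good_props [IsSimpleGroup G] (hG : Nat.card G = 1440) (N : Subgroup G)
    (hcN : Nat.card N = 40) (u : G) (u5 : u ^ 5 = 1) (uN : u ∈ N)
    (semi : ∀ (k : ℕ) (x : G ⧸ N), u ^ k • x = x → x ≠ ((1 : G) : G ⧸ N) → 5 ∣ k)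
    (faith : ∀ g : G, (∀ x : G ⧸ N, g • x = x) → g = 1)
    (z : G) (hz2 : z * z = 1) (hz1 : z ≠ 1) (hzN : z ∈ N) (hzc : ∀ n ∈ N, n * z = z * n) :
    (∀ g : G, g * z = z * g → g ∈ N) ∧ {y : G | IsConj z y ∧ y ∈ N}.ncard = 16 := by
  haveI := fact5
  have hzu : z * u = u * z := (hzc u uN).symm
  have hF := inv16 hG N hcN u u5 uN semi faith z hz2 hz1 hzu hzN
  obtain ⟨T, hTdef⟩ : ∃ T : Subgroup G, T = Subgroup.centralizer ({z} : Set G) := ⟨_, rfl⟩
  have hTmem : ∀ g, g ∈ T ↔ g * z = z * g := by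
    intro g; rw [hTdef]; exact N2016.mem_cent z g
  have hNT : N ≤ T := fun n hn => (hTmem n).mpr (hzc n hn)
  obtain ⟨O, hOdef⟩ : ∃ O : Set (G ⧸ N), O = {x | ∃ g ∈ T, x = ((g : G) : G ⧸ N)} :=
    ⟨_, rfl⟩
  have hTset : (T : Set G) = QuotientGroup.mk ⁻¹' O := by
    ext g
    rw [SetLike.mem_coe, Set.mem_preimage, hOdef]
    constructor
    · intro hg; exact ⟨g, hg, rfl⟩
    · rintro ⟨g', hg', hgg⟩
      rw [QuotientGroup.eq] at hgg
      have e : g = g' * (g⁻¹ * g')⁻¹ := by group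
      rw [e]
      exact T.mul_mem hg' (T.inv_mem (hNT hgg))
  have hTc : Nat.card T = 40 * O.ncard := by
    have h1 := QuotientGroup.card_preimage_mk N O
    rw [hcN, Nat.card_coe_set_eq O] at h1
    rw [← h1]
    exact Nat.card_congr (Equiv.setCongr hTset)
  have hOmod : O.ncard % 5 = 1 := by
    apply card_mod 5 N u u5 uN semi
    · intro x hx
      rw [hOdef] at hx ⊢
      obtain ⟨g, hg, rfl⟩ := hx
      exact ⟨u * g, T.mul_mem (hNT uN) hg, rfl⟩
    · rw [hOdef]; exact ⟨1, T.one_mem, rfl⟩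
  have hcl := S504.class_card_mul z
  rw [← hTdef, hTc, hG] at hcl
  have h19 := Cfsg.Agent.S1019.result N z hzN
  have hfb : Nat.card (MulAction.fixedBy (G ⧸ N) z) = 16 := hF
  have hidx : N.index = 36 := by
    have h1 := Subgroup.card_mul_index N
    rw [hcN, hG] at h1
    omega
  rw [hfb, hidx] at h19
  have hm : Nat.card {g : G // IsConj z g ∧ g ∈ N} = {y : G | IsConj z y ∧ y ∈ N}.ncard :=
    Nat.card_coe_set_eq {y : G | IsConj z y ∧ y ∈ N}
  rw [hm] at h19
  obtain ⟨a, ha⟩ : ∃ a, a = O.ncard := ⟨_, rfl⟩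
  obtain ⟨c, hc⟩ : ∃ c, c = Nat.card {g : G // IsConj z g} := ⟨_, rfl⟩
  obtain ⟨m, hmdef⟩ : ∃ m, m = {y : G | IsConj z y ∧ y ∈ N}.ncard := ⟨_, rfl⟩
  rw [← ha, ← hc] at hcl
  rw [← hc, ← hmdef] at h19
  rw [← ha] at hOmod hTc
  have hac : a * c = 36 := by
    have h1 : 40 * (a * c) = 40 * 36 := by rw [← mul_assoc]; exact hcl
    exact Nat.eq_of_mul_eq_mul_left (by norm_num) h1
  have ha36 : a ≤ 36 := Nat.le_of_dvd (by norm_num) (Dvd.intro _ hac)
  have ha1 : a = 1 ∧ m = 16 := by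
    clear ha hTc
    interval_cases a <;> omega
  obtain ⟨ha1', hm16⟩ := ha1
  refine ⟨?_, ?_⟩
  · intro g hg
    have hTN : N = T := Subgroup.eq_of_le_of_card_ge hNT (by omega)
    rw [hTN]
    exact (hTmem g).mpr hg
  · rw [← hmdef]; exact hm16

set_option maxHeartbeats 3200000 in
theorem case36 [IsSimpleGroup G] (hG : Nat.card G = 1440) (N : Subgroup G)
    (hcN : Nat.card N = 40) (u : G) (u5 : u ^ 5 = 1) (hou : orderOf u = 5) (uN : u ∈ N)
    (semi : ∀ (k : ℕ) (x : G ⧸ N), u ^ k • x = x → x ≠ ((1 : G) : G ⧸ N) → 5 ∣ k)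
    (faith : ∀ g : G, (∀ x : G ⧸ N, g • x = x) → g = 1)
    (hnorm : ∀ n ∈ N, n * u * n⁻¹ ∈ Subgroup.zpowers u)
    (burn : ¬ (∀ n ∈ N, n * u = u * n)) : False := by
  haveI := fact5
  obtain ⟨T⟩ : Nonempty (Sylow 2 ↥N) := inferInstance
  have hT : Nat.card (T : Subgroup ↥N) = 8 := by
    have h1 := S168.sylow_card_of (p := 2) 3 5 (by rw [hcN]; norm_num) (by norm_num) T
    simpa using h1
  obtain ⟨S, hSdef⟩ : ∃ S : Subgroup G, S = (T : Subgroup ↥N).map N.subtype := ⟨_, rfl⟩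
  have hSc : Nat.card S = 8 := by rw [hSdef, Subgroup.card_subtype, hT]
  have hSN : S ≤ N := by rw [hSdef]; exact Subgroup.map_subtype_le _
  have hZc : Nat.card (Subgroup.zpowers u) = 5 := by rw [Nat.card_zpowers, hou]
  have hZN : Subgroup.zpowers u ≤ N := Subgroup.zpowers_le.mpr uN
  have hdec : ∀ n ∈ N, ∃ p ∈ Subgroup.zpowers u, ∃ s ∈ S, n = p * s :=
    decomp N (Subgroup.zpowers u) S hZN hSN (by rw [hcN, hZc, hSc])
      (by rw [hZc, hSc]; try norm_num)
  have hPcomm : ∀ p ∈ Subgroup.zpowers u, ∀ c : G, c * u = u * c → c * p = p * c := by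
    intro p hp c hc
    obtain ⟨i, rfl⟩ := Subgroup.mem_zpowers_iff.mp hp
    have hcomm : Commute c u := hc
    exact (hcomm.zpow_right i).eq
  obtain ⟨V, hVdef⟩ : ∃ V : Subgroup G, V = S ⊓ Subgroup.centralizer ({u} : Set G) :=
    ⟨_, rfl⟩
  have hVS : V ≤ S := by rw [hVdef]; exact inf_le_left
  have hVu : ∀ v ∈ V, v * u = u * v := by
    intro v hv; rw [hVdef] at hv
    exact (N2016.mem_cent u v).mp (Subgroup.mem_inf.mp hv).2
  have hVmem : ∀ v, v ∈ S → v * u = u * v → v ∈ V := by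
    intro v hv hvu; rw [hVdef]
    exact Subgroup.mem_inf.mpr ⟨hv, (N2016.mem_cent u v).mpr hvu⟩
  have hVN : V ≤ N := hVS.trans hSN
  have hVneS : V ≠ S := by
    intro hVeq
    apply burn
    intro n hn
    obtain ⟨p, hp, s, hs, hps⟩ := hdec n hn
    have hsu : s * u = u * s := hVu s (by rw [hVeq]; exact hs)
    have hpu : p * u = u * p := by
      obtain ⟨i, rfl⟩ := Subgroup.mem_zpowers_iff.mp hp
      exact ((Commute.refl u).zpow_left i).eq
    rw [hps]
    calc p * s * u = p * (s * u) := by group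
      _ = p * (u * s) := by rw [hsu]
      _ = (p * u) * s := by group
      _ = (u * p) * s := by rw [hpu]
      _ = u * (p * s) := by group
  have hVne : ∃ v ∈ V, v ≠ 1 := by
    classical
    haveI : Fintype ↥S := Fintype.ofFinite _
    haveI : Fintype ↥(Subgroup.zpowers u) := Fintype.ofFinite _
    obtain ⟨a, b, hab, hfab⟩ := Fintype.exists_ne_map_eq_of_card_lt
      (fun s : ↥S => (⟨(s : G) * u * (s : G)⁻¹, hnorm _ (hSN s.2)⟩ : ↥(Subgroup.zpowers u)))
      (by rw [← Nat.card_eq_fintype_card, ← Nat.card_eq_fintype_card, hZc, hSc]; norm_num)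
    have h1 : (a : G) * u * (a : G)⁻¹ = (b : G) * u * (b : G)⁻¹ := congrArg Subtype.val hfab
    refine ⟨(a : G)⁻¹ * (b : G), hVmem _ (S.mul_mem (S.inv_mem a.2) b.2) ?_, ?_⟩
    · calc (a : G)⁻¹ * (b : G) * u
          = (a : G)⁻¹ * ((b : G) * u * (b : G)⁻¹) * (b : G) := by group
        _ = (a : G)⁻¹ * ((a : G) * u * (a : G)⁻¹) * (b : G) := by rw [h1]
        _ = u * ((a : G)⁻¹ * (b : G)) := by group
    · intro h
      apply hab
      have h2 : (b : G) = (a : G) := by
        calc (b : G) = (a : G) * ((a : G)⁻¹ * (b : G)) := by group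
          _ = (a : G) := by rw [h, mul_one]
      exact Subtype.ext h2.symm
  have hVcard : Nat.card V = 2 ∨ Nat.card V = 4 := by
    have hd : Nat.card V ∣ 8 := by
      have h1 := Subgroup.card_dvd_of_le hVS
      rwa [hSc] at h1
    have hne8 : Nat.card V ≠ 8 := by
      intro h8
      exact hVneS (Subgroup.eq_of_le_of_card_ge hVS (by omega))
    have hne1 : Nat.card V ≠ 1 := by
      intro h1
      obtain ⟨v, hv, hv1⟩ := hVne
      have hb := Subgroup.eq_bot_of_card_eq V h1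
      rw [hb] at hv
      exact hv1 (Subgroup.mem_bot.mp hv)
    have hcases : ∀ d ∈ Nat.divisors 8, d ≠ 8 → d ≠ 1 → d = 2 ∨ d = 4 := by decide
    exact hcases _ (Nat.mem_divisors.mpr ⟨hd, by norm_num⟩) hne8 hne1
  have hV4 : ∀ v ∈ V, v ^ 4 = 1 := by
    intro v hv
    have h := N2016.pow_card_of_mem V v hv
    rcases hVcard with h2 | h4
    · rw [h2] at h
      have e : v ^ 4 = (v ^ 2) ^ 2 := by rw [← pow_mul]
      rw [e, h, one_pow]
    · rw [h4] at h; exact h
  have hconjV : ∀ s ∈ S, ∀ v ∈ V, s * v * s⁻¹ ∈ V := by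
    intro s hs v hv
    apply hVmem _ (S.mul_mem (S.mul_mem hs (hVS hv)) (S.inv_mem hs))
    have hp' : s⁻¹ * u * s ∈ Subgroup.zpowers u := by
      have h1 := hnorm s⁻¹ (hSN (S.inv_mem hs))
      rw [inv_inv] at h1
      exact h1
    have hw : v * (s⁻¹ * u * s) = (s⁻¹ * u * s) * v := hPcomm _ hp' v (hVu v hv)
    calc s * v * s⁻¹ * u = s * (v * (s⁻¹ * u * s)) * s⁻¹ := by group
      _ = s * ((s⁻¹ * u * s) * v) * s⁻¹ := by rw [hw]
      _ = u * (s * v * s⁻¹) := by group
  have hpS : IsPGroup 2 ↥S := IsPGroup.of_card (n := 3) (by rw [hSc]; norm_num)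
  obtain ⟨b, hbV, hb1, hbS⟩ : ∃ b ∈ V, b ≠ 1 ∧ ∀ s ∈ S, s * b = b * s := by
    letI act : MulAction ↥S ↥V :=
      { smul := fun s v => ⟨(s : G) * (v : G) * (s : G)⁻¹, hconjV _ s.2 _ v.2⟩
        one_smul := fun v => Subtype.ext (by
          show ((1 : ↥S) : G) * (v : G) * ((1 : ↥S) : G)⁻¹ = (v : G)
          simp)
        mul_smul := fun a c v => Subtype.ext (by
          show ((a * c : ↥S) : G) * (v : G) * ((a * c : ↥S) : G)⁻¹ =
            (a : G) * ((c : G) * (v : G) * (c : G)⁻¹) * (a : G)⁻¹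
          simp [mul_assoc]) }
    have h2 : 2 ∣ Nat.card ↥V := by
      rcases hVcard with h | h <;> rw [h] <;> norm_num
    have hfix1 : (1 : ↥V) ∈ MulAction.fixedPoints ↥S ↥V := by
      intro s
      apply Subtype.ext
      show (s : G) * ((1 : ↥V) : G) * (s : G)⁻¹ = ((1 : ↥V) : G)
      simp
    obtain ⟨b, hb, hb1⟩ :=
      hpS.exists_fixed_point_of_prime_dvd_card_of_fixed_point ↥V h2 hfix1
    refine ⟨(b : G), b.2, fun h => hb1 (Subtype.ext h.symm), fun s hs => ?_⟩
    have h3 := congrArg Subtype.val (hb ⟨s, hs⟩)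
    have h4 : s * (b : G) * s⁻¹ = (b : G) := h3
    calc s * (b : G) = s * (b : G) * s⁻¹ * s := by group
      _ = (b : G) * s := by rw [h4]
  obtain ⟨z₀, hz₀V, hz₀2, hz₀1, hz₀S⟩ :
      ∃ z ∈ V, z * z = 1 ∧ z ≠ 1 ∧ ∀ s ∈ S, s * z = z * s := by
    by_cases h : b * b = 1
    · exact ⟨b, hbV, h, hb1, hbS⟩
    · refine ⟨b * b, V.mul_mem hbV hbV, ?_, h, fun s hs => ?_⟩
      · have e : b ^ 4 = b * b * (b * b) := by
          rw [show (4 : ℕ) = 2 + 2 from rfl, pow_add, pow_two]
        rw [← e, hV4 b hbV]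
      · have h1 := hbS s hs
        calc s * (b * b) = (s * b) * b := by group
          _ = (b * s) * b := by rw [h1]
          _ = b * (s * b) := by group
          _ = b * (b * s) := by rw [h1]
          _ = b * b * s := by group
  have hgood_of : ∀ z ∈ V, (∀ s ∈ S, s * z = z * s) → ∀ n ∈ N, n * z = z * n := by
    intro z hz hzS n hn
    obtain ⟨p, hp, s, hs, hps⟩ := hdec n hn
    have h1 := hPcomm p hp z (hVu z hz)
    have h2 := hzS s hs
    rw [hps]
    calc p * s * z = p * (s * z) := by group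
      _ = p * (z * s) := by rw [h2]
      _ = (p * z) * s := by group
      _ = (z * p) * s := by rw [h1]
      _ = z * (p * s) := by group
  have hgp := good_props hG N hcN u u5 uN semi faith
  have hz₀c := hgood_of z₀ hz₀V hz₀S
  obtain ⟨hcz₀, hY₀⟩ := hgp z₀ hz₀2 hz₀1 (hVN hz₀V) hz₀c
  have hY₀' := ncard_ne N z₀ (hVN hz₀V) hY₀
  have hYprop : ∀ z : G, z * z = 1 → (∀ n ∈ N, n * z = z * n) →
      (∀ g : G, g * z = z * g → g ∈ N) → ∀ y : G, IsConj z y → y ∈ N → y ≠ z →
      y * y = 1 ∧ ¬ (y * u = u * y) ∧ y * u * y⁻¹ = u⁻¹ := by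
    intro z hz2 hzc hcz y hy hyN hyz
    obtain ⟨g, hg⟩ := isConj_iff.mp hy
    have hy2 : y * y = 1 := by
      rw [← hg]
      calc g * z * g⁻¹ * (g * z * g⁻¹) = g * (z * z) * g⁻¹ := by group
        _ = 1 := by rw [hz2]; group
    have hncomm : ¬ (y * u = u * y) := by
      intro hc
      apply hyz
      have hgN : g ∈ N := conj_comm_mem N u semi z hcz g (by rw [hg]; exact hc)
      rw [← hg]
      have h1 := hzc g hgN
      rw [h1, mul_inv_cancel_right]
    refine ⟨hy2, hncomm, ?_⟩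
    have hy2' : y ^ 2 = 1 := by rw [pow_two]; exact hy2
    rcases pm2 u hou u5 y (hnorm y hyN) hy2' with h | h
    · exfalso
      apply hncomm
      calc y * u = y * u * y⁻¹ * y := by group
        _ = u * y := by rw [h]
    · exact h
  have hc15 : Nat.card {y : G // IsConj z₀ y ∧ y ∈ N ∧ y ≠ z₀} = 15 :=
    (Nat.card_coe_set_eq {y : G | IsConj z₀ y ∧ y ∈ N ∧ y ≠ z₀}).trans hY₀'
  obtain ⟨t, htc, htN, htz, htS⟩ :
      ∃ t : G, IsConj z₀ t ∧ t ∈ N ∧ t ≠ z₀ ∧ ∀ s ∈ S, s * t = t * s := by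
    letI act : MulAction ↥S {y : G // IsConj z₀ y ∧ y ∈ N ∧ y ≠ z₀} :=
      { smul := fun s y => ⟨(s : G) * (y : G) * (s : G)⁻¹, by
          obtain ⟨h1, h2, h3⟩ := y.2
          refine ⟨h1.trans (isConj_iff.mpr ⟨(s : G), rfl⟩),
            N.mul_mem (N.mul_mem (hSN s.2) h2) (N.inv_mem (hSN s.2)), ?_⟩
          intro h
          apply h3
          have hc := hz₀c (s : G)⁻¹ (N.inv_mem (hSN s.2))
          calc (y : G) = (s : G)⁻¹ * ((s : G) * (y : G) * (s : G)⁻¹) * (s : G) := by group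
            _ = (s : G)⁻¹ * z₀ * (s : G) := by rw [h]
            _ = z₀ * (s : G)⁻¹ * (s : G) := by rw [hc]
            _ = z₀ := by group⟩
        one_smul := fun y => Subtype.ext (by
          show ((1 : ↥S) : G) * (y : G) * ((1 : ↥S) : G)⁻¹ = (y : G)
          simp)
        mul_smul := fun a c y => Subtype.ext (by
          show ((a * c : ↥S) : G) * (y : G) * ((a * c : ↥S) : G)⁻¹ =
            (a : G) * ((c : G) * (y : G) * (c : G)⁻¹) * (a : G)⁻¹
          simp [mul_assoc]) }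
    have hmod := hpS.card_modEq_card_fixedPoints {y : G // IsConj z₀ y ∧ y ∈ N ∧ y ≠ z₀}
    rw [hc15] at hmod
    have hpos : Nat.card ↥(MulAction.fixedPoints ↥S
        {y : G // IsConj z₀ y ∧ y ∈ N ∧ y ≠ z₀}) ≠ 0 := by
      intro h0
      rw [h0] at hmod
      exact absurd hmod (by decide)
    obtain ⟨⟨t, ht⟩⟩ := (Nat.card_ne_zero.mp hpos).1
    refine ⟨(t : G), t.2.1, t.2.2.1, t.2.2.2, fun s hs => ?_⟩
    have h3 := congrArg Subtype.val (ht ⟨s, hs⟩)
    have h4 : s * (t : G) * s⁻¹ = (t : G) := h3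
    calc s * (t : G) = s * (t : G) * s⁻¹ * s := by group
      _ = (t : G) * s := by rw [h4]
  obtain ⟨ht2, htncomm, htinv⟩ := hYprop z₀ hz₀2 hz₀c hcz₀ t htc htN htz
  have htP : ∀ p ∈ Subgroup.zpowers u, t * p = p⁻¹ * t := by
    intro p hp
    obtain ⟨i, rfl⟩ := Subgroup.mem_zpowers_iff.mp hp
    have h1 : t * u ^ i * t⁻¹ = (t * u * t⁻¹) ^ i := conj_zpow.symm
    rw [htinv, inv_zpow] at h1
    calc t * u ^ i = t * u ^ i * t⁻¹ * t := by group
      _ = (u ^ i)⁻¹ * t := by rw [h1]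
  have htS' : t ∈ S := by
    have hpt : IsPGroup 2 ↥(Subgroup.zpowers t) := by
      intro g
      refine ⟨1, Subtype.ext ?_⟩
      obtain ⟨i, hi⟩ := Subgroup.mem_zpowers_iff.mp g.2
      show (g : G) ^ 2 ^ 1 = 1
      rw [← hi, pow_one]
      exact zpow_pow_eq_one t 2 (by rw [pow_two]; exact ht2) i
    have hnorm' : Subgroup.zpowers t ≤ Subgroup.normalizer (S : Set G) := by
      apply N2016.le_normalizer_of_conj
      intro x hx s hs
      obtain ⟨i, rfl⟩ := Subgroup.mem_zpowers_iff.mp hx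
      have hc : Commute s t := htS s hs
      have h2 : s * t ^ i = t ^ i * s := (hc.zpow_right i).eq
      rw [← h2, mul_inv_cancel_right]
      exact hs
    have hpW : IsPGroup 2 ↥(Subgroup.zpowers t ⊔ S) :=
      hpt.to_sup_of_normal_right' hpS hnorm'
    have hWN : Subgroup.zpowers t ⊔ S ≤ N := sup_le (Subgroup.zpowers_le.mpr htN) hSN
    have hWc : Nat.card ↥(Subgroup.zpowers t ⊔ S) ≤ 8 := by
      obtain ⟨n, hn⟩ := (IsPGroup.iff_card).mp hpW
      have hd := Subgroup.card_dvd_of_le hWN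
      rw [hn, hcN] at hd
      rw [hn]
      have hn3 : n ≤ 3 := by
        by_contra hlt
        push_neg at hlt
        have h16 : 2 ^ 4 ∣ 2 ^ n := pow_dvd_pow 2 hlt
        have h40 := h16.trans hd
        norm_num at h40
      calc 2 ^ n ≤ 2 ^ 3 := Nat.pow_le_pow_right (by norm_num) hn3
        _ = 8 := by norm_num
    have hEq : S = Subgroup.zpowers t ⊔ S :=
      Subgroup.eq_of_le_of_card_ge le_sup_right (by rw [hSc]; exact hWc)
    rw [hEq]
    exact (le_sup_left : Subgroup.zpowers t ≤ Subgroup.zpowers t ⊔ S)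
      (Subgroup.mem_zpowers t)
  obtain ⟨w, hwV, hw2, hw1, hwz⟩ : ∃ w ∈ V, w * w = 1 ∧ w ≠ 1 ∧ w ≠ z₀ := by
    by_contra hno
    push_neg at hno
    have hsub : {y : G | IsConj z₀ y ∧ y ∈ N ∧ y ≠ z₀} ⊆
        Set.range (fun q : ↥(Subgroup.zpowers u) × Fin 2 =>
          t * (q.1 : G) * (if q.2 = 0 then (1 : G) else z₀)) := by
      rintro y ⟨hyc, hyN, hyz⟩
      obtain ⟨hy2, hyncomm, hyinv⟩ := hYprop z₀ hz₀2 hz₀c hcz₀ y hyc hyN hyz
      have hcu : (t * y) * u = u * (t * y) := by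
        calc t * y * u = t * (y * u * y⁻¹) * y := by group
          _ = t * u⁻¹ * y := by rw [hyinv]
          _ = (t * u * t⁻¹)⁻¹ * t * y := by group
          _ = u * (t * y) := by rw [htinv, inv_inv]; group
      obtain ⟨p, hp, s, hs, hps⟩ := hdec (t * y) (N.mul_mem htN hyN)
      have hsV : s ∈ V := by
        apply hVmem s hs
        have hpu : p⁻¹ * u = u * p⁻¹ := (hPcomm p⁻¹ (Subgroup.inv_mem _ hp) u rfl).symm
        have e : s = p⁻¹ * (t * y) := by rw [hps]; group
        rw [e]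
        calc p⁻¹ * (t * y) * u = p⁻¹ * ((t * y) * u) := by group
          _ = p⁻¹ * (u * (t * y)) := by rw [hcu]
          _ = (p⁻¹ * u) * (t * y) := by group
          _ = (u * p⁻¹) * (t * y) := by rw [hpu]
          _ = u * (p⁻¹ * (t * y)) := by group
      have hy : y = t * p * s := by
        calc y = (t * t) * y := by rw [ht2, one_mul]
          _ = t * (t * y) := by group
          _ = t * (p * s) := by rw [hps]
          _ = t * p * s := by group
      have hts : t * s = s * t := (htS s hs).symm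
      have hsp : s * p = p * s := hPcomm p hp s (hVu s hsV)
      have htp : t * p = p⁻¹ * t := htP p hp
      have hss : s * s = 1 := by
        have h1 : y * y = s * s := by
          rw [hy]
          calc t * p * s * (t * p * s) = t * p * (s * t) * p * s := by group
            _ = t * p * (t * s) * p * s := by rw [← hts]
            _ = (t * p) * t * (s * p) * s := by group
            _ = (p⁻¹ * t) * t * (p * s) * s := by rw [htp, hsp]
            _ = p⁻¹ * (t * t) * p * s * s := by group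
            _ = s * s := by rw [ht2]; group
        rw [← h1]; exact hy2
      by_cases hs1 : s = 1
      · refine ⟨(⟨p, hp⟩, 0), ?_⟩
        show t * p * (if (0 : Fin 2) = 0 then (1 : G) else z₀) = y
        rw [if_pos rfl, hy, hs1]
      · have hsz : s = z₀ := hno s hsV hss hs1
        refine ⟨(⟨p, hp⟩, 1), ?_⟩
        show t * p * (if (1 : Fin 2) = 0 then (1 : G) else z₀) = y
        rw [if_neg (by decide), hy, hsz]
    have h1 := Set.ncard_le_ncard hsub
    have h2 : (Set.range (fun q : ↥(Subgroup.zpowers u) × Fin 2 =>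
          t * (q.1 : G) * (if q.2 = 0 then (1 : G) else z₀))).ncard ≤ 10 := by
      rw [← Set.image_univ]
      have h3 := Set.ncard_image_le (f := fun q : ↥(Subgroup.zpowers u) × Fin 2 =>
          t * (q.1 : G) * (if q.2 = 0 then (1 : G) else z₀)) (s := Set.univ)
      rw [Set.ncard_univ, Nat.card_prod, hZc, Nat.card_fin] at h3
      omega
    omega
  have hV4c : Nat.card V = 4 := by
    rcases hVcard with h | h
    · exfalso
      haveI : Fintype ↥V := Fintype.ofFinite _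
      have h3 : 2 < Fintype.card ↥V := Fintype.two_lt_card_iff.mpr
        ⟨⟨1, V.one_mem⟩, ⟨z₀, hz₀V⟩, ⟨w, hwV⟩,
          fun h => hz₀1 (congrArg Subtype.val h).symm,
          fun h => hw1 (congrArg Subtype.val h).symm,
          fun h => hwz (congrArg Subtype.val h).symm⟩
      rw [← Nat.card_eq_fintype_card, h] at h3
      omega
    · exact h
  have hVab : ∀ a ∈ V, ∀ c ∈ V, a * c = c * a := by
    intro a ha c hc
    have hcomm : IsMulCommutative V :=
      IsPGroup.isMulCommutative_of_card_eq_prime_sq (p := 2) (by rw [hV4c]; norm_num)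
    exact congrArg Subtype.val (hcomm.is_comm.comm ⟨a, ha⟩ ⟨c, hc⟩)
  have hidx2 : (V.subgroupOf S).index = 2 := by
    have h1 := Subgroup.card_mul_index (V.subgroupOf S)
    rw [Nat.card_congr (Subgroup.subgroupOfEquivOfLe hVS).toEquiv, hV4c, hSc] at h1
    omega
  have htV : t ∉ V := fun h => htncomm (hVu t h)
  have hwS : ∀ s ∈ S, s * w = w * s := by
    intro s hs
    by_cases hsV : s ∈ V
    · exact hVab s hsV w hwV
    · have h1 : (⟨t, htS'⟩ : ↥S) * ⟨s, hs⟩ ∈ V.subgroupOf S := by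
        rw [Subgroup.mul_mem_iff_of_index_two hidx2]
        constructor
        · intro h; exact absurd (Subgroup.mem_subgroupOf.mp h) htV
        · intro h; exact absurd (Subgroup.mem_subgroupOf.mp h) hsV
      have h2 : t * s ∈ V := Subgroup.mem_subgroupOf.mp h1
      have h3 := hVab (t * s) h2 w hwV
      have h4 : t * w = w * t := (htS w (hVS hwV)).symm
      calc s * w = (t * t) * (s * w) := by rw [ht2, one_mul]
        _ = t * (t * s * w) := by group
        _ = t * (w * (t * s)) := by rw [h3]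
        _ = (t * w) * (t * s) := by group
        _ = (w * t) * (t * s) := by rw [h4]
        _ = w * (t * t) * s := by group
        _ = w * s := by rw [ht2, mul_one]
  have hwc := hgood_of w hwV hwS
  obtain ⟨hczw, hYw⟩ := hgp w hw2 hw1 (hVN hwV) hwc
  have hYw' := ncard_ne N w (hVN hwV) hYw
  have hdisj : Disjoint {y : G | IsConj z₀ y ∧ y ∈ N ∧ y ≠ z₀}
      {y : G | IsConj w y ∧ y ∈ N ∧ y ≠ w} := by
    rw [Set.disjoint_left]
    rintro y ⟨hy1, -, -⟩ ⟨hy2, -, -⟩
    have hzw : IsConj z₀ w := hy1.trans hy2.symm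
    obtain ⟨g, hg⟩ := isConj_iff.mp hzw
    have hgN : g ∈ N := conj_comm_mem N u semi z₀ hcz₀ g (by rw [hg]; exact hVu w hwV)
    apply hwz
    rw [← hg]
    have h1 := hz₀c g hgN
    rw [h1, mul_inv_cancel_right]
  have hunion := Set.ncard_union_eq hdisj
  obtain ⟨C, hCdef⟩ : ∃ C : Subgroup G, C = N ⊓ Subgroup.centralizer ({u} : Set G) :=
    ⟨_, rfl⟩
  have hCmem : ∀ y, y ∈ C → y * u = u * y := by
    intro y hy
    rw [hCdef] at hy
    exact (N2016.mem_cent u y).mp (Subgroup.mem_inf.mp hy).2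
  have hsubD : {y : G | IsConj z₀ y ∧ y ∈ N ∧ y ≠ z₀} ∪ {y : G | IsConj w y ∧ y ∈ N ∧ y ≠ w}
      ⊆ (N : Set G) \ (C : Set G) := by
    rintro y (⟨hyc, hyN, hyz⟩ | ⟨hyc, hyN, hyz⟩)
    · refine ⟨hyN, fun hyC => ?_⟩
      obtain ⟨-, hnc, -⟩ := hYprop z₀ hz₀2 hz₀c hcz₀ y hyc hyN hyz
      exact hnc (hCmem y hyC)
    · refine ⟨hyN, fun hyC => ?_⟩
      obtain ⟨-, hnc, -⟩ := hYprop w hw2 hwc hczw y hyc hyN hyz
      exact hnc (hCmem y hyC)
  have hCle : C ≤ N := by rw [hCdef]; exact inf_le_left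
  have hC20 : 20 ≤ Nat.card C := by
    have h5 : 5 ∣ Nat.card C := by
      have hle : Subgroup.zpowers u ≤ C := by
        rw [hCdef, Subgroup.zpowers_le]
        exact Subgroup.mem_inf.mpr ⟨uN, (N2016.mem_cent u u).mpr rfl⟩
      have h1 := Subgroup.card_dvd_of_le hle
      rwa [hZc] at h1
    have h4 : 4 ∣ Nat.card C := by
      have hle : V ≤ C := by
        intro v hv
        rw [hCdef]
        exact Subgroup.mem_inf.mpr ⟨hVN hv, (N2016.mem_cent u v).mpr (hVu v hv)⟩
      have h1 := Subgroup.card_dvd_of_le hle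
      rwa [hV4c] at h1
    have hpos : 0 < Nat.card C := Nat.card_pos
    omega
  have hdiff := Set.ncard_sdiff (s := (C : Set G)) (t := (N : Set G)) (fun x hx => hCle hx)
  have hle := Set.ncard_le_ncard hsubD
  have hNn : (N : Set G).ncard = 40 := (Nat.card_coe_set_eq (N : Set G)).symm.trans hcN
  have hCn : (C : Set G).ncard = Nat.card C := (Nat.card_coe_set_eq (C : Set G)).symm
  rw [hunion, hY₀', hYw'] at hle
  rw [hdiff, hNn, hCn] at hle
  omega

set_option maxRecDepth 8000 in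
theorem main [IsSimpleGroup G] (hG : Nat.card G = 1440) : False := by
  haveI := fact5
  obtain ⟨P⟩ : Nonempty (Sylow 5 G) := inferInstance
  have hcP : Nat.card (P : Subgroup G) = 5 := by
    have h1 := S168.sylow_card_of (p := 5) 1 288 (by rw [hG]; norm_num) (by norm_num) P
    simpa using h1
  obtain ⟨N, hN⟩ : ∃ N : Subgroup G, N = Subgroup.normalizer ((P : Subgroup G) : Set G) :=
    ⟨_, rfl⟩
  have hPN : (P : Subgroup G) ≤ N := by rw [hN]; exact Subgroup.le_normalizer
  obtain ⟨u, huP, hu1⟩ : ∃ u ∈ (P : Subgroup G), u ≠ 1 := by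
    by_contra hno
    push_neg at hno
    have h1 : (P : Subgroup G) = ⊥ := (Subgroup.eq_bot_iff_forall _).mpr hno
    rw [h1, Subgroup.card_bot] at hcP
    omega
  have u5 : u ^ 5 = 1 := by
    have h1 := N2016.pow_card_of_mem (P : Subgroup G) u huP
    rwa [hcP] at h1
  have hou : orderOf u = 5 := orderOf_eq_prime u5 hu1
  have hPz : (P : Subgroup G) = Subgroup.zpowers u := by
    symm
    apply Subgroup.eq_of_le_of_card_ge
    · rw [Subgroup.zpowers_le]; exact huP
    · rw [Nat.card_zpowers, hou, hcP]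
  have uN : u ∈ N := hPN huP
  have hPnn : ¬ (P : Subgroup G).Normal := by
    intro hn
    rcases hn.eq_bot_or_eq_top with hb | hb
    · rw [hb, Subgroup.card_bot] at hcP; omega
    · rw [hb, Subgroup.card_top, hG] at hcP; omega
  have hNtop : N ≠ ⊤ := by
    intro ht
    rw [hN] at ht
    exact hPnn (Subgroup.normalizer_eq_top_iff.mp ht)
  have semi : ∀ (k : ℕ) (x : G ⧸ N), u ^ k • x = x → x ≠ ((1 : G) : G ⧸ N) → 5 ∣ k := by
    intro k x hx hxo
    by_contra h7
    apply hxo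
    have hk1 : u ^ k ≠ 1 := by
      intro h1
      apply h7
      rw [← hou]
      exact orderOf_dvd_of_pow_eq_one h1
    obtain ⟨g, rfl⟩ := QuotientGroup.mk_surjective x
    have h3 : ((u ^ k * g : G) : G ⧸ N) = ((g : G) : G ⧸ N) := hx
    rw [QuotientGroup.eq] at h3
    have hgN : g ∈ N := by
      rw [hN]
      apply UP.conj_not_mem 5 P hcP g (u ^ k)⁻¹
        (Subgroup.inv_mem _ (Subgroup.pow_mem _ huP k)) (by simpa using hk1)
      have e : g⁻¹ * (u ^ k)⁻¹ * g = (u ^ k * g)⁻¹ * g := by group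
      rw [e, ← hN]; exact h3
    show ((g : G) : G ⧸ N) = ((1 : G) : G ⧸ N)
    rw [QuotientGroup.eq]
    simpa using hgN
  have faith : ∀ g : G, (∀ x : G ⧸ N, g • x = x) → g = 1 := N2016.faithful N hNtop
  have hnorm : ∀ n ∈ N, n * u * n⁻¹ ∈ Subgroup.zpowers u := by
    intro n hn
    rw [← hPz]
    rw [hN] at hn
    exact (Subgroup.mem_normalizer_iff.mp hn u).mp huP
  have burn : ¬ (∀ n ∈ N, n * u = u * n) := by
    intro hall
    apply S168.not_normalizer_le_centralizer P (S168.sylow_ne_bot P (by rw [hcP]; norm_num))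
      (by intro hb; rw [hb, Subgroup.card_top, hG] at hcP; omega)
    intro n hn
    rw [Subgroup.mem_centralizer_iff]
    intro y hy
    have hy' : y ∈ Subgroup.zpowers u := by rw [← hPz]; exact hy
    obtain ⟨i, rfl⟩ := Subgroup.mem_zpowers_iff.mp hy'
    have hcomm : Commute n u := hall n (by rw [hN]; exact hn)
    exact ((hcomm.zpow_right i).eq).symm
  have hmul := S168.card_normalizer_mul P
  rw [← hN, hG] at hmul
  have hd5 : 5 ∣ Nat.card N := by
    have h1 := Subgroup.card_dvd_of_le hPN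
    rwa [hcP] at h1
  have hmod : Nat.card (Sylow 5 G) % 5 = 1 := card_sylow_modEq_one 5 G
  have hn1 : Nat.card (Sylow 5 G) ≠ 1 := by
    intro h1
    rw [h1, mul_one] at hmul
    exact hNtop (Subgroup.eq_top_of_card_eq N (by rw [hmul, hG]))
  obtain ⟨k, hk⟩ := hd5
  have hk288 : k * Nat.card (Sylow 5 G) = 288 := by
    rw [hk] at hmul
    have h1 : 5 * (k * Nat.card (Sylow 5 G)) = 5 * 288 := by rw [← mul_assoc]; exact hmul
    exact Nat.eq_of_mul_eq_mul_left (by norm_num) h1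
  have hd : Nat.card (Sylow 5 G) ∣ 288 := Dvd.intro_left k hk288
  have hcases : ∀ d ∈ Nat.divisors 288, d % 5 = 1 → d ≠ 1 →
      d = 6 ∨ d = 16 ∨ d = 36 ∨ d = 96 := by
    decide +kernel
  rcases hcases _ (Nat.mem_divisors.mpr ⟨hd, by norm_num⟩) hmod hn1 with h6 | h16 | h36 | h96
  · have hcN : Nat.card N = 240 := by rw [h6] at hk288; rw [hk]; omega
    have hidx : N.index = 6 := by
      have h1 := Subgroup.card_mul_index N
      rw [hcN, hG] at h1
      omega
    obtain ⟨f, hf⟩ := Cfsg.Agent.S0991.result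
      (S504.noncomm_of_not_prime (by rw [hG]; norm_num)) N hNtop
    have h1 : Nat.card G ∣ Nat.card ↥(alternatingGroup (Fin N.index)) :=
      Subgroup.card_dvd_of_injective f hf
    have h2 : Nat.card ↥(alternatingGroup (Fin N.index)) ∣
        Nat.card (Equiv.Perm (Fin N.index)) := Subgroup.card_subgroup_dvd_card _
    rw [Nat.card_perm, Nat.card_fin] at h2
    have h3 : 1440 ∣ (N.index).factorial := by rw [← hG]; exact h1.trans h2
    rw [hidx] at h3
    exact absurd h3 (by decide)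
  · have hcN : Nat.card N = 90 := by rw [h16] at hk288; rw [hk]; omega
    have hidx : Nat.card (G ⧸ N) = 16 := by
      have h1 := Subgroup.card_mul_index N
      rw [hcN, hG] at h1
      have h2 : N.index = 16 := by omega
      exact h2
    exact case16 N hcN hidx hNtop u u5 hou uN semi faith hnorm
  · have hcN : Nat.card N = 40 := by rw [h36] at hk288; rw [hk]; omega
    exact case36 hG N hcN u u5 hou uN semi faith hnorm burn
  · have hcN : Nat.card N = 15 := by rw [h96] at hk288; rw [hk]; omega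
    apply burn
    intro n hn
    apply comm_of_odd u hou n (hnorm n hn)
    have h15 := N2016.pow_card_of_mem N n hn
    rw [hcN] at h15
    have e : n ^ 45 = (n ^ 15) ^ 3 := by rw [← pow_mul]
    rw [e, h15, one_pow]

end Cfsg.Agent.Lib.helper3.N1440
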