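import Mathlib
import Cfsg.Prelude.Def_PLocal
import Cfsg.Agent.Lib.helper3.SL2PSolv
import Cfsg.Agent.Lib.helper3.QuadPairSylow2
import Cfsg.Agent.Lib.helper3.PLocal
import Cfsg.Agent.Lib.helper3.Thompson
import Cfsg.Agent.S0012

set_option autoImplicit false
set_option linter.style.haveILetI false

namespace Cfsg.Agent.Lib.helper3

open scoped commutatorElement

universe u w

/-- Subgroups of `p`-solvable groups are `p`-solvable. -/
theorem isPSolvable_subgroup {G : Type u} [Group G] {p : ℕ} [hp : Fact p.Prime]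
    (K : Subgroup G) (h : Cfsg.IsPSolvable p G) : Cfsg.IsPSolvable p ↥K := by
  obtain ⟨n, H, h0, hlast, hmono, hnorm, hstep⟩ := h
  refine ⟨n, fun i => (H i).subgroupOf K, ?_, ?_, ?_, ?_, ?_⟩
  · show (H 0).subgroupOf K = ⊥
    rw [h0]; exact Subgroup.bot_subgroupOf K
  · show (H (Fin.last n)).subgroupOf K = ⊤
    rw [hlast]; exact Subgroup.top_subgroupOf K
  · intro i j hij; exact Subgroup.comap_mono (hmono hij)
  · intro i; haveI := hnorm i; exact Subgroup.normal_subgroupOf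
  · intro i
    have hn1 : (H i.castSucc).Normal := hnorm _
    have hle : H i.castSucc ≤ H i.succ := hmono (Fin.castSucc_le_succ i)
    have hdvd : ((H i.castSucc).subgroupOf K).relIndex ((H i.succ).subgroupOf K) ∣
        (H i.castSucc).relIndex (H i.succ) := by
      have e1 : (H i.succ).subgroupOf K = (H i.succ ⊓ K).subgroupOf K := by
        rw [Subgroup.inf_subgroupOf_right]
      rw [e1, Subgroup.relIndex_subgroupOf inf_le_right, ← Subgroup.relIndex_sup_right]
      have h1 : H i.castSucc ≤ H i.succ ⊓ K ⊔ H i.castSucc := le_sup_right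
      have h2 : H i.succ ⊓ K ⊔ H i.castSucc ≤ H i.succ := sup_le inf_le_left hle
      exact Dvd.intro _ (Subgroup.relIndex_mul_relIndex _ _ _ h1 h2)
    rcases hstep i with ⟨m, hm⟩ | hc
    · left
      rw [hm] at hdvd
      obtain ⟨j, -, hj⟩ := (Nat.dvd_prime_pow hp.out).mp hdvd
      exact ⟨j, hj⟩
    · right
      exact Nat.Coprime.coprime_dvd_left hdvd hc

/-- Variant of `quad_pair_odd`: `p ≥ 5` and `G` is `p`-solvable. -/
theorem quad_pair_psolv {E : Type u} [CommGroup E] [Finite E] {p : ℕ} [Fact p.Prime]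
    (hp5 : 5 ≤ p)
    (hexp : ∀ x : E, x ^ p = 1) {G : Type w} [Group G] [Finite G] (α : G →* MulAut E) (a b : G)
    (hgen : Subgroup.closure {a, b} = ⊤)
    (ha : ∀ x : E, α a (α a x / x) = α a x / x) (hb : ∀ x : E, α b (α b x / x) = α b x / x)
    (hsol : Cfsg.IsPSolvable p G) :
    ∀ g : G, ∃ j : ℕ, α g ^ (p ^ j) = 1 := by
  classical
  have hp : p.Prime := Fact.out
  by_contra hcon
  push Not at hcon
  obtain ⟨n, φ, hφ1, g₀, hg₀⟩ := quad_pair_abstract hexp α a b hgen ha hb hcon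
  haveI : Finite φ.range := Finite.of_surjective φ.rangeRestrict φ.rangeRestrict_surjective
  have hS : Subgroup.closure ({φ.rangeRestrict a, φ.rangeRestrict b} : Set φ.range) = ⊤ := by
    have h1 := MonoidHom.map_closure φ.rangeRestrict ({a, b} : Set G)
    rw [hgen, Subgroup.map_top_of_surjective _ φ.rangeRestrict_surjective, Set.image_pair] at h1
    exact h1.symm
  have hSp1 : ∀ s ∈ ({φ.rangeRestrict a, φ.rangeRestrict b} : Set φ.range), s ^ p = 1 := by
    intro s hs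
    rcases hs with rfl | hs
    · rw [← map_pow]
      apply Subtype.ext
      show φ (a ^ p) = 1
      exact hφ1 _ (by rw [map_pow]; exact mulAut_quad_pow_prime hexp _ ha)
    · rw [Set.mem_singleton_iff] at hs
      subst hs
      rw [← map_pow]
      apply Subtype.ext
      show φ (b ^ p) = 1
      exact hφ1 _ (by rw [map_pow]; exact mulAut_quad_pow_prime hexp _ hb)
  have hsol' : Cfsg.IsPSolvable p φ.range :=
    Cfsg.Agent.Lib.helper16.isPSolvable_of_surjective φ.rangeRestrict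
      φ.rangeRestrict_surjective hsol
  have hP := sl2_psolv_isPGroup (p := p) φ.range.subtype φ.range.subtype_injective hp5 hsol'
    _ hS hSp1
  obtain ⟨j, hj⟩ := hP (φ.rangeRestrict g₀)
  apply hg₀ j
  have := congrArg Subtype.val hj
  simpa using this

/-- Concrete version of `quad_pair_psolv` inside a group. -/
theorem quad_pair_psolv_subgroup {Y : Type u} [Group Y] [Finite Y] {p : ℕ} [Fact p.Prime]
    (hp5 : 5 ≤ p)
    (V : Subgroup Y) (hVc : ∀ x ∈ V, ∀ y ∈ V, x * y = y * x) (hVe : ∀ x ∈ V, x ^ p = 1)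
    (a b : Y) (haV : a ∈ Subgroup.normalizer (V : Set Y))
    (hbV : b ∈ Subgroup.normalizer (V : Set Y))
    (ha : ∀ v ∈ V, a * (a * v * a⁻¹ * v⁻¹) * a⁻¹ = a * v * a⁻¹ * v⁻¹)
    (hb : ∀ v ∈ V, b * (b * v * b⁻¹ * v⁻¹) * b⁻¹ = b * v * b⁻¹ * v⁻¹)
    (hsol : Cfsg.IsPSolvable p ↥(Subgroup.closure ({a, b} : Set Y))) :
    ∀ h ∈ Subgroup.closure ({a, b} : Set Y),
      ∃ j : ℕ, h ^ (p ^ j) ∈ Subgroup.centralizer (V : Set Y) := by
  classical
  letI : CommGroup ↥V :=
    { (inferInstance : Group ↥V) with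
      mul_comm := fun x y => Subtype.ext (hVc x x.2 y y.2) }
  have hHN : Subgroup.closure ({a, b} : Set Y) ≤ Subgroup.normalizer (V : Set Y) := by
    rw [Subgroup.closure_le]
    intro x hx
    rcases hx with rfl | hx
    · exact haV
    · rw [Set.mem_singleton_iff] at hx; subst hx; exact hbV
  obtain ⟨α, hα⟩ : ∃ α : ↥(Subgroup.closure ({a, b} : Set Y)) →* MulAut ↥V,
      ∀ (g : ↥(Subgroup.closure ({a, b} : Set Y))) (v : ↥V),
        ((α g v : ↥V) : Y) = (g : Y) * v * (g : Y)⁻¹ :=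
    ⟨(Subgroup.normalizerMonoidHom V).comp (Subgroup.inclusion hHN), fun g v => rfl⟩
  obtain ⟨a', ha'⟩ : ∃ a' : ↥(Subgroup.closure ({a, b} : Set Y)), (a' : Y) = a :=
    ⟨⟨a, Subgroup.subset_closure (by simp)⟩, rfl⟩
  obtain ⟨b', hb'⟩ : ∃ b' : ↥(Subgroup.closure ({a, b} : Set Y)), (b' : Y) = b :=
    ⟨⟨b, Subgroup.subset_closure (by simp)⟩, rfl⟩
  have hgen : Subgroup.closure ({a', b'} : Set ↥(Subgroup.closure ({a, b} : Set Y))) = ⊤ := by
    have h1 := Subgroup.closure_closure_coe_preimage (k := ({a, b} : Set Y))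
    have h2 : (Subtype.val ⁻¹' ({a, b} : Set Y) :
        Set ↥(Subgroup.closure ({a, b} : Set Y))) = {a', b'} := by
      ext x
      simp only [Set.mem_preimage, Set.mem_insert_iff, Set.mem_singleton_iff]
      rw [Subtype.ext_iff, Subtype.ext_iff, ha', hb']
    rw [← h2]; exact h1
  have hexp : ∀ x : ↥V, x ^ p = 1 := fun x => Subtype.ext (hVe x x.2)
  have hqa : ∀ x : ↥V, α a' (α a' x / x) = α a' x / x := by
    intro x
    apply Subtype.ext
    rw [hα, Subgroup.coe_div, hα, ha', div_eq_mul_inv]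
    exact ha x x.2
  have hqb : ∀ x : ↥V, α b' (α b' x / x) = α b' x / x := by
    intro x
    apply Subtype.ext
    rw [hα, Subgroup.coe_div, hα, hb', div_eq_mul_inv]
    exact hb x x.2
  have key := quad_pair_psolv hp5 hexp α a' b' hgen hqa hqb hsol
  intro h hh
  obtain ⟨j, hj⟩ := key ⟨h, hh⟩
  refine ⟨j, ?_⟩
  refine Subgroup.mem_centralizer_iff.mpr ?_
  intro v hv
  rw [← map_pow] at hj
  have h3 := hα (⟨h, hh⟩ ^ (p ^ j)) ⟨v, hv⟩
  rw [hj] at h3
  have h4 : v = h ^ (p ^ j) * v * (h ^ (p ^ j))⁻¹ := h3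
  calc v * h ^ (p ^ j) = (h ^ (p ^ j) * v * (h ^ (p ^ j))⁻¹) * h ^ (p ^ j) := by rw [← h4]
    _ = h ^ (p ^ j) * v := by group

/-- If `G` is `p`-solvable and `p ≥ 5`, `G` acts `p`-stably on every normal elementary abelian
`p`-subgroup. -/
theorem pstableOn_of_pSolvable {G : Type u} [Group G] [Finite G] {p : ℕ} [Fact p.Prime]
    (hp5 : 5 ≤ p) (V : Subgroup G) [hVn : V.Normal] (hV : Cfsg.IsElementaryAbelian p V)
    (hsol : Cfsg.IsPSolvable p G) :
    Cfsg.IsPStableOn p V := by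
  intro a hq
  have hVc : ∀ x ∈ V, ∀ y ∈ V, x * y = y * x := ((isEA_iff p V).mp hV).1
  have hqa := quad_of_comm_comm_eq_bot V a hq
  have hnorm : ∀ g : G, g ∈ Subgroup.normalizer (V : Set G) := fun g => by
    rw [Subgroup.normalizer_eq_top]; trivial
  obtain ⟨π, hπ⟩ : ∃ π : G →* G ⧸ Subgroup.centralizer (V : Set G),
      π = QuotientGroup.mk' _ := ⟨_, rfl⟩
  have hπs : Function.Surjective π := by rw [hπ]; exact QuotientGroup.mk'_surjective _
  have hπk : ∀ x : G, x ∈ Subgroup.centralizer (V : Set G) → π x = 1 := by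
    intro x hx; rw [hπ]; exact (QuotientGroup.eq_one_iff x).mpr hx
  have key : ∀ g : G, ∀ h ∈ Subgroup.closure ({a, g * a * g⁻¹} : Set G),
      ∃ j : ℕ, (π h) ^ (p ^ j) = 1 := by
    intro g h hh
    obtain ⟨j, hj⟩ := quad_pair_psolv_subgroup hp5 V hVc hV.2 a (g * a * g⁻¹) (hnorm a)
      (hnorm _) hqa (quad_conj V a g (hnorm g) hqa) (isPSolvable_subgroup _ hsol) h hh
    exact ⟨j, by rw [← map_pow]; exact hπk _ hj⟩
  have hBS : ∀ g' : G ⧸ Subgroup.centralizer (V : Set G),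
      IsPGroup p ↥(Subgroup.zpowers (π a) ⊔
        (Subgroup.zpowers (π a)).map (MulAut.conj g').toMonoidHom) := by
    intro g'
    obtain ⟨g, rfl⟩ := hπs g'
    have hle : Subgroup.zpowers (π a) ⊔
        (Subgroup.zpowers (π a)).map (MulAut.conj (π g)).toMonoidHom ≤
        (Subgroup.closure ({a, g * a * g⁻¹} : Set G)).map π := by
      apply sup_le
      · rw [Subgroup.zpowers_le]; exact ⟨a, Subgroup.subset_closure (by simp), rfl⟩
      · rw [MonoidHom.map_zpowers, Subgroup.zpowers_le]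
        exact ⟨g * a * g⁻¹, Subgroup.subset_closure (by simp), by simp⟩
    rintro ⟨y, hy⟩
    obtain ⟨h, hh, rfl⟩ := hle hy
    obtain ⟨j, hj⟩ := key g h hh
    exact ⟨j, Subtype.ext hj⟩
  have hXp : IsPGroup p (Subgroup.zpowers (π a)) := (hBS 1).to_le le_sup_left
  obtain ⟨N, hNn, hNp, hxN⟩ := Cfsg.Agent.S0199.result (Subgroup.zpowers (π a)) hXp hBS
  have h3 : π a ∈ Cfsg.pCore p (G ⧸ Subgroup.centralizer (V : Set G)) :=
    (le_sSup (show N ∈ {N : Subgroup _ | N.Normal ∧ IsPGroup p N} from ⟨hNn, hNp⟩))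
      (hxN (Subgroup.mem_zpowers _))
  rw [hπ] at h3
  exact h3

/-- If `G` is `p`-solvable and `p ≥ 5`, `G` acts `p`-stably on the Frattini
quotient of any normal `p`-subgroup. -/
theorem pstableOnSection_frattini_psolv {G : Type u} [Group G] [Finite G] {p : ℕ}
    [Fact p.Prime] (hp5 : 5 ≤ p) (hsol : Cfsg.IsPSolvable p G)
    (P : Subgroup G) [hPn : P.Normal] (hP : IsPGroup p P) (N : Subgroup G) [hNn : N.Normal]
    (hN : N = (frattini ↥P).map P.subtype) :
    Cfsg.IsPStableOnSection p P N := by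
  intro a hq
  have hcommΦ : ∀ x ∈ P, ∀ y ∈ P, x * y * x⁻¹ * y⁻¹ ∈ N := by
    intro x hx y hy
    have h1 := (Cfsg.Agent.S0012.result p (G := ↥P) hP).1
    have h3 : ⁅(⟨x, hx⟩ : ↥P), ⟨y, hy⟩⁆ ∈ commutator ↥P :=
      Subgroup.commutator_mem_commutator (Subgroup.mem_top _) (Subgroup.mem_top _)
    rw [hN]
    exact ⟨_, h1 h3, rfl⟩
  have hpowΦ : ∀ x ∈ P, x ^ p ∈ N := by
    intro x hx
    have h1 := (Cfsg.Agent.S0012.result p (G := ↥P) hP).2 ⟨x, hx⟩
    rw [hN]
    exact ⟨_, h1, rfl⟩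
  obtain ⟨π, hπ⟩ : ∃ π : G →* G ⧸ N, π = QuotientGroup.mk' N := ⟨_, rfl⟩
  have hπsurj : Function.Surjective π := by rw [hπ]; exact QuotientGroup.mk'_surjective N
  have hπker : ∀ x : G, π x = 1 ↔ x ∈ N := by
    intro x; rw [hπ]; exact QuotientGroup.eq_one_iff x
  obtain ⟨V, hV⟩ : ∃ V : Subgroup (G ⧸ N), V = P.map π := ⟨_, rfl⟩
  have hVn : V.Normal := by rw [hV]; exact hPn.map π hπsurj
  haveI := hVn
  have hVea : Cfsg.IsElementaryAbelian p V := by
    rw [isEA_iff]
    constructor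
    · intro x hx y hy
      rw [hV] at hx hy
      obtain ⟨x', hx', rfl⟩ := hx
      obtain ⟨y', hy', rfl⟩ := hy
      have h1 := (hπker _).mpr (hcommΦ x' hx' y' hy')
      rw [map_mul, map_mul, map_mul, map_inv, map_inv] at h1
      calc π x' * π y' = (π x' * π y' * (π x')⁻¹ * (π y')⁻¹) * (π y' * π x') := by group
        _ = π y' * π x' := by rw [h1, one_mul]
    · intro x hx
      rw [hV] at hx
      obtain ⟨x', hx', rfl⟩ := hx
      rw [← map_pow]
      exact (hπker _).mpr (hpowΦ x' hx')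
  have hsol' : Cfsg.IsPSolvable p (G ⧸ N) :=
    Cfsg.Agent.Lib.helper16.isPSolvable_of_surjective π hπsurj hsol
  have hqV : ⁅⁅V, Subgroup.zpowers (π a)⁆, Subgroup.zpowers (π a)⁆ = ⊥ := by
    rw [hV, ← MonoidHom.map_zpowers, ← Subgroup.map_commutator, ← Subgroup.map_commutator,
      eq_bot_iff]
    rintro _ ⟨x, hx, rfl⟩
    exact Subgroup.mem_bot.mpr ((hπker x).mpr (hq hx))
  have hst := pstableOn_of_pSolvable hp5 V hVea hsol' (π a) hqV
  obtain ⟨ρ, hρ⟩ : ∃ ρ : G →* (G ⧸ N) ⧸ Subgroup.centralizer (V : Set (G ⧸ N)),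
      ρ = (QuotientGroup.mk' _).comp π := ⟨_, rfl⟩
  have hρs : Function.Surjective ρ := by
    rw [hρ]; exact (QuotientGroup.mk'_surjective _).comp hπsurj
  have hker : Cfsg.sectionKernel P N = ρ.ker := by
    unfold Cfsg.sectionKernel
    rw [hρ, ← MonoidHom.comap_ker, QuotientGroup.ker_mk', hV, hπ]
  refine ⟨(Cfsg.pCore p _).comap ρ, (pCore_normal3 p _).comap ρ, ?_, ?_, ?_⟩
  · rw [hker]
    intro x hx
    rw [Subgroup.mem_comap, MonoidHom.mem_ker.mp hx]
    exact Subgroup.one_mem _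
  · obtain ⟨k, hk⟩ := (pCore_isPGroup3 p
      ((G ⧸ N) ⧸ Subgroup.centralizer (V : Set (G ⧸ N)))).exists_card_eq
    refine ⟨k, ?_⟩
    rw [hker, ← MonoidHom.comap_bot, Subgroup.relIndex_comap,
      Subgroup.map_comap_eq_self_of_surjective hρs, Subgroup.relIndex_bot_left, hk]
  · rw [Subgroup.mem_comap, hρ]; exact hst

/-- For `p ≥ 5`, `p`-solvable groups are `p`-stable in the action sense. -/
theorem actionPStable_of_pSolvable {G : Type u} [Group G] [Finite G] {p : ℕ} [Fact p.Prime]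
    (hp5 : 5 ≤ p) (hsol : Cfsg.IsPSolvable p G) : Cfsg.IsActionPStable p G := by
  refine ⟨?_, ?_, ?_⟩
  · intro V _ hV
    exact pstableOn_of_pSolvable hp5 V hV hsol
  · exact pstableOnSection_frattini_psolv hp5 hsol (Cfsg.pCore p G) (pCore_isPGroup3 p G) _ rfl
  · intro S V _ hVle
    apply pstableOn_of_pSolvable hp5 V
    · have hΩ : Cfsg.IsElementaryAbelian p (Cfsg.omegaCenterThompson p ↥(S : Subgroup G)) := by
        unfold Cfsg.omegaCenterThompson Cfsg.omegaOne
        apply isEA_closure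
        · rintro x ⟨hx, _⟩ y ⟨hy, _⟩
          exact Subgroup.mem_centralizer_iff.mp hy.2 x hx.1
        · rintro x ⟨_, hx⟩
          exact hx
      rw [isEA_iff] at hΩ ⊢
      constructor
      · intro x hx y hy
        obtain ⟨x', hx', hxe⟩ := hVle ⟨x, hx, rfl⟩
        obtain ⟨y', hy', hye⟩ := hVle ⟨y, hy, rfl⟩
        apply Subtype.ext
        have h3 := congrArg (Subgroup.subtype (S : Subgroup G)) (hΩ.1 x' hx' y' hy')
        rw [map_mul, map_mul, hxe, hye] at h3
        exact h3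
      · intro x hx
        obtain ⟨x', hx', hxe⟩ := hVle ⟨x, hx, rfl⟩
        apply Subtype.ext
        have h3 := congrArg (Subgroup.subtype (S : Subgroup G)) (hΩ.2 x' hx')
        rw [map_pow, hxe, map_one] at h3
        exact h3
    · exact isPSolvable_subgroup _ hsol

end Cfsg.Agent.Lib.helper3
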