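import Mathlib
import Cfsg.Agent.Lib.helper3.Simple168
import Cfsg.Agent.S1012
import Cfsg.Agent.S0991
import Cfsg.Agent.Lib.helper2.Ord12

set_option autoImplicit false
set_option linter.style.haveILetI false

namespace Cfsg.Agent.Lib.helper3.S168

open Pointwise
open Cfsg.Agent.Lib.helper1

universe u

/-! ### decidable facts -/

/-- The predicate cutting out the normal Klein four-subgroup of `Perm (Fin 4)`. -/
def PV (σ : Equiv.Perm (Fin 4)) : Prop := σ * σ = 1 ∧ (σ = 1 ∨ ∀ i, σ i ≠ i)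

instance PV_dec : DecidablePred PV := fun σ => by unfold PV; infer_instance

theorem pv_one : PV 1 := by decide

set_option maxRecDepth 100000 in
theorem pv_mul : ∀ σ τ : Equiv.Perm (Fin 4), PV σ → PV τ → PV (σ * τ) := by decide

set_option maxRecDepth 100000 in
theorem pv_conj : ∀ σ τ : Equiv.Perm (Fin 4), PV σ → PV (τ * σ * τ⁻¹) := by decide

set_option maxRecDepth 100000 in
theorem pv_card : Fintype.card {σ : Equiv.Perm (Fin 4) // PV σ} = 4 := by decide

set_option maxRecDepth 100000 in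
theorem pv_sign : ∀ σ : Equiv.Perm (Fin 4), PV σ → Equiv.Perm.sign σ = 1 := by decide

set_option maxRecDepth 100000 in
theorem s4_inv3 : ∀ σ : Equiv.Perm (Fin 4), σ * σ * σ = 1 → σ ≠ 1 →
    ∃ τ : Equiv.Perm (Fin 4), τ * σ * τ⁻¹ * σ = 1 := by decide

theorem d4_klein : ∀ X Y : DihedralGroup 4, X * X = 1 → Y * Y = 1 → X * Y * (X * Y) = 1 →
    X ≠ 1 → Y ≠ 1 → X ≠ Y →
    (X = DihedralGroup.r 2 ∨ Y = DihedralGroup.r 2 ∨ X * Y = DihedralGroup.r 2) ∧
    ((X = DihedralGroup.sr 0 ∨ Y = DihedralGroup.sr 0 ∨ X * Y = DihedralGroup.sr 0) ∨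
      (X = DihedralGroup.sr 1 ∨ Y = DihedralGroup.sr 1 ∨ X * Y = DihedralGroup.sr 1)) := by
  decide

theorem d4_conj_r2 : ∀ s : DihedralGroup 4,
    s * DihedralGroup.r 2 * s⁻¹ = (DihedralGroup.r 2)⁻¹ := by decide

theorem d4_sr1_not : (DihedralGroup.sr 1 : DihedralGroup 4) ≠ 1 ∧
    (DihedralGroup.sr 1 : DihedralGroup 4) ≠ DihedralGroup.r 2 ∧
    (DihedralGroup.sr 1 : DihedralGroup 4) ≠ DihedralGroup.sr 0 ∧
    (DihedralGroup.sr 1 : DihedralGroup 4) ≠ DihedralGroup.sr 0 * DihedralGroup.r 2 := by decide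

theorem d2_facts : (DihedralGroup.r 1 : DihedralGroup 2) ≠ 1 ∧
    (DihedralGroup.sr 0 : DihedralGroup 2) ≠ 1 ∧
    (DihedralGroup.r 1 : DihedralGroup 2) ≠ DihedralGroup.sr 0 := by decide

theorem d4_sr0_sq : (DihedralGroup.sr 0 : DihedralGroup 4) * DihedralGroup.sr 0 = 1 := by decide

theorem d4_sr1_sq : (DihedralGroup.sr 1 : DihedralGroup 4) * DihedralGroup.sr 1 = 1 := by decide

theorem d4_sr : (DihedralGroup.sr 0 : DihedralGroup 4) ≠ 1 ∧
    (DihedralGroup.sr 0 : DihedralGroup 4) ≠ DihedralGroup.r 2 ∧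
    (DihedralGroup.sr 1 : DihedralGroup 4) ≠ 1 ∧
    (DihedralGroup.sr 1 : DihedralGroup 4) ≠ DihedralGroup.r 2 := by decide

/-! ### generic lemmas -/

theorem mem_map_conj {H : Type*} [Group H] (U : Subgroup H) (g x : H) :
    x ∈ U.map (MulAut.conj g).toMonoidHom ↔ g⁻¹ * x * g ∈ U := by
  constructor
  · rintro ⟨u, hu, rfl⟩
    have : g⁻¹ * (MulAut.conj g).toMonoidHom u * g = u := by
      show g⁻¹ * (g * u * g⁻¹) * g = u
      group
    rw [this]; exact hu
  · intro hx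
    refine ⟨g⁻¹ * x * g, hx, ?_⟩
    show g * (g⁻¹ * x * g) * g⁻¹ = x
    group

theorem normalizer_map_conj {H : Type*} [Group H] (U : Subgroup H) (g : H) :
    Subgroup.normalizer ((U.map (MulAut.conj g).toMonoidHom : Subgroup H) : Set H) =
      (Subgroup.normalizer (U : Set H)).map (MulAut.conj g).toMonoidHom := by
  ext n
  rw [mem_map_conj, Subgroup.mem_normalizer_iff, Subgroup.mem_normalizer_iff]
  constructor
  · intro H1 y
    have := H1 (g * y * g⁻¹)
    rw [mem_map_conj, mem_map_conj] at this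
    have e1 : g⁻¹ * (g * y * g⁻¹) * g = y := by group
    have e2 : g⁻¹ * (n * (g * y * g⁻¹) * n⁻¹) * g = g⁻¹ * n * g * y * (g⁻¹ * n * g)⁻¹ := by group
    rw [e1, e2] at this
    exact this
  · intro H2 x
    have := H2 (g⁻¹ * x * g)
    rw [mem_map_conj, mem_map_conj]
    have e2 : g⁻¹ * n * g * (g⁻¹ * x * g) * (g⁻¹ * n * g)⁻¹ = g⁻¹ * (n * x * n⁻¹) * g := by group
    rw [e2] at this
    exact this

theorem map_conj_eq_of_mem_normalizer {H : Type*} [Group H] (U : Subgroup H) (c : H)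
    (hc : c ∈ Subgroup.normalizer (U : Set H)) : U.map (MulAut.conj c).toMonoidHom = U := by
  ext x
  rw [mem_map_conj]
  exact ((Subgroup.mem_normalizer_iff''.mp hc) x).symm

theorem mem_normalizer_of_map_conj_eq {H : Type*} [Group H] (U : Subgroup H) (c : H)
    (hc : U.map (MulAut.conj c).toMonoidHom = U) : c ∈ Subgroup.normalizer (U : Set H) := by
  rw [Subgroup.mem_normalizer_iff'']
  intro x
  rw [← mem_map_conj, hc]

theorem conj_cancel {H : Type*} [Group H] (A B u : H)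
    (heq : A * u * A⁻¹ = A * B * u * (A * B)⁻¹) : B * u = u * B := by
  have h1 : u = B * u * B⁻¹ := by
    calc u = A⁻¹ * (A * u * A⁻¹) * A := by group
      _ = A⁻¹ * (A * B * u * (A * B)⁻¹) * A := by rw [heq]
      _ = B * u * B⁻¹ := by group
  calc B * u = B * u * B⁻¹ * B := by group
    _ = u * B := by rw [← h1]

variable {G : Type u} [Group G] [Finite G]

theorem smul_syl_eq_map {p : ℕ} (g : G) (P : Sylow p G) :
    ((g • P : Sylow p G) : Subgroup G) = (P : Subgroup G).map (MulAut.conj g).toMonoidHom := by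
  ext x
  rw [mem_smul_syl, mem_map_conj]

theorem coatom_eq {M K : Subgroup G} (hM : IsCoatom M) (hK : K ≠ ⊤) (hle : M ≤ K) : M = K := by
  by_contra hne
  exact hK (hM.2 K (lt_of_le_of_ne hle hne))

theorem klein_of (V : Subgroup G) (hc : Nat.card V = 4) (hsq : ∀ v ∈ V, v * v = 1) :
    IsKleinFour ↥V := by
  refine ⟨hc, ?_⟩
  have h1 : Monoid.exponent ↥V ∣ 2 := by
    apply Monoid.exponent_dvd_of_forall_pow_eq_one
    intro v
    apply Subtype.ext
    rw [pow_two]
    exact hsq v.1 v.2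
  have h2 : Monoid.exponent ↥V ≠ 1 := by
    intro h
    rw [Monoid.exp_eq_one_iff] at h
    have : Nat.card ↥V = 1 := Nat.card_of_subsingleton (1 : ↥V)
    omega
  rcases (Nat.dvd_prime Nat.prime_two).mp h1 with h | h
  · exact absurd h h2
  · exact h

theorem exists_sylow_eq (p : ℕ) [Fact p.Prime] (n : ℕ)
    (hP : ∀ P : Sylow p G, Nat.card (P : Subgroup G) = p ^ n) (Q : Subgroup G)
    (hQ : Nat.card Q = p ^ n) : ∃ P : Sylow p G, (P : Subgroup G) = Q := by
  obtain ⟨P, hle⟩ := (IsPGroup.of_card hQ).exists_le_sylow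
  exact ⟨P, (Subgroup.eq_of_le_of_card_ge hle (by rw [hP, hQ])).symm⟩

theorem mem_normalizer_zpowers_of_inv (x g : G) (hg : g * x * g⁻¹ = x⁻¹) :
    g ∈ Subgroup.normalizer ((Subgroup.zpowers x : Subgroup G) : Set G) := by
  have hginv : g⁻¹ * x * g = x⁻¹ := by
    have : x = g⁻¹ * x⁻¹ * g := by rw [← hg]; group
    calc g⁻¹ * x * g = (g⁻¹ * x⁻¹ * g)⁻¹ := by group
      _ = x⁻¹ := by rw [← this]
  have hgen : ∀ c : G, c * x * c⁻¹ ∈ Subgroup.zpowers x → ∀ y ∈ Subgroup.zpowers x,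
      c * y * c⁻¹ ∈ Subgroup.zpowers x := by
    intro c hc y hy
    obtain ⟨i, rfl⟩ := Subgroup.mem_zpowers_iff.mp hy
    rw [← conj_zpow]
    exact Subgroup.zpow_mem _ hc i
  rw [Subgroup.mem_normalizer_iff]
  intro y
  constructor
  · exact hgen g (by rw [hg]; exact Subgroup.inv_mem _ (Subgroup.mem_zpowers x)) y
  · intro hy
    have h5 := hgen g⁻¹ (by rw [inv_inv, hginv]; exact Subgroup.inv_mem _ (Subgroup.mem_zpowers x))
      _ hy
    have h6 : g⁻¹ * (g * y * g⁻¹) * g⁻¹⁻¹ = y := by group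
    rwa [h6] at h5

theorem exists_normal_sylow (M : Subgroup G) (p : ℕ) [Fact p.Prime] (a m : ℕ)
    (hc : Nat.card M = p ^ a * m) (hm : ¬ p ∣ m)
    (huniq : ∀ d, d ∣ m → d ≡ 1 [MOD p] → d = 1) :
    ∃ Q : Subgroup G, Q ≤ M ∧ Nat.card Q = p ^ a ∧ M ≤ Subgroup.normalizer (Q : Set G) := by
  obtain ⟨Q₀⟩ : Nonempty (Sylow p ↥M) := inferInstance
  have hQc : Nat.card (Q₀ : Subgroup ↥M) = p ^ a := sylow_card_of a m hc hm Q₀
  have hidx : (Q₀ : Subgroup ↥M).index = m := by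
    have h1 := Subgroup.card_mul_index (Q₀ : Subgroup ↥M)
    rw [hQc, hc] at h1
    exact Nat.eq_of_mul_eq_mul_left (pow_pos (Fact.out : p.Prime).pos a) h1
  have h1 : Nat.card (Sylow p ↥M) = 1 := by
    apply huniq _ _ (card_sylow_modEq_one p ↥M)
    rw [← hidx]; exact Sylow.card_dvd_index Q₀
  haveI : Subsingleton (Sylow p ↥M) := (Nat.card_eq_one_iff_unique.mp h1).1
  have hn : (Q₀ : Subgroup ↥M).Normal := Sylow.normal_of_subsingleton Q₀
  refine ⟨(Q₀ : Subgroup ↥M).map M.subtype, Subgroup.map_subtype_le _, ?_, ?_⟩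
  · rw [Subgroup.card_map_of_injective (Subgroup.subtype_injective M), hQc]
  · rw [Subgroup.le_normalizer_iff]
    rintro x hx _ ⟨q, hq, rfl⟩
    exact ⟨⟨x, hx⟩ * q * ⟨x, hx⟩⁻¹, hn.conj_mem q hq ⟨x, hx⟩, rfl⟩

theorem exists_normal_four (M : Subgroup G) (φ : ↥M →* Equiv.Perm (Fin 4))
    (hφ : Function.Injective φ) (hV : ∀ σ, PV σ → σ ∈ φ.range) :
    ∃ V : Subgroup G, V ≤ M ∧ Nat.card V = 4 ∧ (∀ v ∈ V, v * v = 1) ∧
      M ≤ Subgroup.normalizer (V : Set G) := by
  obtain ⟨V, hVmem⟩ : ∃ V : Subgroup G, ∀ m, m ∈ V ↔ ∃ hm : m ∈ M, PV (φ ⟨m, hm⟩) :=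
    ⟨{ carrier := {m | ∃ hm : m ∈ M, PV (φ ⟨m, hm⟩)}
       one_mem' := ⟨M.one_mem, by
         have : φ ⟨1, M.one_mem⟩ = 1 := map_one φ
         rw [this]; exact pv_one⟩
       mul_mem' := by
         rintro a b ⟨ha, hpa⟩ ⟨hb, hpb⟩
         refine ⟨M.mul_mem ha hb, ?_⟩
         have : φ ⟨a * b, M.mul_mem ha hb⟩ = φ ⟨a, ha⟩ * φ ⟨b, hb⟩ :=
           map_mul φ ⟨a, ha⟩ ⟨b, hb⟩
         rw [this]; exact pv_mul _ _ hpa hpb
       inv_mem' := by
         rintro a ⟨ha, hpa⟩
         refine ⟨M.inv_mem ha, ?_⟩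
         have : φ ⟨a⁻¹, M.inv_mem ha⟩ = (φ ⟨a, ha⟩)⁻¹ := map_inv φ ⟨a, ha⟩
         rw [this]
         have h2 : (φ ⟨a, ha⟩)⁻¹ = φ ⟨a, ha⟩ := inv_eq_of_mul_eq_one_left hpa.1
         rw [h2]; exact hpa }, fun m => Iff.rfl⟩
  refine ⟨V, ?_, ?_, ?_, ?_⟩
  · intro m hm
    exact ((hVmem m).mp hm).1
  · have e0 : ↥V ≃ {a : G // ∃ hm : a ∈ M, PV (φ ⟨a, hm⟩)} := Equiv.subtypeEquivRight hVmem
    have e1 : {a : G // ∃ hm : a ∈ M, PV (φ ⟨a, hm⟩)} ≃ {x : ↥M // PV (φ x)} :=
      (Equiv.subtypeSubtypeEquivSubtypeExists (fun m : G => m ∈ M) (fun x => PV (φ x))).symm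
    have e2 : {x : ↥M // PV (φ x)} ≃ {σ : Equiv.Perm (Fin 4) // PV σ} :=
      Equiv.ofBijective (fun x => ⟨φ x.1, x.2⟩)
        ⟨fun a b hab => Subtype.ext (hφ (congrArg Subtype.val hab)), fun σ => by
          obtain ⟨x, hx⟩ := hV σ.1 σ.2
          exact ⟨⟨x, by rw [hx]; exact σ.2⟩, Subtype.ext hx⟩⟩
    rw [Nat.card_congr ((e0.trans e1).trans e2), Nat.card_eq_fintype_card]
    exact pv_card
  · intro v hvV
    obtain ⟨hv, hpv⟩ := (hVmem v).mp hvV
    have h1 : φ (⟨v, hv⟩ * ⟨v, hv⟩) = 1 := by rw [map_mul]; exact hpv.1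
    have h2 : (⟨v, hv⟩ * ⟨v, hv⟩ : ↥M) = 1 := hφ (by rw [h1, map_one])
    exact congrArg Subtype.val h2
  · rw [Subgroup.le_normalizer_iff]
    intro x hx v hvV
    obtain ⟨hv, hpv⟩ := (hVmem v).mp hvV
    rw [hVmem]
    refine ⟨M.mul_mem (M.mul_mem hx hv) (M.inv_mem hx), ?_⟩
    have : φ ⟨x * v * x⁻¹, M.mul_mem (M.mul_mem hx hv) (M.inv_mem hx)⟩ =
        φ ⟨x, hx⟩ * φ ⟨v, hv⟩ * (φ ⟨x, hx⟩)⁻¹ := by
      rw [← map_inv, ← map_mul, ← map_mul]; rfl
    rw [this]; exact pv_conj _ _ hpv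

/-! ### Klein four-groups as dihedral images -/

/-- The subgroup `{1, z, x, x z}` as the image of a dihedral group. -/
noncomputable def kl (x z : G) (hx : x * x = 1) (hc : x * z * x⁻¹ = z⁻¹) : Subgroup G :=
  (dihHom x z hx hc).range

theorem kl_le (x z : G) (hx : x * x = 1) (hc : x * z * x⁻¹ = z⁻¹) (H : Subgroup G)
    (hxH : x ∈ H) (hzH : z ∈ H) : kl x z hx hc ≤ H := by
  rintro _ ⟨d, rfl⟩
  have hz : Subgroup.zpowers z ≤ H := by rw [Subgroup.zpowers_le]; exact hzH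
  rcases d with i | i
  · rw [dihHom_r]; exact hz (zmodPow_mem_zpowers z i)
  · rw [dihHom_sr]; exact H.mul_mem hxH (hz (zmodPow_mem_zpowers z i))

theorem z_mem_kl (x z : G) (hx : x * x = 1) (hc : x * z * x⁻¹ = z⁻¹) : z ∈ kl x z hx hc :=
  ⟨DihedralGroup.r ((1 : ℤ) : ZMod (orderOf z)), by rw [dihHom_r, zmodPow_intCast, zpow_one]⟩

theorem x_mem_kl (x z : G) (hx : x * x = 1) (hc : x * z * x⁻¹ = z⁻¹) : x ∈ kl x z hx hc :=
  ⟨DihedralGroup.sr ((0 : ℤ) : ZMod (orderOf z)), by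
    rw [dihHom_sr, zmodPow_intCast, zpow_zero, mul_one]⟩

theorem mem_kl (x z : G) (hx : x * x = 1) (hc : x * z * x⁻¹ = z⁻¹) (hz : orderOf z = 2)
    (g : G) (hg : g ∈ kl x z hx hc) : g = 1 ∨ g = z ∨ g = x ∨ g = x * z := by
  classical
  have hzp : ∀ w ∈ Subgroup.zpowers z, w = 1 ∨ w = z := by
    intro w hw
    rw [mem_zpowers_iff_mem_range_orderOf, hz] at hw
    simp only [Finset.mem_image, Finset.mem_range] at hw
    obtain ⟨n, hn, rfl⟩ := hw
    interval_cases n
    · left; exact pow_zero z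
    · right; exact pow_one z
  obtain ⟨d, rfl⟩ := hg
  rcases d with i | i
  · rw [dihHom_r]
    rcases hzp _ (zmodPow_mem_zpowers z i) with h1 | h1
    · left; exact h1
    · right; left; exact h1
  · rw [dihHom_sr]
    rcases hzp _ (zmodPow_mem_zpowers z i) with h1 | h1
    · right; right; left; rw [h1, mul_one]
    · right; right; right; rw [h1]

theorem card_kl (x z : G) (hx : x * x = 1) (hc : x * z * x⁻¹ = z⁻¹) (hz : orderOf z = 2)
    (hn : x ∉ Subgroup.zpowers z) : Nat.card (kl x z hx hc) = 4 := by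
  have hinj := dihHom_injective x z hx hc hn
  unfold kl
  rw [← Nat.card_congr (MonoidHom.ofInjective hinj).toEquiv, DihedralGroup.nat_card, hz]

theorem kl_sq (x z : G) (hx : x * x = 1) (hc : x * z * x⁻¹ = z⁻¹) (hz : orderOf z = 2)
    (g : G) (hg : g ∈ kl x z hx hc) : g * g = 1 := by
  have hzz : z * z = 1 := by rw [← pow_two, ← hz]; exact pow_orderOf_eq_one z
  have hzi : z⁻¹ = z := inv_eq_of_mul_eq_one_left hzz
  have hxz : x * z = z * x := by
    have hc' := hc
    rw [hzi] at hc'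
    calc x * z = x * z * x⁻¹ * x := by group
      _ = z * x := by rw [hc']
  rcases mem_kl x z hx hc hz g hg with h1 | h1 | h1 | h1
  · rw [h1]; exact mul_one 1
  · rw [h1]; exact hzz
  · rw [h1]; exact hx
  · rw [h1]
    calc x * z * (x * z) = x * (z * x) * z := by simp only [mul_assoc]
      _ = x * (x * z) * z := by rw [hxz]
      _ = (x * x) * (z * z) := by simp only [mul_assoc]
      _ = 1 := by rw [hx, hzz, mul_one]

theorem kl_klein (x z : G) (hx : x * x = 1) (hc : x * z * x⁻¹ = z⁻¹) (hz : orderOf z = 2)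
    (hn : x ∉ Subgroup.zpowers z) : IsKleinFour ↥(kl x z hx hc) :=
  klein_of _ (card_kl x z hx hc hz hn) (kl_sq x z hx hc hz)

/-! ### the simple group of order 168, continued -/

section
variable [IsSimpleGroup G] (h : Nat.card G = 168)
include h

/-- The element of `T` corresponding to `s` under the chosen isomorphism with `D₈`. -/
noncomputable def bb (T : Sylow 2 G) (s : DihedralGroup 4) : G :=
  ((d8 h T).symm s : ↥(T : Subgroup G))

theorem bb_mem (T : Sylow 2 G) (s : DihedralGroup 4) : bb h T s ∈ (T : Subgroup G) :=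
  ((d8 h T).symm s).2

theorem bb_mul (T : Sylow 2 G) (s s' : DihedralGroup 4) :
    bb h T (s * s') = bb h T s * bb h T s' := by
  unfold bb; rw [map_mul]; rfl

theorem bb_one (T : Sylow 2 G) : bb h T 1 = 1 := by unfold bb; rw [map_one]; rfl

theorem bb_inv (T : Sylow 2 G) (s : DihedralGroup 4) : bb h T s⁻¹ = (bb h T s)⁻¹ := by
  unfold bb; rw [map_inv]; rfl

theorem bb_inj (T : Sylow 2 G) (s s' : DihedralGroup 4) (hh : bb h T s = bb h T s') : s = s' :=
  (d8 h T).symm.injective (Subtype.ext hh)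

theorem bb_r2 (T : Sylow 2 G) : bb h T (DihedralGroup.r 2) = zc h T := rfl

theorem bb_surj (T : Sylow 2 G) (t : G) (ht : t ∈ (T : Subgroup G)) : ∃ s, bb h T s = t :=
  ⟨d8 h T ⟨t, ht⟩, by unfold bb; rw [MulEquiv.symm_apply_apply]⟩

theorem bb_sq (T : Sylow 2 G) (s : DihedralGroup 4) (hs : s * s = 1) :
    bb h T s * bb h T s = 1 := by rw [← bb_mul, hs, bb_one]

theorem bb_conj (T : Sylow 2 G) (s : DihedralGroup 4) :
    bb h T s * zc h T * (bb h T s)⁻¹ = (zc h T)⁻¹ := by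
  rw [← bb_r2 h T, ← bb_inv, ← bb_mul, ← bb_mul, ← bb_inv, d4_conj_r2 s]

/-- The Klein four-subgroup `{1, z, b, b z}` of `T`. -/
noncomputable def kT (T : Sylow 2 G) (s : DihedralGroup 4) (hs : s * s = 1) : Subgroup G :=
  kl (bb h T s) (zc h T) (bb_sq h T s hs) (bb_conj h T s)

theorem bb_not_mem (T : Sylow 2 G) (s : DihedralGroup 4) (hs1 : s ≠ 1)
    (hs2 : s ≠ DihedralGroup.r 2) : bb h T s ∉ Subgroup.zpowers (zc h T) := by
  classical
  intro hw
  rw [mem_zpowers_iff_mem_range_orderOf, zc_order h T] at hw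
  simp only [Finset.mem_image, Finset.mem_range] at hw
  obtain ⟨n, hn, hn'⟩ := hw
  interval_cases n
  · exact hs1 (bb_inj h T s 1 (by rw [bb_one, ← hn', pow_zero]))
  · exact hs2 (bb_inj h T s _ (by rw [bb_r2, ← hn', pow_one]))

theorem kT_le (T : Sylow 2 G) (s : DihedralGroup 4) (hs : s * s = 1) :
    kT h T s hs ≤ (T : Subgroup G) :=
  kl_le _ _ _ _ _ (bb_mem h T s) (zc_mem h T)

theorem kT_card (T : Sylow 2 G) (s : DihedralGroup 4) (hs : s * s = 1) (hs1 : s ≠ 1)
    (hs2 : s ≠ DihedralGroup.r 2) : Nat.card (kT h T s hs) = 4 :=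
  card_kl _ _ _ _ (zc_order h T) (bb_not_mem h T s hs1 hs2)

theorem kT_klein (T : Sylow 2 G) (s : DihedralGroup 4) (hs : s * s = 1) (hs1 : s ≠ 1)
    (hs2 : s ≠ DihedralGroup.r 2) : IsKleinFour ↥(kT h T s hs) :=
  kl_klein _ _ _ _ (zc_order h T) (bb_not_mem h T s hs1 hs2)

theorem kT_ne (T : Sylow 2 G) :
    kT h T (DihedralGroup.sr 0) d4_sr0_sq ≠ kT h T (DihedralGroup.sr 1) d4_sr1_sq := by
  intro heq
  have h1 : bb h T (DihedralGroup.sr 1) ∈ kT h T (DihedralGroup.sr 0) d4_sr0_sq := by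
    rw [heq]; exact x_mem_kl _ _ _ _
  rcases mem_kl _ _ _ _ (zc_order h T) _ h1 with h2 | h2 | h2 | h2
  · exact d4_sr1_not.1 (bb_inj h T _ _ (by rw [bb_one]; exact h2))
  · exact d4_sr1_not.2.1 (bb_inj h T _ _ (by rw [bb_r2]; exact h2))
  · exact d4_sr1_not.2.2.1 (bb_inj h T _ _ h2)
  · exact d4_sr1_not.2.2.2 (bb_inj h T _ _ (by rw [bb_mul, bb_r2]; exact h2))

theorem klein_in_T (T : Sylow 2 G) (U : Subgroup G) (hU : U ≤ (T : Subgroup G))
    [hK : IsKleinFour ↥U] :
    U = kT h T (DihedralGroup.sr 0) d4_sr0_sq ∨ U = kT h T (DihedralGroup.sr 1) d4_sr1_sq := by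
  obtain ⟨e'⟩ := IsKleinFour.nonempty_mulEquiv (G₁ := DihedralGroup 2) (G₂ := ↥U)
  have hx1 : e' (DihedralGroup.r 1) ≠ 1 := by
    intro hh; rw [MulEquiv.map_eq_one_iff] at hh; exact d2_facts.1 hh
  have hy1 : e' (DihedralGroup.sr 0) ≠ 1 := by
    intro hh; rw [MulEquiv.map_eq_one_iff] at hh; exact d2_facts.2.1 hh
  have hxy : e' (DihedralGroup.r 1) ≠ e' (DihedralGroup.sr 0) :=
    fun hh => d2_facts.2.2 (e'.injective hh)
  obtain ⟨x, hxdef⟩ : ∃ x : ↥U, x = e' (DihedralGroup.r 1) := ⟨_, rfl⟩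
  obtain ⟨y, hydef⟩ : ∃ y : ↥U, y = e' (DihedralGroup.sr 0) := ⟨_, rfl⟩
  rw [← hxdef] at hx1 hxy
  rw [← hydef] at hy1 hxy
  have hxx : (x : G) * x = 1 := congrArg Subtype.val (IsKleinFour.mul_self x)
  have hyy : (y : G) * y = 1 := congrArg Subtype.val (IsKleinFour.mul_self y)
  have hxyxy : (x : G) * y * ((x : G) * y) = 1 :=
    congrArg Subtype.val (IsKleinFour.mul_self (x * y))
  obtain ⟨X, hX⟩ := bb_surj h T x (hU x.2)
  obtain ⟨Y, hY⟩ := bb_surj h T y (hU y.2)
  have hXX : X * X = 1 := bb_inj h T _ _ (by rw [bb_mul, hX, bb_one]; exact hxx)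
  have hYY : Y * Y = 1 := bb_inj h T _ _ (by rw [bb_mul, hY, bb_one]; exact hyy)
  have hXYXY : X * Y * (X * Y) = 1 :=
    bb_inj h T _ _ (by rw [bb_mul, bb_mul, hX, hY, bb_one]; exact hxyxy)
  have hX1 : X ≠ 1 := by
    intro hX1
    rw [hX1, bb_one] at hX
    exact hx1 (Subtype.ext hX.symm)
  have hY1 : Y ≠ 1 := by
    intro hY1
    rw [hY1, bb_one] at hY
    exact hy1 (Subtype.ext hY.symm)
  have hXY : X ≠ Y := by
    intro hXY
    rw [hXY] at hX
    exact hxy (Subtype.ext (hX.symm.trans hY))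
  obtain ⟨hz, hs⟩ := d4_klein X Y hXX hYY hXYXY hX1 hY1 hXY
  have hmemX : bb h T X ∈ U := by rw [hX]; exact x.2
  have hmemY : bb h T Y ∈ U := by rw [hY]; exact y.2
  have hmemXY : bb h T (X * Y) ∈ U := by rw [bb_mul]; exact U.mul_mem hmemX hmemY
  have hzU : zc h T ∈ U := by
    rw [← bb_r2 h T]
    rcases hz with h1 | h1 | h1
    · rw [← h1]; exact hmemX
    · rw [← h1]; exact hmemY
    · rw [← h1]; exact hmemXY
  have hcU : Nat.card U = 4 := IsKleinFour.card_four
  have key : ∀ (s : DihedralGroup 4) (hs : s * s = 1), s ≠ 1 → s ≠ DihedralGroup.r 2 →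
      bb h T s ∈ U → U = kT h T s hs := by
    intro s hs hs1 hs2 hsU
    symm
    have hc := kT_card h T s hs hs1 hs2
    have hle : kT h T s hs ≤ U := kl_le _ _ _ _ _ hsU hzU
    apply Subgroup.eq_of_le_of_card_ge hle
    rw [hcU]; exact hc.ge
  rcases hs with h1 | h1
  · left
    apply key _ d4_sr0_sq d4_sr.1 d4_sr.2.1
    rcases h1 with h2 | h2 | h2
    · rw [← h2]; exact hmemX
    · rw [← h2]; exact hmemY
    · rw [← h2]; exact hmemXY
  · right
    apply key _ d4_sr1_sq d4_sr.2.2.1 d4_sr.2.2.2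
    rcases h1 with h2 | h2 | h2
    · rw [← h2]; exact hmemX
    · rw [← h2]; exact hmemY
    · rw [← h2]; exact hmemXY

theorem count_klein (T : Sylow 2 G) :
    Nat.card {U : Subgroup G // U ≤ (T : Subgroup G) ∧ IsKleinFour ↥U} = 2 := by
  rw [Nat.card_eq_two_iff]
  refine ⟨⟨kT h T (DihedralGroup.sr 0) d4_sr0_sq, kT_le h T _ _,
      kT_klein h T _ _ d4_sr.1 d4_sr.2.1⟩,
    ⟨kT h T (DihedralGroup.sr 1) d4_sr1_sq, kT_le h T _ _,
      kT_klein h T _ _ d4_sr.2.2.1 d4_sr.2.2.2⟩, ?_, ?_⟩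
  · intro heq
    exact kT_ne h T (congrArg Subtype.val heq)
  · ext U
    simp only [Set.mem_insert_iff, Set.mem_singleton_iff, Set.mem_univ, iff_true]
    haveI := U.2.2
    rcases klein_in_T h T U.1 U.2.1 with h1 | h1
    · left; exact Subtype.ext h1
    · right; exact Subtype.ext h1

theorem le_normalizer_of_card4 (T : Sylow 2 G) (U : Subgroup G) (hU : U ≤ (T : Subgroup G))
    (hc : Nat.card U = 4) : (T : Subgroup G) ≤ Subgroup.normalizer (U : Set G) := by
  have hidx : (U.subgroupOf (T : Subgroup G)).index = 2 := by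
    have h1 := Subgroup.card_mul_index (U.subgroupOf (T : Subgroup G))
    rw [card_syl2 h T, Nat.card_congr (Subgroup.subgroupOfEquivOfLe hU).toEquiv, hc] at h1
    omega
  haveI := Subgroup.normal_of_index_eq_two hidx
  exact (Subgroup.normal_subgroupOf_iff_le_normalizer hU).mp inferInstance

theorem card_norm_klein (U : Subgroup G) [IsKleinFour ↥U] :
    Nat.card (Subgroup.normalizer (U : Set G)) = 24 := by
  haveI := fact7
  have hcU : Nat.card U = 4 := IsKleinFour.card_four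
  obtain ⟨T, hUT⟩ := (IsPGroup.of_card (p := 2) (n := 2) (by rw [hcU]; norm_num)).exists_le_sylow
  have hTN := le_normalizer_of_card4 h T U hUT hcU
  obtain ⟨s, hs, hs1, hs2, hUs⟩ : ∃ (s : DihedralGroup 4) (hs : s * s = 1), s ≠ 1 ∧
      s ≠ DihedralGroup.r 2 ∧ U = kT h T s hs := by
    rcases klein_in_T h T U hUT with h1 | h1
    · exact ⟨_, d4_sr0_sq, d4_sr.1, d4_sr.2.1, h1⟩
    · exact ⟨_, d4_sr1_sq, d4_sr.2.2.1, d4_sr.2.2.2, h1⟩
  have hxU : bb h T s ∈ U := by
    have : bb h T s ∈ kT h T s hs := x_mem_kl _ _ _ _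
    rw [hUs]; exact this
  have hu1 : bb h T s ≠ 1 := fun h1 => hs1 (bb_inj h T _ _ (by rw [bb_one]; exact h1))
  have hxo : orderOf (bb h T s) = 2 :=
    orderOf_eq_prime (by rw [pow_two]; exact bb_sq h T s hs) hu1
  obtain ⟨T', hT'⟩ := invol_eq_zc h _ hxo
  have hTT' : T ≠ T' := by
    intro hTT'
    rw [← hTT'] at hT'
    exact hs2 (bb_inj h T _ _ (by rw [bb_r2]; exact hT'))
  have hUT' : U ≤ (T' : Subgroup G) := by
    rw [← cent_zc h T', ← hT']
    intro u hu
    rw [Subgroup.mem_centralizer_iff]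
    intro w hw
    rw [Set.mem_singleton_iff.mp hw]
    have := mul_comm_of_exponent_two (IsKleinFour.exponent_two (G := ↥U))
      (⟨bb h T s, hxU⟩ : ↥U) ⟨u, hu⟩
    exact congrArg Subtype.val this
  have hT'N := le_normalizer_of_card4 h T' U hUT' hcU
  obtain ⟨N, hNdef⟩ : ∃ N : Subgroup G, N = Subgroup.normalizer (U : Set G) := ⟨_, rfl⟩
  rw [← hNdef] at hTN hT'N ⊢
  have h8 : 8 ∣ Nat.card N := by
    have := Subgroup.card_dvd_of_le hTN
    rwa [card_syl2 h T] at this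
  have h168 : Nat.card N ∣ 168 := h ▸ Subgroup.card_subgroup_dvd_card _
  have hne8 : Nat.card N ≠ 8 := by
    intro h8'
    have e1 : (T : Subgroup G) = N :=
      Subgroup.eq_of_le_of_card_ge hTN (by rw [h8', card_syl2 h T])
    have e2 : (T' : Subgroup G) = N :=
      Subgroup.eq_of_le_of_card_ge hT'N (by rw [h8', card_syl2 h T'])
    exact hTT' (Sylow.ext (e1.trans e2.symm))
  have hne168 : Nat.card N ≠ 168 := by
    intro h168'
    have htop : N = ⊤ := Subgroup.eq_top_of_card_eq _ (by rw [h168', h])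
    rw [hNdef] at htop
    have hUn : U.Normal := Subgroup.normalizer_eq_top_iff.mp htop
    rcases hUn.eq_bot_or_eq_top with hb | hb
    · rw [hb, Subgroup.card_bot] at hcU; omega
    · rw [hb, Subgroup.card_top, h] at hcU; omega
  have hne56 : Nat.card N ≠ 56 := by
    intro h56
    have h7 : 7 ∣ Nat.card N := by rw [h56]; norm_num
    obtain ⟨y, hy⟩ := exists_prime_orderOf_dvd_card' 7 h7
    have hy' : orderOf (y : G) = 7 := by rw [Subgroup.orderOf_coe]; exact hy
    have hyN : (y : G) ∈ Subgroup.normalizer (U : Set G) := by rw [← hNdef]; exact y.2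
    have hmemk : ∀ k : ℕ, (y : G) ^ k * bb h T s * ((y : G) ^ k)⁻¹ ∈ U := by
      intro k
      exact (Subgroup.mem_normalizer_iff.mp (Subgroup.pow_mem _ hyN k) _).mp hxU
    have hcom : ∀ a b : ℕ, a < b → b < 5 →
        (y : G) ^ a * bb h T s * ((y : G) ^ a)⁻¹ = (y : G) ^ b * bb h T s * ((y : G) ^ b)⁻¹ →
        False := by
      intro a b hab hb5 heq
      obtain ⟨m, rfl⟩ := Nat.exists_eq_add_of_lt hab
      have hw : orderOf ((y : G) ^ (m + 1)) = 7 := by
        rw [Nat.Coprime.orderOf_pow, hy']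
        rw [hy']
        exact (Nat.Prime.coprime_iff_not_dvd (by norm_num)).2
          (Nat.not_dvd_of_pos_of_lt (by omega) (by omega))
      have e : (y : G) ^ (a + m + 1) = (y : G) ^ a * (y : G) ^ (m + 1) := by
        rw [← pow_add, add_assoc]
      rw [e] at heq
      have hcm := conj_cancel _ _ _ heq
      have hc : bb h T s ∈ Subgroup.centralizer {(y : G) ^ (m + 1)} := by
        rw [Subgroup.mem_centralizer_iff]
        intro w hw'
        rw [Set.mem_singleton_iff.mp hw']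
        exact hcm
      rw [cent7 h _ hw] at hc
      have h3 := orderOf_dvd_of_mem_zpowers hc
      rw [hw, hxo] at h3
      norm_num at h3
    haveI : Fintype ↥U := Fintype.ofFinite _
    obtain ⟨i, j, hij, hf⟩ := Fintype.exists_ne_map_eq_of_card_lt
      (fun k : Fin 5 => (⟨(y : G) ^ (k : ℕ) * bb h T s * ((y : G) ^ (k : ℕ))⁻¹, hmemk k⟩ : ↥U))
      (by rw [Fintype.card_fin, ← Nat.card_eq_fintype_card, hcU]; norm_num)
    have hf' := congrArg Subtype.val hf
    rcases Nat.lt_or_gt_of_ne (Fin.val_ne_of_ne hij) with hlt | hlt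
    · exact hcom _ _ hlt j.2 hf'
    · exact hcom _ _ hlt i.2 hf'.symm
  obtain ⟨k, hk⟩ := h8
  rw [hk] at h168 hne8 hne168 hne56 ⊢
  have hk21 : k ∣ 21 := Nat.dvd_of_mul_dvd_mul_left (by norm_num : 0 < 8) (show 8 * k ∣ 8 * 21 from h168)
  have hkle : k ≤ 21 := Nat.le_of_dvd (by norm_num) hk21
  interval_cases k <;> omega

theorem norm_klein_s4 (U : Subgroup G) [IsKleinFour ↥U] :
    Nonempty (↥(Subgroup.normalizer (U : Set G)) ≃* Equiv.Perm (Fin 4)) := by
  apply Cfsg.Agent.S1012.result (card_norm_klein h U)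
  intro g hg
  have := orders h (g : G)
  rw [Subgroup.orderOf_coe, hg] at this
  omega

theorem klein_not_conj (T : Sylow 2 G) (U W : Subgroup G) (hU : U ≤ (T : Subgroup G))
    (hW : W ≤ (T : Subgroup G)) [IsKleinFour ↥U] [IsKleinFour ↥W] (hUW : U ≠ W) (g : G) :
    U.map (MulAut.conj g).toMonoidHom ≠ W := by
  intro hg
  have hcU : Nat.card U = 4 := IsKleinFour.card_four
  have hcW : Nat.card W = 4 := IsKleinFour.card_four
  have hTU := le_normalizer_of_card4 h T U hU hcU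
  have hTW := le_normalizer_of_card4 h T W hW hcW
  have hT'W : ((g • T : Sylow 2 G) : Subgroup G) ≤ Subgroup.normalizer (W : Set G) := by
    rw [smul_syl_eq_map, ← hg, normalizer_map_conj]
    exact Subgroup.map_mono hTU
  obtain ⟨n, hn⟩ := MulAction.exists_smul_eq (↥(Subgroup.normalizer (W : Set G)))
    ((g • T).subtype hT'W) (T.subtype hTW)
  rw [Sylow.smul_subtype] at hn
  have hn' : (n : G) • (g • T) = T := Sylow.subtype_injective hn
  rw [← mul_smul, Sylow.smul_eq_iff_mem_normalizer] at hn'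
  have hc : (n : G) * g ∈ Subgroup.normalizer ((T : Subgroup G) : Set G) := hn'
  rw [norm2 h T] at hc
  have h1 : U.map (MulAut.conj ((n : G) * g)).toMonoidHom = U :=
    map_conj_eq_of_mem_normalizer U _ (hTU hc)
  have h2 : U.map (MulAut.conj ((n : G) * g)).toMonoidHom = W := by
    have hW' : ∀ t : G, t ∈ W ↔ g⁻¹ * t * g ∈ U := fun t => by rw [← hg, mem_map_conj]
    have hnW : ∀ t : G, t ∈ W ↔ (n : G)⁻¹ * t * (n : G) ∈ W :=
      fun t => Subgroup.mem_normalizer_iff''.mp n.2 t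
    ext x
    have e : ((n : G) * g)⁻¹ * x * ((n : G) * g) = g⁻¹ * ((n : G)⁻¹ * x * n) * g := by group
    rw [mem_map_conj, e]
    exact ((hnW x).trans (hW' _)).symm
  exact hUW (h1.symm.trans h2)

theorem noncomm : ¬ IsMulCommutative G := by
  intro hc
  obtain ⟨T⟩ : Nonempty (Sylow 2 G) := inferInstance
  apply syl2_noncomm h T
  intro x _ y _
  exact hc.is_comm.comm x y

theorem index_ge7 (M : Subgroup G) (hM : M ≠ ⊤) : 7 ≤ M.index := by
  obtain ⟨f, hf⟩ := Cfsg.Agent.S0991.result (noncomm h) M hM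
  have h1 : Nat.card G ∣ Nat.card ↥(alternatingGroup (Fin M.index)) :=
    Subgroup.card_dvd_of_injective f hf
  have h2 : Nat.card ↥(alternatingGroup (Fin M.index)) ∣ Nat.card (Equiv.Perm (Fin M.index)) :=
    Subgroup.card_subgroup_dvd_card _
  rw [Nat.card_perm, Nat.card_fin] at h2
  have h3 : 7 ∣ (M.index).factorial := by
    have : (7 : ℕ) ∣ Nat.card G := by rw [h]; norm_num
    exact this.trans (h1.trans h2)
  exact (Nat.Prime.dvd_factorial (by norm_num)).mp h3

theorem coatom_card_le (M : Subgroup G) (hM : M ≠ ⊤) : Nat.card M ≤ 24 := by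
  have h1 := Subgroup.card_mul_index M
  rw [h] at h1
  have h2 := index_ge7 h M hM
  have : Nat.card M * 7 ≤ Nat.card M * M.index := Nat.mul_le_mul_left _ h2
  omega

theorem coatom_of_card24 (L : Subgroup G) (hL : Nat.card L = 24) : IsCoatom L := by
  refine ⟨?_, ?_⟩
  · intro ht; rw [ht, Subgroup.card_top, h] at hL; omega
  · intro K hLK
    by_contra hK
    have h1 := coatom_card_le h K hK
    have h2 := Subgroup.card_dvd_of_le hLK.le
    rw [hL] at h2
    have h3 : Nat.card K = 24 := by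
      have hpos := Nat.card_pos (α := ↥K)
      obtain ⟨j, hj⟩ := h2
      rw [hj] at h1 hpos ⊢
      have : j = 1 := by omega
      rw [this]
    have : L = K := Subgroup.eq_of_le_of_card_ge hLK.le (by rw [h3, hL])
    exact hLK.ne this

theorem exists_s4_over_norm3 (P : Sylow 3 G) : ∃ L : Subgroup G, Nat.card L = 24 ∧
    Subgroup.normalizer ((P : Subgroup G) : Set G) ≤ L := by
  obtain ⟨T⟩ : Nonempty (Sylow 2 G) := inferInstance
  haveI := kT_klein h T (DihedralGroup.sr 0) d4_sr0_sq d4_sr.1 d4_sr.2.1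
  obtain ⟨L₀, hL₀⟩ : ∃ L₀ : Subgroup G, L₀ = Subgroup.normalizer
      ((kT h T (DihedralGroup.sr 0) d4_sr0_sq : Subgroup G) : Set G) := ⟨_, rfl⟩
  have hc24 : Nat.card L₀ = 24 := by rw [hL₀]; exact card_norm_klein h _
  obtain ⟨e₀⟩ : Nonempty (↥L₀ ≃* Equiv.Perm (Fin 4)) := by rw [hL₀]; exact norm_klein_s4 h _
  obtain ⟨y, hy⟩ := exists_prime_orderOf_dvd_card' 3
    (show 3 ∣ Nat.card ↥L₀ by rw [hc24]; norm_num)
  have hy' : orderOf (y : G) = 3 := by rw [Subgroup.orderOf_coe]; exact hy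
  have hy3 : y * y * y = 1 := by
    have := pow_orderOf_eq_one y
    rw [hy] at this
    simpa only [pow_succ, pow_zero, one_mul] using this
  have hy1 : y ≠ 1 := by
    intro h1; rw [h1, orderOf_one] at hy; norm_num at hy
  have hσ3 : e₀ y * e₀ y * e₀ y = 1 := by rw [← map_mul, ← map_mul, hy3, map_one]
  have hσ1 : e₀ y ≠ 1 := by
    intro h1; rw [MulEquiv.map_eq_one_iff] at h1; exact hy1 h1
  obtain ⟨τ, hτ⟩ := s4_inv3 (e₀ y) hσ3 hσ1
  obtain ⟨c, rfl⟩ := e₀.surjective τ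
  have hc : c * y * c⁻¹ * y = 1 := by
    apply e₀.injective
    rw [map_mul, map_mul, map_mul, map_inv, map_one]; exact hτ
  have hc2 : (c : G) * y * (c : G)⁻¹ * y = 1 := congrArg Subtype.val hc
  have hcG : (c : G) * y * (c : G)⁻¹ = (y : G)⁻¹ := eq_inv_of_mul_eq_one_left hc2
  obtain ⟨P₀, hP₀⟩ := exists_sylow_eq 3 1 (fun P => by rw [card_syl3 h P, pow_one])
    (Subgroup.zpowers (y : G)) (by rw [Nat.card_zpowers, hy', pow_one])
  have hcN : (c : G) ∈ Subgroup.normalizer ((P₀ : Subgroup G) : Set G) := by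
    rw [hP₀]; exact mem_normalizer_zpowers_of_inv _ _ hcG
  have hcP : (c : G) ∉ (P₀ : Subgroup G) := by
    rw [hP₀]
    intro hm
    obtain ⟨i, hi⟩ := Subgroup.mem_zpowers_iff.mp hm
    have e1 : (y : G) ^ i * y * ((y : G) ^ i)⁻¹ = y := by group
    rw [hi, hcG] at e1
    have e2 : (y : G) ^ 2 = 1 := by
      calc (y : G) ^ 2 = (y : G) * y := pow_two _
        _ = (y : G)⁻¹ * y := by rw [e1]
        _ = 1 := inv_mul_cancel _
    have := orderOf_dvd_of_pow_eq_one e2
    rw [hy'] at this; norm_num at this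
  have hN0 : Subgroup.normalizer ((P₀ : Subgroup G) : Set G) ≤ L₀ := by
    have hPL : (P₀ : Subgroup G) ≤ L₀ := by
      rw [hP₀, Subgroup.zpowers_le]; exact y.2
    have hK : (P₀ : Subgroup G) ≤ Subgroup.normalizer ((P₀ : Subgroup G) : Set G) ⊓ L₀ :=
      le_inf Subgroup.le_normalizer hPL
    have hcK : (c : G) ∈ Subgroup.normalizer ((P₀ : Subgroup G) : Set G) ⊓ L₀ := ⟨hcN, c.2⟩
    have hd1 : 3 ∣ Nat.card ↥(Subgroup.normalizer ((P₀ : Subgroup G) : Set G) ⊓ L₀) := by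
      have := Subgroup.card_dvd_of_le hK
      rwa [card_syl3 h P₀] at this
    have hd2 : Nat.card ↥(Subgroup.normalizer ((P₀ : Subgroup G) : Set G) ⊓ L₀) ∣ 6 := by
      have := Subgroup.card_dvd_of_le
        (inf_le_left : Subgroup.normalizer ((P₀ : Subgroup G) : Set G) ⊓ L₀ ≤ _)
      rwa [card_norm3 h P₀] at this
    have hne3 : Nat.card ↥(Subgroup.normalizer ((P₀ : Subgroup G) : Set G) ⊓ L₀) ≠ 3 := by
      intro h3
      have : (P₀ : Subgroup G) = Subgroup.normalizer ((P₀ : Subgroup G) : Set G) ⊓ L₀ :=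
        Subgroup.eq_of_le_of_card_ge hK (by rw [h3, card_syl3 h P₀])
      exact hcP (this ▸ hcK)
    have h6 : Nat.card ↥(Subgroup.normalizer ((P₀ : Subgroup G) : Set G) ⊓ L₀) = 6 := by
      have hle := Nat.le_of_dvd (by norm_num) hd2
      have hpos := Nat.card_pos (α := ↥(Subgroup.normalizer ((P₀ : Subgroup G) : Set G) ⊓ L₀))
      generalize Nat.card ↥(Subgroup.normalizer ((P₀ : Subgroup G) : Set G) ⊓ L₀) = k
        at hd1 hd2 hne3 hle hpos ⊢
      interval_cases k <;> omega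
    have : Subgroup.normalizer ((P₀ : Subgroup G) : Set G) ⊓ L₀ =
        Subgroup.normalizer ((P₀ : Subgroup G) : Set G) :=
      Subgroup.eq_of_le_of_card_ge inf_le_left (by rw [h6, card_norm3 h P₀])
    rw [← this]; exact inf_le_right
  obtain ⟨g, rfl⟩ := MulAction.exists_smul_eq G P₀ P
  refine ⟨L₀.map (MulAut.conj g).toMonoidHom, ?_, ?_⟩
  · rw [Subgroup.card_map_of_injective (MulAut.conj g).injective, hc24]
  · rw [smul_syl_eq_map, normalizer_map_conj]
    exact Subgroup.map_mono hN0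

theorem coatom7 (M : Subgroup G) (hM : IsCoatom M) (m : ℕ) (hc : Nat.card M = 7 ^ 1 * m)
    (hm : ¬ 7 ∣ m) (hu : ∀ d, d ∣ m → d ≡ 1 [MOD 7] → d = 1) :
    Nat.card M = 21 ∧ ∃ P : Sylow 7 G, M = Subgroup.normalizer ((P : Subgroup G) : Set G) := by
  haveI := fact7
  obtain ⟨Q, hQM, hQc, hMQ⟩ := exists_normal_sylow M 7 1 m hc hm hu
  obtain ⟨P, hP⟩ := exists_sylow_eq 7 1 (fun P => by rw [card_syl7 h P, pow_one]) Q hQc
  rw [← hP] at hMQ
  have hne : Subgroup.normalizer ((P : Subgroup G) : Set G) ≠ ⊤ := by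
    intro ht
    have := card_norm7 h P
    rw [ht, Subgroup.card_top, h] at this; omega
  have := coatom_eq hM hne hMQ
  exact ⟨by rw [this]; exact card_norm7 h P, P, this⟩

theorem coatom3 (M : Subgroup G) (hM : IsCoatom M) (m : ℕ) (hc : Nat.card M = 3 ^ 1 * m)
    (hm : ¬ 3 ∣ m) (hu : ∀ d, d ∣ m → d ≡ 1 [MOD 3] → d = 1) : Nat.card M = 24 := by
  obtain ⟨Q, hQM, hQc, hMQ⟩ := exists_normal_sylow M 3 1 m hc hm hu
  obtain ⟨P, hP⟩ := exists_sylow_eq 3 1 (fun P => by rw [card_syl3 h P, pow_one]) Q hQc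
  rw [← hP] at hMQ
  obtain ⟨L, hL24, hNL⟩ := exists_s4_over_norm3 h P
  have hne : L ≠ ⊤ := by
    intro ht; rw [ht, Subgroup.card_top, h] at hL24; omega
  have := coatom_eq hM hne (hMQ.trans hNL)
  rw [this]; exact hL24

theorem coatom_cases (M : Subgroup G) (hM : IsCoatom M) :
    Nonempty (↥M ≃* Equiv.Perm (Fin 4)) ∨ (Nat.card ↥M = 21 ∧ ¬ IsMulCommutative ↥M) := by
  haveI := fact7
  have hle := coatom_card_le h M hM.1
  have hdvd : Nat.card M ∣ 168 := h ▸ Subgroup.card_subgroup_dvd_card M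
  have hpos := Nat.card_pos (α := ↥M)
  have hord : ∀ m : ↥M, orderOf m ≠ 6 := by
    intro m hm
    have := orders h (m : G)
    rw [Subgroup.orderOf_coe, hm] at this
    omega
  have h2grp : ∀ n : ℕ, Nat.card M = 2 ^ n → False := by
    intro n hn
    obtain ⟨T, hT⟩ := (IsPGroup.of_card hn).exists_le_sylow
    haveI := kT_klein h T (DihedralGroup.sr 0) d4_sr0_sq d4_sr.1 d4_sr.2.1
    have h1 := le_normalizer_of_card4 h T _ (kT_le h T _ d4_sr0_sq)
      (kT_card h T _ d4_sr0_sq d4_sr.1 d4_sr.2.1)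
    have h24 := card_norm_klein h (kT h T (DihedralGroup.sr 0) d4_sr0_sq)
    have hne : Subgroup.normalizer
        ((kT h T (DihedralGroup.sr 0) d4_sr0_sq : Subgroup G) : Set G) ≠ ⊤ := by
      intro ht; rw [ht, Subgroup.card_top, h] at h24; omega
    have := coatom_eq hM hne (hT.trans h1)
    rw [this, h24] at hn
    have hn4 : n ≤ 4 := by
      by_contra hgt
      push_neg at hgt
      have : 2 ^ 5 ≤ 2 ^ n := Nat.pow_le_pow_right (by norm_num) hgt
      omega
    interval_cases n <;> norm_num at hn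
  have c1 : Nat.card M = 1 ∨ Nat.card M = 2 ∨ Nat.card M = 4 ∨ Nat.card M = 8 → False := by
    rintro (h1 | h1 | h1 | h1)
    · exact h2grp 0 (by rw [h1]; norm_num)
    · exact h2grp 1 (by rw [h1]; norm_num)
    · exact h2grp 2 (by rw [h1]; norm_num)
    · exact h2grp 3 (by rw [h1]; norm_num)
  have c2 : Nat.card M = 7 ∨ Nat.card M = 14 → False := by
    rintro (h1 | h1)
    · have := (coatom7 h M hM 1 (by rw [h1]; norm_num) (by norm_num)
        (fun d hd _ => Nat.dvd_one.mp hd)).1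
      omega
    · have := (coatom7 h M hM 2 (by rw [h1]; norm_num) (by norm_num) (fun d hd hmod => by
        have hle := Nat.le_of_dvd (by norm_num) hd
        unfold Nat.ModEq at hmod
        interval_cases d <;> omega)).1
      omega
  have c3 : Nat.card M = 3 ∨ Nat.card M = 6 → False := by
    rintro (h1 | h1)
    · have := coatom3 h M hM 1 (by rw [h1]; norm_num) (by norm_num)
        (fun d hd _ => Nat.dvd_one.mp hd)
      omega
    · have := coatom3 h M hM 2 (by rw [h1]; norm_num) (by norm_num) (fun d hd hmod => by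
        have hle := Nat.le_of_dvd (by norm_num) hd
        unfold Nat.ModEq at hmod
        interval_cases d <;> omega)
      omega
  have c4 : Nat.card M = 12 → False := by
    intro h12
    have hz : ∀ z : ↥M, orderOf z = 2 → z ∉ Subgroup.center ↥M := by
      intro z hz2 hzc
      obtain ⟨y, hy⟩ := exists_prime_orderOf_dvd_card' 3
        (show 3 ∣ Nat.card ↥M by rw [h12]; norm_num)
      have hy' : orderOf (y : G) = 3 := by rw [Subgroup.orderOf_coe]; exact hy
      have hmem : (z : G) ∈ Subgroup.centralizer {(y : G)} := by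
        rw [Subgroup.mem_centralizer_iff]
        intro w hw
        rw [Set.mem_singleton_iff.mp hw]
        exact congrArg Subtype.val (Subgroup.mem_center_iff.mp hzc y)
      rw [cent3 h _ hy'] at hmem
      have h3 := orderOf_dvd_of_mem_zpowers hmem
      rw [hy', Subgroup.orderOf_coe, hz2] at h3
      norm_num at h3
    obtain ⟨e⟩ := Cfsg.Agent.Lib.helper2.Ord12.iso_A4 h12 hz
    obtain ⟨V, hVM, hV4, hVsq, hMV⟩ := exists_normal_four M
      ((alternatingGroup (Fin 4)).subtype.comp e.toMonoidHom)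
      (fun a b hab => e.injective (Subtype.ext hab))
      (fun σ hσ => ⟨e.symm ⟨σ, Equiv.Perm.mem_alternatingGroup.mpr (pv_sign σ hσ)⟩, by
        show ((e (e.symm ⟨σ, _⟩) : alternatingGroup (Fin 4)) : Equiv.Perm (Fin 4)) = σ
        rw [MulEquiv.apply_symm_apply]⟩)
    obtain ⟨T, hVT⟩ := (IsPGroup.of_card (p := 2) (n := 2)
      (by rw [hV4]; norm_num)).exists_le_sylow
    have hTV := le_normalizer_of_card4 h T V hVT hV4
    have hne : Subgroup.normalizer (V : Set G) ≠ ⊤ := by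
      intro ht
      have hVn : V.Normal := Subgroup.normalizer_eq_top_iff.mp ht
      rcases hVn.eq_bot_or_eq_top with hb | hb
      · rw [hb, Subgroup.card_bot] at hV4; omega
      · rw [hb, Subgroup.card_top, h] at hV4; omega
    have := coatom_eq hM hne hMV
    have h8 := Subgroup.card_dvd_of_le hTV
    rw [← this, card_syl2 h T, h12] at h8
    norm_num at h8
  have hfin : Nat.card M = 21 ∨ Nat.card M = 24 := by
    obtain ⟨k, hk⟩ : ∃ k, Nat.card M = k := ⟨_, rfl⟩
    rw [hk] at hle hdvd hpos c1 c2 c3 c4 ⊢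
    interval_cases k <;> first | omega | (exfalso; first | exact c1 (by omega) | exact c2 (by omega) | exact c3 (by omega) | exact c4 rfl)
  rcases hfin with h21 | h24
  · right
    refine ⟨h21, ?_⟩
    intro hcomm
    obtain ⟨x, hx⟩ := exists_prime_orderOf_dvd_card' 7
      (show 7 ∣ Nat.card ↥M by rw [h21]; norm_num)
    obtain ⟨y, hy⟩ := exists_prime_orderOf_dvd_card' 3
      (show 3 ∣ Nat.card ↥M by rw [h21]; norm_num)
    have hx' : orderOf (x : G) = 7 := by rw [Subgroup.orderOf_coe]; exact hx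
    have hy' : orderOf (y : G) = 3 := by rw [Subgroup.orderOf_coe]; exact hy
    have hmem : (y : G) ∈ Subgroup.centralizer {(x : G)} := by
      rw [Subgroup.mem_centralizer_iff]
      intro w hw
      rw [Set.mem_singleton_iff.mp hw]
      exact congrArg Subtype.val (hcomm.is_comm.comm x y)
    rw [cent7 h _ hx'] at hmem
    have h3 := orderOf_dvd_of_mem_zpowers hmem
    rw [hx', hy'] at h3
    norm_num at h3
  · left
    exact Cfsg.Agent.S1012.result h24 hord

theorem coatom21_conj (M M' : Subgroup G) (hM : IsCoatom M) (hM' : IsCoatom M')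
    (h21 : Nat.card M = 21) (h21' : Nat.card M' = 21) :
    ∃ g : G, M' = M.map (MulAut.conj g).toMonoidHom := by
  haveI := fact7
  have hu : ∀ d, d ∣ 3 → d ≡ 1 [MOD 7] → d = 1 := by
    intro d hd hmod
    have hle := Nat.le_of_dvd (by norm_num) hd
    unfold Nat.ModEq at hmod
    interval_cases d <;> omega
  obtain ⟨P, hP⟩ := (coatom7 h M hM 3 (by rw [h21]; norm_num) (by norm_num) hu).2
  obtain ⟨P', hP'⟩ := (coatom7 h M' hM' 3 (by rw [h21']; norm_num) (by norm_num) hu).2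
  obtain ⟨g, hg⟩ := MulAction.exists_smul_eq G P P'
  refine ⟨g, ?_⟩
  rw [hP', hP, ← hg, smul_syl_eq_map, normalizer_map_conj]

theorem unique_normal_four (U V : Subgroup G) [IsKleinFour ↥U] (hV4 : Nat.card V = 4)
    (hNV : Subgroup.normalizer (U : Set G) ≤ Subgroup.normalizer (V : Set G)) : V = U := by
  by_contra hne
  have hcU : Nat.card U = 4 := IsKleinFour.card_four
  have hU2 : IsPGroup 2 U := IsPGroup.of_card (n := 2) (by rw [hcU]; norm_num)
  have hV2 : IsPGroup 2 V := IsPGroup.of_card (n := 2) (by rw [hV4]; norm_num)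
  have hUV : U ≤ Subgroup.normalizer (V : Set G) := Subgroup.le_normalizer.trans hNV
  have hW2 : IsPGroup 2 (U ⊔ V : Subgroup G) := hU2.to_sup_of_normal_right' hV2 hUV
  have hNW : Subgroup.normalizer (U : Set G) ≤
      Subgroup.normalizer ((U ⊔ V : Subgroup G) : Set G) := by
    intro m hm
    apply mem_normalizer_of_map_conj_eq
    rw [Subgroup.map_sup, map_conj_eq_of_mem_normalizer U m hm,
      map_conj_eq_of_mem_normalizer V m (hNV hm)]
  obtain ⟨n, hn⟩ := IsPGroup.iff_card.mp hW2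
  have hUle : U ≤ U ⊔ V := le_sup_left
  have h4 : 4 ∣ Nat.card (U ⊔ V : Subgroup G) := by
    have := Subgroup.card_dvd_of_le hUle
    rwa [hcU] at this
  have hne4 : Nat.card (U ⊔ V : Subgroup G) ≠ 4 := by
    intro h4'
    have e1 : U = U ⊔ V := Subgroup.eq_of_le_of_card_ge hUle (by rw [h4', hcU])
    have hVU : V ≤ U := by rw [e1]; exact le_sup_right
    exact hne (Subgroup.eq_of_le_of_card_ge hVU (by rw [hcU, hV4]))
  have hd : Nat.card (U ⊔ V : Subgroup G) ∣ 168 := h ▸ Subgroup.card_subgroup_dvd_card _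
  have h8 : Nat.card (U ⊔ V : Subgroup G) = 8 := by
    rw [hn] at h4 hne4 hd ⊢
    have hn3 : n ≤ 3 := by
      by_contra hgt
      push_neg at hgt
      have h16 : 2 ^ 4 ∣ 2 ^ n := pow_dvd_pow 2 hgt
      have := h16.trans hd
      norm_num at this
    interval_cases n
    · exfalso; revert h4; norm_num
    · exfalso; revert h4; norm_num
    · exfalso; exact hne4 (by norm_num)
    · norm_num
  obtain ⟨T, hT⟩ := exists_sylow_eq 2 3 (fun P => by rw [card_syl2 h P]; norm_num)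
    (U ⊔ V) (by rw [h8]; norm_num)
  rw [← hT, norm2 h T] at hNW
  have h24 := card_norm_klein h U
  have := Subgroup.card_le_of_le hNW
  rw [h24, card_syl2 h T] at this
  omega

theorem exists_two_s4 : ∃ M₁ M₂ : Subgroup G, IsCoatom M₁ ∧ IsCoatom M₂ ∧
    Nonempty (↥M₁ ≃* Equiv.Perm (Fin 4)) ∧ Nonempty (↥M₂ ≃* Equiv.Perm (Fin 4)) ∧
    (∀ g : G, M₂ ≠ M₁.map (MulAut.conj g).toMonoidHom) ∧
    ∀ M : Subgroup G, IsCoatom M → Nonempty (↥M ≃* Equiv.Perm (Fin 4)) →
      ∃ g : G, M = M₁.map (MulAut.conj g).toMonoidHom ∨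
        M = M₂.map (MulAut.conj g).toMonoidHom := by
  obtain ⟨T⟩ : Nonempty (Sylow 2 G) := inferInstance
  have k0 := kT_klein h T (DihedralGroup.sr 0) d4_sr0_sq d4_sr.1 d4_sr.2.1
  have k1 := kT_klein h T (DihedralGroup.sr 1) d4_sr1_sq d4_sr.2.2.1 d4_sr.2.2.2
  obtain ⟨U₀, hU₀⟩ : ∃ U₀ : Subgroup G, U₀ = kT h T (DihedralGroup.sr 0) d4_sr0_sq := ⟨_, rfl⟩
  obtain ⟨U₁, hU₁⟩ : ∃ U₁ : Subgroup G, U₁ = kT h T (DihedralGroup.sr 1) d4_sr1_sq := ⟨_, rfl⟩
  rw [← hU₀] at k0
  rw [← hU₁] at k1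
  haveI := k0
  haveI := k1
  have hU₀T : U₀ ≤ (T : Subgroup G) := by rw [hU₀]; exact kT_le h T _ _
  have hU₁T : U₁ ≤ (T : Subgroup G) := by rw [hU₁]; exact kT_le h T _ _
  have hne : U₀ ≠ U₁ := by rw [hU₀, hU₁]; exact kT_ne h T
  refine ⟨Subgroup.normalizer (U₀ : Set G), Subgroup.normalizer (U₁ : Set G),
    coatom_of_card24 h _ (card_norm_klein h U₀), coatom_of_card24 h _ (card_norm_klein h U₁),
    norm_klein_s4 h U₀, norm_klein_s4 h U₁, ?_, ?_⟩
  · intro g heq
    rw [← normalizer_map_conj] at heq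
    have hc : Nat.card (U₀.map (MulAut.conj g).toMonoidHom) = 4 := by
      rw [Subgroup.card_map_of_injective (MulAut.conj g).injective]; exact IsKleinFour.card_four
    have := unique_normal_four h U₁ (U₀.map (MulAut.conj g).toMonoidHom) hc (by rw [heq])
    exact klein_not_conj h T U₀ U₁ hU₀T hU₁T hne g this
  · rintro M hM ⟨e⟩
    obtain ⟨V, hVM, hV4, hVsq, hMV⟩ := exists_normal_four M e.toMonoidHom e.injective
      (fun σ _ => ⟨e.symm σ, by simp⟩)
    haveI hVK : IsKleinFour ↥V := klein_of V hV4 hVsq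
    have h24 := card_norm_klein h V
    have hMeq : M = Subgroup.normalizer (V : Set G) := coatom_eq hM (by
      intro ht; rw [ht, Subgroup.card_top, h] at h24; omega) hMV
    obtain ⟨T', hVT'⟩ := (IsPGroup.of_card (p := 2) (n := 2)
      (by rw [hV4]; norm_num)).exists_le_sylow
    obtain ⟨g, hg⟩ := MulAction.exists_smul_eq G T T'
    rw [← hg] at hVT'
    have hV'T : V.map (MulAut.conj g⁻¹).toMonoidHom ≤ (T : Subgroup G) := by
      intro x hx
      rw [mem_map_conj, inv_inv] at hx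
      have := hVT' hx
      rw [mem_smul_syl] at this
      have e1 : g⁻¹ * (g * x * g⁻¹) * g = x := by group
      rwa [e1] at this
    have hV'c : Nat.card (V.map (MulAut.conj g⁻¹).toMonoidHom) = 4 := by
      rw [Subgroup.card_map_of_injective (MulAut.conj g⁻¹).injective]; exact hV4
    have hV'sq : ∀ v ∈ V.map (MulAut.conj g⁻¹).toMonoidHom, v * v = 1 := by
      rintro _ ⟨v, hv, rfl⟩
      show g⁻¹ * v * g⁻¹⁻¹ * (g⁻¹ * v * g⁻¹⁻¹) = 1
      have := hVsq v hv
      have e3 : g⁻¹ * v * g⁻¹⁻¹ * (g⁻¹ * v * g⁻¹⁻¹) = g⁻¹ * (v * v) * g := by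
        rw [inv_inv]; simp only [mul_assoc, mul_inv_cancel_left]
      rw [e3, this, mul_one, inv_mul_cancel]
    haveI := klein_of _ hV'c hV'sq
    have hVback : V = (V.map (MulAut.conj g⁻¹).toMonoidHom).map (MulAut.conj g).toMonoidHom := by
      ext x
      rw [mem_map_conj, mem_map_conj, inv_inv]
      have e1 : g * (g⁻¹ * x * g) * g⁻¹ = x := by group
      rw [e1]
    refine ⟨g, ?_⟩
    rcases klein_in_T h T _ hV'T with h1 | h1
    · left
      rw [hMeq, hVback, h1, ← hU₀, normalizer_map_conj]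
    · right
      rw [hMeq, hVback, h1, ← hU₁, normalizer_map_conj]

end

end Cfsg.Agent.Lib.helper3.S168
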