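import Mathlib

set_option autoImplicit false

/-! Affine maps and inversions on the projective line over `ZMod p`, as plain functions. -/

namespace Cfsg.Agent.Lib.helper3.UP

/-- the projective line over `ZMod p` -/
abbrev X (p : ℕ) := Option (ZMod p)

/-- `x ↦ j x + z`, fixing the point at infinity -/
def affn (p : ℕ) (j z : ZMod p) : X p → X p
  | none => none
  | some x => some (j * x + z)

/-- `x ↦ a / x`, swapping `0` and infinity -/
def tf (p : ℕ) (a : ZMod p) : X p → X p
  | none => some 0
  | some x => if x = 0 then none else some (a * x ^ (p - 2))

theorem affn_comp (p : ℕ) (j z j' z' : ZMod p) (q : X p) :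
    affn p j z (affn p j' z' q) = affn p (j * j') (j * z' + z) q := by
  rcases q with _ | x
  · rfl
  · show some (j * (j' * x + z') + z) = some (j * j' * x + (j * z' + z))
    congr 1; ring

theorem affn_none (p : ℕ) (j z : ZMod p) : affn p j z none = none := rfl

theorem affn_some (p : ℕ) (j z x : ZMod p) : affn p j z (some x) = some (j * x + z) := rfl

end Cfsg.Agent.Lib.helper3.UP
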