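import Mathlib
import Cfsg.Agent.Lib.helper3.UniqPa

set_option autoImplicit false

/-! Decidable facts about the projective line over `ZMod 13`. -/

namespace Cfsg.Agent.Lib.helper3.U13

open Cfsg.Agent.Lib.helper3.UP

def it (j : ZMod 13) (k : ℕ) (q : X 13) : X 13 := (affn 13 j 0)^[k] q

def FF (j : ZMod 13) (q r : X 13) : X 13 → X 13
  | none => some 0
  | some x => if x = 0 then none
      else if x = 1 then it j 0 q
      else if x = 4 then it j 1 q
      else if x = 3 then it j 2 q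
      else if x = 12 then it j 3 q
      else if x = 9 then it j 4 q
      else if x = 10 then it j 5 q
      else if x = 2 then it j 0 r
      else if x = 8 then it j 1 r
      else if x = 6 then it j 2 r
      else if x = 11 then it j 3 r
      else if x = 5 then it j 4 r
      else it j 5 r

set_option maxRecDepth 1000000 in
theorem FF_dec : ∀ (j : ZMod 13) (q r : X 13), j ^ 6 = 1 → Function.Injective (FF j q r) →
    (∀ x, FF j q r (affn 13 4 0 x) = affn 13 j 0 (FF j q r x)) →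
    (∃ j' z, j' ^ 6 = 1 ∧ ∀ x, FF j q r (affn 13 1 1 (FF j q r x)) =
      affn 13 1 (q.getD 0) (FF j q r (affn 13 j' z x))) →
    ∃ a, a ^ 6 = 1 ∧ FF j q r = tf 13 a := by decide +kernel

theorem pm_aux : ∀ j : ZMod 13, j ^ (13 * 6) = 1 → j ^ 6 = 1 := by decide +kernel

theorem zmod_cases : ∀ x : ZMod 13, x = 0 ∨ x = 1 ∨ x = 2 ∨ x = 3 ∨ x = 4 ∨ x = 5 ∨ x = 6 ∨ x = 7 ∨ x = 8 ∨ x = 9 ∨ x = 10 ∨ x = 11 ∨ x = 12 := by decide

theorem det (T : X 13 → X 13) (hinj : Function.Injective T) (h1 : T none = some 0)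
    (h1' : T (some 0) = none)
    (h2 : ∃ j, j ^ (13 * 6) = 1 ∧ ∀ q, T (affn 13 4 0 q) = affn 13 j 0 (T q))
    (h4 : ∃ y j z, j ^ (13 * 6) = 1 ∧
      ∀ q, T (affn 13 1 1 (T q)) = affn 13 1 y (T (affn 13 j z q))) :
    ∃ a, a ^ 6 = 1 ∧ ∀ q, T q = tf 13 a q := by
  obtain ⟨j, hjm, hj⟩ := h2
  obtain ⟨y, j', z, hjm', h4⟩ := h4
  have hy : T (some 1) = some y := by
    have h := h4 none
    have e1 : affn 13 1 1 (some 0) = some 1 := by decide
    rw [h1, e1, affn_none, h1, affn_some, mul_zero, zero_add] at h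
    exact h
  have a1 : T (some 4) = it j 1 (T (some 1)) := by
    exact hj (some 1)
  have a2 : T (some 3) = it j 2 (T (some 1)) := by
    have h := hj (some 4)
    rw [a1] at h; exact h
  have a3 : T (some 12) = it j 3 (T (some 1)) := by
    have h := hj (some 3)
    rw [a2] at h; exact h
  have a4 : T (some 9) = it j 4 (T (some 1)) := by
    have h := hj (some 12)
    rw [a3] at h; exact h
  have a5 : T (some 10) = it j 5 (T (some 1)) := by
    have h := hj (some 9)
    rw [a4] at h; exact h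
  have b1 : T (some 8) = it j 1 (T (some 2)) := by
    exact hj (some 2)
  have b2 : T (some 6) = it j 2 (T (some 2)) := by
    have h := hj (some 8)
    rw [b1] at h; exact h
  have b3 : T (some 11) = it j 3 (T (some 2)) := by
    have h := hj (some 6)
    rw [b2] at h; exact h
  have b4 : T (some 5) = it j 4 (T (some 2)) := by
    have h := hj (some 11)
    rw [b3] at h; exact h
  have b5 : T (some 7) = it j 5 (T (some 2)) := by
    have h := hj (some 5)
    rw [b4] at h; exact h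
  have key : ∀ q, T q = FF j (T (some 1)) (T (some 2)) q := by
    intro q
    rcases q with _ | x
    · exact h1
    · rcases zmod_cases x with rfl | rfl | rfl | rfl | rfl | rfl | rfl | rfl | rfl | rfl | rfl | rfl | rfl
      · exact h1'
      · rfl
      · rfl
      · exact a2
      · exact a1
      · exact b4
      · exact b2
      · exact b5
      · exact b1
      · exact a4
      · exact a5
      · exact b3
      · exact a3
  have hfun : T = FF j (T (some 1)) (T (some 2)) := funext key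
  have hA : Function.Injective (FF j (T (some 1)) (T (some 2))) := by rw [← hfun]; exact hinj
  have hB : ∀ x, FF j (T (some 1)) (T (some 2)) (affn 13 4 0 x) =
      affn 13 j 0 (FF j (T (some 1)) (T (some 2)) x) := by rw [← hfun]; exact hj
  have hC : ∃ j' z, j' ^ 6 = 1 ∧ ∀ x, FF j (T (some 1)) (T (some 2)) (affn 13 1 1 (FF j (T (some 1)) (T (some 2)) x)) =
      affn 13 1 ((T (some 1)).getD 0) (FF j (T (some 1)) (T (some 2)) (affn 13 j' z x)) := by
    refine ⟨j', z, pm_aux j' hjm', ?_⟩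
    rw [← hfun, hy]
    exact h4
  obtain ⟨a, ha, hh⟩ := FF_dec j _ _ (pm_aux j hjm) hA hB hC
  exact ⟨a, ha, fun q => by rw [key, hh]⟩

theorem su_l : ∀ q : X 13, affn 13 1 (-1) (affn 13 1 1 q) = q := by decide
theorem su_r : ∀ q : X 13, affn 13 1 1 (affn 13 1 (-1) q) = q := by decide
theorem sc_l : ∀ q : X 13, affn 13 10 0 (affn 13 4 0 q) = q := by decide
theorem sc_r : ∀ q : X 13, affn 13 4 0 (affn 13 10 0 q) = q := by decide

def tg (a : ZMod 13) : X 13 → X 13 := if a = 0 then id else tf 13 a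

theorem tg_inv : ∀ (a : ZMod 13) (q : X 13), tg a (tg a q) = q := by decide +kernel

def su : Equiv.Perm (X 13) := ⟨affn 13 1 1, affn 13 1 (-1), su_l, su_r⟩
def sc : Equiv.Perm (X 13) := ⟨affn 13 4 0, affn 13 10 0, sc_l, sc_r⟩
def st (a : ZMod 13) : Equiv.Perm (X 13) := ⟨tg a, tg a, tg_inv a, tg_inv a⟩

theorem hsu (q : X 13) : su q = affn 13 1 1 q := rfl
theorem hsc (q : X 13) : sc q = affn 13 4 0 q := rfl
theorem hst_aux : ∀ a : ZMod 13, a ^ 6 = 1 → ∀ q, tg a q = tf 13 a q := by decide +kernel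
theorem hst (a : ZMod 13) (ha : a ^ 6 = 1) (q : X 13) : st a q = tf 13 a q := hst_aux a ha q

def K (a : ZMod 13) : Subgroup (Equiv.Perm (X 13)) := Subgroup.closure {su, sc, st a}

theorem mul_st_aux : ∀ a : ZMod 13, a ^ 6 = 1 → ∀ q, (sc * st a) q = st (4 * a) q := by decide +kernel
theorem mul_st (a : ZMod 13) (ha : a ^ 6 = 1) : sc * st a = st (4 * a) := Equiv.ext (mul_st_aux a ha)
theorem pa_mul : ∀ a : ZMod 13, a ^ 6 = 1 → (4 * a) ^ 6 = 1 := by decide +kernel

theorem K_le (a : ZMod 13) (ha : a ^ 6 = 1) : K (4 * a) ≤ K a := by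
  unfold K
  rw [Subgroup.closure_le]
  have hu : su ∈ Subgroup.closure ({su, sc, st a} : Set (Equiv.Perm (X 13))) :=
    Subgroup.subset_closure (by simp)
  have hh : sc ∈ Subgroup.closure ({su, sc, st a} : Set (Equiv.Perm (X 13))) :=
    Subgroup.subset_closure (by simp)
  have ht : st a ∈ Subgroup.closure ({su, sc, st a} : Set (Equiv.Perm (X 13))) :=
    Subgroup.subset_closure (by simp)
  intro x hx
  simp only [Set.mem_insert_iff, Set.mem_singleton_iff] at hx
  rcases hx with rfl | rfl | rfl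
  · exact hu
  · exact hh
  · rw [← mul_st a ha]; exact Subgroup.mul_mem _ hh ht

theorem K_pow (i : ℕ) : ∀ a : ZMod 13, a ^ 6 = 1 → ((4 ^ i * a) ^ 6 = 1) ∧ K (4 ^ i * a) ≤ K a := by
  induction i with
  | zero => intro a ha; rw [pow_zero, one_mul]; exact ⟨ha, le_refl _⟩
  | succ i ih =>
    intro a ha
    obtain ⟨h1, h2⟩ := ih a ha
    have e : (4 : ZMod 13) ^ (i + 1) * a = 4 * (4 ^ i * a) := by ring
    rw [e]
    exact ⟨pa_mul _ h1, (K_le _ h1).trans h2⟩

theorem orbit_aux : ∀ a : ZMod 13, a ^ 6 = 1 → (∃ i < 6, a = 4 ^ i * 1) ∧ (∃ i < 6, (1 : ZMod 13) = 4 ^ i * a) := by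
  decide +kernel

theorem pa0 : (1 : ZMod 13) ^ 6 = 1 := by decide

theorem K_eq (a : ZMod 13) (ha : a ^ 6 = 1) : K a = K 1 := by
  obtain ⟨⟨i, -, hi⟩, ⟨i', -, hi'⟩⟩ := orbit_aux a ha
  apply le_antisymm
  · have := (K_pow i 1 pa0).2
    rw [← hi] at this; exact this
  · have := (K_pow i' a ha).2
    rw [← hi'] at this; exact this

theorem D1 : ∀ J : Set (ZMod 13), (∀ a ∈ J, ∀ b ∈ J, a * b ∈ J) →
    (∀ q : ℕ, q.Prime → q ∣ 6 → ∃ j ∈ J, j ≠ 1 ∧ j ^ q = 1) → (4 : ZMod 13) ∈ J := by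
  intro J hJ hq
  obtain ⟨j2, hj2J, hj21, hj22⟩ := hq 2 (by norm_num) (by norm_num)
  obtain ⟨j3, hj3J, hj31, hj33⟩ := hq 3 (by norm_num) (by norm_num)
  have key : ∀ j2 j3 : ZMod 13, j2 ≠ 1 → j2 ^ 2 = 1 → j3 ≠ 1 → j3 ^ 3 = 1 →
      (4 = j2 * j3 ∨ 4 = j2 * j3 * j3) := by decide +kernel
  rcases key j2 j3 hj21 hj22 hj31 hj33 with h | h <;> rw [h]
  · exact hJ _ hj2J _ hj3J
  · exact hJ _ (hJ _ hj2J _ hj3J) _ hj3J

theorem D2_aux : ∀ j : ZMod 13, j ^ (13 * 6) = 1 → ∃ i < 6, j = 4 ^ i := by decide +kernel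
theorem D2 (j : ZMod 13) (hj : j ^ (13 * 6) = 1) : ∃ i : ℕ, j = 4 ^ i := by
  obtain ⟨i, -, hi⟩ := D2_aux j hj
  exact ⟨i, hi⟩

end Cfsg.Agent.Lib.helper3.U13
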