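import Mathlib
import Cfsg.Agent.Lib.helper3.Simple168b
import Cfsg.Agent.Lib.helper3.Uniq168a

set_option autoImplicit false
set_option linter.style.haveILetI false

/-! Every simple group of order 168 is isomorphic to one fixed permutation group of degree 8
(the action on the cosets of the normaliser of a Sylow 7-subgroup, labelled by the projective
line over `ZMod 7`). -/

namespace Cfsg.Agent.Lib.helper3.U168

open Cfsg.Agent.Lib.helper3.S168

universe u

variable {G : Type u} [Group G] [Finite G]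

theorem pow_val_add (u : G) (hu : orderOf u = 7) (x y : ZMod 7) :
    u ^ (x + y).val = u ^ x.val * u ^ y.val := by
  rw [← pow_add, pow_eq_pow_iff_modEq, hu, ZMod.val_add]
  exact Nat.mod_modEq _ _

theorem pow_val_two_mul (u : G) (hu : orderOf u = 7) (x : ZMod 7) :
    u ^ (2 * x).val = u ^ (2 * x.val) := by
  have e2 : (2 : ZMod 7).val = 2 := rfl
  rw [pow_eq_pow_iff_modEq, hu, ZMod.val_mul, e2]
  exact Nat.mod_modEq _ _

theorem conj_pow_of (u c : G) (j : ℕ) (hj : c * u * c⁻¹ = u ^ j) (m : ℕ) :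
    c * u ^ m * c⁻¹ = u ^ (j * m) := by
  rw [← conj_pow, hj, ← pow_mul]

theorem cube_cases : ∀ j < 7, j * (j * j) % 7 = 1 % 7 → j = 1 ∨ j = 2 ∨ j = 4 := by decide

/-- labelling of the cosets of `N` by the projective line -/
noncomputable def lam (N : Subgroup G) (u t : G) : X → G ⧸ N
  | none => ((1 : G) : G ⧸ N)
  | some x => ((u ^ x.val * t : G) : G ⧸ N)

/-- the permutation representation transported along a labelling -/
noncomputable def rho {Ω : Type*} [MulAction G Ω] (e : X ≃ Ω) : G →* Equiv.Perm X :=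
  (e.symm.permCongrHom : Equiv.Perm Ω ≃* Equiv.Perm X).toMonoidHom.comp (MulAction.toPermHom G Ω)

theorem rho_apply {Ω : Type*} [MulAction G Ω] (e : X ≃ Ω) (g : G) (p : X) :
    rho e g p = e.symm (g • e p) := rfl

theorem rho_eq {Ω : Type*} [MulAction G Ω] (e : X ≃ Ω) (g : G) (σ : Equiv.Perm X)
    (hσ : ∀ p, g • e p = e (σ p)) : rho e g = σ := by
  ext p : 1
  rw [rho_apply, hσ, Equiv.symm_apply_apply]

section
variable [IsSimpleGroup G] (h : Nat.card G = 168)
include h

theorem exists_c (P : Sylow 7 G) (u : G) (hu : orderOf u = 7)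
    (hPz : (P : Subgroup G) = Subgroup.zpowers u) :
    ∃ c : G, orderOf c = 3 ∧ c ∈ Subgroup.normalizer ((P : Subgroup G) : Set G) ∧
      c * u * c⁻¹ = u ^ 2 := by
  haveI := fact7
  haveI : Fact (Nat.Prime 3) := ⟨by norm_num⟩
  have hcN := card_norm7 h P
  obtain ⟨c0, hc0⟩ := exists_prime_orderOf_dvd_card'
    (G := ↥(Subgroup.normalizer ((P : Subgroup G) : Set G))) 3 (by rw [hcN]; norm_num)
  obtain ⟨c, hcN'⟩ := c0
  have hc : orderOf c = 3 := by rw [← hc0, Subgroup.orderOf_mk]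
  have hc3 : c ^ 3 = 1 := by rw [← hc]; exact pow_orderOf_eq_one c
  have hmem : c * u * c⁻¹ ∈ Subgroup.zpowers u := by
    rw [← hPz]
    exact (Subgroup.mem_normalizer_iff.mp hcN' u).mp (by rw [hPz]; exact Subgroup.mem_zpowers u)
  obtain ⟨k, hk⟩ := (Submonoid.mem_powers_iff _ _).mp (mem_powers_iff_mem_zpowers.mpr hmem)
  have hkm := pow_mod_orderOf u k
  rw [hu] at hkm
  have hlt : k % 7 < 7 := Nat.mod_lt _ (by norm_num)
  obtain ⟨j, hj7, hj⟩ : ∃ j, j < 7 ∧ c * u * c⁻¹ = u ^ j := ⟨k % 7, hlt, hk.symm.trans hkm.symm⟩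
  have h2 := conj_pow_of u c j hj j
  have h3 := conj_pow_of u c j hj (j * j)
  have hcube : u ^ (j * (j * j)) = u ^ 1 := by
    rw [← h3, ← h2, ← hj, pow_one]
    have hccc : c * c * c = 1 := by rw [← hc3, pow_succ, pow_two]
    have e : c * (c * (c * u * c⁻¹) * c⁻¹) * c⁻¹ = (c * c * c) * u * (c * c * c)⁻¹ := by group
    rw [e, hccc, one_mul, inv_one, mul_one]
  rw [pow_eq_pow_iff_modEq, hu] at hcube
  have hne1 : ¬ (c * u = u * c) := by
    intro hcomm
    have hcen : c ∈ Subgroup.centralizer ({u} : Set G) := by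
      rw [Subgroup.mem_centralizer_iff]
      intro y hy
      rw [Set.mem_singleton_iff.mp hy]; exact hcomm.symm
    rw [cent7 h u hu] at hcen
    have := orderOf_dvd_natCard (⟨c, hcen⟩ : ↥(Subgroup.zpowers u))
    rw [Subgroup.orderOf_mk, Nat.card_zpowers, hu, hc] at this
    omega
  rcases cube_cases j hj7 hcube with rfl | rfl | rfl
  · exfalso; apply hne1; rw [pow_one] at hj
    calc c * u = c * u * c⁻¹ * c := by group
      _ = u * c := by rw [hj]
  · exact ⟨c, hc, hcN', hj⟩
  · refine ⟨c * c, ?_, Subgroup.mul_mem _ hcN' hcN', ?_⟩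
    · have : c * c = c⁻¹ := by
        rw [eq_inv_iff_mul_eq_one]
        calc c * c * c = c ^ 3 := by rw [pow_succ, pow_two]
          _ = 1 := hc3
      rw [this, orderOf_inv, hc]
    · have e : c * c * u * (c * c)⁻¹ = c * (c * u * c⁻¹) * c⁻¹ := by group
      rw [e, hj, conj_pow_of u c 4 hj 4, pow_eq_pow_iff_modEq, hu]
      decide

theorem exists_t (c : G) (hc : orderOf c = 3) :
    ∃ t : G, orderOf t = 2 ∧ t * c * t⁻¹ = c⁻¹ := by
  haveI : Fact (Nat.Prime 3) := ⟨by norm_num⟩
  obtain ⟨Q, hQ⟩ := exists_sylow_eq 3 1 (fun Q => by rw [card_syl3 h Q]; norm_num)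
    (Subgroup.zpowers c) (by rw [Nat.card_zpowers, hc]; norm_num)
  have hcN := card_norm3 h Q
  obtain ⟨t0, ht0⟩ := exists_prime_orderOf_dvd_card'
    (G := ↥(Subgroup.normalizer ((Q : Subgroup G) : Set G))) 2 (by rw [hcN]; norm_num)
  obtain ⟨t, htN⟩ := t0
  have ht : orderOf t = 2 := by rw [← ht0, Subgroup.orderOf_mk]
  have hc3 : c ^ 3 = 1 := by rw [← hc]; exact pow_orderOf_eq_one c
  have hmem : t * c * t⁻¹ ∈ Subgroup.zpowers c := by
    rw [← hQ]
    exact (Subgroup.mem_normalizer_iff.mp htN c).mp (by rw [hQ]; exact Subgroup.mem_zpowers c)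
  obtain ⟨k, hk⟩ := (Submonoid.mem_powers_iff _ _).mp (mem_powers_iff_mem_zpowers.mpr hmem)
  have hkm := pow_mod_orderOf c k
  rw [hc] at hkm
  have hlt : k % 3 < 3 := Nat.mod_lt _ (by norm_num)
  obtain ⟨j, hj3, hj⟩ : ∃ j, j < 3 ∧ t * c * t⁻¹ = c ^ j := ⟨k % 3, hlt, hk.symm.trans hkm.symm⟩
  refine ⟨t, ht, ?_⟩
  interval_cases j
  · exfalso
    rw [pow_zero] at hj
    have : c = 1 := by
      calc c = t⁻¹ * (t * c * t⁻¹) * t := by group
        _ = 1 := by rw [hj]; group
    rw [this, orderOf_one] at hc; omega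
  · exfalso
    rw [pow_one] at hj
    have hcen : t ∈ Subgroup.centralizer ({c} : Set G) := by
      rw [Subgroup.mem_centralizer_iff]
      intro y hy
      rw [Set.mem_singleton_iff.mp hy]
      calc c * t = t * c * t⁻¹ * t := by rw [hj]
        _ = t * c := by group
    rw [cent3 h c hc] at hcen
    have := orderOf_dvd_natCard (⟨t, hcen⟩ : ↥(Subgroup.zpowers c))
    rw [Subgroup.orderOf_mk, Nat.card_zpowers, hc, ht] at this
    omega
  · rw [hj, eq_inv_iff_mul_eq_one]
    calc c ^ 2 * c = c ^ 3 := (pow_succ c 2).symm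
      _ = 1 := hc3

theorem conj_not_mem (P : Sylow 7 G) (t z : G) (hzP : z ∈ (P : Subgroup G)) (hz1 : z ≠ 1)
    (hn : t⁻¹ * z * t ∈ Subgroup.normalizer ((P : Subgroup G) : Set G)) :
    t ∈ Subgroup.normalizer ((P : Subgroup G) : Set G) := by
  haveI := fact7
  have hcP := card_syl7 h P
  have hz7 : orderOf z = 7 := by
    have hdz := orderOf_dvd_natCard (⟨z, hzP⟩ : ↥(P : Subgroup G))
    rw [Subgroup.orderOf_mk, hcP] at hdz
    rcases (Nat.dvd_prime (by norm_num : Nat.Prime 7)).mp hdz with h1 | h1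
    · exact absurd (orderOf_eq_one_iff.mp h1) hz1
    · exact h1
  have hn7 : orderOf (t⁻¹ * z * t) = 7 := (orderOf_conj_eq' t z).trans hz7
  have hpg : IsPGroup 7 ↥(Subgroup.zpowers (t⁻¹ * z * t)) :=
    IsPGroup.of_card (n := 1) (by rw [Nat.card_zpowers, hn7]; norm_num)
  have hinf := hpg.inf_normalizer_sylow P
  have hnP : t⁻¹ * z * t ∈ (P : Subgroup G) := by
    have h2 : t⁻¹ * z * t ∈ Subgroup.zpowers (t⁻¹ * z * t) ⊓ (P : Subgroup G) := by
      rw [← hinf]
      exact Subgroup.mem_inf.mpr ⟨Subgroup.mem_zpowers _, hn⟩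
    exact (Subgroup.mem_inf.mp h2).2
  have hzP' : z ∈ ((t • P : Sylow 7 G) : Subgroup G) := (mem_smul_syl t P z).mpr hnP
  have e1 : Subgroup.zpowers z = (P : Subgroup G) :=
    Subgroup.eq_of_le_of_card_ge ((Subgroup.zpowers_le).mpr hzP)
      (by rw [Nat.card_zpowers, hz7, hcP])
  have e2 : Subgroup.zpowers z = ((t • P : Sylow 7 G) : Subgroup G) :=
    Subgroup.eq_of_le_of_card_ge ((Subgroup.zpowers_le).mpr hzP')
      (by rw [Nat.card_zpowers, hz7, card_syl7 h (t • P)])
  have hPP : t • P = P := Sylow.ext (e2.symm.trans e1)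
  exact Sylow.smul_eq_iff_mem_normalizer.mp hPP

theorem main_rep : ∃ a : ZMod 7, (a = 3 ∨ a = 5 ∨ a = 6) ∧ Nonempty (G ≃* ↥(K a)) := by
  haveI := fact7
  obtain ⟨P⟩ : Nonempty (Sylow 7 G) := inferInstance
  have hcP := card_syl7 h P
  obtain ⟨u0, hu0⟩ := exists_prime_orderOf_dvd_card' (G := ↥(P : Subgroup G)) 7 (by rw [hcP])
  obtain ⟨u, huP⟩ := u0
  have hu : orderOf u = 7 := by rw [← hu0, Subgroup.orderOf_mk]
  have hPz : (P : Subgroup G) = Subgroup.zpowers u := by
    symm
    apply Subgroup.eq_of_le_of_card_ge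
    · rw [Subgroup.zpowers_le]; exact huP
    · rw [Nat.card_zpowers, hu, hcP]
  obtain ⟨c, hc, hcN0, hcu⟩ := exists_c h P u hu hPz
  obtain ⟨t, ht, htc⟩ := exists_t h c hc
  obtain ⟨N, hN⟩ : ∃ N : Subgroup G, N = Subgroup.normalizer ((P : Subgroup G) : Set G) :=
    ⟨_, rfl⟩
  have hcardN : Nat.card N = 21 := by rw [hN]; exact card_norm7 h P
  have hcN : c ∈ N := by rw [hN]; exact hcN0
  have huN : u ∈ N := by rw [hN]; exact Subgroup.le_normalizer huP
  have hupN : ∀ m : ℕ, u ^ m ∈ N := fun m => Subgroup.pow_mem _ huN m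
  have ht2 : t * t = 1 := by rw [← pow_two, ← ht]; exact pow_orderOf_eq_one t
  have htinv : t⁻¹ = t := inv_eq_of_mul_eq_one_right ht2
  have hno2 : ∀ g : G, orderOf g = 2 → g ∉ N := by
    intro g hg hgN
    have := orderOf_dvd_natCard (⟨g, hgN⟩ : ↥N)
    rw [Subgroup.orderOf_mk, hcardN, hg] at this
    omega
  have htN : t ∉ N := hno2 t ht
  -- the action of the generators on the labelled cosets
  have hA1 : ∀ p : X, u • lam N u t p = lam N u t (uf p) := by
    intro p
    rcases p with _ | x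
    · show ((u * 1 : G) : G ⧸ N) = ((1 : G) : G ⧸ N)
      rw [QuotientGroup.eq]
      have e : (u * 1)⁻¹ * 1 = u⁻¹ := by group
      rw [e]; exact Subgroup.inv_mem _ huN
    · show ((u * (u ^ x.val * t) : G) : G ⧸ N) = ((u ^ (x + 1).val * t : G) : G ⧸ N)
      have e1 : (1 : ZMod 7).val = 1 := rfl
      have e : u * (u ^ x.val * t) = u ^ (x + 1).val * t := by
        rw [pow_val_add u hu x 1, e1]; group
      rw [e]
  have hA2 : ∀ p : X, c • lam N u t p = lam N u t (hf p) := by
    intro p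
    rcases p with _ | x
    · show ((c * 1 : G) : G ⧸ N) = ((1 : G) : G ⧸ N)
      rw [QuotientGroup.eq]
      have e : (c * 1)⁻¹ * 1 = c⁻¹ := by group
      rw [e]; exact Subgroup.inv_mem _ hcN
    · show ((c * (u ^ x.val * t) : G) : G ⧸ N) = ((u ^ (2 * x).val * t : G) : G ⧸ N)
      rw [QuotientGroup.eq]
      have e : (c * (u ^ x.val * t))⁻¹ * (u ^ (2 * x).val * t) = c := by
        rw [pow_val_two_mul u hu x, ← conj_pow_of u c 2 hcu x.val]
        have e' : (c * (u ^ x.val * t))⁻¹ * (c * u ^ x.val * c⁻¹ * t) = t⁻¹ * c⁻¹ * t := by group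
        rw [e']
        calc t⁻¹ * c⁻¹ * t = t⁻¹ * (t * c * t⁻¹) * t := by rw [htc]
          _ = c := by group
      rw [e]; exact hcN
  have hA3 : t • lam N u t none = lam N u t (some 0) := by
    show ((t * 1 : G) : G ⧸ N) = ((u ^ (0 : ZMod 7).val * t : G) : G ⧸ N)
    have e0 : (0 : ZMod 7).val = 0 := rfl
    rw [e0, pow_zero, one_mul, mul_one]
  have hA4 : ∀ ω : G ⧸ N, t • ω ≠ ω := by
    intro ω heq
    obtain ⟨g, rfl⟩ := QuotientGroup.mk_surjective ω
    have heq' : ((t * g : G) : G ⧸ N) = ((g : G) : G ⧸ N) := heq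
    rw [QuotientGroup.eq] at heq'
    apply hno2 ((t * g)⁻¹ * g) _ heq'
    have e : (t * g)⁻¹ * g = g⁻¹ * t⁻¹ * g := by group
    rw [e, htinv]; exact (orderOf_conj_eq' g t).trans ht
  have hlam_inj : Function.Injective (lam N u t) := by
    intro p q hpq
    rcases p with _ | x <;> rcases q with _ | y
    · rfl
    · exfalso
      have hpq' : ((1 : G) : G ⧸ N) = ((u ^ y.val * t : G) : G ⧸ N) := hpq
      rw [QuotientGroup.eq] at hpq'
      apply htN
      have e : t = (u ^ y.val)⁻¹ * (1⁻¹ * (u ^ y.val * t)) := by group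
      rw [e]; exact Subgroup.mul_mem _ (Subgroup.inv_mem _ (hupN _)) hpq'
    · exfalso
      have hpq' : ((u ^ x.val * t : G) : G ⧸ N) = ((1 : G) : G ⧸ N) := hpq
      rw [QuotientGroup.eq] at hpq'
      apply htN
      have e : t = (u ^ x.val)⁻¹ * ((u ^ x.val * t)⁻¹ * 1)⁻¹ := by group
      rw [e]; exact Subgroup.mul_mem _ (Subgroup.inv_mem _ (hupN _)) (Subgroup.inv_mem _ hpq')
    · have hpq' : ((u ^ x.val * t : G) : G ⧸ N) = ((u ^ y.val * t : G) : G ⧸ N) := hpq
      rw [QuotientGroup.eq] at hpq'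
      by_contra hne
      have hxy : x ≠ y := fun e => hne (by rw [e])
      apply htN
      rw [hN]
      apply conj_not_mem h P t ((u ^ x.val)⁻¹ * u ^ y.val)
      · exact Subgroup.mul_mem _ (Subgroup.inv_mem _ (Subgroup.pow_mem _ huP _))
          (Subgroup.pow_mem _ huP _)
      · intro h1
        have h2 : u ^ x.val = u ^ y.val := by
          calc u ^ x.val = u ^ x.val * ((u ^ x.val)⁻¹ * u ^ y.val) := by rw [h1, mul_one]
            _ = u ^ y.val := by group
        rw [pow_eq_pow_iff_modEq, hu] at h2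
        exact hxy (ZMod.val_injective 7
          (Nat.ModEq.eq_of_lt_of_lt h2 (ZMod.val_lt x) (ZMod.val_lt y)))
      · have e : t⁻¹ * ((u ^ x.val)⁻¹ * u ^ y.val) * t = (u ^ x.val * t)⁻¹ * (u ^ y.val * t) := by
          group
        rw [e, ← hN]; exact hpq'
  have hcardΩ : Nat.card (G ⧸ N) = 8 := by
    have h1 := Subgroup.card_mul_index N
    rw [hcardN, h] at h1
    have h2 : N.index = 8 := by omega
    rw [← h2]; rfl
  have hcardX : Nat.card X = 8 := by
    rw [Nat.card_eq_fintype_card, Fintype.card_option, ZMod.card]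
  have hbij : Function.Bijective (lam N u t) :=
    hlam_inj.bijective_of_nat_card_le (by rw [hcardΩ, hcardX])
  obtain ⟨e, he⟩ : ∃ e : X ≃ G ⧸ N, ∀ p, e p = lam N u t p :=
    ⟨Equiv.ofBijective _ hbij, fun _ => rfl⟩
  have hρu : rho e u = su := rho_eq e u su (fun p => by rw [he, he]; exact hA1 p)
  have hρc : rho e c = sh := rho_eq e c sh (fun p => by rw [he, he]; exact hA2 p)
  have hρt_ne : rho e t ≠ 1 := by
    intro h1
    have h2 : rho e t none = (1 : Equiv.Perm X) none := by rw [h1]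
    rw [rho_apply, Equiv.Perm.coe_one, id_eq] at h2
    exact hA4 (e none) (e.symm_apply_eq.mp h2)
  have hinj : Function.Injective (rho (G := G) e) := by
    rw [← MonoidHom.ker_eq_bot_iff]
    rcases (inferInstance : ((rho (G := G) e).ker).Normal).eq_bot_or_eq_top with hk | hk
    · exact hk
    · exfalso; apply hρt_ne
      have hmem : t ∈ (rho (G := G) e).ker := by rw [hk]; trivial
      exact MonoidHom.mem_ker.mp hmem
  have hT1 : rho e t none = some 0 := by
    rw [rho_apply, he, hA3, ← he, Equiv.symm_apply_apply]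
  have hT2 : ∀ p, rho e t (rho e t p) = p := by
    intro p
    have h1 : rho e t * rho e t = 1 := by rw [← map_mul, ht2, map_one]
    have h2 : (rho e t * rho e t) p = (1 : Equiv.Perm X) p := by rw [h1]
    exact h2
  have hT3 : ∀ p, rho e t (hf p) = hfi (rho e t p) := by
    intro p
    have e1 : rho e t * rho e c = (rho e c)⁻¹ * rho e t := by
      rw [← map_inv, ← map_mul, ← map_mul]
      congr 1
      calc t * c = t * c * t⁻¹ * t := by group
        _ = c⁻¹ * t := by rw [htc]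
    rw [hρc] at e1
    have e2 : (rho e t * sh) p = (sh⁻¹ * rho e t) p := by rw [e1]
    exact e2
  have hT4 : ∀ p, rho e t p ≠ p := by
    intro p hp
    rw [rho_apply] at hp
    exact hA4 (e p) (e.symm_apply_eq.mp hp)
  have hgen : Subgroup.closure ({u, c, t} : Set G) = ⊤ := by
    by_contra hne
    have hle := coatom_card_le h _ hne
    have hmem : ∀ g ∈ ({u, c, t} : Set G),
        orderOf g ∣ Nat.card ↥(Subgroup.closure ({u, c, t} : Set G)) := by
      intro g hg
      have := orderOf_dvd_natCard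
        (⟨g, Subgroup.subset_closure hg⟩ : ↥(Subgroup.closure ({u, c, t} : Set G)))
      rwa [Subgroup.orderOf_mk] at this
    have h7 := hmem u (by simp)
    have h3 := hmem c (by simp)
    have h2 := hmem t (by simp)
    rw [hu] at h7; rw [hc] at h3; rw [ht] at h2
    have hpos := Nat.card_pos (α := ↥(Subgroup.closure ({u, c, t} : Set G)))
    omega
  have hfin : ∀ a : ZMod 7, rho e t = st a → Nonempty (G ≃* ↥(K a)) := by
    intro a hta
    have hrange : (rho (G := G) e).range = K a := by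
      rw [MonoidHom.range_eq_map, ← hgen, MonoidHom.map_closure]
      unfold K
      congr 1
      rw [Set.image_insert_eq, Set.image_insert_eq, Set.image_singleton, hρu, hρc, hta]
    exact ⟨(MonoidHom.ofInjective hinj).trans (MulEquiv.subgroupCongr hrange)⟩
  rcases t_det (rho e t) hT1 hT2 hT3 hT4 with hTa | hTa | hTa
  · exact ⟨3, Or.inl rfl, hfin 3 hTa⟩
  · exact ⟨5, Or.inr (Or.inl rfl), hfin 5 hTa⟩
  · exact ⟨6, Or.inr (Or.inr rfl), hfin 6 hTa⟩

/-- every simple group of order 168 is isomorphic to the fixed permutation group `K 3` -/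
theorem iso_K3 : Nonempty (G ≃* ↥(K 3)) := by
  obtain ⟨a, ha, ⟨e⟩⟩ := main_rep h
  exact ⟨e.trans (MulEquiv.subgroupCongr (K_eq a ha))⟩

end

end Cfsg.Agent.Lib.helper3.U168
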