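import Mathlib
import Cfsg.Agent.Lib.helper3.UniqPa

set_option autoImplicit false

/-! Decidable facts about the projective line over `ZMod 11`. -/

namespace Cfsg.Agent.Lib.helper3.U11

open Cfsg.Agent.Lib.helper3.UP

def it (j : ZMod 11) (k : ℕ) (q : X 11) : X 11 := (affn 11 j 0)^[k] q

def FF (j : ZMod 11) (q r : X 11) : X 11 → X 11
  | none => some 0
  | some x => if x = 0 then none
      else if x = 1 then it j 0 q
      else if x = 4 then it j 1 q
      else if x = 5 then it j 2 q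
      else if x = 9 then it j 3 q
      else if x = 3 then it j 4 q
      else if x = 2 then it j 0 r
      else if x = 8 then it j 1 r
      else if x = 10 then it j 2 r
      else if x = 7 then it j 3 r
      else it j 4 r

set_option maxRecDepth 1000000 in
theorem FF_dec : ∀ (j : ZMod 11) (q r : X 11), j ^ 5 = 1 → Function.Injective (FF j q r) →
    (∀ x, FF j q r (affn 11 4 0 x) = affn 11 j 0 (FF j q r x)) →
    (∃ j' z, j' ^ 5 = 1 ∧ ∀ x, FF j q r (affn 11 1 1 (FF j q r x)) =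
      affn 11 1 (q.getD 0) (FF j q r (affn 11 j' z x))) →
    ∃ a, a ^ 5 = -1 ∧ FF j q r = tf 11 a := by decide +kernel

theorem pm_aux : ∀ j : ZMod 11, j ^ (11 * 5) = 1 → j ^ 5 = 1 := by decide +kernel

theorem zmod_cases : ∀ x : ZMod 11, x = 0 ∨ x = 1 ∨ x = 2 ∨ x = 3 ∨ x = 4 ∨ x = 5 ∨ x = 6 ∨ x = 7 ∨ x = 8 ∨ x = 9 ∨ x = 10 := by decide

theorem det (T : X 11 → X 11) (hinj : Function.Injective T) (h1 : T none = some 0)
    (h1' : T (some 0) = none)
    (h2 : ∃ j, j ^ (11 * 5) = 1 ∧ ∀ q, T (affn 11 4 0 q) = affn 11 j 0 (T q))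
    (h4 : ∃ y j z, j ^ (11 * 5) = 1 ∧
      ∀ q, T (affn 11 1 1 (T q)) = affn 11 1 y (T (affn 11 j z q))) :
    ∃ a, a ^ 5 = -1 ∧ ∀ q, T q = tf 11 a q := by
  obtain ⟨j, hjm, hj⟩ := h2
  obtain ⟨y, j', z, hjm', h4⟩ := h4
  have hy : T (some 1) = some y := by
    have h := h4 none
    have e1 : affn 11 1 1 (some 0) = some 1 := by decide
    rw [h1, e1, affn_none, h1, affn_some, mul_zero, zero_add] at h
    exact h
  have a1 : T (some 4) = it j 1 (T (some 1)) := by
    exact hj (some 1)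
  have a2 : T (some 5) = it j 2 (T (some 1)) := by
    have h := hj (some 4)
    rw [a1] at h; exact h
  have a3 : T (some 9) = it j 3 (T (some 1)) := by
    have h := hj (some 5)
    rw [a2] at h; exact h
  have a4 : T (some 3) = it j 4 (T (some 1)) := by
    have h := hj (some 9)
    rw [a3] at h; exact h
  have b1 : T (some 8) = it j 1 (T (some 2)) := by
    exact hj (some 2)
  have b2 : T (some 10) = it j 2 (T (some 2)) := by
    have h := hj (some 8)
    rw [b1] at h; exact h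
  have b3 : T (some 7) = it j 3 (T (some 2)) := by
    have h := hj (some 10)
    rw [b2] at h; exact h
  have b4 : T (some 6) = it j 4 (T (some 2)) := by
    have h := hj (some 7)
    rw [b3] at h; exact h
  have key : ∀ q, T q = FF j (T (some 1)) (T (some 2)) q := by
    intro q
    rcases q with _ | x
    · exact h1
    · rcases zmod_cases x with rfl | rfl | rfl | rfl | rfl | rfl | rfl | rfl | rfl | rfl | rfl
      · exact h1'
      · rfl
      · rfl
      · exact a4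
      · exact a1
      · exact a2
      · exact b4
      · exact b3
      · exact b1
      · exact a3
      · exact b2
  have hfun : T = FF j (T (some 1)) (T (some 2)) := funext key
  have hA : Function.Injective (FF j (T (some 1)) (T (some 2))) := by rw [← hfun]; exact hinj
  have hB : ∀ x, FF j (T (some 1)) (T (some 2)) (affn 11 4 0 x) =
      affn 11 j 0 (FF j (T (some 1)) (T (some 2)) x) := by rw [← hfun]; exact hj
  have hC : ∃ j' z, j' ^ 5 = 1 ∧ ∀ x, FF j (T (some 1)) (T (some 2)) (affn 11 1 1 (FF j (T (some 1)) (T (some 2)) x)) =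
      affn 11 1 ((T (some 1)).getD 0) (FF j (T (some 1)) (T (some 2)) (affn 11 j' z x)) := by
    refine ⟨j', z, pm_aux j' hjm', ?_⟩
    rw [← hfun, hy]
    exact h4
  obtain ⟨a, ha, hh⟩ := FF_dec j _ _ (pm_aux j hjm) hA hB hC
  exact ⟨a, ha, fun q => by rw [key, hh]⟩

theorem su_l : ∀ q : X 11, affn 11 1 (-1) (affn 11 1 1 q) = q := by decide
theorem su_r : ∀ q : X 11, affn 11 1 1 (affn 11 1 (-1) q) = q := by decide
theorem sc_l : ∀ q : X 11, affn 11 3 0 (affn 11 4 0 q) = q := by decide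
theorem sc_r : ∀ q : X 11, affn 11 4 0 (affn 11 3 0 q) = q := by decide

def tg (a : ZMod 11) : X 11 → X 11 := if a = 0 then id else tf 11 a

theorem tg_inv : ∀ (a : ZMod 11) (q : X 11), tg a (tg a q) = q := by decide +kernel

def su : Equiv.Perm (X 11) := ⟨affn 11 1 1, affn 11 1 (-1), su_l, su_r⟩
def sc : Equiv.Perm (X 11) := ⟨affn 11 4 0, affn 11 3 0, sc_l, sc_r⟩
def st (a : ZMod 11) : Equiv.Perm (X 11) := ⟨tg a, tg a, tg_inv a, tg_inv a⟩

theorem hsu (q : X 11) : su q = affn 11 1 1 q := rfl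
theorem hsc (q : X 11) : sc q = affn 11 4 0 q := rfl
theorem hst_aux : ∀ a : ZMod 11, a ^ 5 = -1 → ∀ q, tg a q = tf 11 a q := by decide +kernel
theorem hst (a : ZMod 11) (ha : a ^ 5 = -1) (q : X 11) : st a q = tf 11 a q := hst_aux a ha q

def K (a : ZMod 11) : Subgroup (Equiv.Perm (X 11)) := Subgroup.closure {su, sc, st a}

theorem mul_st_aux : ∀ a : ZMod 11, a ^ 5 = -1 → ∀ q, (sc * st a) q = st (4 * a) q := by decide +kernel
theorem mul_st (a : ZMod 11) (ha : a ^ 5 = -1) : sc * st a = st (4 * a) := Equiv.ext (mul_st_aux a ha)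
theorem pa_mul : ∀ a : ZMod 11, a ^ 5 = -1 → (4 * a) ^ 5 = -1 := by decide +kernel

theorem K_le (a : ZMod 11) (ha : a ^ 5 = -1) : K (4 * a) ≤ K a := by
  unfold K
  rw [Subgroup.closure_le]
  have hu : su ∈ Subgroup.closure ({su, sc, st a} : Set (Equiv.Perm (X 11))) :=
    Subgroup.subset_closure (by simp)
  have hh : sc ∈ Subgroup.closure ({su, sc, st a} : Set (Equiv.Perm (X 11))) :=
    Subgroup.subset_closure (by simp)
  have ht : st a ∈ Subgroup.closure ({su, sc, st a} : Set (Equiv.Perm (X 11))) :=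
    Subgroup.subset_closure (by simp)
  intro x hx
  simp only [Set.mem_insert_iff, Set.mem_singleton_iff] at hx
  rcases hx with rfl | rfl | rfl
  · exact hu
  · exact hh
  · rw [← mul_st a ha]; exact Subgroup.mul_mem _ hh ht

theorem K_pow (i : ℕ) : ∀ a : ZMod 11, a ^ 5 = -1 → ((4 ^ i * a) ^ 5 = -1) ∧ K (4 ^ i * a) ≤ K a := by
  induction i with
  | zero => intro a ha; rw [pow_zero, one_mul]; exact ⟨ha, le_refl _⟩
  | succ i ih =>
    intro a ha
    obtain ⟨h1, h2⟩ := ih a ha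
    have e : (4 : ZMod 11) ^ (i + 1) * a = 4 * (4 ^ i * a) := by ring
    rw [e]
    exact ⟨pa_mul _ h1, (K_le _ h1).trans h2⟩

theorem orbit_aux : ∀ a : ZMod 11, a ^ 5 = -1 → (∃ i < 5, a = 4 ^ i * 2) ∧ (∃ i < 5, (2 : ZMod 11) = 4 ^ i * a) := by
  decide +kernel

theorem pa0 : (2 : ZMod 11) ^ 5 = -1 := by decide

theorem K_eq (a : ZMod 11) (ha : a ^ 5 = -1) : K a = K 2 := by
  obtain ⟨⟨i, -, hi⟩, ⟨i', -, hi'⟩⟩ := orbit_aux a ha
  apply le_antisymm
  · have := (K_pow i 2 pa0).2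
    rw [← hi] at this; exact this
  · have := (K_pow i' a ha).2
    rw [← hi'] at this; exact this

theorem D1 : ∀ J : Set (ZMod 11), (∀ a ∈ J, ∀ b ∈ J, a * b ∈ J) →
    (∀ q : ℕ, q.Prime → q ∣ 5 → ∃ j ∈ J, j ≠ 1 ∧ j ^ q = 1) → (4 : ZMod 11) ∈ J := by
  intro J hJ hq
  obtain ⟨j, hjJ, hj1, hj5⟩ := hq 5 (by norm_num) (by norm_num)
  have key : ∀ j : ZMod 11, j ≠ 1 → j ^ 5 = 1 →
      (4 = j ∨ 4 = j * j ∨ 4 = j * j * j ∨ 4 = j * j * j * j) := by decide +kernel
  rcases key j hj1 hj5 with h | h | h | h <;> rw [h]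
  · exact hjJ
  · exact hJ _ hjJ _ hjJ
  · exact hJ _ (hJ _ hjJ _ hjJ) _ hjJ
  · exact hJ _ (hJ _ (hJ _ hjJ _ hjJ) _ hjJ) _ hjJ

theorem D2_aux : ∀ j : ZMod 11, j ^ (11 * 5) = 1 → ∃ i < 5, j = 4 ^ i := by decide +kernel
theorem D2 (j : ZMod 11) (hj : j ^ (11 * 5) = 1) : ∃ i : ℕ, j = 4 ^ i := by
  obtain ⟨i, -, hi⟩ := D2_aux j hj
  exact ⟨i, hi⟩

end Cfsg.Agent.Lib.helper3.U11
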