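import Mathlib
import Cfsg.Agent.Lib.helper3.UniqPa

set_option autoImplicit false

/-! Decidable facts about the projective line over `ZMod 17`. -/

namespace Cfsg.Agent.Lib.helper3.V17

open Cfsg.Agent.Lib.helper3.UP

def it (j : ZMod 17) (k : ℕ) (q : X 17) : X 17 := (affn 17 j 0)^[k] q

def FF (j : ZMod 17) (q r : X 17) : X 17 → X 17
  | none => some 0
  | some x => if x = 0 then none
      else if x = 1 then it j 0 q
      else if x = 2 then it j 1 q
      else if x = 4 then it j 2 q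
      else if x = 8 then it j 3 q
      else if x = 16 then it j 4 q
      else if x = 15 then it j 5 q
      else if x = 13 then it j 6 q
      else if x = 9 then it j 7 q
      else if x = 3 then it j 0 r
      else if x = 6 then it j 1 r
      else if x = 12 then it j 2 r
      else if x = 7 then it j 3 r
      else if x = 14 then it j 4 r
      else if x = 11 then it j 5 r
      else if x = 5 then it j 6 r
      else it j 7 r

set_option maxRecDepth 1000000 in
theorem FF_dec_1 : ∀ (q r : X 17),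
    (∃ z, FF 1 q r (some z) = some (-(q.getD 0)) ∧ ∃ j', j' ^ 8 = 1 ∧
      FF 1 q r (some (j' + z)) = affn 17 1 (-(q.getD 0)) (FF 1 q r (some (q.getD 0 + 1))) ∧
      ∀ x, FF 1 q r (affn 17 1 1 (FF 1 q r x)) =
        affn 17 1 (q.getD 0) (FF 1 q r (affn 17 j' z x))) →
    ∃ a, a ^ 8 = 1 ∧ FF 1 q r = tf 17 a := by decide +kernel

set_option maxRecDepth 1000000 in
theorem FF_dec_2 : ∀ (q r : X 17),
    (∃ z, FF 2 q r (some z) = some (-(q.getD 0)) ∧ ∃ j', j' ^ 8 = 1 ∧
      FF 2 q r (some (j' + z)) = affn 17 1 (-(q.getD 0)) (FF 2 q r (some (q.getD 0 + 1))) ∧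
      ∀ x, FF 2 q r (affn 17 1 1 (FF 2 q r x)) =
        affn 17 1 (q.getD 0) (FF 2 q r (affn 17 j' z x))) →
    ∃ a, a ^ 8 = 1 ∧ FF 2 q r = tf 17 a := by decide +kernel

set_option maxRecDepth 1000000 in
theorem FF_dec_4 : ∀ (q r : X 17),
    (∃ z, FF 4 q r (some z) = some (-(q.getD 0)) ∧ ∃ j', j' ^ 8 = 1 ∧
      FF 4 q r (some (j' + z)) = affn 17 1 (-(q.getD 0)) (FF 4 q r (some (q.getD 0 + 1))) ∧
      ∀ x, FF 4 q r (affn 17 1 1 (FF 4 q r x)) =
        affn 17 1 (q.getD 0) (FF 4 q r (affn 17 j' z x))) →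
    ∃ a, a ^ 8 = 1 ∧ FF 4 q r = tf 17 a := by decide +kernel

set_option maxRecDepth 1000000 in
theorem FF_dec_8 : ∀ (q r : X 17),
    (∃ z, FF 8 q r (some z) = some (-(q.getD 0)) ∧ ∃ j', j' ^ 8 = 1 ∧
      FF 8 q r (some (j' + z)) = affn 17 1 (-(q.getD 0)) (FF 8 q r (some (q.getD 0 + 1))) ∧
      ∀ x, FF 8 q r (affn 17 1 1 (FF 8 q r x)) =
        affn 17 1 (q.getD 0) (FF 8 q r (affn 17 j' z x))) →
    ∃ a, a ^ 8 = 1 ∧ FF 8 q r = tf 17 a := by decide +kernel

set_option maxRecDepth 1000000 in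
theorem FF_dec_9 : ∀ (q r : X 17),
    (∃ z, FF 9 q r (some z) = some (-(q.getD 0)) ∧ ∃ j', j' ^ 8 = 1 ∧
      FF 9 q r (some (j' + z)) = affn 17 1 (-(q.getD 0)) (FF 9 q r (some (q.getD 0 + 1))) ∧
      ∀ x, FF 9 q r (affn 17 1 1 (FF 9 q r x)) =
        affn 17 1 (q.getD 0) (FF 9 q r (affn 17 j' z x))) →
    ∃ a, a ^ 8 = 1 ∧ FF 9 q r = tf 17 a := by decide +kernel

set_option maxRecDepth 1000000 in
theorem FF_dec_13 : ∀ (q r : X 17),
    (∃ z, FF 13 q r (some z) = some (-(q.getD 0)) ∧ ∃ j', j' ^ 8 = 1 ∧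
      FF 13 q r (some (j' + z)) = affn 17 1 (-(q.getD 0)) (FF 13 q r (some (q.getD 0 + 1))) ∧
      ∀ x, FF 13 q r (affn 17 1 1 (FF 13 q r x)) =
        affn 17 1 (q.getD 0) (FF 13 q r (affn 17 j' z x))) →
    ∃ a, a ^ 8 = 1 ∧ FF 13 q r = tf 17 a := by decide +kernel

set_option maxRecDepth 1000000 in
theorem FF_dec_15 : ∀ (q r : X 17),
    (∃ z, FF 15 q r (some z) = some (-(q.getD 0)) ∧ ∃ j', j' ^ 8 = 1 ∧
      FF 15 q r (some (j' + z)) = affn 17 1 (-(q.getD 0)) (FF 15 q r (some (q.getD 0 + 1))) ∧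
      ∀ x, FF 15 q r (affn 17 1 1 (FF 15 q r x)) =
        affn 17 1 (q.getD 0) (FF 15 q r (affn 17 j' z x))) →
    ∃ a, a ^ 8 = 1 ∧ FF 15 q r = tf 17 a := by decide +kernel

set_option maxRecDepth 1000000 in
theorem FF_dec_16 : ∀ (q r : X 17),
    (∃ z, FF 16 q r (some z) = some (-(q.getD 0)) ∧ ∃ j', j' ^ 8 = 1 ∧
      FF 16 q r (some (j' + z)) = affn 17 1 (-(q.getD 0)) (FF 16 q r (some (q.getD 0 + 1))) ∧
      ∀ x, FF 16 q r (affn 17 1 1 (FF 16 q r x)) =
        affn 17 1 (q.getD 0) (FF 16 q r (affn 17 j' z x))) →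
    ∃ a, a ^ 8 = 1 ∧ FF 16 q r = tf 17 a := by decide +kernel

theorem sq_cases : ∀ j : ZMod 17, j ^ 8 = 1 → j = 1 ∨ j = 2 ∨ j = 4 ∨ j = 8 ∨ j = 9 ∨ j = 13 ∨ j = 15 ∨ j = 16 := by decide +kernel

theorem FF_dec (j : ZMod 17) (q r : X 17) (hj : j ^ 8 = 1)
    (h : ∃ z, FF j q r (some z) = some (-(q.getD 0)) ∧ ∃ j', j' ^ 8 = 1 ∧
      FF j q r (some (j' + z)) = affn 17 1 (-(q.getD 0)) (FF j q r (some (q.getD 0 + 1))) ∧
      ∀ x, FF j q r (affn 17 1 1 (FF j q r x)) =
        affn 17 1 (q.getD 0) (FF j q r (affn 17 j' z x))) :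
    ∃ a, a ^ 8 = 1 ∧ FF j q r = tf 17 a := by
  rcases sq_cases j hj with rfl | rfl | rfl | rfl | rfl | rfl | rfl | rfl
  · exact FF_dec_1 q r h
  · exact FF_dec_2 q r h
  · exact FF_dec_4 q r h
  · exact FF_dec_8 q r h
  · exact FF_dec_9 q r h
  · exact FF_dec_13 q r h
  · exact FF_dec_15 q r h
  · exact FF_dec_16 q r h

theorem affn_one_zero : ∀ w : X 17, affn 17 1 0 w = w := by decide

theorem pm_aux : ∀ j : ZMod 17, j ^ (17 * 8) = 1 → j ^ 8 = 1 := by decide +kernel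

theorem zmod_cases : ∀ x : ZMod 17, x = 0 ∨ x = 1 ∨ x = 2 ∨ x = 3 ∨ x = 4 ∨ x = 5 ∨ x = 6 ∨ x = 7 ∨ x = 8 ∨ x = 9 ∨ x = 10 ∨ x = 11 ∨ x = 12 ∨ x = 13 ∨ x = 14 ∨ x = 15 ∨ x = 16 := by decide

theorem det (T : X 17 → X 17) (hinj : Function.Injective T) (h1 : T none = some 0)
    (h1' : T (some 0) = none)
    (h2 : ∃ j, j ^ (17 * 8) = 1 ∧ ∀ q, T (affn 17 2 0 q) = affn 17 j 0 (T q))
    (h4 : ∃ y j z, j ^ (17 * 8) = 1 ∧
      ∀ q, T (affn 17 1 1 (T q)) = affn 17 1 y (T (affn 17 j z q))) :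
    ∃ a, a ^ 8 = 1 ∧ ∀ q, T q = tf 17 a q := by
  obtain ⟨j, hjm, hj⟩ := h2
  obtain ⟨y, j', z, hjm', h4⟩ := h4
  have hy : T (some 1) = some y := by
    have h := h4 none
    have e1 : affn 17 1 1 (some 0) = some 1 := by decide
    rw [h1, e1, affn_none, h1, affn_some, mul_zero, zero_add] at h
    exact h
  have hz : T (some z) = some (-y) := by
    have h := h4 (some 0)
    rw [h1', affn_none, h1, affn_some, mul_zero, zero_add] at h
    rcases hw : T (some z) with _ | v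
    · rw [hw, affn_none] at h; exact absurd h (Option.some_ne_none _)
    · rw [hw, affn_some, one_mul] at h
      have h5 : v + y = 0 := (Option.some.inj h).symm
      rw [eq_neg_of_add_eq_zero_left h5]
  have a1 : T (some 2) = it j 1 (T (some 1)) := by
    exact hj (some 1)
  have a2 : T (some 4) = it j 2 (T (some 1)) := by
    have h := hj (some 2)
    rw [a1] at h; exact h
  have a3 : T (some 8) = it j 3 (T (some 1)) := by
    have h := hj (some 4)
    rw [a2] at h; exact h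
  have a4 : T (some 16) = it j 4 (T (some 1)) := by
    have h := hj (some 8)
    rw [a3] at h; exact h
  have a5 : T (some 15) = it j 5 (T (some 1)) := by
    have h := hj (some 16)
    rw [a4] at h; exact h
  have a6 : T (some 13) = it j 6 (T (some 1)) := by
    have h := hj (some 15)
    rw [a5] at h; exact h
  have a7 : T (some 9) = it j 7 (T (some 1)) := by
    have h := hj (some 13)
    rw [a6] at h; exact h
  have b1 : T (some 6) = it j 1 (T (some 3)) := by
    exact hj (some 3)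
  have b2 : T (some 12) = it j 2 (T (some 3)) := by
    have h := hj (some 6)
    rw [b1] at h; exact h
  have b3 : T (some 7) = it j 3 (T (some 3)) := by
    have h := hj (some 12)
    rw [b2] at h; exact h
  have b4 : T (some 14) = it j 4 (T (some 3)) := by
    have h := hj (some 7)
    rw [b3] at h; exact h
  have b5 : T (some 11) = it j 5 (T (some 3)) := by
    have h := hj (some 14)
    rw [b4] at h; exact h
  have b6 : T (some 5) = it j 6 (T (some 3)) := by
    have h := hj (some 11)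
    rw [b5] at h; exact h
  have b7 : T (some 10) = it j 7 (T (some 3)) := by
    have h := hj (some 5)
    rw [b6] at h; exact h
  have key : ∀ q, T q = FF j (T (some 1)) (T (some 3)) q := by
    intro q
    rcases q with _ | x
    · exact h1
    · rcases zmod_cases x with rfl | rfl | rfl | rfl | rfl | rfl | rfl | rfl | rfl | rfl | rfl | rfl | rfl | rfl | rfl | rfl | rfl
      · exact h1'
      · rfl
      · exact a1
      · rfl
      · exact a2
      · exact b6
      · exact b1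
      · exact b3
      · exact a3
      · exact a7
      · exact b7
      · exact b5
      · exact b2
      · exact a6
      · exact b4
      · exact a5
      · exact a4
  have hfun : T = FF j (T (some 1)) (T (some 3)) := funext key
  have h5 := h4 (some 1)
  rw [hy, affn_some, affn_some, one_mul, mul_one] at h5
  have h6 : T (some (j' + z)) = affn 17 1 (-y) (T (some (y + 1))) := by
    rw [h5, affn_comp]
    have e : (1 : ZMod 17) * y + -y = 0 := by ring
    rw [one_mul, e, affn_one_zero]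
  have hC : ∃ z, FF j (T (some 1)) (T (some 3)) (some z) = some (-((T (some 1)).getD 0)) ∧
      ∃ j', j' ^ 8 = 1 ∧ FF j (T (some 1)) (T (some 3)) (some (j' + z)) =
        affn 17 1 (-((T (some 1)).getD 0)) (FF j (T (some 1)) (T (some 3)) (some ((T (some 1)).getD 0 + 1))) ∧
      ∀ x, FF j (T (some 1)) (T (some 3)) (affn 17 1 1 (FF j (T (some 1)) (T (some 3)) x)) =
      affn 17 1 ((T (some 1)).getD 0) (FF j (T (some 1)) (T (some 3)) (affn 17 j' z x)) := by
    refine ⟨z, ?_, j', pm_aux j' hjm', ?_, ?_⟩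
    · rw [← hfun, hy]; exact hz
    · rw [← hfun, hy]; exact h6
    · rw [← hfun, hy]; exact h4
  obtain ⟨a, ha, hh⟩ := FF_dec j _ _ (pm_aux j hjm) hC
  exact ⟨a, ha, fun q => by rw [key, hh]⟩

theorem su_l : ∀ q : X 17, affn 17 1 (-1) (affn 17 1 1 q) = q := by decide
theorem su_r : ∀ q : X 17, affn 17 1 1 (affn 17 1 (-1) q) = q := by decide
theorem sc_l : ∀ q : X 17, affn 17 9 0 (affn 17 2 0 q) = q := by decide
theorem sc_r : ∀ q : X 17, affn 17 2 0 (affn 17 9 0 q) = q := by decide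

def tg (a : ZMod 17) : X 17 → X 17 := if a = 0 then id else tf 17 a

theorem tg_inv : ∀ (a : ZMod 17) (q : X 17), tg a (tg a q) = q := by decide +kernel

def su : Equiv.Perm (X 17) := ⟨affn 17 1 1, affn 17 1 (-1), su_l, su_r⟩
def sc : Equiv.Perm (X 17) := ⟨affn 17 2 0, affn 17 9 0, sc_l, sc_r⟩
def st (a : ZMod 17) : Equiv.Perm (X 17) := ⟨tg a, tg a, tg_inv a, tg_inv a⟩

theorem hsu (q : X 17) : su q = affn 17 1 1 q := rfl
theorem hsc (q : X 17) : sc q = affn 17 2 0 q := rfl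
theorem hst_aux : ∀ a : ZMod 17, a ^ 8 = 1 → ∀ q, tg a q = tf 17 a q := by decide +kernel
theorem hst (a : ZMod 17) (ha : a ^ 8 = 1) (q : X 17) : st a q = tf 17 a q := hst_aux a ha q

def K (a : ZMod 17) : Subgroup (Equiv.Perm (X 17)) := Subgroup.closure {su, sc, st a}

theorem mul_st_aux : ∀ a : ZMod 17, a ^ 8 = 1 → ∀ q, (sc * st a) q = st (2 * a) q := by decide +kernel
theorem mul_st (a : ZMod 17) (ha : a ^ 8 = 1) : sc * st a = st (2 * a) := Equiv.ext (mul_st_aux a ha)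
theorem pa_mul : ∀ a : ZMod 17, a ^ 8 = 1 → (2 * a) ^ 8 = 1 := by decide +kernel

theorem K_le (a : ZMod 17) (ha : a ^ 8 = 1) : K (2 * a) ≤ K a := by
  unfold K
  rw [Subgroup.closure_le]
  have hu : su ∈ Subgroup.closure ({su, sc, st a} : Set (Equiv.Perm (X 17))) :=
    Subgroup.subset_closure (by simp)
  have hh : sc ∈ Subgroup.closure ({su, sc, st a} : Set (Equiv.Perm (X 17))) :=
    Subgroup.subset_closure (by simp)
  have ht : st a ∈ Subgroup.closure ({su, sc, st a} : Set (Equiv.Perm (X 17))) :=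
    Subgroup.subset_closure (by simp)
  intro x hx
  simp only [Set.mem_insert_iff, Set.mem_singleton_iff] at hx
  rcases hx with rfl | rfl | rfl
  · exact hu
  · exact hh
  · rw [← mul_st a ha]; exact Subgroup.mul_mem _ hh ht

theorem K_pow (i : ℕ) : ∀ a : ZMod 17, a ^ 8 = 1 → ((2 ^ i * a) ^ 8 = 1) ∧ K (2 ^ i * a) ≤ K a := by
  induction i with
  | zero => intro a ha; rw [pow_zero, one_mul]; exact ⟨ha, le_refl _⟩
  | succ i ih =>
    intro a ha
    obtain ⟨h1, h2⟩ := ih a ha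
    have e : (2 : ZMod 17) ^ (i + 1) * a = 2 * (2 ^ i * a) := by ring
    rw [e]
    exact ⟨pa_mul _ h1, (K_le _ h1).trans h2⟩

theorem orbit_aux : ∀ a : ZMod 17, a ^ 8 = 1 → (∃ i < 8, a = 2 ^ i * 1) ∧ (∃ i < 8, (1 : ZMod 17) = 2 ^ i * a) := by
  decide +kernel

theorem pa0 : (1 : ZMod 17) ^ 8 = 1 := by decide

theorem K_eq (a : ZMod 17) (ha : a ^ 8 = 1) : K a = K 1 := by
  obtain ⟨⟨i, -, hi⟩, ⟨i', -, hi'⟩⟩ := orbit_aux a ha
  apply le_antisymm
  · have := (K_pow i 1 pa0).2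
    rw [← hi] at this; exact this
  · have := (K_pow i' a ha).2
    rw [← hi'] at this; exact this

theorem D1 : Nat.card {j : ZMod 17 // j ^ (17 * 8) = 1 ∧ j ≠ 2} < 8 := by
  rw [Nat.card_eq_fintype_card]; decide +kernel

theorem D2_aux : ∀ j : ZMod 17, j ^ (17 * 8) = 1 → ∃ i < 8, j = 2 ^ i := by decide +kernel
theorem D2 (j : ZMod 17) (hj : j ^ (17 * 8) = 1) : ∃ i : ℕ, j = 2 ^ i := by
  obtain ⟨i, -, hi⟩ := D2_aux j hj
  exact ⟨i, hi⟩

end Cfsg.Agent.Lib.helper3.V17
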